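import Cfsg.Agent.CKS.Cnt
import Cfsg.Agent.Local.ProdCard

/-!
# Heisenberg, central and line lemmas
-/

set_option autoImplicit false

namespace Cfsg.Lib.CKS

open MulAction

variable {G Ω : Type*} [Group G] [MulAction G Ω] [Finite G] [Finite Ω]

namespace Hei

theorem sumh {A B : Type*} [Group A] [Fintype A] [Fintype B] (β : A → B → ℂˣ)
    (h : ∀ a a' b, β (a * a') b = β a b * β a' b) :
    ∑ b, ∑ a, (β a b : ℂ) = (Nat.card A * {b | ∀ a, β a b = 1}.ncard : ℕ) := by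
  classical
  rw [← Cnt.sum_ind {b | ∀ a, β a b = 1} (fun b => if ∀ a, β a b = 1 then Nat.card A else 0) _
    (fun _ k => if_pos k) fun _ k => if_neg k, Nat.cast_sum]
  refine Finset.sum_congr rfl fun b _ => ?_
  split_ifs with k
  · simp [k]
  · exact (sum_hom_units_eq_zero ((Units.coeHom ℂ).comp (MonoidHom.mk' (β · b) fun _ _ => h ..))
      fun e => k fun a => Units.ext (DFunLike.congr_fun e a)).trans Nat.cast_zero.symm

theorem exists_char {Z Z0 : Subgroup G} (hc : ∀ z ∈ Z, ∀ x ∈ Z, z * x = x * z) {z : Z}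
    (hz : (z : G) ∉ Z0) : ∃ l : Z →* ℂˣ, l z ≠ 1 ∧ ∀ u : Z, (u : G) ∈ Z0 → l u = 1 := by
  letI : CommGroup Z := { (inferInstance : Group Z) with
    mul_comm := fun a b => Subtype.ext (hc a a.2 b b.2) }
  have : NeZero (Monoid.exponent (Z ⧸ Z0.subgroupOf Z)) := ⟨Monoid.exponent_ne_zero_of_finite⟩
  obtain ⟨l, hl⟩ := CommGroup.exists_apply_ne_one_of_hasEnoughRootsOfUnity (Z ⧸ Z0.subgroupOf Z) ℂ
    (a := (z : Z ⧸ Z0.subgroupOf Z)) fun e => hz ((QuotientGroup.eq_one_iff z).1 e)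
  exact ⟨l.comp (QuotientGroup.mk' _), hl, fun u hu => by
    rw [MonoidHom.comp_apply, QuotientGroup.mk'_apply, (QuotientGroup.eq_one_iff u).2 hu, map_one]⟩

omit [Finite G] in
theorem ncard_ne (H : Subgroup G) : {x | x ≠ 1 ∧ x ∈ H}.ncard = Nat.card H - 1 := by
  rw [← SetLike.coe_sort_coe, Nat.card_coe_set_eq,
    ← Set.ncard_sdiff_singleton_of_mem (s := (H : Set G)) (one_mem _)]
  exact congrArg _ (Set.ext fun _ => and_comm)

end Hei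

open Hei Orb

omit [Finite Ω] in
theorem Heis.dvd {r : ℕ} [Fact r.Prime] {Q Z : Subgroup G} {a : ℕ} (h : Heis Q Z a)
    (hQ : IsPGroup r Q) {x : Ω} (hx : ol Z x ≠ 1) : a * ol Z x ∣ ol Q x := by
  classical
  obtain ⟨z, hz, nz⟩ : ∃ z ∈ Z, z • x ≠ x := by simpa [ol_eq_one_iff] using hx
  obtain ⟨l, h1, h2⟩ := exists_char (Z0 := stabilizer G x) (z := ⟨z, hz⟩)
    (fun a ha b hb => h.cen a ha b (h.le hb)) nz
  have := Fintype.ofFinite Q
  have := Fintype.ofFinite ↥(Q ⊓ stabilizer G x)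
  let β : ↥(Q ⊓ stabilizer G x) → Q → ℂˣ := fun s y => l ⟨_, h.com s s.2.1 y y.2⟩
  have k1 := sumh β fun s s' y => by
    rw [mul_comm, ← map_mul]
    refine congrArg l (Subtype.ext ?_)
    show (s * s' : G) * y * (s * s' : G)⁻¹ * (y : G)⁻¹ = s' * y * (s' : G)⁻¹ * (y : G)⁻¹ *
      (s * y * (s : G)⁻¹ * (y : G)⁻¹)
    rw [show (s : G) * y * (s : G)⁻¹ * (y : G)⁻¹ = s * (y * (s : G)⁻¹ * (y : G)⁻¹) by group,
      ← mul_assoc _ (s : G), h.cen _ (h.com s' s'.2.1 y y.2) s s.2.1]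
    group
  have k2 := sumh (fun y s => β s y) fun y y' s => by
    rw [mul_comm, ← map_mul]
    refine congrArg l (Subtype.ext ?_)
    show (s : G) * (y * y' : G) * (s : G)⁻¹ * (y * y' : G)⁻¹ = s * y' * (s : G)⁻¹ * (y' : G)⁻¹ *
      (s * y * (s : G)⁻¹ * (y : G)⁻¹)
    rw [h.cen _ (h.com s s.2.1 y' y'.2) _ (h.le (h.com s s.2.1 y y.2)),
      ← mul_inv_eq_iff_eq_mul.2 (h.cen _ (h.com s s.2.1 y' y'.2) y y.2).symm]
    group
  rw [Finset.sum_comm, k1, Nat.cast_inj] at k2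
  have k3 : {s | ∀ y, β s y = 1}.ncard ≤ Nat.card ↥(Q ⊓ stabilizer G x ⊓ Z) := by
    rw [← SetLike.coe_sort_coe (Q ⊓ stabilizer G x ⊓ Z), Nat.card_coe_set_eq,
      ← Set.ncard_image_of_injective _ Subtype.val_injective]
    refine Set.ncard_le_ncard ?_
    rintro _ ⟨s, hs, rfl⟩
    refine ⟨s.2, by_contra fun n => ?_⟩
    obtain ⟨y, hy, e⟩ := h.full s s.2.1 n z hz
    exact h1 ((congrArg l (Subtype.ext e.symm)).trans (hs ⟨y, hy⟩))
  have k4 : Nat.card ↥(Q ⊓ stabilizer G x ⊔ Z) ≤ {y | ∀ s, β s y = 1}.ncard := by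
    rw [← SetLike.coe_sort_coe (Q ⊓ stabilizer G x ⊔ Z), Nat.card_coe_set_eq,
      ← Set.ncard_image_of_injective _ Subtype.val_injective,
      Subgroup.coe_mul_of_left_le_normalizer_right (Q ⊓ stabilizer G x) Z fun s hs =>
        Subgroup.centralizer_le_normalizer _ fun c hc => h.cen c hc s hs.1]
    refine Set.ncard_le_ncard ?_
    rintro _ ⟨s, hs, c, hc, rfl⟩
    refine ⟨⟨s * c, mul_mem hs.1 (h.le hc)⟩, fun t => h2 _ ?_, rfl⟩
    show (t : G) * (s * c) * (t : G)⁻¹ * (s * c)⁻¹ ∈ _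
    rw [show (t : G) * (s * c) * (t : G)⁻¹ * (s * c)⁻¹ = t * s * (c * (t : G)⁻¹) * c⁻¹ * s⁻¹ by group,
      h.cen c hc _ (inv_mem (Subgroup.mem_inf.1 t.2).1), ← mul_assoc, mul_inv_cancel_right]
    exact mul_mem (mul_mem (mul_mem t.2.2 hs.2) (inv_mem (Subgroup.mem_inf.1 t.2).2))
      (inv_mem (Subgroup.mem_inf.1 hs).2)
  have k5 := Local.CD.card_mul_le_card_sup_mul_card_inf (Q ⊓ stabilizer G x) Z
  rw [inf_right_comm, inf_of_le_right h.le] at k3 k5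
  have k6 := ol_eq Q x
  have k7 := ol_eq Z x
  have p1 : 0 < Nat.card ↥(Q ⊓ stabilizer G x) := Nat.card_pos
  have p2 : 0 < Nat.card Z := Nat.card_pos
  have k8 : Nat.card ↥(Q ⊓ stabilizer G x) ≤ a * Nat.card ↥(Z ⊓ stabilizer G x) := by
    rw [h.card] at k2
    generalize Nat.card ↥(Q ⊓ stabilizer G x) = s at *
    generalize Nat.card ↥(Z ⊓ stabilizer G x) = t at *
    refine (Nat.pow_le_pow_iff_left two_ne_zero).1 (Nat.le_of_mul_le_mul_right ?_ p2)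
    calc s ^ 2 * Nat.card Z = s * (s * Nat.card Z) := by ring
      _ ≤ s * ({y | ∀ s, β s y = 1}.ncard * t) :=
        Nat.mul_le_mul_left _ (k5.trans (Nat.mul_le_mul_right _ k4))
      _ = a ^ 2 * Nat.card Z * {s | ∀ y, β s y = 1}.ncard * t := by rw [← k2]; ring
      _ ≤ a ^ 2 * Nat.card Z * t * t := by gcongr
      _ = _ := by ring
  obtain ⟨k, hk⟩ := IsPGroup.iff_card.1 hQ
  obtain ⟨i, -, e1⟩ := (Nat.dvd_prime_pow Fact.out).1
    (hk ▸ h.card ▸ (dvd_pow_self a two_ne_zero).mul_right (Nat.card Z) : a ∣ r ^ k)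
  obtain ⟨j, e2⟩ := ol_pow (hQ.to_le h.le) x
  obtain ⟨m, e3⟩ := ol_pow hQ x
  have k9 : a * ol Z x ≤ ol Q x := Nat.le_of_mul_le_mul_right (by
    rw [k6, h.card, ← k7]
    calc a * ol Z x * _ ≤ a * ol Z x * (a * _) := Nat.mul_le_mul_left _ k8
      _ = _ := by ring) p1
  rw [e1, e2, e3, ← pow_add] at k9 ⊢
  exact pow_dvd_of_le k9

theorem dvd_of_central {r : ℕ} [Fact r.Prime] {Y Z : Subgroup G} (hY : IsPGroup r Y)
    (hc : ∀ z ∈ Z, ∀ y ∈ Y, z * y = y * z) (hl : Z ≤ ⁅Y, Y⁆) {x : Ω} (hx : ol Z x ≠ 1) :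
    r * ol Z x ∣ ol Y x := by
  have hl' := hl.trans (Subgroup.commutator_le.2 fun a ha b hb =>
    mul_mem (mul_mem (mul_mem ha hb) (inv_mem ha)) (inv_mem hb) : ⁅Y, Y⁆ ≤ Y)
  obtain ⟨i, e1⟩ := ol_pow (hY.to_le hl') x
  obtain ⟨j, e2⟩ := ol_pow hY x
  have lt : ol Z x < ol Y x := lt_of_le_of_ne (ol_mono hl' x) fun e => hx (by
    have k : ∀ y ∈ Y, ∃ z ∈ Z, ∃ s ∈ Y, s • x = x ∧ y = z * s := fun y hy => by
      obtain ⟨z, hz, e⟩ := (Set.eq_of_subset_of_ncard_le (s := {b : Ω | ∃ g ∈ Z, g • x = b})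
        (t := {b : Ω | ∃ g ∈ Y, g • x = b}) (fun _ ⟨g, hg, e⟩ => ⟨g, hl' hg, e⟩) e.ge).ge ⟨y, hy, rfl⟩
      exact ⟨z, hz, z⁻¹ * y, mul_mem (inv_mem (hl' hz)) hy, by rw [mul_smul, ← e, inv_smul_smul],
        by group⟩
    refine ol_eq_one_iff.2 fun z hz => (Subgroup.commutator_le.2 fun y hy y' hy' => ?_ :
      ⁅Y, Y⁆ ≤ stabilizer G x) (hl hz)
    obtain ⟨c, h1, s, h2, h3, rfl⟩ := k y hy
    obtain ⟨d, h4, t, h5, h6, rfl⟩ := k y' hy'
    rw [commutatorElement_def, show c * s * (d * t) * (c * s)⁻¹ * (d * t)⁻¹ =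
      c * (s * (d * t) * s⁻¹) * c⁻¹ * (d * t)⁻¹ by group,
      hc c h1 _ (mul_mem (mul_mem h2 hy') (inv_mem h2)), mul_inv_cancel_right, hc d h4 t h5,
      show s * (t * d) * s⁻¹ * (t * d)⁻¹ = s * t * (d * s⁻¹) * d⁻¹ * t⁻¹ by group,
      hc d h4 _ (inv_mem h2), ← mul_assoc, mul_inv_cancel_right]
    exact mul_mem (mul_mem ((stabilizer G x).mul_mem h3 h6) ((stabilizer G x).inv_mem h3))
      ((stabilizer G x).inv_mem h6))
  rw [e1, e2, Nat.pow_lt_pow_iff_right (Fact.out : r.Prime).one_lt] at lt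
  rw [e1, e2, ← pow_succ']
  exact pow_dvd_pow r lt

omit [Finite Ω] in
theorem Line.der {r : ℕ} [Fact r.Prime] {A Z : Subgroup G} (h : Line A Z) (hZ : IsPGroup r Z)
    {q : ℕ} (hq : 1 < q) (hc : ∀ a : Ω, ol Z a = q) :
    (∀ z ∈ Z, z ≠ 1 → Der Ω z) ∧ ∀ x ∈ A, x ≠ 1 → Der Ω x := by
  classical
  have := Fintype.ofFinite G
  obtain ⟨g, h1, h2⟩ := h.ex
  have cnt : ∀ (H : Subgroup G) (m : ℕ), (∀ i, Nat.card ↥(cj (g i) Z ⊓ H) = m) →
      {x | x ≠ 1 ∧ x ∈ H ∧ ∃ i, x ∈ cj (g i) Z}.ncard = (Nat.card Z + 1) * (m - 1) := fun H m k => by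
    have := Cnt.dbl fun i (x : G) => x ≠ 1 ∧ x ∈ cj (g i) Z ⊓ H
    rw [Cnt.sum_ind {x | x ≠ 1 ∧ x ∈ H ∧ ∃ i, x ∈ cj (g i) Z} _ 1, one_mul] at this
    · rw [← this, Finset.sum_congr rfl fun i _ => (ncard_ne _).trans (congrArg (· - 1) (k i))]
      simp
    · rintro x ⟨n, hx, i, hi⟩
      refine Set.ncard_eq_one.2 ⟨i, Set.ext fun j => ⟨fun hj => by_contra fun ne =>
        n ((h2 j i ne).le ⟨hj.2.1, hi⟩), ?_⟩⟩
      rintro rfl
      exact ⟨n, hi, hx⟩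
    · intro x hx
      rw [Set.ncard_eq_zero, Set.eq_empty_iff_forall_notMem]
      exact fun i k => hx ⟨k.1, k.2.2, i, k.2.1⟩
  have cov : {x | x ≠ 1 ∧ x ∈ (⊤ : Subgroup G) ∧ ∃ i, x ∈ cj (g i) Z} = {x | x ≠ 1 ∧ x ∈ A} :=
    Set.eq_of_subset_of_ncard_le (fun x ⟨n, _, i, hi⟩ => ⟨n, h1 i hi⟩) (by
      rw [cnt ⊤ _ fun i => by rw [inf_top_eq, card_cj], ncard_ne, h.card, ← Nat.sq_sub_sq, one_pow])
  obtain ⟨k, hk⟩ := IsPGroup.iff_card.1 hZ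
  have hr := (Fact.out : r.Prime).one_lt
  have key : ∀ a : Ω, Nat.card ↥(Z ⊓ stabilizer G a) = 1 ∧ Nat.card ↥(A ⊓ stabilizer G a) = 1 :=
    fun a => by
    have e1 := ol_eq Z a
    have e2 := cnt (stabilizer G a) (Nat.card ↥(Z ⊓ stabilizer G a)) fun i => by
      have := ol_eq (cj (g i) Z) a
      rw [← smul_inv_smul (g i) a, ol_cj, smul_inv_smul, card_cj, hc, ← e1, hc] at this
      exact Nat.eq_of_mul_eq_mul_left (by omega) this
    rw [show {x | x ≠ 1 ∧ x ∈ stabilizer G a ∧ ∃ i, x ∈ cj (g i) Z} =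
      {x | x ≠ 1 ∧ x ∈ A ⊓ stabilizer G a} from Set.ext fun x => ⟨fun ⟨n, b, i, hi⟩ =>
        ⟨n, h1 i hi, b⟩, fun ⟨n, b, c⟩ => ⟨n, c, (cov.ge ⟨n, b⟩).2.2⟩⟩, ncard_ne] at e2
    obtain ⟨i, -, e3⟩ := (Nat.dvd_prime_pow Fact.out).1 (hk ▸ Dvd.intro_left _ e1)
    obtain ⟨j, -, e4⟩ := (Nat.dvd_prime_pow Fact.out).1 (show Nat.card ↥(A ⊓ stabilizer G a) ∣
      r ^ (k * 2) from pow_mul r k 2 ▸ hk ▸ h.card ▸ Subgroup.card_dvd_of_le inf_le_left)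
    rw [hc, e3, hk] at e1
    rw [e3, e4, hk] at e2
    have p1 : 0 < r ^ i := by positivity
    have p2 : 0 < r ^ j := by positivity
    have p3 : 0 < r ^ k := by positivity
    have e5 : r ^ j = r ^ i + r ^ k * (r ^ i - 1) := by rw [add_mul, one_mul] at e2; omega
    have ik : i < k := (Nat.pow_lt_pow_iff_right hr).1 (by nlinarith)
    have i0 : r ^ i = 1 := by
      by_contra n
      have ij : i < j := (Nat.pow_lt_pow_iff_right hr).1 (by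
        have : 0 < r ^ k * (r ^ i - 1) := Nat.mul_pos p3 (by omega)
        omega)
      have := (Nat.dvd_add_left ((pow_dvd_pow r ik).mul_right _)).1 (e5 ▸ pow_dvd_pow r ij)
      exact absurd ((Nat.pow_dvd_pow_iff_le_right hr).1 this) (by omega)
    rw [e3, e4, e5, i0]
    simp
  exact ⟨fun z hz n a e => n ((Subgroup.card_eq_one.1 (key a).1).le ⟨hz, e⟩),
    fun z hz n a e => n ((Subgroup.card_eq_one.1 (key a).2).le ⟨hz, e⟩)⟩

end Cfsg.Lib.CKS
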