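import Cfsg.Agent.CKS.Def3
import Cfsg.Agent.CKS.Hei

/-!
# Doubly transitive actions of groups of Lie type: orbits of root subgroups
-/

set_option autoImplicit false

namespace Cfsg.Lib.CKS

open MulAction Subgroup

variable {G Ω : Type*} [Group G] [MulAction G Ω] [Finite G] [Finite Ω]

theorem RT0.orb {r q m : ℕ} {P Z : Subgroup G} (hR : RT0 r q m P Z) (h : Two G Ω) (hk : CK G Ω)
    (ht : Tr P Ω) : ∃ q', 1 < q' ∧ q' ∣ q ∧ (∀ a : Ω, ol Z a = q') ∧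
      ∃ c, c * (Nat.card Ω - 1) = m * (q' - 1) := by
  have := h.nt
  obtain ⟨a⟩ : Nonempty Ω := inferInstance
  have h1 : ∀ b : Ω, ol Z b = ol Z a := fun b => ol_const hR.nz.ge ht b a
  refine ⟨ol Z a, lt_of_le_of_ne (Orb.ol_pos Z a) fun e => ?_, hR.card ▸ Orb.ol_dvd Z a, h1,
    by rw [← hR.idx, ← hR.nz]; exact count3 h h1⟩
  have : Z = ⊥ := eq_bot_iff.2 fun z hz => hR.nc z hz (hk z fun b =>
    ol_eq_one_iff.1 ((h1 b).trans e.symm) z hz)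
  have h2 := hR.one_lt
  rw [← hR.card, this, card_bot] at h2
  omega

omit [MulAction G Ω] [Finite Ω] in
theorem RT0.ncard_Cl {r q m : ℕ} {P Z : Subgroup G} (hR : RT0 r q m P Z) :
    (Cl Z).ncard = m * (q - 1) := by
  rw [card_Cl hR.ti, hR.nz, hR.idx, hR.card]

theorem RT.der {r q m : ℕ} [Fact r.Prime] {P Z : Subgroup G} (hR : RT r q m P Z) (h : Two G Ω)
    (hk : CK G Ω) (ht : Tr P Ω) : (∀ x ∈ Cl Z, Der Ω x) ∧ q ^ 2 ∣ Nat.card Ω ∧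
      ∃ c, c * (Nat.card Ω - 1) = m * (q - 1) := by
  obtain ⟨q', h1, -, h2, -⟩ := hR.toRT0.orb h hk ht
  obtain ⟨A, hA⟩ := hR.line
  obtain ⟨d1, d2⟩ := hA.der hR.pg h1 h2
  exact ⟨der_Cl d1, dvd_card_of_ol (E := A) fun a => by rw [ol_of_der d2, hA.card, hR.card],
    hR.toRT0.ncard_Cl ▸ count1_der h (fun g _ hd => Cl.conj hd g) (der_Cl d1)⟩

theorem pin {n c A t c₀ : ℕ} (h : c * (n - 1) = (A * t - 1) * c₀) (hA : A ∣ n) (hn : 2 ≤ n)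
    (ht : 0 < t) (h0 : 0 < c₀) (h1 : c₀ < A) (h2 : t * c₀ ≤ 2 * A) :
    (n = A * t ∧ c = c₀) ∨ (n = A ∧ (2 < c₀ → c < 2 * A)) := by
  obtain ⟨s, rfl⟩ := hA
  have s0 : 0 < s := Nat.pos_of_ne_zero fun e => by simp [e] at hn
  have At : 1 ≤ A * t := Nat.mul_pos (by omega) ht
  zify [At, show 1 ≤ A * s by omega] at h
  have h3 : (A : ℤ) ∣ c - c₀ := ⟨c * s - t * c₀, by linear_combination -h⟩
  obtain ⟨k, hk⟩ := h3
  have hc : (c : ℤ) = c₀ + A * k := by linear_combination hk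
  have A0 : (0 : ℤ) < A := by exact_mod_cast (by omega : 0 < A)
  have h4 : k * (A * s - 1) = c₀ * (t - s) := mul_left_cancel₀ A0.ne' (by
    rw [hc] at h; linear_combination h)
  have k0 : 0 ≤ k := by
    by_contra k0
    have : (0 : ℤ) ≤ c := Int.natCast_nonneg c
    have : (c₀ : ℤ) < A := by exact_mod_cast h1
    nlinarith
  zify at h0 h1 h2 s0 hn ht
  rcases k0.eq_or_lt with rfl | k1
  · have : (t : ℤ) = s := by nlinarith
    exact .inl ⟨by rw [show s = t by omega], by omega⟩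
  have s1 : s = 1 := by
    by_contra s1
    have : (2 : ℤ) ≤ s := by omega
    nlinarith
  subst s1
  refine .inr ⟨mul_one A, fun h5 => ?_⟩
  zify at h5 ⊢
  have : k ≤ 1 := by
    by_contra k2
    push_cast at h4
    nlinarith
  nlinarith

theorem gArg (h : Two G Ω) {Z Q : Subgroup G} (hd : ∀ x ∈ Cl Z, Der Ω x) {c : ℕ}
    (hc : c * (Nat.card Ω - 1) = (Cl Z).ncard) {z₁ z₂ : G} (h1 : z₁ ∈ Cl Z) (h2 : z₂ ∈ Cl Z)
    (hQ : Q ≠ ⊥) (c1 : ∀ u ∈ Q, u * z₁ = z₁ * u) (c2 : ∀ u ∈ Q, u * z₂ = z₂ * u → u = 1) {e : ℕ}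
    (he : e ≤ fx Ω (z₁ * z₂)) : e * Nat.card Q + Nat.card Ω ≤ Nat.card Ω * c := by
  have := count2 h (fun g _ hd => Cl.conj hd g) (fun _ hd => Cl.inv hd) hd hc h1
    (S := (fun u => u * z₂ * u⁻¹) '' (Q : Set G)) (by rintro _ ⟨u, -, rfl⟩; exact Cl.conj h2 u)
    (fun ⟨u, hu, e⟩ => hQ (eq_bot_iff.2 fun v hv => c2 v hv (by
      have : z₂ = z₁⁻¹ := by
        rw [mul_inv_eq_iff_eq_mul, ← (Commute.inv_right (c1 u hu)).eq, mul_right_inj] at e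
        exact e
      rw [this]
      exact Commute.inv_right (c1 v hv)))) (e := e) (by
      rintro _ ⟨u, hu, rfl⟩
      rwa [← mul_assoc, ← mul_assoc, ← c1 u hu, mul_assoc u, fx_conj])
  rwa [Set.InjOn.ncard_image fun u hu v hv e => inv_mul_eq_one.1 (c2 _ (mul_mem (inv_mem hu) hv)
    (by
      have e : u * z₂ * u⁻¹ = v * z₂ * v⁻¹ := e
      calc _ = u⁻¹ * (v * z₂ * v⁻¹) * v := by group
        _ = _ := by rw [← e]; group))] at this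

theorem c_one (h : Two G Ω) {Z : Subgroup G} (hd : ∀ x ∈ Cl Z, Der Ω x)
    (hc : Nat.card Ω - 1 = (Cl Z).ncard) {z₁ z₂ : G} (h1 : z₁ ∈ Cl Z) (h2 : z₂ ∈ Cl Z)
    (hne : z₁ * z₂ ≠ 1) (hf : 0 < fx Ω (z₁ * z₂)) : False := by
  have := count2 h (fun g _ hd => Cl.conj hd g) (fun _ hd => Cl.inv hd) hd
    ((one_mul _).trans hc) h1 (S := {z₂}) (by simpa using h2)
    (fun e => hne (by rw [← show z₁⁻¹ = z₂ from e, mul_inv_cancel])) (e := 1) (by rintro _ rfl; exact hf)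
  rw [Set.ncard_singleton] at this
  omega

theorem MG.ol {r : ℕ} [Fact r.Prime] {Z S : Subgroup G} (hM : MG r Z S)
    (hd : ∀ x ∈ Cl Z, Der Ω x) (hZ : 1 < Nat.card Z) :
    ∃ E : Subgroup G, (∀ a : Ω, r * Nat.card Z ∣ ol E a) ∧ ∀ y ∈ E, ∀ s ∈ S, y * s = s * y := by
  obtain ⟨Y, x, h1, h2, h3, h4⟩ := hM
  refine ⟨Y, fun a => ?_, h4⟩
  have e : CKS.ol (cj x Z) a = Nat.card Z := by
    rw [ol_of_der fun y hy y1 => hd y ⟨y1, x⁻¹, by simpa using mem_cj.1 hy⟩, card_cj]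
  exact e ▸ dvd_of_central h1 h2 h3 (e ▸ hZ.ne')

theorem ZC.ol {r : ℕ} {B U V : Subgroup G} (hV : ZC U V) (hB : Bor r B U) (hk : CK G Ω)
    (ht : Tr U Ω) (a : Ω) : ol V a = Nat.card V := ol_of_der (fun v hv v1 => by
  obtain ⟨g, h1, h2⟩ := hV v hv
  have : Der Ω (g * v * g⁻¹) := fun b e => v1 (by
    simpa [mul_inv_eq_iff_eq_mul] using hB.nc _ h1 (hk _ fun d => by
      obtain ⟨u, hu, rfl⟩ := ht b d
      rw [← mul_smul, ← h2 u hu, mul_smul, e]))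
  simpa [mul_assoc] using this.conj g⁻¹) a

theorem heis_dvd {r a : ℕ} [Fact r.Prime] {Q Z : Subgroup G} (hH : Heis Q Z a) (hQ : IsPGroup r Q)
    (hd : ∀ x ∈ Cl Z, Der Ω x) (hZ : 1 < Nat.card Z) :
    (∀ x : Ω, a * Nat.card Z ∣ ol Q x) ∧ a * Nat.card Z ∣ Nat.card Ω :=
  have h : ∀ x : Ω, a * Nat.card Z ∣ ol Q x := fun x =>
    have e : ol Z x = Nat.card Z := ol_of_der (fun y hy y1 => hd y (Cl.of_mem hy y1)) x
    e ▸ hH.dvd hQ (e ▸ hZ.ne')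
  ⟨h, dvd_card_of_ol h⟩

end Cfsg.Lib.CKS
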