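import Cfsg.Agent.CKS.AbA
import Cfsg.Agent.Solv.PGroupBasic

/-!
# Doubly transitive actions of groups of Lie type: block arguments
-/

set_option autoImplicit false
set_option linter.unusedSectionVars false

namespace Cfsg.Lib.CKS

open MulAction Subgroup

variable {G Ω : Type*} [Group G] [MulAction G Ω] [Finite G] [Finite Ω]

namespace AbB

omit [Finite Ω] in
theorem nrm {K Z : Subgroup G} (ht : Tr K Ω)
    (hc : ∀ x ∈ K, ∀ y ∈ K, x * y * x⁻¹ * y⁻¹ ∈ Z) {p : G} (hK : p ∈ normalizer (K : Set G))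
    (hp : p ∈ normalizer (Z : Set G)) (x : Ω) :
    p ∈ normalizer ((Z ⊔ (K ⊓ stabilizer G x) : Subgroup G) : Set G) := by
  refine mem_normalizer_fintype fun m hm => ?_
  refine (sup_le (fun z hz => ?_) fun s hs => ?_ :
    Z ⊔ (K ⊓ stabilizer G x) ≤ (Z ⊔ (K ⊓ stabilizer G x)).comap (MulAut.conj p).toMonoidHom) hm
  · exact mem_sup_left ((mem_normalizer_iff.1 hp z).1 hz)
  · obtain ⟨k, hk, e⟩ := ht x (p • x)
    have h1 : k⁻¹ * (p * s * p⁻¹) * k ∈ K :=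
      mul_mem (mul_mem (inv_mem hk) ((mem_normalizer_iff.1 hK s).1 hs.1)) hk
    have h2 : k⁻¹ * (p * s * p⁻¹) * k ∈ stabilizer G x := by
      rw [mem_stabilizer_iff, mul_smul, e, mul_smul, mul_smul, mul_smul, inv_smul_smul,
        show s • x = x from hs.2, ← e, inv_smul_smul]
    have := (Z ⊔ (K ⊓ stabilizer G x)).mul_mem (mem_sup_left (hc k hk _ h1))
      (mem_sup_right ⟨h1, h2⟩)
    show p * s * p⁻¹ ∈ Z ⊔ (K ⊓ stabilizer G x)
    convert this using 1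
    group

omit [Finite G] in
theorem card_rel {Q U : Subgroup G} (h : Q ≤ U) : Nat.card Q * Q.relIndex U = Nat.card U := by
  rw [← Nat.card_congr (subgroupOfEquivOfLe h).toEquiv]
  exact card_mul_index _

theorem cnt {ι α : Type*} [Finite ι] [Finite α] (f : α → ι) (F : Set ι) (T : Set α) {a : ℕ}
    (h : ∀ i ∈ F, a ≤ {x | x ∈ T ∧ f x = i}.ncard) : a * F.ncard ≤ T.ncard := by
  classical
  have := Fintype.ofFinite ι
  have := Fintype.ofFinite α
  calc a * F.ncard = ∑ i, if i ∈ F then a else 0 :=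
        (Cnt.sum_ind F _ a (fun i hi => if_pos hi) fun i hi => if_neg hi).symm
    _ ≤ ∑ i, {x | x ∈ T ∧ f x = i}.ncard := Finset.sum_le_sum fun i _ => by
        split_ifs with hi
        exacts [h i hi, Nat.zero_le _]
    _ = ∑ x, {i | x ∈ T ∧ f x = i}.ncard := Cnt.dbl _
    _ = 1 * T.ncard := Cnt.sum_ind T _ 1 (fun x hx => by simp [hx]) fun x hx => by simp [hx]
    _ = _ := one_mul _

end AbB

open AbB

theorem Tr.ol_eq {A : Subgroup G} (h : Tr A Ω) (x : Ω) : ol A x = Nat.card Ω := Orb.ol_tr h x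

theorem tr_of_le_ol {A : Subgroup G} {x : Ω} (h : Nat.card Ω ≤ ol A x) : Tr A Ω := by
  have e : {b : Ω | ∃ g ∈ A, g • x = b} = Set.univ :=
    Set.eq_of_subset_of_ncard_le (Set.subset_univ _) (by rwa [Set.ncard_univ])
  intro a b
  obtain ⟨g, hg, rfl⟩ := e.ge (Set.mem_univ a)
  obtain ⟨k, hk, rfl⟩ := e.ge (Set.mem_univ b)
  exact ⟨k * g⁻¹, mul_mem hk (inv_mem hg), by rw [mul_smul, inv_smul_smul]⟩

theorem blk_ab {B U Q : Subgroup G} (hQU : Q ≤ U) (hUB : U ≤ B)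
    (hBQ : B ≤ normalizer (Q : Set G)) (hBU : B ≤ normalizer (U : Set G)) (hc : ⁅U, U⁆ ≤ Q)
    (hm : Min B U Q) (ht : Tr U Ω) {a : ℕ} (ha : ∀ x : Ω, a ≤ ol Q x)
    (hn : Nat.card Ω < a * Q.relIndex U) : Tr Q Ω := fun x y => by
  rcases hm (Q ⊔ (U ⊓ stabilizer G x)) le_sup_left (sup_le hQU inf_le_left) fun p hp =>
    nrm ht (fun x hx y hy => hc (commutator_mem_commutator hx hy)) (hBU hp) (hBQ hp) x with e | e
  · exfalso
    have e1 : U ⊓ stabilizer G x = Q ⊓ stabilizer G x :=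
      le_antisymm (le_inf (le_sup_right.trans e.le) inf_le_right) (inf_le_inf_right _ hQU)
    have h1 := ol_eq U x
    rw [ht.ol_eq, e1, ← card_rel hQU, ← ol_eq Q x, mul_right_comm] at h1
    have h2 := Nat.eq_of_mul_eq_mul_right Nat.card_pos h1
    have := Nat.mul_le_mul_right (Q.relIndex U) (ha x)
    omega
  · obtain ⟨u, hu, rfl⟩ := ht x y
    have : u ∈ ((Q ⊔ (U ⊓ stabilizer G x) : Subgroup G) : Set G) := e.ge hu
    rw [coe_mul_of_right_le_normalizer_left _ _ (inf_le_left.trans (hUB.trans hBQ))] at this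
    obtain ⟨q, hq, s, hs, rfl⟩ := this
    exact ⟨q, hq, by rw [mul_smul, show s • x = x from hs.2]⟩

theorem irr_false [Nonempty Ω] {P Q Z : Subgroup G} {a : ℕ} (hH : Heis Q Z a)
    (hd : ∀ x ∈ Cl Z, Der Ω x) (hPQ : P ≤ normalizer (Q : Set G))
    (hPZ : P ≤ normalizer (Z : Set G)) (hI : Irr P Q Z) (ht : Tr Q Ω)
    (hn : Nat.card Ω < Nat.card Q) : False := by
  obtain ⟨x⟩ : Nonempty Ω := inferInstance
  have k : ∀ z ∈ Z, z • x = x → z = 1 := fun z hz e => by_contra fun n => hd z (Cl.of_mem hz n) x e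
  have h1 := hI (Z ⊔ (Q ⊓ stabilizer G x)) le_sup_left (sup_le hH.le inf_le_left)
    (fun p hp => nrm ht hH.com (hPQ hp) (hPZ hp) x) fun u hu v hv => by
      rw [← SetLike.mem_coe, coe_mul_of_right_le_normalizer_left _ (Q ⊓ stabilizer G x) fun s hs =>
        centralizer_le_normalizer _ fun c hc => hH.cen c hc s hs.1] at hu hv
      obtain ⟨z, hz, s, hs, rfl⟩ := hu
      obtain ⟨z', hz', s', hs', rfl⟩ := hv
      have : Commute s s' := commutatorElement_eq_one_iff_commute.1 (k _ (hH.com s hs.1 s' hs'.1)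
        (mul_mem (mul_mem (mul_mem hs.2 hs'.2) (inv_mem hs.2)) (inv_mem hs'.2) :
          _ ∈ stabilizer G x))
      exact Commute.mul_left (hH.cen z hz _ (mul_mem (hH.le hz') hs'.1))
        (Commute.mul_right (hH.cen z' hz' s hs.1).symm this)
  have h2 := ol_eq Q x
  rw [ht.ol_eq, (eq_bot_iff (a := Q ⊓ stabilizer G x)).2 fun s hs =>
    k s (h1 (mem_sup_right hs)) hs.2, card_bot] at h2
  omega

omit [MulAction G Ω] [Finite Ω] in
theorem IrrD.irr {r : ℕ} [Fact r.Prime] {P Q Z : Subgroup G} {a : ℕ} (h : IrrD r P Q Z)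
    (hH : Heis Q Z a) (hQ : IsPGroup r Q) (hPZ : P ≤ normalizer (Z : Set G)) : Irr P Q Z := by
  intro M hZ hM hP hc
  have _ := hH.le
  have _ := hPZ
  obtain ⟨X, V, h1, h2, h3, h4⟩ := h
  by_contra n
  obtain ⟨x, hx, n, k⟩ := Solv.PG.exists_not_mem_commutator_mem (S := X ⊔ M)
    (h1.to_sup_of_normal_right' (hQ.to_le hM) (h2.trans hP)).isNilpotent le_sup_right
    (sup_le (h2.trans hP) le_normalizer) n
  obtain ⟨v, hv, z, hz, e⟩ := h3 x⁻¹ (inv_mem (hM hx)) fun y hy => by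
    simpa [commutatorElement_def, mul_assoc] using (k y (mem_sup_left hy)).1
  have vM : v ∈ M := (mul_mem_cancel_right (hZ hz)).1 (e ▸ inv_mem hx)
  obtain ⟨p, hp, ne⟩ := h4 v hv fun e' => n (inv_mem_iff.1 (by rwa [e, e', one_mul]))
  exact ne (hc v vM _ ((mem_normalizer_iff.1 (hP hp) v).1 vM))

open Pointwise in
theorem Blk.tr {r a' : ℕ} [Fact r.Prime] {A P U : Subgroup G} (h : Blk r a' A P U) (hA : A ≤ P)
    (hP : P ≤ normalizer (A : Set G)) (ht : Tr U Ω) {a : ℕ} (ha : ∀ x : Ω, a ≤ ol A x)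
    (hn : Nat.card Ω < a * (2 * a')) : Tr A Ω := by
  obtain ⟨Q, Z, hH, hQ, hl, hM⟩ := h
  let O : Ω → Set Ω := fun x => {b | ∃ g ∈ A, g • x = b}
  have k1 : ∀ p ∈ P, ∀ x, p • O x = O (p • x) := fun p hp x => by
    ext b
    rw [Set.mem_smul_set_iff_inv_smul_mem]
    refine ⟨fun ⟨g, hg, e⟩ => ⟨_, (mem_normalizer_iff.1 (hP hp) g).1 hg, ?_⟩,
      fun ⟨g, hg, e⟩ => ⟨_, (mem_normalizer_iff.1 (hP (inv_mem hp)) g).1 hg, ?_⟩⟩
    · rw [mul_smul, mul_smul, inv_smul_smul, e, smul_inv_smul]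
    · rw [mul_smul, mul_smul, inv_inv, e]
  have k2 : ∀ x, ∀ y ∈ O x, O y = O x := by
    rintro x _ ⟨g, hg, rfl⟩
    ext b
    exact ⟨fun ⟨k, hk, e⟩ => ⟨k * g, mul_mem hk hg, by rwa [mul_smul]⟩,
      fun ⟨k, hk, e⟩ => ⟨k * g⁻¹, mul_mem hk (inv_mem hg), by rwa [mul_smul, inv_smul_smul]⟩⟩
  have k3 : ∀ x, ol Z (O x) = 1 := fun x => by_contra fun n => by
    have h1 := Nat.le_of_dvd (Orb.ol_pos _ _) (hH.dvd hQ n)
    have h2 := Orb.ol_pos Z (O x)
    have h3 := cnt O {b | ∃ g ∈ Q, g • O x = b} Set.univ (a := a) (by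
      rintro _ ⟨g, hg, rfl⟩
      rw [k1 g (hl hg)]
      exact (ha (g • x)).trans (Set.ncard_le_ncard fun y hy => ⟨trivial, k2 _ y hy⟩))
    rw [Set.ncard_univ] at h3
    have : a * (2 * a') ≤ a * ol Q (O x) := Nat.mul_le_mul_left _ (le_trans (by
      rw [mul_comm]; exact Nat.mul_le_mul_left _ (by omega)) h1)
    exact (this.trans h3).not_gt hn
  have k4 := hM (⨅ x, stabilizer G (O x))
    (le_iInf fun x g hg => (k1 g (hA hg) x).trans (k2 _ _ ⟨g, hg, rfl⟩))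
    (le_iInf fun x g hg => ol_eq_one_iff.1 (k3 x) g hg) fun p hp =>
      mem_normalizer_fintype fun m hm => mem_iInf.2 fun x => by
        rw [mem_stabilizer_iff, mul_smul, mul_smul, k1 _ (inv_mem hp),
          show m • O _ = O _ from mem_iInf.1 hm _, k1 _ hp, smul_inv_smul]
  intro x y
  obtain ⟨u, hu, rfl⟩ := ht x y
  exact (show u • O x = O x from mem_iInf.1 (k4 hu) x).le
    (Set.smul_mem_smul_set ⟨1, one_mem _, one_smul _ _⟩)

theorem g2_arith {n c q : ℕ} (hq : 2 ≤ q) (hn : 2 ≤ n) (h : c * (n - 1) = q ^ 6 - 1)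
    (hd : q ^ 2 ∣ n) : n = q ^ 2 ∨ n = q ^ 3 ∨ (n = q ^ 6 ∧ c = 1) := by
  obtain ⟨s, rfl⟩ := hd
  have s0 : 0 < s := Nat.pos_of_ne_zero fun e => by simp [e] at hn
  have q1 : 1 ≤ q ^ 6 := Nat.one_le_pow _ _ (by omega)
  zify [q1, show 1 ≤ q ^ 2 * s by omega] at h hq s0 ⊢
  obtain ⟨k, hk⟩ : (q : ℤ) ^ 2 ∣ c - 1 := ⟨c * s - q ^ 4, by linear_combination -h⟩
  have hc : (c : ℤ) = 1 + q ^ 2 * k := by linear_combination hk
  have A0 : (4 : ℤ) ≤ q ^ 2 := by nlinarith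
  have h4 : s - k + k * s * q ^ 2 = (q : ℤ) ^ 4 := mul_left_cancel₀ (by omega : (q : ℤ) ^ 2 ≠ 0) (by
    rw [hc] at h; linear_combination h)
  have k0 : 0 ≤ k := by
    by_contra k0
    have : (0 : ℤ) ≤ c := Int.natCast_nonneg c
    nlinarith
  rcases k0.eq_or_lt with rfl | k1
  · exact .inr (.inr ⟨by linear_combination q ^ 2 * h4, by linear_combination hc⟩)
  obtain ⟨j, hj⟩ : (q : ℤ) ^ 2 ∣ s - k := ⟨q ^ 2 - k * s, by linear_combination h4⟩
  have h5 : j + k * s = (q : ℤ) ^ 2 := mul_left_cancel₀ (by omega : (q : ℤ) ^ 2 ≠ 0) (by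
    linear_combination h4 - hj)
  rcases lt_trichotomy j 0 with j0 | rfl | j0
  · have : (s : ℤ) = 1 := by
      by_contra s1
      have : (2 : ℤ) ≤ s := by omega
      have : (q : ℤ) ^ 2 * (-j) ≤ k := by nlinarith
      nlinarith
    exact .inl (by rw [this, mul_one])
  · have : (s : ℤ) = q := by
      rw [show k = s by linear_combination -hj] at h5
      nlinarith
    exact .inr (.inl (by rw [this]; ring))
  · nlinarith

theorem g23_arith {n : ℕ} (h : n * (n - 1) ∣ 4245696) (hn : 2 ≤ n) (h3 : 3 ∣ n) :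
    ∃ k, n = 3 ^ k := by
  have h1 : n < 2062 := by
    have := Nat.le_of_dvd (by norm_num) h
    by_contra n1
    have : 2062 * 2061 ≤ n * (n - 1) := Nat.mul_le_mul (by omega) (by omega)
    omega
  rcases (by decide +kernel : ∀ n < 2062, n * (n - 1) ∣ 4245696 → 3 ∣ n →
    n = 3 ∨ n = 9 ∨ n = 27 ∨ n = 729) n h1 h h3 with rfl | rfl | rfl | rfl
  exacts [⟨1, rfl⟩, ⟨2, rfl⟩, ⟨3, rfl⟩, ⟨6, rfl⟩]

end Cfsg.Lib.CKS
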