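import Cfsg.Agent.CKS.Defs
import Cfsg.Agent.S0157

/-!
# Comparing two actions
-/

set_option autoImplicit false

namespace Cfsg.Lib.CKS

open MulAction Cfsg.Lib.Char

variable {G Ω : Type*} [Group G] [MulAction G Ω] [Finite G] [Finite Ω]

omit [Finite G] [Finite Ω] in
theorem not_tr_symm {X : Type*} [MulAction G X] [IsPretransitive G X] [IsPretransitive G Ω]
    {x : X} {a : Ω} (h : ¬ Tr (stabilizer G x) Ω) : ¬ Tr (stabilizer G a) X := fun ht => h <| by
  have k : ∀ b : Ω, ∃ g ∈ stabilizer G x, g • a = b := fun b => by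
    obtain ⟨g, rfl⟩ := exists_smul_eq G a b
    obtain ⟨k, h1, h2⟩ := ht (g⁻¹ • x) x
    refine ⟨g * k⁻¹, ?_, by rw [mul_smul, inv_smul_eq_iff.2 (mem_stabilizer_iff.1 h1).symm]⟩
    rw [mem_stabilizer_iff, mul_smul, inv_smul_eq_iff.2 h2.symm, smul_inv_smul]
  intro b c
  obtain ⟨g, h1, rfl⟩ := k b
  obtain ⟨g', h2, rfl⟩ := k c
  exact ⟨g' * g⁻¹, mul_mem h2 (inv_mem h1), by rw [mul_smul, inv_smul_smul]⟩

theorem Two.two_le (h : Two G Ω) : 2 ≤ Nat.card Ω := Finite.one_lt_card_iff_nontrivial.2 h.nt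

theorem Two.irr (h : Two G Ω) :
    IsIrrCharacter G fun g => (Nat.card (fixedBy Ω g) : ℂ) - 1 :=
  have := h.pre
  (Cfsg.Agent.S0157.result Ω h.two_le).2 h.mult

namespace Act

omit [Finite G] [Finite Ω] in
theorem card_prod (X : Type*) [MulAction G X] (g : G) :
    Nat.card (fixedBy (X × Ω) g) = Nat.card (fixedBy X g) * Nat.card (fixedBy Ω g) := by
  rw [← Nat.card_prod]
  exact Nat.card_congr ⟨fun x => (⟨x.1.1, congrArg Prod.fst x.2⟩, ⟨x.1.2, congrArg Prod.snd x.2⟩),
    fun y => ⟨(y.1.1, y.2.1), Prod.ext y.1.2 y.2.2⟩, fun _ => rfl, fun _ => rfl⟩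

omit [Finite G] in
theorem inner_one [Fintype G] [Nonempty Ω] [IsPretransitive G Ω] :
    classInner (fun g : G => (Nat.card (fixedBy Ω g) : ℂ)) (fun _ => 1) = 1 := by
  rw [Cfsg.Agent.S0157.inner_one Ω, Nat.cast_eq_one, Nat.card_eq_one_iff_unique]
  exact ⟨(pretransitive_iff_subsingleton_quotient G Ω).1 inferInstance,
    ⟨Quotient.mk'' (Classical.arbitrary Ω)⟩⟩

end Act

theorem leAct {X : Type*} [MulAction G X] [Finite X] [IsPretransitive G X] (h : Two G Ω) {x : X}
    (hi : ¬ Tr (stabilizer G x) Ω) :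
    Nat.card Ω ≤ Nat.card X ∧ (Nat.card Ω = Nat.card X → Two G X) := by
  let := Fintype.ofFinite G
  have := h.pre
  have := h.nt
  have : Nonempty X := ⟨x⟩
  have h1 := Act.inner_one (G := G) (Ω := X)
  have h2 := Act.inner_one (G := G) (Ω := Ω)
  have hc := (isCharacter_card_fixedBy G X).sub_of_classInner_ne_zero isIrrCharacter_one
    (by rw [h1]; exact one_ne_zero)
  have e : classInner (fun g : G => (Nat.card (fixedBy X g) : ℂ))
      (fun g => (Nat.card (fixedBy Ω g) : ℂ)) = Nat.card (orbitRel.Quotient G (X × Ω)) := by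
    rw [← Cfsg.Agent.S0157.inner_one (X × Ω)]
    simp only [classInner, Act.card_prod, Nat.cast_mul, map_natCast, map_one, mul_one]
  have e' : Nat.card (orbitRel.Quotient G (X × Ω)) ≠ 1 := fun e' => hi fun a b => by
    obtain ⟨g, hg⟩ := ((pretransitive_iff_subsingleton_quotient G (X × Ω)).2
      (Nat.card_eq_one_iff_unique.1 e').1).exists_smul_eq (x, a) (x, b)
    exact ⟨g, congrArg Prod.fst hg, congrArg Prod.snd hg⟩
  have h2' : classInner (fun _ => 1) (fun g : G => (Nat.card (fixedBy Ω g) : ℂ)) = 1 := by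
    rw [← conj_classInner, h2, map_one]
  have h3 : classInner ((fun g : G => (Nat.card (fixedBy X g) : ℂ)) - fun _ => 1)
      ((fun g : G => (Nat.card (fixedBy Ω g) : ℂ)) - fun _ => 1) ≠ 0 := by
    rw [classInner_sub_left, classInner_sub_right, classInner_sub_right, h1, e, classInner_one_one,
      h2', sub_self, sub_zero, sub_ne_zero]
    exact_mod_cast e'
  have e1 : ((fun g : G => (Nat.card (fixedBy X g) : ℂ)) - (fun _ => 1) : G → ℂ) 1 =
      ((Nat.card X - 1 : ℕ) : ℂ) := by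
    simp [Nat.cast_sub (Nat.card_pos (α := X))]
  have e2 : (Nat.card (fixedBy Ω (1 : G)) : ℂ) - 1 = ((Nat.card Ω - 1 : ℕ) : ℂ) := by
    simp [Nat.cast_sub (Nat.card_pos (α := Ω))]
  have h4 := hc.degree_le_of_classInner_ne_zero h.irr h3
  rw [e1, e2, Complex.natCast_re, Complex.natCast_re, Nat.cast_le] at h4
  have h0 := Nat.card_pos (α := X)
  have h5 := h.two_le
  refine ⟨by omega, fun e => ?_⟩
  have : Nontrivial X := Finite.one_lt_card_iff_nontrivial.1 (e ▸ h5)
  have h6 := hc.eq_of_classInner_ne_zero_of_degree h.irr h3 (by rw [e1, e2, e])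
  have h7 := h.irr
  rw [← h6] at h7
  exact Two.of_mult ((Cfsg.Agent.S0157.result X (e ▸ h5)).1 h7)

theorem twoAct {X : Type*} [MulAction G X] [Finite X] (h : Two G Ω) (hX : Two G X) {x : X}
    (hi : ¬ Tr (stabilizer G x) Ω) : Nat.card Ω = Nat.card X := by
  have := h.pre
  have := hX.pre
  have := h.nt
  exact le_antisymm (leAct h hi).1 (leAct hX (not_tr_symm (a := Classical.arbitrary Ω) hi)).1

end Cfsg.Lib.CKS
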