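import Cfsg.Agent.CKS.AbA
import Cfsg.Agent.CKS.Act

/-!
# Doubly transitive actions of groups of Lie type: numerical conditions
-/

set_option autoImplicit false

namespace Cfsg.Lib.CKS

open MulAction Subgroup

variable {G Ω : Type*} [Group G] [MulAction G Ω] [Finite G] [Finite Ω]

theorem AbD.cong {c n m q D : ℕ} (h : c * (n - 1) = m * (q - 1)) (hn : 1 ≤ n) (hq : 1 ≤ q)
    (h1 : D ∣ n) (h2 : m ≡ 1 [MOD D]) : D ∣ c + (q - 1) := by
  obtain ⟨s, rfl⟩ := h1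
  obtain ⟨t, ht⟩ := h2.dvd
  zify [hn, hq] at h ht ⊢
  exact ⟨c * s + t * (q - 1), by linear_combination -h + (q - 1 : ℤ) * ht⟩

theorem tr_of_le (h : Two G Ω) {P : Subgroup G} (hn : P.index ≤ Nat.card Ω)
    (h2 : ¬ Two G (G ⧸ P)) : Tr P Ω := by_contra fun k => by
  obtain ⟨h3, h4⟩ := leAct (X := G ⧸ P) h (x := ((1 : G) : G ⧸ P)) (by rwa [stabilizer_quotient])
  exact h2 (h4 (le_antisymm h3 hn))

theorem card_eq_of_not_tr (h : Two G Ω) {P : Subgroup G} (h2 : Two G (G ⧸ P)) (ht : ¬ Tr P Ω) :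
    Nat.card Ω = P.index :=
  twoAct h h2 (x := ((1 : G) : G ⧸ P)) (by rwa [stabilizer_quotient])

theorem es {r q m l k k' : ℕ} [Fact r.Prime] [Fact l.Prime] {P Z Y : Subgroup G} {z₁ z₂ : G}
    (h : Two G Ω) (hk : CK G Ω) (ht : Tr P Ω) (hR : RT0 r q m P Z) (e1 : q = r ^ k)
    (hm : m ≡ 1 [MOD q]) (hq : q < m) (hn : m ≤ Nat.card Ω) (hY : IsPGroup r Y)
    (hc : ∀ z ∈ Z, ∀ y ∈ Y, z * y = y * z) (hZY : Z ≤ ⁅Y, Y⁆) (e2 : m * (q - 1) + 1 = r ^ k')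
    (h1 : z₁ ∈ Cl Z) (h2 : z₂ ∈ Cl Z) (hne : z₁ * z₂ ≠ 1) (hl : ∃ j : ℕ, (z₁ * z₂) ^ l ^ j = 1)
    (hlr : l ≠ r) : False := by
  have hr : r.Prime := Fact.out
  obtain ⟨q', k1, k2, k3, c, k4⟩ := hR.orb h hk ht
  have k5 : r * q' ∣ Nat.card Ω := dvd_card_of_ol (E := Y) fun a =>
    k3 a ▸ dvd_of_central hY hc hZY (by rw [k3]; omega)
  have k6 := Nat.le_of_dvd hR.one_lt.le k2
  have big : c ≤ q' := by_contra fun k => by
    have := Nat.mul_le_mul (Nat.succ_le_of_lt (not_le.1 k)) (Nat.sub_le_sub_right hn 1)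
    rw [k4] at this
    zify [show 1 ≤ m by omega, k1.le] at this
    nlinarith
  obtain rfl : q' = q := by
    by_contra k
    obtain ⟨j, hj, rfl⟩ := (Nat.dvd_prime_pow hr).1 (e1 ▸ k2)
    have := Nat.le_of_dvd (by omega) (AbD.cong k4 (by omega) k1.le k5 (hm.of_dvd (by
      rw [e1, ← pow_succ']; exact pow_dvd_pow r (lt_of_le_of_ne hj fun e => k (by rw [e, e1])))))
    have := Nat.mul_le_mul_right (r ^ j) hr.two_le
    omega
  obtain ⟨s, hs⟩ := AbD.cong k4 (by omega) k1.le ((Dvd.intro_left _ rfl).trans k5) hm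
  obtain rfl : c = 1 := by
    rcases s with _ | _ | s
    · omega
    · omega
    · rw [show q' * (s + 1 + 1) = q' * s + 2 * q' by ring] at hs
      omega
  obtain ⟨j, hj⟩ := hl
  refine c_one h (der_Cl fun z hz z1 a e => z1 (mem_bot.1 ((card_eq_one.1 ?_ :
    Z ⊓ stabilizer G a = ⊥).le ⟨hz, e⟩))) (by rw [hR.ncard_Cl, ← k4, one_mul]) h1 h2 hne
    (fx_pos hj fun k => hlr ((Nat.prime_dvd_prime_iff_eq Fact.out hr).1
      ((Fact.out : l.Prime).dvd_of_dvd_pow (n := k') (by rwa [← e2, ← k4, one_mul,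
        Nat.sub_add_cancel (by omega)]))))
  have := ol_eq Z a
  rw [k3, hR.card] at this
  exact Nat.eq_of_mul_eq_mul_left (by omega) (this.trans (mul_one _).symm)

theorem eu {r q m a : ℕ} [Fact r.Prime] {P Q Z : Subgroup G} (h : Two G Ω) (hk : CK G Ω)
    (ht : Tr P Ω) (hR : RT0 r q m P Z) (hH : Heis Q Z a) (hQ : IsPGroup r Q) (ha : q ∣ a)
    (hm : m ≡ 1 [MOD q ^ 2]) :
    (Nat.card Ω - 1) * (q ^ 2 - q + 1) ≤ m * (q - 1) := by
  obtain ⟨q', k1, k2, k3, c, k4⟩ := hR.orb h hk ht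
  have k5 : a * q' ∣ Nat.card Ω := dvd_card_of_ol (E := Q) fun x =>
    k3 x ▸ hH.dvd hQ (by rw [k3]; omega)
  have := h.two_le
  have q1 := hR.one_lt
  have k6 := Nat.le_of_dvd (by omega) k2
  have k7 := Nat.le_of_dvd (by omega) (AbD.cong k4 (by omega) k1.le
    ((Nat.mul_dvd_mul_right ha q').trans k5) (hm.of_dvd (sq q ▸ Nat.mul_dvd_mul_left q k2)))
  generalize Nat.card Ω - 1 = n at *
  have k8 : q ≤ q ^ 2 := Nat.le_self_pow two_ne_zero q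
  zify [k1.le, q1.le, k8] at *
  have k9 : (0 : ℤ) < q * q' - q' + 1 := by nlinarith
  refine le_of_mul_le_mul_right ?_ k9
  have n0 : (0 : ℤ) ≤ n := Int.natCast_nonneg n
  have m0 : (0 : ℤ) ≤ m := Int.natCast_nonneg m
  calc _ = n * (q * q' - q' + 1) * (q ^ 2 - q + 1 : ℤ) := by ring
    _ ≤ n * c * (q ^ 2 - q + 1 : ℤ) := by gcongr <;> nlinarith
    _ = m * ((q' - 1) * (q ^ 2 - q + 1) : ℤ) := by rw [mul_comm (n : ℤ), k4]; ring
    _ ≤ m * ((q - 1) * (q * q' - q' + 1) : ℤ) := by gcongr ?_ * ?_; nlinarith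
    _ = _ := by ring

theorem eo {r q m a t c₀ : ℕ} [Fact r.Prime] {P Q Z : Subgroup G} (h : Two G Ω) (hk : CK G Ω)
    (ht : Tr P Ω) (hR : RT r q m P Z) (hH : Heis Q Z a) (hQ : IsPGroup r Q) (h0 : 0 < t)
    (hm : m * (q - 1) = (a * q * t - 1) * c₀) (h1 : 0 < c₀) (h2 : c₀ < a * q)
    (h3 : t * c₀ ≤ 2 * (a * q)) :
    (∀ x ∈ Cl Z, Der Ω x) ∧ (Nat.card Ω = a * q * t ∨ Nat.card Ω = a * q) := by
  obtain ⟨k1, -, c, k2⟩ := hR.der h hk ht
  exact ⟨k1, (pin (k2.trans hm) (hR.card ▸ (heis_dvd hH hQ k1 (hR.card ▸ hR.one_lt)).2) h.two_le h0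
    h1 h2 h3).imp And.left And.left⟩

theorem Bor.tr_or_fx {r : ℕ} [Fact r.Prime] {B U : Subgroup G} (hU : Bor r B U) (h : Two G Ω)
    (hn : r ∣ Nat.card Ω → ∃ k, Nat.card Ω = r ^ k) : Tr B Ω ∨ Fx U Ω := by
  by_cases k : r ∣ Nat.card Ω
  · obtain ⟨j, hj⟩ := hn k
    exact .inl (Tr.mono hU.le (Tr.sylow (H := ⊤) (fun a b =>
      let ⟨g, e⟩ := h.pre.exists_smul_eq a b; ⟨g, trivial, e⟩) le_top
      (by rw [relIndex_top_right]; exact hU.syl) hj))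
  obtain ⟨a, ha⟩ := hU.pg.nonempty_fixed_point_of_prime_not_dvd_card Ω k
  exact .inr ⟨a, fun g hg => ha ⟨g, hg⟩⟩

theorem count_mv (h : Two G Ω) (z : G) : ∃ c, Nat.card Ω * (Nat.card Ω - 1) * c =
    {x | IsConj z x}.ncard * {a : Ω | z • a ≠ a}.ncard := by
  classical
  have := Fintype.ofFinite G
  have := Fintype.ofFinite Ω
  have := h.nt
  obtain ⟨a⟩ : Nonempty Ω := inferInstance
  obtain ⟨c, hc, -⟩ := count1 h (D := {x | IsConj z x})
    (fun g d hd => IsConj.trans hd (isConj_iff.2 ⟨g, rfl⟩)) a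
  have h1 := Cnt.dbl fun (d : G) (p : Ω × Ω) => p.1 ≠ p.2 ∧ IsConj z d ∧ d • p.1 = p.2
  rw [Cnt.sum_ind {x | IsConj z x} _ {a : Ω | z • a ≠ a}.ncard (fun d hd => ?_)
    (fun d hd => (Set.ncard_eq_zero (Set.toFinite _)).2 (Set.eq_empty_of_forall_notMem fun _ k =>
      hd k.2.1)),
    Cnt.sum_ind {p : Ω × Ω | p.1 ≠ p.2} _ c (fun p hp => by
      simpa [show p.1 ≠ p.2 from hp] using hc _ _ hp) (fun p hp => by simp [not_not.1 hp])] at h1
  · refine ⟨c, ?_⟩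
    rw [mul_comm _ {a : Ω | z • a ≠ a}.ncard, h1, mul_comm c]
    congr 1
    rw [show {p : Ω × Ω | p.1 ≠ p.2} = (Finset.univ : Finset Ω).offDiag by ext; simp,
      Set.ncard_coe_finset, Finset.offDiag_card, Finset.card_univ, Nat.card_eq_fintype_card,
      Nat.mul_sub_one]
  · obtain ⟨g, rfl⟩ := isConj_iff.1 hd
    rw [← Set.ncard_image_of_injective {a : Ω | z • a ≠ a} (f := fun b => (g • b, g • z • b))
      fun b b' e => MulAction.injective g (congrArg Prod.fst e)]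
    congr 1
    ext ⟨b, b'⟩
    refine ⟨fun ⟨h1, _, h2⟩ => ⟨g⁻¹ • b, fun e => h1 ?_, by simpa [mul_smul] using h2⟩, ?_⟩
    · rw [← show _ = b' from h2, mul_smul, mul_smul, e, smul_inv_smul]
    · rintro ⟨b, hb, e⟩
      cases e
      exact ⟨fun e => hb (MulAction.injective g e).symm, hd, by simp [mul_smul]⟩

end Cfsg.Lib.CKS
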