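import Cfsg.Agent.CKS.Def2
import Cfsg.Agent.Chev.BorelTits
import Cfsg.Agent.Chev.InvConj

/-!
# The unipotent radicals of a twisted root group datum
-/

set_option autoImplicit false
set_option linter.unusedSectionVars false

namespace Cfsg.Lib.CKS

open MulAction Cfsg.Lib.Chev

variable {ι A : Type} [Fintype ι] [DecidableEq ι] [DecidableEq A] {Γ : Type*} [Group Γ]
  {R : WeylData ι A} {Y : RGD R Γ} {S : R.Sym}

namespace HowR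

theorem closed_UJ (J : Set ι) : R.StClosed {r | R.Pos r ∧ ¬ R.InJ J r} := fun r hr s hs k hk => by
  simpa using (RGD.Twist.stClosed_not_inJ J 1 r ⟨hr.1.1, by simpa using hr⟩ s
    ⟨hs.1.1, by simpa using hs⟩ k hk).2

theorem closed_UL (J : Set ι) : R.StClosed {r | R.Pos r ∧ R.InJ J r} := fun r hr s hs k hk =>
  ⟨hk.pos hr.1 hs.1, by
    simpa using (RGD.Twist.stClosed_inJ J 1 r ⟨hr.1.1, by simpa using hr.2⟩ s
      ⟨hs.1.1, by simpa using hs.2⟩ k hk).2⟩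

theorem inJ_mono {I J : Set ι} (h : I ⊆ J) {r : A} (hr : R.InJ I r) : R.InJ J r :=
  ⟨hr.1, fun i hi => hr.2 i fun h' => hi (h h')⟩

theorem UJ_anti {I J : Set ι} (h : I ⊆ J) : Y.UJ J ≤ Y.UJ I :=
  spanX_mono _ fun _ hr => And.intro hr.1 fun h' => hr.2 (inJ_mono h h')

theorem UJ_inf_UL (hY : Y.Faithful) {I J : Set ι} {u : Γ} (h1 : u ∈ Y.UJ (I ∩ J)) (h2 : u ∈ Y.UL I) :
    u ∈ Y.UJ J :=
  spanX_mono _ (fun _ hr => And.intro hr.1.1 fun h' => hr.1.2 ⟨h'.1, fun i hi => by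
      by_cases h : i ∈ I
      exacts [h'.2 i fun h3 => hi ⟨h, h3⟩, hr.2.2.2 i h]⟩)
    (hY.mem_spanX_inter_pos (fun _ h => h.1) (fun _ h => h.1) (closed_UJ _) (closed_UL _) h1 h2)

theorem UJ_inf_UJ (hY : Y.Faithful) {i : ι} {u : Γ} (h1 : u ∈ Y.UJ (S.orb i)) (h2 : u ∈ Y.UJ (S.orb i)ᶜ) :
    u ∈ spanX Y.X {r | R.Pos r ∧ ∀ k, ¬ R.InJ (S.orb k) r} :=
  spanX_mono _ (fun _ hr => And.intro hr.1.1 fun k h' => by
      by_cases h : k ∈ S.orb i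
      · exact hr.1.2 (S.orb_eq_of_mem h ▸ h')
      · exact hr.2.2 (inJ_mono ((S.stable_orb i).compl.orb_subset h) h'))
    (hY.mem_spanX_inter_pos (fun _ h => h.1) (fun _ h => h.1) (closed_UJ _) (closed_UJ _) h1 h2)

end HowR

open HowR

variable (T : Y.Twist S) (hY : Y.Faithful)
  {K : Subgroup Γ} [Finite K] (hK : T.G1 = K) {p : ℕ} [Fact p.Prime] (hU : IsPGroup p Y.U)
  (hH : ∀ h ∈ Y.H, h ∈ T.G1 → (∃ k, orderOf h = p ^ k) → h = 1)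

theorem howData (hG : Gen T) : HowData (T.splitAt hY hK hU hH) := by
  subst hK
  have hF := T.G1_le_F
  have hm : ∀ {J : Set ι} {a : Γ}, a ∈ Y.UJ J ⊓ T.F → a ∈ T.G1 := fun h =>
    T.U_inf_le_G1 hY ⟨Y.UJ_le_U _ h.1, h.2⟩
  have hm' : ∀ {J : Set ι} {a : Γ}, a ∈ Y.UL J ⊓ T.F → a ∈ T.G1 := fun h =>
    T.U_inf_le_G1 hY ⟨Y.UL_le_U _ h.1, h.2⟩
  have e0 := T.splitAt_U_empty hY rfl hU hH
  refine ⟨fun I J u hu => ?_, fun I J h => Subgroup.comap_mono (UJ_anti (Set.preimage_mono h)),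
    fun J ⟨j, hj⟩ e => ?_, ?_, fun J n h1 h2 u hu => ?_, fun i n h1 u hu => ?_⟩
  · obtain ⟨a, ha, b, hb, e⟩ := T.exists_UJ_mul_UL hY (T.stable_preimage hY rfl I)
      (u := u) ⟨Y.UJ_le_U _ hu, hF u.2⟩
    have h1 : b ∈ Y.UJ (T.idx hY rfl ⁻¹' J) := UJ_inf_UL hY (by
      rw [eq_inv_mul_of_mul_eq e.symm]
      exact mul_mem (inv_mem (UJ_anti Set.inter_subset_left ha.1)) hu) hb.1
    rw [show u = ⟨a, hm ha⟩ * ⟨b, hm' hb⟩ from Subtype.ext e]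
    exact Subgroup.mul_mem_sup ha.1 h1
  · obtain ⟨i, rfl⟩ := T.idx_surjective hY rfl j
    obtain ⟨u, hu, h1⟩ := T.exists_UL_ne_one hY i
    have h2 : u ∈ Y.UJ (T.idx hY rfl ⁻¹' J) := (e.trans e0).ge
      (show (⟨u, hm' hu⟩ : T.G1) ∈ Y.U.subgroupOf T.G1 from Y.UL_le_U _ hu.1)
    exact h1 (Subgroup.mem_bot.1 (hY.UJ_inf_LJ _ ▸ ⟨UJ_anti ((T.stable_preimage hY rfl J).orb_subset hj) h2,
      Y.UL_le_LJ _ hu.1⟩))
  · refine eq_bot_iff.2 fun u hu => Subtype.ext ?_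
    exact (spanX_le_iff (K := ⊥)).2 (fun r hr => absurd (R.inJ_univ hr.1.1) hr.2) hu
  · obtain ⟨w, hw⟩ := RGD.mem_N_iff.1 n.2
    have h3 := hY.mem_WJ_of_mem_P hw.mem_cell
      (T.par_le hY rfl J ((BN.mem_par_iff (BN.self_mem_cell _ n)).2 h1))
    have h4 := R.eq_w0 (inv_mem h3) fun j hj => (T.mem_P_iff_pos hY rfl hw).not.1 (h2 _ hj)
    have h5 := hY.mem_Upos hw.inv (e0.le hu.1) (by rw [inv_inv]; exact (mem_cj (G := T.G1)).1 hu.2)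
    rwa [h4, Y.Upos_w0] at h5
  · obtain ⟨i, rfl⟩ := T.idx_surjective hY rfl i
    obtain ⟨w, hw⟩ := RGD.mem_N_iff.1 n.2
    have e1 : T.idx hY rfl ⁻¹' {T.idx hY rfl i}ᶜ = (S.orb i)ᶜ :=
      Set.ext fun j => not_congr (eq_comm.trans (T.idx_eq_iff hY rfl))
    have hu' : (u : Γ) ∈ Y.UJ (S.orb i)ᶜ := e1 ▸ hu
    obtain ⟨a, ha, b, hb, e⟩ := T.exists_UJ_mul_UL hY (S.stable_orb i) (u := u) ⟨Y.UJ_le_U _ hu', hF u.2⟩
    have h2 := hw.inv.conj_spanX (T := {r | R.Pos r}) (fun _ hr => hr.1.1)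
      (fun r hr => R.pos_smul_of_inJ (fun j hj => (T.mem_P_iff_pos hY rfl hw).1
        ((T.idx_eq_iff hY rfl).2 hj ▸ h1)) hr.1 hr.2) hb.1
    have h3 : a ∈ Y.UJ (S.orb i)ᶜ := by
      rw [eq_mul_inv_of_mul_eq e.symm]
      exact mul_mem hu' (inv_mem (RGD.UL_le_UJ (J := (S.orb i)ᶜ) (fun j hj h => h hj) hb.1))
    have h4 := hG ⟨UJ_inf_UJ hY ha.1 h3, ha.2⟩
    rw [← T.inf_G1_eq hY le_rfl, ← Subgroup.subgroupOf_map_subtype, ← Subgroup.map_commutator] at h4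
    rw [show u = ⟨a, hm ha⟩ * ⟨b, hm' hb⟩ from Subtype.ext e, e0]
    refine mul_mem (Subgroup.mem_sup_right ((Subgroup.mem_map_iff_mem Subtype.val_injective).1 h4))
      (Subgroup.mem_sup_left ⟨Y.UL_le_U _ hb.1, mem_cj.2 ?_⟩)
    rw [inv_inv] at h2
    exact Y.U_le_B h2

end Cfsg.Lib.CKS
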