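import Cfsg.Agent.CKS.Def2

/-!
# Point stabilisers containing the unipotent subgroup
-/

set_option autoImplicit false
set_option linter.unusedSectionVars false

namespace Cfsg.Lib.CKS

open MulAction Cfsg.Lib.Chev

theorem Two.dbl {G Ω : Type*} [Group G] [MulAction G Ω] (h : Two G Ω) {a : Ω} {g g' : G}
    (hg : g ∉ stabilizer G a) (hg' : g' ∉ stabilizer G a) :
    ∃ k ∈ stabilizer G a, ∃ k' ∈ stabilizer G a, g' = k * (g * k') := by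
  obtain ⟨k, h1, h2⟩ := h.tr a (g • a) a (g' • a) (Ne.symm hg) (Ne.symm hg')
  refine ⟨k, h1, (k * g)⁻¹ * g', ?_, by group⟩
  rw [mem_stabilizer_iff, mul_smul, inv_smul_eq_iff, mul_smul, h2]

variable {ι A : Type} [Fintype ι] [DecidableEq ι] [DecidableEq A] {Γ : Type*} [Group Γ]
  {R : WeylData ι A} {Y : RGD R Γ} {S : R.Sym}

theorem Tri.P_mul_mem_cell {J : Set ι} {k g : Γ} (hk : k ∈ Y.P J) {w : R.W} (hg : g ∈ Y.cell w) :
    ∃ v ∈ R.WJ J, k * g ∈ Y.cell (v * w) := by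
  obtain ⟨v, hv, b, hb, m, hm, b', hb', rfl⟩ := RGD.mem_P_iff.1 hk
  obtain ⟨v', h1, h2⟩ := RGD.Twist.lifts_mul_mem_cell hv hm (RGD.B_mul_mem_cell hb' hg)
  exact ⟨v', h1, by simpa only [mul_assoc] using RGD.B_mul_mem_cell hb h2⟩

variable (T : Y.Twist S) (hY : Y.Faithful) {K : Subgroup Γ} [Finite K] (hK : T.G1 = K)

include hY hK in
theorem twoCoset_of_fx {Ω : Type*} [MulAction K Ω] (h : Two K Ω)
    (hB : ¬ Tr (Y.B.subgroupOf K) Ω) (hF : Fx (Y.U.subgroupOf K) Ω) :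
    ∃ i, ∃ a : Ω, stabilizer K a = (Y.P (S.orb i)ᶜ).subgroupOf K ∧ TwoCoset S i := by
  subst hK
  obtain ⟨a, ha⟩ := hF
  have hM : (stabilizer T.G1 a).map T.G1.subtype ≤ T.G1 := Subgroup.map_subtype_le _
  have hU : Y.U ⊓ T.G1 ≤ (stabilizer T.G1 a).map T.G1.subtype := fun u hu =>
    ⟨⟨u, hu.2⟩, ha _ hu.1, rfl⟩
  have W := T.wide_G1 hY
  obtain ⟨i, hi⟩ : ∃ i, i ∉ T.nodes ((stabilizer T.G1 a).map T.G1.subtype) := by
    by_contra! hn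
    have k : ∀ c, ∃ g ∈ Y.B.subgroupOf T.G1, g • a = c := fun c => by
      obtain ⟨x, rfl⟩ := h.pre.exists_smul_eq a c
      obtain ⟨_, ⟨y, hy, rfl⟩, h1⟩ := W.exists_mul_mem_B hY hM hU (g := x) ⟨by
        rw [Set.eq_univ_of_forall hn, Y.P_univ]; exact T.G1_le_G0 x.2, x.2⟩
      exact ⟨x * y, h1, by rw [mul_smul, show y • a = a from hy]⟩
    refine hB fun b c => ?_
    obtain ⟨g, hg, rfl⟩ := k b
    obtain ⟨g', hg', rfl⟩ := k c
    exact ⟨g' * g⁻¹, mul_mem hg' (inv_mem hg), by rw [mul_smul, inv_smul_smul]⟩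
  have h1 : stabilizer T.G1 a ≤ (Y.P (S.orb i)ᶜ).subgroupOf T.G1 := fun g hg =>
    Y.P_mono (fun j hj h' => (T.stable_nodes _).compl.orb_subset hi h' hj) (W.le_P hY hM hU ⟨g, hg, rfl⟩)
  let t : T.G1 := ⟨_, T.rep_mem (S.t i)⟩
  have ht := (T.lifts_rep_t hY i).mem_cell
  have h2 : t ∉ (Y.P (S.orb i)ᶜ).subgroupOf T.G1 := fun h' =>
    R.mem_of_not_pos_of_mem_WJ (hY.mem_WJ_of_mem_P ht h') (S.not_pos_t_simple (S.self_mem_orb i))
      (S.self_mem_orb i)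
  refine ⟨i, a, le_antisymm h1 fun g hg => by_contra fun h3 => ?_, fun w hw => ?_⟩
  · obtain ⟨k, hk, k', hk', e⟩ := h.dbl h3 fun h' => h2 (h1 h')
    exact h2 (e ▸ mul_mem (h1 hk) (mul_mem hg (h1 hk')))
  have hm := (T.lifts_rep hY hw).mem_cell
  by_cases h3 : (⟨_, T.rep_mem w⟩ : T.G1) ∈ stabilizer T.G1 a
  · refine ⟨1, one_mem _, fun β hβ h4 h5 => ?_⟩
    rw [R.stHt_smul_of_mem (hY.mem_WJ_of_mem_P hm (h1 h3)) hβ] at h5
    omega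
  obtain ⟨k, hk, k', hk', e⟩ := h.dbl (fun h' => h2 (h1 h')) h3
  obtain ⟨v', hv', h4⟩ := Tri.P_mul_mem_cell (inv_mem (h1 hk')) (RGD.inv_mem_cell ht)
  replace h4 := RGD.inv_mem_cell h4
  simp only [mul_inv_rev, inv_inv, map_inv] at h4
  obtain ⟨v, hv, h5⟩ := Tri.P_mul_mem_cell (h1 hk) h4
  rw [show T.rep w = _ from congrArg Subtype.val e] at hm
  rw [hY.eq_of_mem_cell hm h5]
  refine ⟨v'⁻¹, inv_mem hv', fun β hβ h6 h7 => by_contra fun h8 => ?_⟩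
  rw [← R.stHt_smul_of_mem (inv_mem hv') hβ] at h6
  rw [mul_smul, R.stHt_smul_of_mem hv (R.smul_mem _ hβ), mul_smul] at h7
  exact absurd (R.stHt_nonneg _ (R.pos_smul_of_not_inJ (S.t_mem_WJ i)
    ((R.stHt_pos_iff _ (R.smul_mem _ hβ)).1 h6).1 h8).2) (not_le.2 h7)

end Cfsg.Lib.CKS
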