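import Cfsg.Agent.CKS.HowD
import Cfsg.Agent.CKS.HowR
import Cfsg.Agent.CKS.Tri

/-!
# The Borel subgroup is transitive or a point stabiliser is parabolic
-/

set_option autoImplicit false

namespace Cfsg.Lib.CKS

open MulAction Cfsg.Lib.Chev

variable {ι A : Type} [Fintype ι] [DecidableEq ι] [DecidableEq A] {Γ : Type*} [Group Γ]
  {R : WeylData ι A} {Y : RGD R Γ} {S : R.Sym} (T : Y.Twist S) (hY : Y.Faithful)
  {K : Subgroup Γ} [Finite K] (hK : T.G1 = K) {p : ℕ} [Fact p.Prime] (hU : IsPGroup p Y.U)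
  (hH : ∀ h ∈ Y.H, h ∈ T.G1 → (∃ k, orderOf h = p ^ k) → h = 1)

include hY hK hU hH in
theorem fx_rgd (hG : Gen T) {Ω : Type*} [MulAction K Ω] [Finite Ω] (h : Two K Ω)
    (hB : ¬ Tr (Y.B.subgroupOf K) Ω) : Fx (Y.U.subgroupOf K) Ω := by
  have := Fintype.ofFinite K
  have h1 := fx_of_not_tr (howData T hY hK hU hH hG) h hB
  rwa [T.splitAt_U_empty] at h1

include hY hK hU hH in
theorem tri (hG : Gen T) {Ω : Type*} [MulAction K Ω] [Finite Ω] (h : Two K Ω) :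
    Tr (Y.B.subgroupOf K) Ω ∨
      ∃ i, ∃ a : Ω, stabilizer K a = (Y.P (S.orb i)ᶜ).subgroupOf K ∧ TwoCoset S i := by
  by_cases hB : Tr (Y.B.subgroupOf K) Ω
  · exact .inl hB
  · exact .inr (twoCoset_of_fx T hY hK h hB (fx_rgd T hY hK hU hH hG h hB))

end Cfsg.Lib.CKS
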