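import Cfsg.Agent.CKS.Def3
import Cfsg.Agent.CKS.TriMain

/-!
# Doubly transitive actions: transport lemmas
-/

set_option autoImplicit false

namespace Cfsg.Lib.CKS

open MulAction Cfsg.Lib.Chev

section gen
variable {G Ω : Type*} [Group G] [MulAction G Ω]

theorem ck_of_faithful [FaithfulSMul G Ω] : CK G Ω := fun g hg => by
  rw [eq_of_smul_eq_smul (M := G) (α := Ω) (m₁ := g) (m₂ := 1) fun a => by rw [hg a, one_smul]]
  exact one_mem _

theorem ck_comp [FaithfulSMul G Ω] {H : Type*} [Group H] (f : H →* G)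
    (hf : ∀ g, f g = 1 → g ∈ Subgroup.center H) : @CK H Ω _ (MulAction.compHom Ω f) :=
  fun g hg => hf g (eq_of_smul_eq_smul (M := G) (α := Ω) fun a => by rw [one_smul]; exact hg a)

theorem faithful_comp [FaithfulSMul G Ω] {H : Type*} [Group H] (f : H →* G)
    (hf : Function.Injective f) : @FaithfulSMul H Ω (MulAction.compHom Ω f).toSMul :=
  @FaithfulSMul.mk H Ω (MulAction.compHom Ω f).toSMul fun {_ _} h =>
    hf (eq_of_smul_eq_smul (M := G) (α := Ω) h)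

theorem Two.top (h : Two G Ω) : Two (⊤ : Subgroup G) Ω :=
  ⟨h.nt, fun a b c d h1 h2 => let ⟨g, hg⟩ := h.tr a b c d h1 h2; ⟨⟨g, trivial⟩, hg⟩⟩

theorem Tr.of_subgroupOf {H K : Subgroup G} (h : Tr (H.subgroupOf K) Ω) : Tr H Ω := fun a b =>
  let ⟨g, h1, h2⟩ := h a b; ⟨g, h1, h2⟩

theorem Fx.of_top {H : Subgroup G} (h : Fx (H.subgroupOf ⊤) Ω) : Fx H Ω :=
  let ⟨a, ha⟩ := h; ⟨a, fun g hg => ha ⟨g, trivial⟩ hg⟩

theorem Two.tr_top (h : Two G Ω) : Tr (⊤ : Subgroup G) Ω := fun a b =>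
  let ⟨g, hg⟩ := h.pre.exists_smul_eq a b; ⟨g, trivial, hg⟩

theorem Two.le_card {b : ℕ} (h : Two G Ω) (hb : ∀ H : Subgroup G, H ≠ ⊤ → b ≤ H.index) :
    b ≤ Nat.card Ω := by
  have := h.pre
  obtain ⟨g, a, hg⟩ := h.moves
  rw [← index_stabilizer_of_transitive G a]
  exact hb _ fun e => hg (mem_stabilizer_iff.1 (e.ge trivial))

theorem Bor.of_top {r : ℕ} {B U : Subgroup G} (h : Bor r (B.subgroupOf ⊤) (U.subgroupOf ⊤)) :
    Bor r B U where
  pg := fun u => by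
    obtain ⟨k, hk⟩ := h.pg ⟨⟨u, trivial⟩, u.2⟩
    exact ⟨k, Subtype.ext (congrArg (fun x => x.1.1) hk)⟩
  le := fun u hu => h.le (x := ⟨u, trivial⟩) hu
  nor := fun b hb => Subgroup.mem_normalizer_iff.2 fun u =>
    Subgroup.mem_normalizer_iff.1 (h.nor (x := ⟨b, trivial⟩) hb) ⟨u, trivial⟩
  syl := by
    have := h.syl
    rwa [← Subgroup.relIndex, Subgroup.relIndex_top_right] at this
  nc := fun u hu hc => congrArg Subtype.val (h.nc ⟨u, trivial⟩ hu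
    (Subgroup.mem_center_iff.2 fun g => Subtype.ext (Subgroup.mem_center_iff.1 hc g)))
  ne := fun e => h.ne (by rw [e, Subgroup.bot_subgroupOf])

end gen

variable {ι A : Type} [Fintype ι] [DecidableEq ι] [DecidableEq A] {Γ : Type*} [Group Γ] [Finite Γ]
  {R : WeylData ι A} {Y : RGD R Γ} (hY : Y.Faithful) (htop : spanX Y.X {r | r ∈ R.Φ} = ⊤)
  {p : ℕ} [Fact p.Prime] (hU : IsPGroup p Y.U) (hH : ∀ h ∈ Y.H, h ^ p = 1 → h = 1)

omit [DecidableEq A] in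
include hH in
theorem hH_of_pow (K : Subgroup Γ) :
    ∀ h ∈ Y.H, h ∈ K → (∃ k, orderOf h = p ^ k) → h = 1 := fun h hh _ =>
  eq_one_of_map hH (MonoidHom.id Γ) h ⟨h, hh, rfl⟩

include htop hU hH in
theorem fx_top (hG : Gen hY.idTwist) {Ω : Type*} [MulAction Γ Ω] [Finite Ω] (h : Two Γ Ω)
    (hB : ¬ Tr Y.B Ω) : Fx Y.U Ω :=
  (fx_rgd hY.idTwist hY (hY.idTwist_G1.trans htop) hU (hH_of_pow hH _) hG h.top
    fun e => hB e.of_subgroupOf).of_top

end Cfsg.Lib.CKS
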