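import Cfsg.Agent.CKS.AbB
import Cfsg.Agent.CKS.AbD
import Cfsg.Agent.CKS.Glue

/-!
# Doubly transitive actions of groups of Lie type: the contradictions
-/

set_option autoImplicit false

namespace Cfsg.Lib.CKS

open MulAction Subgroup Orb

variable {G Ω : Type*} [Group G] [MulAction G Ω] [Finite G] [Finite Ω]

namespace AbC

theorem not_dvd {r l k : ℕ} [hr : Fact r.Prime] [hl : Fact l.Prime] (h : l ≠ r) : ¬ l ∣ r ^ k :=
  fun e => h ((Nat.prime_dvd_prime_iff_eq hl.1 hr.1).1 (hl.1.dvd_of_dvd_pow e))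

theorem key {r q m l e c : ℕ} [Fact l.Prime] {P Q Z Z' E : Subgroup G} (h : Two G Ω)
    (hR : RT0 r q m P Z) (hQ : Q ≠ ⊥) (hO : Opp Q Z Z') (hl : Ord l Z Z')
    (hn : ¬ l ∣ Nat.card Ω) (hd : ∀ x ∈ Cl Z, Der Ω x) (hc : c * (Nat.card Ω - 1) = m * (q - 1))
    (h1 : ∀ a : Ω, e ∣ ol E a) (h2 : ∀ y ∈ E, ∀ s ∈ Z ⊔ Z', y * s = s * y) :
    e * Nat.card Q + Nat.card Ω ≤ Nat.card Ω * c := by
  obtain ⟨z₁, a1, b1, z₂, a2, b2, k, hk⟩ := hl
  obtain ⟨g, rfl⟩ := hO.conj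
  refine gArg h hd (hc.trans hR.ncard_Cl.symm) (Cl.of_mem a1 b1)
    ⟨b2, g⁻¹, by simpa using mem_cj.1 a2⟩ hQ (fun u hu => hO.com u hu _ a1)
    (fun u hu => hO.cen u hu _ a2 b2) (Nat.le_of_dvd (fx_pos hk hn) (dvd_fx h1 fun x hx =>
      h2 x hx _ (mul_mem_sup a1 a2)))

theorem one {r q m l : ℕ} [Fact l.Prime] {P Q Z Z' : Subgroup G} (h : Two G Ω)
    (hR : RT0 r q m P Z) (hQ : Q ≠ ⊥) (hO : Opp Q Z Z') (hl : Ord l Z Z')
    (hn : ¬ l ∣ Nat.card Ω) (hd : ∀ x ∈ Cl Z, Der Ω x) (hc : 1 * (Nat.card Ω - 1) = m * (q - 1)) :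
    False := by
  have := key (e := 1) (E := ⊥) h hR hQ hO hl hn hd hc (fun _ => one_dvd _)
    (fun y hy s _ => by rw [mem_bot.1 hy, one_mul, mul_one])
  have := Nat.card_pos (α := Q)
  omega

omit [MulAction G Ω] [Finite G] [Finite Ω] in
theorem ne_bot {r q m a : ℕ} {P Q Z : Subgroup G} (hR : RT0 r q m P Z) (hH : Heis Q Z a) :
    Q ≠ ⊥ := fun e => by
  have h1 := hR.one_lt
  rw [← hR.card, le_bot_iff.1 (hH.le.trans e.le), card_bot] at h1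
  omega

end AbC

open AbC

theorem ea {r q m a l t c₀ k k' : ℕ} [Fact r.Prime] [Fact l.Prime] {P Q Z Z' : Subgroup G}
    (h : Two G Ω) (hk : CK G Ω) (ht : Tr P Ω) (hR : RT r q m P Z) (hH : Heis Q Z a)
    (hQ : IsPGroup r Q) (hO : Opp Q Z Z') (hl : Ord l Z Z') (hlr : l ≠ r) (hM : MG r Z (Z ⊔ Z'))
    (e1 : a * q = r ^ k) (e2 : t = r ^ k') (hm : m * (q - 1) = (a * q * t - 1) * c₀) (h1 : 2 < c₀)
    (h2 : c₀ < a * q) (h3 : t * c₀ ≤ 2 * (a * q)) : False := by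
  have hr := (Fact.out : r.Prime).two_le
  obtain ⟨hd, -, c, hc⟩ := hR.der h hk ht
  have hZ : 1 < Nat.card Z := hR.card ▸ hR.one_lt
  have h4 := (heis_dvd hH hQ hd hZ).2
  obtain ⟨E, h5, h6⟩ := hM.ol hd hZ
  rw [hR.card] at h4 h5
  have h7 := pin (hc.trans hm) h4 h.two_le (e2 ▸ by positivity) (by omega) h2 h3
  have h8 := key h hR.toRT0 (ne_bot hR.toRT0 hH) hO hl (by
    rcases h7 with ⟨e, -⟩ | ⟨e, -⟩
    · rw [e, e1, e2, ← pow_add]; exact not_dvd hlr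
    · rw [e, e1]; exact not_dvd hlr) hd hc h5 h6
  rw [hH.card, hR.card] at h8
  have h9 : 2 * (a * q) * (a * q) ≤ r * q * (a ^ 2 * q) := by
    calc 2 * (a * q) * (a * q) ≤ r * (a * q) * (a * q) := by gcongr
      _ = _ := by ring
  have h0 := h.two_le
  rcases h7 with ⟨e, rfl⟩ | ⟨e, e'⟩
  · have : Nat.card Ω * c ≤ 2 * (a * q) * (a * q) := by
      rw [e, mul_assoc, mul_comm]; gcongr
    omega
  · have : Nat.card Ω * c ≤ 2 * (a * q) * (a * q) := by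
      rw [e, mul_comm]; have := (e' h1).le; gcongr
    omega

theorem eb {r q m l e : ℕ} [Fact r.Prime] [Fact l.Prime] {B P Q Z Z' : Subgroup G}
    (h : Two G Ω) (hk : CK G Ω) (ht : Tr B Ω) (hB : B ≤ P) (hR : RT r q m P Z) (hQ : Q ≠ ⊥)
    (hO : Opp Q Z Z') (hl : Ord l Z Z') (hlB : ¬ l ∣ Nat.card B)
    (hE : (∀ x ∈ Cl Z, Der Ω x) → ∃ E : Subgroup G, (∀ a : Ω, e ∣ ol E a) ∧
      ∀ y ∈ E, ∀ s ∈ Z ⊔ Z', y * s = s * y)
    (hm : m * (q - 1) * q ^ 2 ≤ e * Nat.card Q * (q ^ 2 - 1)) : False := by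
  have := h.nt
  obtain ⟨hd, h4, c, hc⟩ := hR.der h hk (ht.mono hB)
  obtain ⟨E, h5, h6⟩ := hE hd
  have h8 := key h hR.toRT0 hQ hO hl (fun e => hlB (e.trans ht.dvd)) hd hc h5 h6
  have h0 := h.two_le
  have h1 := Nat.le_of_dvd (by omega) h4
  have h2 : 1 < q ^ 2 := Nat.one_lt_pow two_ne_zero hR.one_lt
  rw [← hc] at hm
  generalize q ^ 2 = s at *
  obtain ⟨s, rfl⟩ : ∃ t, s = t + 1 := ⟨s - 1, by omega⟩
  generalize Nat.card Ω = n at *
  obtain ⟨n, rfl⟩ : ∃ t, n = t + 1 := ⟨n - 1, by omega⟩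
  simp only [Nat.add_sub_cancel] at hm
  have h3 : (e * Nat.card Q + (n + 1)) * s ≤ (n + 1) * c * s := by gcongr
  have h7 : c * s ≤ c * n := by gcongr; omega
  have h9 : 0 < (n + 1) * s := Nat.mul_pos (by omega) (by omega)
  nlinarith

theorem ec {r q m a t c₀ k k' : ℕ} [Fact r.Prime] {B U P Q Z : Subgroup G}
    (h : Two G Ω) (hk : CK G Ω) (ht : Tr B Ω) (hB : B ≤ P) (hR : RT r q m P Z) (hH : Heis Q Z a)
    (hU : Bor r B U) (hQU : Q ≤ U) (hPQ : P ≤ normalizer (Q : Set G)) (hc : ⁅U, U⁆ ≤ Q)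
    (hmin : Min B U Q) (hI : IrrD r P Q Z) (e1 : a * q = r ^ k) (e2 : t = r ^ k')
    (hm : m * (q - 1) = (a * q * t - 1) * c₀) (h1 : 0 < c₀) (h2 : c₀ < a * q)
    (h3 : t * c₀ ≤ 2 * (a * q)) (h4 : t < Q.relIndex U) (h5 : t < a) : False := by
  have := h.nt
  have hr := (Fact.out : r.Prime).pos
  have hQ := hU.pg.to_le hQU
  have h0 : 0 < t := e2 ▸ by positivity
  obtain ⟨hd, hn⟩ := eo h hk (ht.mono hB) hR hH hQ h0 hm h1 h2 h3
  have h6 := (heis_dvd hH hQ hd (hR.card ▸ hR.one_lt)).1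
  rw [hR.card] at h6
  have h7 : Nat.card Ω ≤ a * q * t := by
    rcases hn with e | e
    · exact e.le
    · rw [e]; exact Nat.le_mul_of_pos_right _ h0
  have h8 : Tr U Ω := by
    rcases hn with e | e
    · exact h.tr_top.sylow le_top (by simpa using hU.syl) (by rw [e, e1, e2, ← pow_add])
    · exact h.tr_top.sylow le_top (by simpa using hU.syl) (by rw [e, e1])
  have h9 : 0 < a * q := by omega
  refine irr_false hH hd hPQ hR.nz.ge (hI.irr hH hQ hR.nz.ge)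
    (blk_ab hQU hU.le (hB.trans hPQ) hU.nor hc hmin h8
      (fun x => Nat.le_of_dvd (ol_pos _ _) (h6 x)) (h7.trans_lt (by gcongr))) (h7.trans_lt ?_)
  rw [hH.card, hR.card]
  calc a * q * t < a * q * a := by gcongr
    _ = _ := by ring

theorem ed {r q m l k : ℕ} [Fact r.Prime] [Fact l.Prime] {P Q Z Z' : Subgroup G}
    (h : Two G Ω) (hk : CK G Ω) (ht : Tr P Ω) (hR : RT r q m P Z) (hH : Heis Q Z (q ^ 2))
    (hQ : IsPGroup r Q) (hO : Opp Q Z Z') (hl : Ord l Z Z') (hlr : l ≠ r)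
    (hPQ : P ≤ normalizer (Q : Set G)) (hI : IrrD r P Q Z) (e1 : q = r ^ k)
    (hm : m * (q - 1) = q ^ 6 - 1) : False := by
  have := h.nt
  have hq := hR.one_lt
  obtain ⟨hd, h4, c, hc⟩ := hR.der h hk ht
  obtain ⟨h5, h6⟩ := heis_dvd hH hQ hd (hR.card ▸ hR.one_lt)
  rw [hR.card, ← pow_succ] at h5 h6
  rcases g2_arith hq h.two_le (hc.trans hm) h4 with e | e | ⟨e, rfl⟩
  · rw [e, Nat.pow_dvd_pow_iff_le_right hq] at h6
    omega
  · refine irr_false hH hd hPQ hR.nz.ge (hI.irr hH hQ hR.nz.ge)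
      (tr_of_ol fun x => e ▸ Nat.le_of_dvd (ol_pos _ _) (h5 x)) ?_
    rw [hH.card, hR.card, e, ← pow_mul, ← pow_succ]
    exact Nat.pow_lt_pow_right hq (by omega)
  · exact one h hR.toRT0 (ne_bot hR.toRT0 hH) hO hl
      (by rw [e, e1, ← pow_mul]; exact not_dvd hlr) hd hc

theorem ee {r q m l k : ℕ} [Fact r.Prime] [Fact l.Prime] {B U P Q Z Z' V V₁ : Subgroup G}
    (h : Two G Ω) (hk : CK G Ω) (ht : Tr P Ω) (hR : RT r q m P Z) (hQ : Q ≠ ⊥)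
    (hO : Opp Q Z Z') (hl : Ord l Z Z') (hlr : l ≠ r) (hU : Bor r B U) (e1 : q = r ^ k)
    (hm : m * (q - 1) = q ^ 6 - 1) (hVU : V ≤ U) (hab : ∀ x ∈ V, ∀ y ∈ V, x * y = y * x)
    (hV : Nat.card V = q ^ 4) (h1 : V₁ ≤ V) (hV₁ : Nat.card V₁ = q ^ 3) (hZ : ZC U V₁) :
    False := by
  have := h.nt
  have hq := hR.one_lt
  obtain ⟨hd, h4, c, hc⟩ := hR.der h hk ht
  have key : ∀ i ≤ 3, Nat.card Ω ≠ q ^ i := fun i hi e => by
    have h5 : Tr U Ω :=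
      h.tr_top.sylow le_top (by simpa using hU.syl) (by rw [e, e1, ← pow_mul])
    have h6 : Tr V Ω := (tr_of_ol fun x => by
      rw [hZ.ol hU hk h5, hV₁, e]; exact Nat.pow_le_pow_right hq.le hi).mono h1
    obtain ⟨x⟩ : Nonempty Ω := inferInstance
    have h7 := ol_of_der (E := V) (fun v hv v1 a ha => v1 (hU.nc v (hVU hv) (hk v fun b => by
      obtain ⟨g, hg, rfl⟩ := h6 a b
      rw [← mul_smul, hab v hv g hg, mul_smul, ha]))) x
    rw [ol_tr h6, hV, e] at h7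
    have := Nat.pow_right_injective hq h7
    omega
  rcases g2_arith hq h.two_le (hc.trans hm) h4 with e | e | ⟨e, rfl⟩
  · exact key 2 (by omega) e
  · exact key 3 le_rfl e
  · exact one h hR.toRT0 hQ hO hl (by rw [e, e1, ← pow_mul]; exact not_dvd hlr) hd hc

end Cfsg.Lib.CKS
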