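import Cfsg.Agent.CKS.Def3
import Cfsg.Agent.Class.MinDegSp4
import Cfsg.Agent.Class.MinDegU8
import Cfsg.Agent.Class.MinDegO9

/-!
# Doubly transitive actions of groups of Lie type: subgroups of the classical groups
-/

set_option autoImplicit false

namespace Cfsg.Lib.CKS

open Cfsg.Lib.Chev Cfsg.Lib.Class

section sl
variable (k : ℕ) (F : Type) [Field F]

/-- The transvection group in the corner. -/
noncomputable def slZ : Subgroup (Matrix.SpecialLinearGroup (Fin (k + 3)) F) :=
  (slGr (k + 2) F).X (Pi.single 0 1 - Pi.single (Fin.last (k + 2)) 1)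

/-- The transvections with centre the first basis vector. -/
noncomputable def slA : Subgroup (Matrix.SpecialLinearGroup (Fin (k + 3)) F) :=
  (slGr (k + 2) F).rgd.UJ {0}ᶜ

/-- The stabiliser of the line through the first basis vector. -/
noncomputable def slP : Subgroup (Matrix.SpecialLinearGroup (Fin (k + 3)) F) :=
  (slGr (k + 2) F).rgd.P {0}ᶜ

end sl

variable {F V : Type} [Field F] [AddCommGroup V] [Module F V]

section sp
variable {B : LinearMap.BilinForm F V}

/-- The symplectic transvections with centre `x`. -/
def spZ (hA : B.IsAlt) (x : V) : Subgroup (SpB B) := Subgroup.closure (Set.range (spT hA x))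

end sp

section su
open Form
variable {σ : F →+* F} {B : V →ₛₗ[σ] V →ₗ[F] F} [FiniteDimensional F V]

/-- The unitary transvections with centre `x`. -/
noncomputable def suZ (h : Herm B) (x : V) : Subgroup (sIsom B) :=
  Subgroup.closure (Set.range (MD.ue h x 0))

/-- The unipotent radical of the stabiliser of the line through `x`. -/
noncomputable def suQ (h : Herm B) (x : V) : Subgroup (sIsom B) :=
  Subgroup.closure {g | ∃ w b, g = MD.ue h x w b}

end su

section orth
open Orth QuadraticMap

/-- The long root subgroup of the totally singular line through `x` and `y`. -/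
noncomputable def oZ (Q : QuadraticForm F V) (x y : V) : Subgroup (commutator (O Q)) :=
  (Subgroup.closure {g | ∃ c : F, g = eich Q x (c • y)}).subgroupOf _

/-- The unipotent radical of the stabiliser of that line. -/
noncomputable def oQ (Q : QuadraticForm F V) (x y : V) : Subgroup (commutator (O Q)) :=
  (Subgroup.closure {g | ∃ u, polar Q x u = 0 ∧ polar Q y u = 0 ∧
    (g = eich Q x u ∨ g = eich Q y u)}).subgroupOf _

/-- The unipotent radical of the stabiliser of the point `x`. -/
noncomputable def oA (Q : QuadraticForm F V) (x : V) : Subgroup (commutator (O Q)) :=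
  (Subgroup.closure (Set.range (eich Q x))).subgroupOf _

/-- The stabiliser of the vector `x`. -/
def oT (Q : QuadraticForm F V) (x : V) : Subgroup (commutator (O Q)) where
  carrier := {g | g.1.1 x = x}
  one_mem' := rfl
  mul_mem' {a b} ha hb := by
    change a.1.1 (b.1.1 x) = x
    rw [hb, ha]
  inv_mem' {a} ha := by
    change a.1.1.symm x = x
    exact (LinearEquiv.symm_apply_eq _).2 ha.symm

/-- A totally singular line in dimension at least seven. -/
structure Ln (Q : QuadraticForm F V) (x y : V) : Prop extends MD.Pt Q x where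
  sy : Q y = 0
  xy : polar Q x y = 0
  ind : y ∉ spanL F [x]

end orth

theorem slZ_eq_1' : type_of% @slZ.eq_1 := @slZ.eq_1
theorem slA_eq_1' : type_of% @slA.eq_1 := @slA.eq_1
theorem slP_eq_1' : type_of% @slP.eq_1 := @slP.eq_1
theorem spZ_eq_1' : type_of% @spZ.eq_1 := @spZ.eq_1
theorem suZ_eq_1' : type_of% @suZ.eq_1 := @suZ.eq_1
theorem suQ_eq_1' : type_of% @suQ.eq_1 := @suQ.eq_1
theorem oZ_eq_1' : type_of% @oZ.eq_1 := @oZ.eq_1
theorem oQ_eq_1' : type_of% @oQ.eq_1 := @oQ.eq_1
theorem oA_eq_1' : type_of% @oA.eq_1 := @oA.eq_1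
theorem oT_eq_1' : type_of% @oT.eq_1 := @oT.eq_1

end Cfsg.Lib.CKS
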