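import Cfsg.Agent.CKS.AbB
import Cfsg.Agent.CKS.Hei
import Cfsg.Agent.CKS.Def4

/-!
# Doubly transitive actions of groups of Lie type: the configuration of `F₄(2)`
-/

set_option autoImplicit false

namespace Cfsg.Lib.CKS

open MulAction Hei Orb

variable {G Ω : Type*} [Group G] [MulAction G Ω] [Finite G] [Finite Ω]

namespace AbF

omit [Finite Ω] in
theorem dvd {r : ℕ} [Fact r.Prime] {Q Z : Subgroup G} {a : ℕ} (le : Z ≤ Q)
    (cen : ∀ z ∈ Z, ∀ x ∈ Q, z * x = x * z) (com : ∀ x ∈ Q, ∀ y ∈ Q, x * y * x⁻¹ * y⁻¹ ∈ Z)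
    (card : Nat.card Q = a ^ 2 * Nat.card Z) {z : G} (hz : z ∈ Z)
    (full : ∀ x ∈ Q, x ∉ Z → ∃ y ∈ Q, x * y * x⁻¹ * y⁻¹ = z)
    (hQ : IsPGroup r Q) {x : Ω} (nz : z • x ≠ x) : a * ol Z x ∣ ol Q x := by
  classical
  obtain ⟨l, h1, h2⟩ := exists_char (Z0 := stabilizer G x) (z := ⟨z, hz⟩)
    (fun a ha b hb => cen a ha b (le hb)) nz
  have := Fintype.ofFinite Q
  have := Fintype.ofFinite ↥(Q ⊓ stabilizer G x)
  let β : ↥(Q ⊓ stabilizer G x) → Q → ℂˣ := fun s y => l ⟨_, com s s.2.1 y y.2⟩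
  have k1 := sumh β fun s s' y => by
    rw [mul_comm, ← map_mul]
    refine congrArg l (Subtype.ext ?_)
    show (s * s' : G) * y * (s * s' : G)⁻¹ * (y : G)⁻¹ = s' * y * (s' : G)⁻¹ * (y : G)⁻¹ *
      (s * y * (s : G)⁻¹ * (y : G)⁻¹)
    rw [show (s : G) * y * (s : G)⁻¹ * (y : G)⁻¹ = s * (y * (s : G)⁻¹ * (y : G)⁻¹) by group,
      ← mul_assoc _ (s : G), cen _ (com s' s'.2.1 y y.2) s s.2.1]
    group
  have k2 := sumh (fun y s => β s y) fun y y' s => by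
    rw [mul_comm, ← map_mul]
    refine congrArg l (Subtype.ext ?_)
    show (s : G) * (y * y' : G) * (s : G)⁻¹ * (y * y' : G)⁻¹ = s * y' * (s : G)⁻¹ * (y' : G)⁻¹ *
      (s * y * (s : G)⁻¹ * (y : G)⁻¹)
    rw [cen _ (com s s.2.1 y' y'.2) _ (le (com s s.2.1 y y.2)),
      ← mul_inv_eq_iff_eq_mul.2 (cen _ (com s s.2.1 y' y'.2) y y.2).symm]
    group
  rw [Finset.sum_comm, k1, Nat.cast_inj] at k2
  have k3 : {s | ∀ y, β s y = 1}.ncard ≤ Nat.card ↥(Q ⊓ stabilizer G x ⊓ Z) := by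
    rw [← SetLike.coe_sort_coe (Q ⊓ stabilizer G x ⊓ Z), Nat.card_coe_set_eq,
      ← Set.ncard_image_of_injective _ Subtype.val_injective]
    refine Set.ncard_le_ncard ?_
    rintro _ ⟨s, hs, rfl⟩
    refine ⟨s.2, by_contra fun n => ?_⟩
    obtain ⟨y, hy, e⟩ := full s s.2.1 n
    exact h1 ((congrArg l (Subtype.ext e.symm)).trans (hs ⟨y, hy⟩))
  have k4 : Nat.card ↥(Q ⊓ stabilizer G x ⊔ Z) ≤ {y | ∀ s, β s y = 1}.ncard := by
    rw [← SetLike.coe_sort_coe (Q ⊓ stabilizer G x ⊔ Z), Nat.card_coe_set_eq,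
      ← Set.ncard_image_of_injective _ Subtype.val_injective,
      Subgroup.coe_mul_of_left_le_normalizer_right (Q ⊓ stabilizer G x) Z fun s hs =>
        Subgroup.centralizer_le_normalizer _ fun c hc => cen c hc s hs.1]
    refine Set.ncard_le_ncard ?_
    rintro _ ⟨s, hs, c, hc, rfl⟩
    refine ⟨⟨s * c, mul_mem hs.1 (le hc)⟩, fun t => h2 _ ?_, rfl⟩
    show (t : G) * (s * c) * (t : G)⁻¹ * (s * c)⁻¹ ∈ _
    rw [show (t : G) * (s * c) * (t : G)⁻¹ * (s * c)⁻¹ = t * s * (c * (t : G)⁻¹) * c⁻¹ * s⁻¹ by group,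
      cen c hc _ (inv_mem (Subgroup.mem_inf.1 t.2).1), ← mul_assoc, mul_inv_cancel_right]
    exact mul_mem (mul_mem (mul_mem t.2.2 hs.2) (inv_mem (Subgroup.mem_inf.1 t.2).2))
      (inv_mem (Subgroup.mem_inf.1 hs).2)
  have k5 := Local.CD.card_mul_le_card_sup_mul_card_inf (Q ⊓ stabilizer G x) Z
  rw [inf_right_comm, inf_of_le_right le] at k3 k5
  have k6 := ol_eq Q x
  have k7 := ol_eq Z x
  have p1 : 0 < Nat.card ↥(Q ⊓ stabilizer G x) := Nat.card_pos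
  have p2 : 0 < Nat.card Z := Nat.card_pos
  have k8 : Nat.card ↥(Q ⊓ stabilizer G x) ≤ a * Nat.card ↥(Z ⊓ stabilizer G x) := by
    rw [card] at k2
    generalize Nat.card ↥(Q ⊓ stabilizer G x) = s at *
    generalize Nat.card ↥(Z ⊓ stabilizer G x) = t at *
    refine (Nat.pow_le_pow_iff_left two_ne_zero).1 (Nat.le_of_mul_le_mul_right ?_ p2)
    calc s ^ 2 * Nat.card Z = s * (s * Nat.card Z) := by ring
      _ ≤ s * ({y | ∀ s, β s y = 1}.ncard * t) :=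
        Nat.mul_le_mul_left _ (k5.trans (Nat.mul_le_mul_right _ k4))
      _ = a ^ 2 * Nat.card Z * {s | ∀ y, β s y = 1}.ncard * t := by rw [← k2]; ring
      _ ≤ a ^ 2 * Nat.card Z * t * t := by gcongr
      _ = _ := by ring
  obtain ⟨k, hk⟩ := IsPGroup.iff_card.1 hQ
  obtain ⟨i, -, e1⟩ := (Nat.dvd_prime_pow Fact.out).1
    (hk ▸ card ▸ (dvd_pow_self a two_ne_zero).mul_right (Nat.card Z) : a ∣ r ^ k)
  obtain ⟨j, e2⟩ := ol_pow (hQ.to_le le) x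
  obtain ⟨m, e3⟩ := ol_pow hQ x
  have k9 : a * ol Z x ≤ ol Q x := Nat.le_of_mul_le_mul_right (by
    rw [k6, card, ← k7]
    calc a * ol Z x * _ ≤ a * ol Z x * (a * _) := Nat.mul_le_mul_left _ k8
      _ = _ := by ring) p1
  rw [e1, e2, e3, ← pow_add] at k9 ⊢
  exact pow_dvd_of_le k9

omit [Finite G] in
theorem dvd_ncard {E : Subgroup G} {e : ℕ} (n : ℕ) : ∀ S : Set Ω, S.ncard = n →
    (∀ a ∈ S, e ∣ ol E a) → (∀ x ∈ E, ∀ a ∈ S, x • a ∈ S) → e ∣ n := by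
  induction n using Nat.strong_induction_on with | _ n ih => ?_
  rintro S rfl h hS
  rcases S.eq_empty_or_nonempty with rfl | ⟨a, ha⟩
  · simp
  have sub : {b : Ω | ∃ g ∈ E, g • a = b} ⊆ S := by
    rintro _ ⟨g, hg, rfl⟩
    exact hS g hg a ha
  rw [← Set.ncard_sdiff_add_ncard_of_subset sub]
  refine dvd_add (ih _ (Set.ncard_lt_ncard (Set.sdiff_ssubset_left_iff.2
    ⟨a, ha, 1, one_mem _, one_smul _ _⟩)) _ rfl (fun b hb => h b hb.1) ?_) (h a ha)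
  rintro x hx b ⟨hb, nb⟩
  exact ⟨hS x hx b hb, fun ⟨g, hg, k⟩ => nb ⟨x⁻¹ * g, mul_mem (inv_mem hx) hg, by
    rw [mul_smul, k, inv_smul_smul]⟩⟩

theorem num {j t : ℕ} (h1 : 16 * 2 ^ (j + 1) * t < 256) (h2 : 2 ^ 7 ≤ (2 ^ (j + 1)) ^ t) :
    j = 0 ∧ t = 7 := by
  rw [← pow_mul, Nat.pow_le_pow_iff_right (by decide)] at h2
  have h3 : 0 < t := Nat.pos_of_ne_zero fun e => by simp [e] at h2
  have h4 : j < 3 := by
    by_contra n
    have : 2 ^ 4 ≤ 2 ^ (j + 1) := Nat.pow_le_pow_right (by decide) (by omega)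
    nlinarith
  interval_cases j <;> omega

/-- The property checked for all divisors. -/
def Ok (n : ℕ) : Prop :=
  n * (n - 1) ∣ 3311126603366400 → 2 ∣ n → 256 ≤ n → n = 256 ∨ n = 442 ∨ n = 4096

instance (n : ℕ) : Decidable (Ok n) := by unfold Ok; infer_instance

theorem fin : ∀ a ≤ 24, ∀ b ≤ 6, ∀ c ≤ 2, ∀ d ≤ 2, ∀ e ≤ 1, ∀ f ≤ 1,
    Ok (2 ^ a * 3 ^ b * 5 ^ c * 7 ^ d * 13 ^ e * 17 ^ f) := by
  decide +kernel

end AbF

open AbF Subgroup in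
theorem F42.mv {P Q W : Subgroup G} {z : G} (hF : F42 P Q W z) (hz : ∃ a : Ω, z • a ≠ a) :
    32 ∣ {a : Ω | z • a ≠ a}.ncard ∧ 256 ≤ {a : Ω | z • a ≠ a}.ncard := by
  classical
  have := Fact.mk Nat.prime_two
  have hQ : IsPGroup 2 Q := IsPGroup.of_card hF.cardQ
  have k1 : ∀ a : Ω, z • a ≠ a → 16 * ol W a ∣ ol Q a := fun a ha =>
    dvd hF.le hF.cen (fun x hx y hy => by
      rcases hF.com x hx y hy with e | e <;> rw [e]
      · simp
      · simpa [mul_assoc] using hF.mem) (by rw [hF.cardQ, hF.cardW]; rfl) hF.mem (fun x hx n => by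
      obtain ⟨y, hy, e⟩ := hF.full x hx n
      exact ⟨y, hy, by rw [(hF.com x hx y hy).resolve_left e]; group⟩) hQ ha
  have k2 : ∀ a : Ω, z • a ≠ a → ∃ j, ol W a = 2 ^ (j + 1) := fun a ha => by
    obtain ⟨_ | j, e⟩ := ol_pow (hQ.to_le hF.le) a
    · exact absurd (ol_eq_one_iff.1 e z hF.mem) ha
    · exact ⟨j, e⟩
  have inv : ∀ x, x * z = z * x → ∀ a : Ω, z • a ≠ a → z • x • a ≠ x • a := fun x e a ha n =>
    ha (by rwa [← mul_smul, ← e, mul_smul, smul_left_cancel_iff] at n)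
  have invQ := fun x hx => inv x (hF.cen z hF.mem x hx).symm
  refine ⟨dvd_ncard (E := Q) _ _ rfl (fun a ha => ?_) invQ, by_contra fun hlt => ?_⟩
  · obtain ⟨j, e⟩ := k2 a ha
    exact (show 32 ∣ 16 * ol W a from ⟨2 ^ j, by rw [e]; ring⟩).trans (k1 a ha)
  obtain ⟨a, ha⟩ := hz
  obtain ⟨j, hj⟩ := k2 a ha
  let K : Ω → Subgroup G := fun b => W ⊓ stabilizer G b
  let F : Set (Subgroup G) := {H | ∃ p ∈ P, K (p • a) = H}
  have cW : ∀ p ∈ P, cj p W = W := fun p hp => by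
    rw [← one_mul p, ← Cnt.cj_mul, eq_comm]
    ext x
    rw [mem_cj, mem_cj]
    simpa using mem_normalizer_iff.1 (inv_mem (hF.nor hp)) x
  have mK : ∀ p ∈ P, ∀ (b : Ω) (w : G), w ∈ K b ↔ p * w * p⁻¹ ∈ K (p • b) := fun p hp b w =>
    and_congr (mem_normalizer_iff.1 (hF.nor hp) w) (by
      change w • b = b ↔ (p * w * p⁻¹) • p • b = p • b
      simp only [mul_smul, inv_smul_smul, smul_left_cancel_iff])
  have cK : ∀ p ∈ P, ∀ b : Ω, cj p (K b) = K (p • b) := fun p hp b => by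
    ext x
    rw [mem_cj, mK p hp]
    simp [mul_assoc]
  have oW : ∀ p ∈ P, ol W (p • a) = 2 ^ (j + 1) := fun p hp => by
    rw [← hj, ← ol_cj W p a, cW p hp]
  have idx : ∀ H ∈ F, H.relIndex W = 2 ^ (j + 1) := by
    rintro _ ⟨p, hp, rfl⟩
    have e1 := ol_eq W (p • a)
    rw [← AbB.card_rel (inf_le_left : K (p • a) ≤ W), oW p hp, mul_comm] at e1
    exact (Nat.eq_of_mul_eq_mul_left Nat.card_pos e1).symm
  have nz : ∀ H ∈ F, z ∉ H := by
    rintro _ ⟨p, hp, rfl⟩ h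
    exact inv p (hF.cz p hp) a ha h.2
  have c1 := AbB.cnt K F {a : Ω | z • a ≠ a} (a := 16 * 2 ^ (j + 1)) (by
    rintro _ ⟨p, hp, rfl⟩
    have h1 := inv p (hF.cz p hp) a ha
    refine (Nat.le_of_dvd (ol_pos _ _) (oW p hp ▸ k1 _ h1)).trans (Set.ncard_le_ncard ?_)
    rintro _ ⟨x, hx, rfl⟩
    refine ⟨invQ x hx _ h1, ext fun w => and_congr_right fun hw => ?_⟩
    change w • x • p • a = x • p • a ↔ w • p • a = p • a
    rw [← mul_smul w, hF.cen w hw x hx, mul_smul, smul_left_cancel_iff])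
  have aF : K a ∈ F := ⟨1, one_mem _, by rw [one_smul]⟩
  have := Fintype.ofFinite F
  have c2 := relIndex_iInf_le (L := W) fun H : F => (H : Subgroup G)
  rw [((hF.irr _ ((iInf_le _ (⟨_, aF⟩ : F)).trans inf_le_left) fun q hq =>
    mem_normalizer_fintype fun x hx => ?_).resolve_right fun h =>
      nz _ aF (mem_iInf.1 h (⟨_, aF⟩ : F))), relIndex_bot_left, hF.cardW,
    Finset.prod_congr rfl fun (H : F) _ => idx H H.2, Finset.prod_const, Finset.card_univ,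
    ← Nat.card_eq_fintype_card, Nat.card_coe_set_eq] at c2
  swap
  · refine mem_iInf.2 fun ⟨_, p, hp, e⟩ => ?_
    have := (mK q hq _ x).1 (mem_iInf.1 hx ⟨_, q⁻¹ * p, mul_mem (inv_mem hq) hp, rfl⟩)
    rwa [mul_smul, smul_inv_smul, e] at this
  obtain ⟨rfl, h7⟩ := num (c1.trans_lt (not_le.1 hlt)) c2
  let s : Subgroup G → G → ℤˣ := fun H w => if w ∈ H then 1 else -1
  let χ : W →* ℤˣ := MonoidHom.mk' (fun w => ∏ H : F, s H w) fun u w => by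
    rw [← Finset.prod_mul_distrib]
    refine Finset.prod_congr rfl fun H _ => ?_
    have : (u * w : G) ∈ H.1 ↔ ((u : G) ∈ H.1 ↔ (w : G) ∈ H.1) :=
      mul_mem_iff_of_index_two (idx H H.2) (a := u) (b := w)
    simp only [s, coe_mul, this]
    by_cases h1 : (u : G) ∈ H.1 <;> by_cases h2 : (w : G) ∈ H.1 <;> simp [h1, h2]
  have cF : ∀ q ∈ P, ∀ H ∈ F, cj q H ∈ F := by
    rintro q hq _ ⟨p, hp, rfl⟩
    exact ⟨_, mul_mem hq hp, by rw [cK q hq, mul_smul]⟩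
  have c0 : ∀ (q : G) (H : Subgroup G), cj q⁻¹ (cj q H) = H := fun q H => by
    ext x
    rw [mem_cj, mem_cj]
    simp [mul_assoc]
  rcases hF.irr (χ.ker.map W.subtype) (map_subtype_le _) (fun q hq =>
    mem_normalizer_fintype (by
      rintro _ ⟨w, hw, rfl⟩
      refine ⟨⟨_, (mem_normalizer_iff.1 (hF.nor hq) _).1 w.2⟩, Eq.trans ?_ hw, rfl⟩
      refine (Fintype.prod_equiv ⟨fun H : F => (⟨_, cF q hq _ H.2⟩ : F),
        fun H => ⟨_, cF _ (inv_mem hq) _ H.2⟩, fun H => Subtype.ext (c0 q H), fun H =>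
          Subtype.ext (by simpa using c0 q⁻¹ H)⟩ _ _ fun H => ?_).symm
      simp [s, mem_cj, mul_assoc])) with h | ⟨w, hw, e⟩
  · have := Nat.card_le_card_of_injective χ (χ.ker_eq_bot_iff.1
      ((map_eq_bot_iff_of_injective _ W.subtype_injective).1 h))
    rw [hF.cardW, Nat.card_eq_fintype_card, Fintype.card_units_int] at this
    omega
  · have h1 : ∏ H : F, s H w = 1 := hw
    have h2 : ∀ H : F, s H w = -1 := fun H => if_neg fun h => nz H H.2 (e ▸ h)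
    rw [Finset.prod_congr rfl fun H _ => h2 H,
      Finset.prod_const, Finset.card_univ, ← Nat.card_eq_fintype_card, Nat.card_coe_set_eq,
      h7] at h1
    exact absurd h1 (by decide)

theorem f42_arith {n : ℕ} (h : n * (n - 1) ∣ 3311126603366400) (h2 : 2 ∣ n) (hn : 256 ≤ n) :
    n = 256 ∨ n = 442 ∨ n = 4096 := by
  have h1 : n ∣ 2 ^ 24 * 3 ^ 6 * 5 ^ 2 * 7 ^ 2 * 13 ^ 1 * 17 ^ 1 := Dvd.dvd.trans (Dvd.intro _ rfl) h
  obtain ⟨n1, y, h3, k, rfl⟩ := Nat.dvd_mul.1 h1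
  obtain ⟨f, hf, rfl⟩ := (Nat.dvd_prime_pow (by norm_num)).1 k
  obtain ⟨n2, y, h4, k1, rfl⟩ := Nat.dvd_mul.1 h3
  obtain ⟨e, he, rfl⟩ := (Nat.dvd_prime_pow (by norm_num)).1 k1
  obtain ⟨n3, y, h5, k2, rfl⟩ := Nat.dvd_mul.1 h4
  obtain ⟨d, hd, rfl⟩ := (Nat.dvd_prime_pow (by norm_num)).1 k2
  obtain ⟨n4, y, h6, k3, rfl⟩ := Nat.dvd_mul.1 h5
  obtain ⟨c, hc, rfl⟩ := (Nat.dvd_prime_pow (by norm_num)).1 k3
  obtain ⟨n5, y, h7, k4, rfl⟩ := Nat.dvd_mul.1 h6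
  obtain ⟨b, hb, rfl⟩ := (Nat.dvd_prime_pow (by norm_num)).1 k4
  obtain ⟨a, ha, rfl⟩ := (Nat.dvd_prime_pow (by norm_num)).1 h7
  exact AbF.fin a ha b hb c hc d hd e he f hf h h2 hn

theorem f42_arith' {c v : ℕ} (h : 442 * (442 - 1) * c = 69615 * v) (h1 : 32 ∣ v) (h2 : 256 ≤ v)
    (h3 : v ≤ 442) : False := by
  omega

end Cfsg.Lib.CKS
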