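import Cfsg.Agent.CKS.Orb

/-!
# Counting lemmas for doubly transitive actions
-/

set_option autoImplicit false

namespace Cfsg.Lib.CKS

open MulAction

variable {G Ω : Type*} [Group G] [MulAction G Ω] [Finite G] [Finite Ω]

namespace Cnt

/-- Double counting. -/
theorem dbl {α β : Type*} [Fintype α] [Fintype β] (r : α → β → Prop) :
    ∑ a, {b | r a b}.ncard = ∑ b, {a | r a b}.ncard := by
  classical
  simp only [Set.ncard_eq_toFinset_card', Set.toFinset_ofPred, Finset.card_filter]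
  exact Finset.sum_comm

theorem sum_ind {α : Type*} [Fintype α] (S : Set α) (f : α → ℕ) (e : ℕ) (h1 : ∀ a ∈ S, f a = e)
    (h2 : ∀ a ∉ S, f a = 0) : ∑ a, f a = e * S.ncard := by
  classical
  rw [Set.ncard_eq_toFinset_card', mul_comm, ← smul_eq_mul, ← Finset.sum_const,
    ← Finset.sum_subset (Finset.subset_univ S.toFinset) fun a _ n => h2 a (by simpa using n)]
  exact Finset.sum_congr rfl fun a ha => h1 a (by simpa using ha)

theorem ncard_ne {α : Type*} [Finite α] (a : α) : {b | b ≠ a}.ncard = Nat.card α - 1 := by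
  rw [← Set.ncard_univ, ← Set.ncard_sdiff_singleton_of_mem (Set.mem_univ a)]
  congr 1
  ext b
  simp

omit [Finite G] in
theorem cj_mul (g h : G) (Z : Subgroup G) : cj g (cj h Z) = cj (g * h) Z :=
  Subgroup.ext fun x => by simp only [mem_cj, mul_inv_rev, mul_assoc]

omit [Finite G] in
theorem cj_eq {g h : G} {Z : Subgroup G} :
    cj g Z = cj h Z ↔ g⁻¹ * h ∈ Subgroup.normalizer (Z : Set G) := by
  rw [Subgroup.mem_normalizer_iff'', SetLike.ext_iff]
  refine ⟨fun k x => ?_, fun k x => ?_⟩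
  · simpa [mem_cj, mul_assoc] using k (g * x * g⁻¹)
  · simpa [mem_cj, mul_assoc] using k (g⁻¹ * x * g)

end Cnt

open Cnt

theorem count1 (h : Two G Ω) {D : Set G} (hD : ∀ g, ∀ d ∈ D, g * d * g⁻¹ ∈ D) (a : Ω) :
    ∃ c : ℕ, (∀ b b' : Ω, b ≠ b' → {d | d ∈ D ∧ d • b = b'}.ncard = c) ∧
      c * (Nat.card Ω - 1) + {d | d ∈ D ∧ d • a = a}.ncard = D.ncard := by
  classical
  have := Fintype.ofFinite G
  have := Fintype.ofFinite Ω
  have := h.nt
  obtain ⟨a', ha⟩ := exists_ne a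
  have k : ∀ b b' : Ω, b ≠ b' →
      {d | d ∈ D ∧ d • b = b'}.ncard = {d | d ∈ D ∧ d • a = a'}.ncard := fun b b' n => by
    obtain ⟨g, rfl, rfl⟩ := h.tr a a' b b' ha.symm n
    rw [← Set.ncard_image_of_injective {d | d ∈ D ∧ d • a = a'} (MulAut.conj g).injective]
    congr 1
    ext d
    refine ⟨fun ⟨h1, h2⟩ => ⟨g⁻¹ * d * g⁻¹⁻¹, ⟨hD _ d h1, by simp [mul_smul, h2]⟩, by
      simp [mul_assoc]⟩, ?_⟩
    rintro ⟨d, ⟨h1, h2⟩, rfl⟩
    exact ⟨hD g d h1, by simp [mul_smul, h2]⟩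
  refine ⟨_, k, ?_⟩
  have := dbl fun (d : G) (b : Ω) => d ∈ D ∧ d • a = b
  rw [sum_ind D _ 1 (fun d hd => by simp [hd]) (fun d hd => by simp [hd]), one_mul,
    ← Finset.add_sum_erase _ _ (Finset.mem_univ a), Finset.sum_congr rfl fun b hb =>
      k a b (Finset.ne_of_mem_erase hb).symm, Finset.sum_const, smul_eq_mul,
    Finset.card_erase_of_mem (Finset.mem_univ a), Finset.card_univ, ← Nat.card_eq_fintype_card] at this
  rw [this, add_comm, mul_comm]

theorem count1_der (h : Two G Ω) {D : Set G} (hD : ∀ g, ∀ d ∈ D, g * d * g⁻¹ ∈ D)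
    (hder : ∀ d ∈ D, Der Ω d) : ∃ c : ℕ, c * (Nat.card Ω - 1) = D.ncard := by
  obtain ⟨a, -⟩ := h.nt
  obtain ⟨c, -, e⟩ := count1 h hD a
  rw [Set.eq_empty_of_forall_notMem (s := {d | d ∈ D ∧ d • a = a}) fun d k => hder d k.1 a k.2,
    Set.ncard_empty, add_zero] at e
  exact ⟨c, e⟩

theorem count2 (h : Two G Ω) {D : Set G} (hD : ∀ g, ∀ d ∈ D, g * d * g⁻¹ ∈ D)
    (hi : ∀ d ∈ D, d⁻¹ ∈ D) (hder : ∀ d ∈ D, Der Ω d) {c : ℕ}
    (hc : c * (Nat.card Ω - 1) = D.ncard) {z : G} (hz : z ∈ D) {S : Set G} (hS : S ⊆ D)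
    (hz' : z⁻¹ ∉ S) {e : ℕ} (he : ∀ s ∈ S, e ≤ fx Ω (z * s)) :
    e * S.ncard + Nat.card Ω ≤ Nat.card Ω * c := by
  classical
  have := Fintype.ofFinite G
  have := Fintype.ofFinite Ω
  have := h.nt
  obtain ⟨a, -⟩ := h.nt
  obtain ⟨c', k, e'⟩ := count1 h hD a
  rw [Set.eq_empty_of_forall_notMem (s := {d | d ∈ D ∧ d • a = a}) fun d k => hder d k.1 a k.2,
    Set.ncard_empty, add_zero, ← hc] at e'
  obtain rfl := Nat.eq_of_mul_eq_mul_right (Nat.sub_pos_of_lt Finite.one_lt_card) e'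
  have := dbl fun (d : G) (b : Ω) => d ∈ D ∧ d • b = z⁻¹ • b
  rw [Finset.sum_congr rfl fun b _ => k b _ (hder _ (hi z hz) b).symm, Finset.sum_const,
    smul_eq_mul, Finset.card_univ, ← Nat.card_eq_fintype_card] at this
  rw [← this, ← sum_ind S (fun s => if s ∈ S then e else 0) e (fun _ k => if_pos k)
    (fun _ k => if_neg k),
    ← Finset.add_sum_erase _ _ (Finset.mem_univ z⁻¹), ← Finset.add_sum_erase _ _ (Finset.mem_univ z⁻¹),
    if_neg hz', zero_add, add_comm]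
  refine add_le_add (by simp [hi z hz]) (Finset.sum_le_sum fun s _ => ?_)
  split_ifs with hs
  · refine (he s hs).trans (Set.ncard_le_ncard fun b (hb : (z * s) • b = b) => ⟨hS hs, ?_⟩)
    rw [eq_inv_smul_iff, ← mul_smul, hb]
  · exact Nat.zero_le _

theorem count3 (h : Two G Ω) {Z : Subgroup G} {q : ℕ} (hZ : ∀ a : Ω, ol Z a = q) :
    ∃ c : ℕ, c * (Nat.card Ω - 1) = (Subgroup.normalizer (Z : Set G)).index * (q - 1) := by
  classical
  have := Fintype.ofFinite (G ⧸ Subgroup.normalizer (Z : Set G))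
  have := Fintype.ofFinite Ω
  obtain ⟨a, a', ha⟩ := h.nt
  have k0 : ∀ (g : G) (c : G ⧸ Subgroup.normalizer (Z : Set G)),
      cj (g • c).out Z = cj g (cj c.out Z) := fun g c => by
    rw [cj_mul, cj_eq, ← QuotientGroup.eq, QuotientGroup.out_eq', ← smul_eq_mul,
      ← MulAction.Quotient.smul_mk, QuotientGroup.out_eq']
  have k : ∀ b ≠ a, {c : G ⧸ Subgroup.normalizer (Z : Set G) | b ≠ a ∧ ∃ g ∈ cj c.out Z,
      g • a = b}.ncard = {c : G ⧸ Subgroup.normalizer (Z : Set G) | ∃ g ∈ cj c.out Z,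
        g • a = a'}.ncard := fun b n => by
    obtain ⟨x, e, rfl⟩ := h.tr a a' a b ha n.symm
    rw [← Set.ncard_image_of_injective {c : G ⧸ Subgroup.normalizer (Z : Set G) | ∃ g ∈ cj c.out Z,
      g • a = a'} (MulAction.injective x)]
    congr 1
    ext c
    obtain ⟨c, rfl⟩ := MulAction.surjective x c
    rw [(MulAction.injective x).mem_set_image, Set.mem_ofPred_eq, k0]
    refine ⟨fun ⟨_, g, hg, e'⟩ => ⟨_, mem_cj.1 hg, by simp [mul_smul, e, e']⟩,
      fun ⟨g, hg, e'⟩ => ⟨n, x * g * x⁻¹, mem_cj.2 (by simpa [mul_assoc] using hg), ?_⟩⟩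
    rw [mul_smul, mul_smul, inv_smul_eq_iff.2 e.symm, e']
  have := dbl fun (c : G ⧸ Subgroup.normalizer (Z : Set G)) (b : Ω) =>
    b ≠ a ∧ ∃ g ∈ cj c.out Z, g • a = b
  rw [sum_ind {b | b ≠ a} _ _ k (fun b n => by simp at n; simp [n]), ncard_ne,
    Finset.sum_congr rfl (g := fun _ => q - 1) fun c _ => ?_, Finset.sum_const, smul_eq_mul,
    Finset.card_univ, ← Nat.card_eq_fintype_card] at this
  · exact ⟨_, this.symm⟩
  rw [← hZ (c.out⁻¹ • a), ← ol_cj Z c.out, smul_inv_smul, ol, ← Set.ncard_sdiff_singleton_of_mem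
    (s := {b | ∃ g ∈ cj c.out Z, g • a = b}) ⟨1, one_mem _, one_smul _ a⟩]
  exact congrArg _ (Set.ext fun _ => and_comm)

omit [Finite Ω] [MulAction G Ω] in
theorem card_Cl {Z : Subgroup G} (h : TI Z) :
    (Cl Z).ncard = (Subgroup.normalizer (Z : Set G)).index * (Nat.card Z - 1) := by
  classical
  have := Fintype.ofFinite (G ⧸ Subgroup.normalizer (Z : Set G))
  have := Fintype.ofFinite G
  have := dbl fun (c : G ⧸ Subgroup.normalizer (Z : Set G)) (x : G) => x ≠ 1 ∧ x ∈ cj c.out Z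
  rw [sum_ind (Cl Z) _ 1 ?_ ?_, one_mul,
    Finset.sum_congr rfl (g := fun _ => Nat.card Z - 1) fun c _ => ?_, Finset.sum_const, smul_eq_mul,
    Finset.card_univ, ← Nat.card_eq_fintype_card] at this
  · exact this.symm
  · rw [← card_cj c.out, ← SetLike.coe_sort_coe, Nat.card_coe_set_eq,
      ← Set.ncard_sdiff_singleton_of_mem (s := (cj c.out Z : Set G)) (one_mem _)]
    exact congrArg _ (Set.ext fun _ => and_comm)
  · rintro x ⟨h1, g, hg⟩
    have e : ∀ c : G ⧸ Subgroup.normalizer (Z : Set G), x ∈ cj c.out Z ↔ c = g⁻¹ := fun c => by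
      refine ⟨fun k => ?_, ?_⟩
      · rw [← c.out_eq', eq_comm, QuotientGroup.eq, inv_inv]
        exact h _ _ (mem_cj.1 k) (fun e => h1 (by simpa [mul_assoc] using congrArg (c.out * · * c.out⁻¹) e))
          (by simpa [mul_assoc] using hg)
      · rintro rfl
        rw [cj_eq.2 (QuotientGroup.eq.1 (QuotientGroup.out_eq' _)), mem_cj, inv_inv]
        exact hg
    simp [h1, e]
  · intro x hx
    rw [Set.ncard_eq_zero, Set.eq_empty_iff_forall_notMem]
    exact fun c k => hx ⟨k.1, c.out⁻¹, by simpa using mem_cj.1 k.2⟩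

end Cfsg.Lib.CKS
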