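import Cfsg.Agent.CKS.Defs
import Cfsg.Agent.Chev.LieModel
import Cfsg.Agent.Chev.TwistSplit
import Cfsg.Agent.Chev.OverU

/-!
# Doubly transitive actions of groups of Lie type: definitions for the Borel subgroup step
-/

set_option autoImplicit false

namespace Cfsg.Lib.CKS

open Cfsg.Lib.Chev

/-- The multiplicity of a linear character of `U` in `χ`. -/
noncomputable def mult {G : Type*} [Group G] (χ : G → ℂ) (U : Subgroup G) (l : U →* ℂˣ) : ℂ :=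
  (Nat.card U : ℂ)⁻¹ * ∑ᶠ u : U, χ u * ((l u⁻¹ : ℂˣ) : ℂ)

/-- The linear character `l` of `U` is trivial on `Q`. -/
def Kills {G : Type*} [Group G] {U : Subgroup G} (l : U →* ℂˣ) (Q : Subgroup G) : Prop :=
  ∀ u : U, (u : G) ∈ Q → l u = 1

/-- The properties of the unipotent radicals that are used. -/
structure HowData {G : Type*} [Group G] [Finite G] {P : Cfsg.BNPair G} {p : ℕ}
    (Y : BN.SplitAt P p) : Prop where
  inf : ∀ I J, Y.U (I ∩ J) ≤ Y.U I ⊔ Y.U J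
  anti : ∀ I J, I ⊆ J → Y.U J ≤ Y.U I
  ne : ∀ J : Set P.S, J.Nonempty → Y.U J ≠ Y.U ∅
  top : Y.U Set.univ = ⊥
  opp : ∀ (J : Set P.S) (n : P.N), BN.mk P n ∈ (BN.preCox P).WJ J →
    (∀ j ∈ J, BN.mk P n ∉ (BN.preCox P).P j) → Y.U ∅ ⊓ cj (n : G) P.B ≤ Y.U J
  gen : ∀ (i : P.S) (n : P.N), BN.mk P n ∈ (BN.preCox P).P i →
    Y.U {i}ᶜ ≤ (Y.U ∅ ⊓ cj (n : G) P.B) ⊔ ⁅Y.U ∅, Y.U ∅⁆

variable {ι A : Type} [Fintype ι] [DecidableEq ι] [DecidableEq A] {Γ : Type*} [Group Γ]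
  {R : WeylData ι A} {Y : RGD R Γ} {S : R.Sym}

/-- The fixed points in the root subgroups outside the rank one Levi subgroups lie in `U'`. -/
def Gen (T : Y.Twist S) : Prop :=
  spanX Y.X {r | R.Pos r ∧ ∀ i, ¬ R.InJ (S.orb i) r} ⊓ T.F ≤ ⁅Y.U ⊓ T.F, Y.U ⊓ T.F⁆

/-- A consequence of `W¹ = W_J ∪ W_J t_i W_J` for `J` the complement of the orbit of `i`. -/
def TwoCoset (S : R.Sym) (i : ι) : Prop :=
  ∀ w ∈ S.fix, ∃ v ∈ R.WJ (S.orb i)ᶜ, ∀ β ∈ R.Φ, 0 < R.stHt (S.orb i)ᶜ (R.rc β) →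
    R.stHt (S.orb i)ᶜ (R.rc (w • β)) < 0 → R.InJ (S.orb i) (v • β)

theorem mult_eq_1' : type_of% @mult.eq_1 := @mult.eq_1
theorem Kills_eq_1' : type_of% @Kills.eq_1 := @Kills.eq_1
theorem Gen_eq_1' : type_of% @Gen.eq_1 := @Gen.eq_1
theorem TwoCoset_eq_1' : type_of% @TwoCoset.eq_1 := @TwoCoset.eq_1

end Cfsg.Lib.CKS
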