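import Cfsg.Agent.CKS.Def2
import Cfsg.Agent.Chev.SubMaxTypes
import Cfsg.Agent.Chev.CoreSL2Root

/-!
# Doubly transitive actions of groups of Lie type: root subgroup configurations
-/

set_option autoImplicit false

namespace Cfsg.Lib.CKS

open Cfsg.Lib.Chev Cfsg.Lie

/-- The kernel of the action is central. -/
def CK (G Ω : Type*) [Group G] [MulAction G Ω] : Prop :=
  ∀ g : G, (∀ a : Ω, g • a = a) → g ∈ Subgroup.center G

section abs
variable {G : Type*} [Group G]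

/-- `Z` behaves like a long root subgroup of order `q` with normaliser `P` of index `m`. -/
structure RT0 (r q m : ℕ) (P Z : Subgroup G) : Prop where
  pg : IsPGroup r Z
  card : Nat.card Z = q
  one_lt : 1 < q
  nz : Subgroup.normalizer (Z : Set G) = P
  ti : TI Z
  idx : P.index = m
  nc : ∀ z ∈ Z, z ∈ Subgroup.center G → z = 1

/-- Moreover `Z` lies on a line. -/
structure RT (r q m : ℕ) (P Z : Subgroup G) : Prop extends RT0 r q m P Z where
  line : ∃ A, Line A Z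

/-- `Z'` is a conjugate of `Z` opposite to it with respect to `Q`. -/
structure Opp (Q Z Z' : Subgroup G) : Prop where
  conj : ∃ g, Z' = cj g Z
  com : ∀ u ∈ Q, ∀ z ∈ Z, u * z = z * u
  cen : ∀ u ∈ Q, ∀ z ∈ Z', z ≠ 1 → u * z = z * u → u = 1

/-- A product of non-trivial elements of `Z` and `Z'` is an `l`-element. -/
def Ord (l : ℕ) (Z Z' : Subgroup G) : Prop :=
  ∃ z₁ ∈ Z, z₁ ≠ 1 ∧ ∃ z₂ ∈ Z', z₂ ≠ 1 ∧ ∃ k : ℕ, (z₁ * z₂) ^ l ^ k = 1

/-- An `r`-subgroup centralising `S` has a conjugate of `Z` in its centre and derived group. -/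
def MG (r : ℕ) (Z S : Subgroup G) : Prop :=
  ∃ (Y : Subgroup G) (x : G), IsPGroup r Y ∧ (∀ z ∈ cj x Z, ∀ y ∈ Y, z * y = y * z) ∧
    cj x Z ≤ ⁅Y, Y⁆ ∧ ∀ y ∈ Y, ∀ s ∈ S, y * s = s * y

/-- No abelian subgroup of `Q` properly containing `Z` is normalised by `P`. -/
def Irr (P Q Z : Subgroup G) : Prop :=
  ∀ M : Subgroup G, Z ≤ M → M ≤ Q → P ≤ Subgroup.normalizer (M : Set G) →
    (∀ x ∈ M, ∀ y ∈ M, x * y = y * x) → M ≤ Z

/-- Data implying `Irr`. -/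
def IrrD (r : ℕ) (P Q Z : Subgroup G) : Prop :=
  ∃ (X : Subgroup G) (V : Set G), IsPGroup r X ∧ X ≤ P ∧
    (∀ x ∈ Q, (∀ y ∈ X, x⁻¹ * (y * x * y⁻¹) ∈ Z) → ∃ v ∈ V, ∃ z ∈ Z, x = v * z) ∧
    ∀ v ∈ V, v ≠ 1 → ∃ p ∈ P, v * (p * v * p⁻¹) ≠ (p * v * p⁻¹) * v

/-- Every element of `V` is conjugate to an element of the centre of `U`. -/
def ZC (U V : Subgroup G) : Prop :=
  ∀ v ∈ V, ∃ g : G, g * v * g⁻¹ ∈ U ∧ ∀ u ∈ U, u * (g * v * g⁻¹) = (g * v * g⁻¹) * u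

/-- Data for the action on the orbits of `A`. -/
def Blk (r a : ℕ) (A P U : Subgroup G) : Prop :=
  ∃ (Q Z : Subgroup G), Heis Q Z a ∧ IsPGroup r Q ∧ Q ≤ P ∧
    ∀ M : Subgroup G, A ≤ M → Z ≤ M → P ≤ Subgroup.normalizer (M : Set G) → U ≤ M

/-- No subgroup strictly between `Q` and `U` is normalised by `B`. -/
def Min (B U Q : Subgroup G) : Prop :=
  ∀ M : Subgroup G, Q ≤ M → M ≤ U → B ≤ Subgroup.normalizer (M : Set G) → M = Q ∨ M = U

/-- `U` is a normal Sylow `r`-subgroup of `B` meeting the centre trivially. -/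
structure Bor (r : ℕ) (B U : Subgroup G) : Prop where
  pg : IsPGroup r U
  le : U ≤ B
  nor : B ≤ Subgroup.normalizer (U : Set G)
  syl : ¬ r ∣ U.index
  nc : ∀ u ∈ U, u ∈ Subgroup.center G → u = 1
  ne : U ≠ ⊥

/-- The configuration in the long root parabolic subgroup of `F₄(2)`. -/
structure F42 (P Q W : Subgroup G) (z : G) : Prop where
  ne : z ≠ 1
  mem : z ∈ W
  le : W ≤ Q
  sq : ∀ w ∈ W, w * w = 1
  cardW : Nat.card W = 2 ^ 7
  cardQ : Nat.card Q = 2 ^ 15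
  cen : ∀ w ∈ W, ∀ x ∈ Q, w * x = x * w
  com : ∀ x ∈ Q, ∀ y ∈ Q, x * y = y * x ∨ x * y = z * (y * x)
  full : ∀ x ∈ Q, x ∉ W → ∃ y ∈ Q, x * y ≠ y * x
  nor : P ≤ Subgroup.normalizer (W : Set G)
  cz : ∀ p ∈ P, p * z = z * p
  irr : ∀ M : Subgroup G, M ≤ W → P ≤ Subgroup.normalizer (M : Set G) → M = ⊥ ∨ z ∈ M

end abs

section rgd
variable {ι A : Type} [Fintype ι] [DecidableEq ι] [DecidableEq A] {Γ : Type*} [Group Γ]
  {R : WeylData ι A}

/-- The highest root is `w α_j` and is attached to the node `j`. -/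
structure LongR (S : R.Sym) (j : ι) (w : R.W) : Prop extends S.LongRoot j w where
  one : R.rc (R.s j • w • R.simple j) j = 1

/-- The highest root subgroup. -/
def Zl (Y : RGD R Γ) (K : Subgroup Γ) (j : ι) : Subgroup K :=
  (lev R Y.X (LinearMap.proj j) 2).subgroupOf K

/-- The lowest root subgroup. -/
def Zm (Y : RGD R Γ) (K : Subgroup Γ) (j : ι) : Subgroup K :=
  (lev R Y.X (-LinearMap.proj j) 2).subgroupOf K

/-- The unipotent radical of the maximal parabolic subgroup. -/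
def Ql (Y : RGD R Γ) (K : Subgroup Γ) (j : ι) : Subgroup K := (Y.UJ {j}ᶜ).subgroupOf K

/-- The maximal parabolic subgroup. -/
def Pl (Y : RGD R Γ) (K : Subgroup Γ) (j : ι) : Subgroup K := (Y.P {j}ᶜ).subgroupOf K

/-- The rank two version of `Gen`. -/
def Gen2 {Y : RGD R Γ} {S : R.Sym} (T : Y.Twist S) (J : Set ι) : Prop :=
  spanX Y.X {r | R.Pos r ∧ R.InJ J r ∧ ∀ i, ¬ R.InJ (S.orb i) r} ⊓ T.F ≤
    ⁅Y.UL J ⊓ T.F, Y.UL J ⊓ T.F⁆

end rgd

section chev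
variable (F : Type) [Field F] {D : ChevalleyDatum} (C : Core.Cert D) (R : RootData D)

/-- The trivial twist of a Chevalley group. -/
noncomputable abbrev cT : (C.Y F R).Twist R.weyl.idSym := (C.faithful F R).idTwist

theorem cT_G1 : (cT F C R).G1 = D.group F := by
  rw [RGD.Faithful.idTwist_G1, C.group_eq_Y R, StRelW.rgd_G0']; rfl

variable {F} in
theorem cert_hH [Finite F] (p : ℕ) [Fact p.Prime] [CharP F p] (K : Subgroup (GL D.Idx F)) :
    ∀ h ∈ (C.Y F R).H, h ∈ K → (∃ k, orderOf h = p ^ k) → h = 1 := fun _ hh _ =>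
  Core.Cert.eq_one_of_mem_range_torGL R p (C.hSub_le_range R hh)

/-- The span of the root subgroups in a list, inside `K`. -/
noncomputable def XL (D : ChevalleyDatum) (K : Subgroup (GL D.Idx F)) (L : List ℕ) : Subgroup K :=
  (spanX (xSub (Core.xGL D F)) {r | r ∈ L}).subgroupOf K

end chev

theorem CK_eq_1' : type_of% @CK.eq_1 := @CK.eq_1
theorem Ord_eq_1' : type_of% @Ord.eq_1 := @Ord.eq_1
theorem MG_eq_1' : type_of% @MG.eq_1 := @MG.eq_1
theorem Irr_eq_1' : type_of% @Irr.eq_1 := @Irr.eq_1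
theorem IrrD_eq_1' : type_of% @IrrD.eq_1 := @IrrD.eq_1
theorem ZC_eq_1' : type_of% @ZC.eq_1 := @ZC.eq_1
theorem Blk_eq_1' : type_of% @Blk.eq_1 := @Blk.eq_1
theorem Min_eq_1' : type_of% @Min.eq_1 := @Min.eq_1
theorem Zl_eq_1' : type_of% @Zl.eq_1 := @Zl.eq_1
theorem Zm_eq_1' : type_of% @Zm.eq_1 := @Zm.eq_1
theorem Ql_eq_1' : type_of% @Ql.eq_1 := @Ql.eq_1
theorem Pl_eq_1' : type_of% @Pl.eq_1 := @Pl.eq_1
theorem Gen2_eq_1' : type_of% @Gen2.eq_1 := @Gen2.eq_1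
theorem cT_eq_1' : type_of% @cT.eq_1 := @cT.eq_1
theorem XL_eq_1' : type_of% @XL.eq_1 := @XL.eq_1

end Cfsg.Lib.CKS
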