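import Mathlib
import Cfsg.Prelude.Def_LieTypeChar

/-!
# Doubly transitive actions of groups of Lie type: definitions
-/

set_option autoImplicit false

namespace Cfsg.Lib.CKS

open MulAction

/-- The list of groups and degrees. -/
def Concl (G : Type*) [Group G] (n : ℕ) : Prop :=
    (∃ (F : Type) (_ : Field F) (_ : Fintype F) (l : ℕ), 3 ≤ l ∧ Nonempty (G ≃* Matrix.ProjectiveSpecialLinearGroup (Fin l) F) ∧ n * (Fintype.card F - 1) = Fintype.card F ^ l - 1) ∨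
    (∃ (F : Type) (_ : Field F) (_ : Fintype F), 4 ≤ Fintype.card F ∧ Nonempty (G ≃* Matrix.ProjectiveSpecialLinearGroup (Fin 2) F) ∧ n = Fintype.card F + 1) ∨
    (∃ (F : Type) (_ : Field F) (_ : Fintype F) (q : ℕ), 3 ≤ q ∧ Fintype.card F = q ^ 2 ∧ Nonempty (G ≃* Cfsg.PSU 3 F q) ∧ n = q ^ 3 + 1) ∨
    (∃ (F : Type) (_ : Field F) (_ : Fintype F) (m : ℕ), 1 ≤ m ∧ Fintype.card F = 2 ^ (2 * m + 1) ∧ Nonempty (G ≃* ↥(Cfsg.Lie.Sz F (2 ^ (m + 1)))) ∧ n = Fintype.card F ^ 2 + 1) ∨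
    (∃ (K : Type) (_ : Field K) (_ : Fintype K) (m : ℕ), 1 ≤ m ∧ Fintype.card K = 3 ^ (2 * m + 1) ∧ Nonempty (G ≃* ↥(Cfsg.Lie.twistedG2 K (3 ^ m))) ∧ n = Fintype.card K ^ 3 + 1) ∨
    (∃ (F : Type) (_ : Field F) (_ : Fintype F), Fintype.card F = 9 ∧ Nonempty (G ≃* Matrix.ProjectiveSpecialLinearGroup (Fin 2) F) ∧ n = 6) ∨
    (∃ (F : Type) (_ : Field F) (_ : Fintype F), Fintype.card F = 11 ∧ Nonempty (G ≃* Matrix.ProjectiveSpecialLinearGroup (Fin 2) F) ∧ n = 11) ∨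
    (∃ (F : Type) (_ : Field F) (_ : Fintype F), Fintype.card F = 2 ∧ Nonempty (G ≃* Matrix.ProjectiveSpecialLinearGroup (Fin 4) F) ∧ n = 8) ∨
    (∃ (F : Type) (_ : Field F) (_ : Fintype F) (m : ℕ), 3 ≤ m ∧ Fintype.card F = 2 ∧ Nonempty (G ≃* Cfsg.PSp m F) ∧ (n = 2 ^ (m - 1) * (2 ^ m + 1) ∨ n = 2 ^ (m - 1) * (2 ^ m - 1)))

theorem Concl_eq_1' : type_of% @Concl.eq_1 := @Concl.eq_1

theorem Concl.of_equiv {G H : Type*} [Group G] [Group H] {n : ℕ} (e : G ≃* H) (h : Concl H n) :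
    Concl G n := by
  have t : ∀ {K : Type} [Group K], Nonempty (H ≃* K) → Nonempty (G ≃* K) :=
    fun ⟨f⟩ => ⟨e.trans f⟩
  rcases h with ⟨F, _, _, l, a, b, c⟩ | ⟨F, _, _, a, b, c⟩ | ⟨F, _, _, q, a, a', b, c⟩ |
    ⟨F, _, _, q, a, a', b, c⟩ | ⟨F, _, _, q, a, a', b, c⟩ | ⟨F, _, _, a, b, c⟩ |
    ⟨F, _, _, a, b, c⟩ | ⟨F, _, _, a, b, c⟩ | ⟨F, _, _, q, a, a', b, c⟩
  · exact .inl ⟨F, _, _, l, a, t b, c⟩
  · exact .inr (.inl ⟨F, _, _, a, t b, c⟩)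
  · exact .inr (.inr (.inl ⟨F, _, _, q, a, a', t b, c⟩))
  · exact .inr (.inr (.inr (.inl ⟨F, _, _, q, a, a', t b, c⟩)))
  · exact .inr (.inr (.inr (.inr (.inl ⟨F, _, _, q, a, a', t b, c⟩))))
  · exact .inr (.inr (.inr (.inr (.inr (.inl ⟨F, _, _, a, t b, c⟩)))))
  · exact .inr (.inr (.inr (.inr (.inr (.inr (.inl ⟨F, _, _, a, t b, c⟩))))))
  · exact .inr (.inr (.inr (.inr (.inr (.inr (.inr (.inl ⟨F, _, _, a, t b, c⟩)))))))
  · exact .inr (.inr (.inr (.inr (.inr (.inr (.inr (.inr ⟨F, _, _, q, a, a', t b, c⟩)))))))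

/-- A doubly transitive action on at least two points (not necessarily faithful). -/
structure Two (G Ω : Type*) [Group G] [MulAction G Ω] : Prop where
  nt : Nontrivial Ω
  tr : ∀ a b c d : Ω, a ≠ b → c ≠ d → ∃ g : G, g • a = c ∧ g • b = d

/-- The subgroup `H` is transitive on `Ω`. -/
def Tr {G : Type*} [Group G] (H : Subgroup G) (Ω : Type*) [MulAction G Ω] : Prop :=
  ∀ a b : Ω, ∃ g ∈ H, g • a = b

/-- The subgroup `H` has a fixed point. -/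
def Fx {G : Type*} [Group G] (H : Subgroup G) (Ω : Type*) [MulAction G Ω] : Prop :=
  ∃ a : Ω, ∀ g ∈ H, g • a = a

/-- The element `g` has no fixed point. -/
def Der (Ω : Type*) {G : Type*} [Group G] [MulAction G Ω] (g : G) : Prop := ∀ a : Ω, g • a ≠ a

/-- The number of fixed points. -/
noncomputable def fx (Ω : Type*) {G : Type*} [Group G] [MulAction G Ω] (g : G) : ℕ :=
  Set.ncard {a : Ω | g • a = a}

/-- The length of the `H`-orbit of `a`. -/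
noncomputable def ol {G Ω : Type*} [Group G] [MulAction G Ω] (H : Subgroup G) (a : Ω) : ℕ :=
  Set.ncard {b : Ω | ∃ g ∈ H, g • a = b}

/-- The non-trivial elements of the conjugates of `Z`. -/
def Cl {G : Type*} [Group G] (Z : Subgroup G) : Set G :=
  {x | x ≠ 1 ∧ ∃ g : G, g * x * g⁻¹ ∈ Z}

/-- The conjugate `g Z g⁻¹`. -/
def cj {G : Type*} [Group G] (g : G) (Z : Subgroup G) : Subgroup G := Z.map (MulAut.conj g).toMonoidHom

/-- Distinct conjugates of `Z` meet trivially. -/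
def TI {G : Type*} [Group G] (Z : Subgroup G) : Prop :=
  ∀ g : G, ∀ x ∈ Z, x ≠ 1 → g * x * g⁻¹ ∈ Z → g ∈ Subgroup.normalizer (Z : Set G)

/-- `Q` is of Heisenberg type over `Z` with `|Q : Z| = a ^ 2`. -/
structure Heis {G : Type*} [Group G] (Q Z : Subgroup G) (a : ℕ) : Prop where
  le : Z ≤ Q
  cen : ∀ z ∈ Z, ∀ x ∈ Q, z * x = x * z
  com : ∀ x ∈ Q, ∀ y ∈ Q, x * y * x⁻¹ * y⁻¹ ∈ Z
  full : ∀ x ∈ Q, x ∉ Z → ∀ z ∈ Z, ∃ y ∈ Q, x * y * x⁻¹ * y⁻¹ = z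
  card : Nat.card Q = a ^ 2 * Nat.card Z

/-- `A` has order `|Z| ^ 2` and is the union of `|Z| + 1` conjugates of `Z` meeting trivially. -/
structure Line {G : Type*} [Group G] (A Z : Subgroup G) : Prop where
  card : Nat.card A = Nat.card Z ^ 2
  ex : ∃ g : Fin (Nat.card Z + 1) → G, (∀ i, cj (g i) Z ≤ A) ∧
    ∀ i j, i ≠ j → cj (g i) Z ⊓ cj (g j) Z = ⊥

theorem Tr_eq_1' : type_of% @Tr.eq_1 := @Tr.eq_1
theorem Fx_eq_1' : type_of% @Fx.eq_1 := @Fx.eq_1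
theorem Der_eq_1' : type_of% @Der.eq_1 := @Der.eq_1
theorem fx_eq_1' : type_of% @fx.eq_1 := @fx.eq_1
theorem ol_eq_1' : type_of% @ol.eq_1 := @ol.eq_1
theorem Cl_eq_1' : type_of% @Cl.eq_1 := @Cl.eq_1
theorem cj_eq_1' : type_of% @cj.eq_1 := @cj.eq_1
theorem TI_eq_1' : type_of% @TI.eq_1 := @TI.eq_1

variable {G Ω : Type*} [Group G] [MulAction G Ω]

theorem mem_cj {g x : G} {Z : Subgroup G} : x ∈ cj g Z ↔ g⁻¹ * x * g ∈ Z := by
  constructor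
  · rintro ⟨y, hy, rfl⟩
    simpa [mul_assoc] using hy
  · intro h
    exact ⟨_, h, by simp [mul_assoc]⟩

theorem card_cj (g : G) (Z : Subgroup G) : Nat.card (cj g Z) = Nat.card Z :=
  (Nat.card_congr (Z.equivMapOfInjective _ (MulAut.conj g).injective).toEquiv).symm

theorem Two.pre (h : Two G Ω) : IsPretransitive G Ω := ⟨fun a c => by
  have := h.nt
  obtain ⟨b, hb⟩ := exists_ne a
  obtain ⟨d, hd⟩ := exists_ne c
  obtain ⟨g, h1, -⟩ := h.tr a b c d hb.symm hd.symm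
  exact ⟨g, h1⟩⟩

theorem Two.mult (h : Two G Ω) : IsMultiplyPretransitive G Ω 2 :=
  is_two_pretransitive_iff.2 fun {a b c d} h1 h2 => h.tr a b c d h1 h2

theorem Two.of_mult [Nontrivial Ω] (h : IsMultiplyPretransitive G Ω 2) : Two G Ω :=
  ⟨inferInstance, fun _ _ _ _ h1 h2 => is_two_pretransitive_iff.1 h h1 h2⟩

/-- Pull back along a surjective homomorphism. -/
theorem Two.comp {H : Type*} [Group H] (f : H →* G) (hf : Function.Surjective f) (h : Two G Ω) :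
    @Two H Ω _ (MulAction.compHom Ω f) := by
  let := MulAction.compHom Ω f
  refine ⟨h.nt, fun a b c d h1 h2 => ?_⟩
  obtain ⟨g, h3⟩ := h.tr a b c d h1 h2
  obtain ⟨x, rfl⟩ := hf g
  exact ⟨x, h3⟩

theorem Two.moves (h : Two G Ω) : ∃ (g : G) (a : Ω), g • a ≠ a := by
  have := h.nt
  have := h.pre
  obtain ⟨a, b, hab⟩ := exists_pair_ne Ω
  obtain ⟨g, hg⟩ := exists_smul_eq G a b
  exact ⟨g, a, by rw [hg]; exact hab.symm⟩

theorem Tr.mono {H K : Subgroup G} (hl : H ≤ K) (h : Tr H Ω) : Tr K Ω := fun a b => by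
  obtain ⟨g, h1, h2⟩ := h a b
  exact ⟨g, hl h1, h2⟩

theorem Fx.anti {H K : Subgroup G} (hl : H ≤ K) (h : Fx K Ω) : Fx H Ω := by
  obtain ⟨a, ha⟩ := h
  exact ⟨a, fun g hg => ha g (hl hg)⟩

theorem Tr.conj {H : Subgroup G} (h : Tr H Ω) (g : G) : Tr (cj g H) Ω := fun a b => by
  obtain ⟨x, h1, h2⟩ := h (g⁻¹ • a) (g⁻¹ • b)
  refine ⟨g * x * g⁻¹, mem_cj.2 (by simpa [mul_assoc] using h1), ?_⟩
  rw [mul_smul, mul_smul, h2, smul_inv_smul]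

theorem Der.conj {x : G} (h : Der Ω x) (g : G) : Der Ω (g * x * g⁻¹) := fun a e => by
  apply h (g⁻¹ • a)
  rw [mul_smul, mul_smul] at e
  exact eq_inv_smul_iff.2 e

theorem Cl.conj {Z : Subgroup G} {x : G} (h : x ∈ Cl Z) (g : G) : g * x * g⁻¹ ∈ Cl Z := by
  obtain ⟨h1, k, hk⟩ := h
  refine ⟨fun e => h1 (by simpa [mul_inv_eq_one] using e), k * g⁻¹, ?_⟩
  simpa [mul_assoc] using hk

theorem Cl.inv {Z : Subgroup G} {x : G} (h : x ∈ Cl Z) : x⁻¹ ∈ Cl Z := by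
  obtain ⟨h1, k, hk⟩ := h
  refine ⟨by simpa using h1, k, ?_⟩
  simpa [mul_assoc] using inv_mem hk

theorem Cl.of_mem {Z : Subgroup G} {x : G} (h : x ∈ Z) (h1 : x ≠ 1) : x ∈ Cl Z :=
  ⟨h1, 1, by simpa⟩

theorem der_Cl {Z : Subgroup G} (h : ∀ z ∈ Z, z ≠ 1 → Der Ω z) : ∀ x ∈ Cl Z, Der Ω x := by
  rintro x ⟨h1, k, hk⟩
  have := (h _ hk (fun e => h1 (by simpa [mul_inv_eq_one] using e))).conj k⁻¹
  simpa [mul_assoc] using this

theorem ol_eq [Finite G] (H : Subgroup G) (a : Ω) :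
    ol H a * Nat.card ↥(H ⊓ stabilizer G a) = Nat.card H := by
  have h1 : {b : Ω | ∃ g ∈ H, g • a = b} = orbit H a := by
    ext b
    exact ⟨fun ⟨g, hg, e⟩ => ⟨⟨g, hg⟩, e⟩, fun ⟨g, e⟩ => ⟨g, g.2, e⟩⟩
  have h2 : Nat.card ↥(H ⊓ stabilizer G a) = Nat.card (stabilizer H a) := by
    refine Nat.card_congr ⟨fun x => ⟨⟨x.1, x.2.1⟩, x.2.2⟩, fun x => ⟨x.1.1, x.1.2, x.2⟩, fun _ => rfl,
      fun _ => rfl⟩
  rw [ol, h1, h2, ← Nat.card_coe_set_eq, ← Nat.card_prod]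
  exact (Nat.card_congr (orbitProdStabilizerEquivGroup H a))

end Cfsg.Lib.CKS
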