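import Cfsg.Agent.CKS.Def3

/-!
# Doubly transitive actions of groups of Lie type: the index of a parabolic subgroup
-/

set_option autoImplicit false
set_option linter.unusedSectionVars false
set_option linter.unusedVariables false

namespace Cfsg.Lib.CKS

open MulAction Cfsg.Lib.Chev Cfsg.Lie Subgroup

variable {ι A : Type} [Fintype ι] [DecidableEq ι] [DecidableEq A] {Γ : Type*} [Group Γ]
  {R : WeylData ι A} {Y : RGD R Γ} {S : R.Sym} (T : Y.Twist S) (hY : Y.Faithful)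
  {K : Subgroup Γ} [Finite K] (hK : T.G1 = K)

namespace IdxG

theorem card_subgroupOf (M K : Subgroup Γ) :
    Nat.card (M.subgroupOf K) = Nat.card (M ⊓ K : Subgroup Γ) := by
  rw [← inf_subgroupOf_right]
  exact Nat.card_congr (subgroupOfEquivOfLe inf_le_right).toEquiv

include hY in
theorem card_P_sigma (J : Set ι) : Nat.card (Y.P J ⊓ T.G1 : Subgroup Γ) =
    Nat.card (Y.B ⊓ T.G1 : Subgroup Γ) *
      Nat.card (Σ w : {v : S.fix // (v : R.W) ∈ R.WJ J}, (Y.Uneg w.1 ⊓ T.F : Subgroup Γ)) := by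
  rw [← Nat.card_prod]
  symm
  refine Nat.card_congr (Equiv.ofBijective
    (fun p => ⟨p.1 * T.rep p.2.1.1 * p.2.2, mul_mem (mul_mem (Y.B_le_P J p.1.2.1)
      ((T.lifts_rep hY p.2.1.1.2).mem_P p.2.1.2))
      (Y.B_le_P J (Y.U_le_B (Y.Uneg_le_U _ p.2.2.2.1))), mul_mem (mul_mem p.1.2.2 (T.rep_mem _))
      (T.U_inf_le_G1 hY ⟨Y.Uneg_le_U _ p.2.2.2.1, p.2.2.2.2⟩)⟩) ⟨?_, ?_⟩)
  · rintro ⟨⟨b, hb⟩, ⟨⟨w, hw⟩, h1⟩, ⟨u, hu⟩⟩ ⟨⟨b', hb'⟩, ⟨⟨w', hw'⟩, h2⟩, ⟨u', hu'⟩⟩ e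
    have e' : b * T.rep w * u = b' * T.rep w' * u' := congrArg Subtype.val e
    obtain rfl : w = w' := hY.eq_of_mem_cell
      ⟨b, hb.1, _, T.lifts_rep hY hw, u, Y.U_le_B (Y.Uneg_le_U _ hu.1), rfl⟩
      ⟨b', hb'.1, _, T.lifts_rep hY hw', u', Y.U_le_B (Y.Uneg_le_U _ hu'.1), e'⟩
    obtain ⟨rfl, rfl⟩ := hY.normal_form_unique (T.lifts_rep hY hw) hb.1 hb'.1 hu.1 hu'.1 e'
    rfl
  · rintro ⟨g, hP, hg⟩
    obtain ⟨w, h1, hw⟩ := RGD.mem_P_iff.1 hP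
    have hf := T.mem_fix_of_mem_cell hY hw (T.G1_le_F hg)
    obtain ⟨b, hb, u, hu, rfl⟩ := T.exists_of_mem_cell hY hg hw (T.rep_mem w) (T.lifts_rep hY hf)
    exact ⟨(⟨b, hb⟩, ⟨⟨⟨w, hf⟩, h1⟩, ⟨u, hu⟩⟩), rfl⟩

include hY in
theorem card_U_split {w : R.W} (hw : w ∈ S.fix) : Nat.card (Y.U ⊓ T.F : Subgroup Γ) =
    Nat.card (Y.Upos w ⊓ T.F : Subgroup Γ) * Nat.card (Y.Uneg w ⊓ T.F : Subgroup Γ) := by
  rw [← Nat.card_prod]
  symm
  refine Nat.card_congr (Equiv.ofBijective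
    (fun p => ⟨p.1 * p.2, mul_mem (Y.Upos_le_U _ p.1.2.1) (Y.Uneg_le_U _ p.2.2.1),
      mul_mem p.1.2.2 p.2.2.2⟩) ⟨?_, ?_⟩)
  · rintro ⟨⟨u, hu⟩, ⟨h, hh⟩⟩ ⟨⟨u', hu'⟩, ⟨h', hh'⟩⟩ e
    have e' : u * h = u' * h' := congrArg Subtype.val e
    have h1 : u'⁻¹ * u = h' * h⁻¹ := by
      rw [inv_mul_eq_iff_eq_mul, ← mul_assoc, ← e', mul_inv_cancel_right]
    have h2 := hY.eq_one_of_mem_Upos_Uneg (mul_mem (Subgroup.inv_mem _ hu'.1) hu.1)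
      (h1 ▸ mul_mem hh'.1 (Subgroup.inv_mem _ hh.1))
    obtain rfl := inv_mul_eq_one.1 h2
    obtain rfl := mul_left_cancel e'
    rfl
  · rintro ⟨g, hg⟩
    obtain ⟨b, hb, a, ha, rfl⟩ := Y.exists_Upos_mul_Uneg w hg.1
    obtain ⟨hbF, haF⟩ := T.split ((Y.Upos_le_U _).trans Y.U_le_G0) ((Y.Uneg_le_U _).trans Y.U_le_G0)
      (fun a ha => by have := T.map_Upos ha; rwa [S.mem_fix.1 hw] at this)
      (fun a ha => by have := T.map_Uneg ha; rwa [S.mem_fix.1 hw] at this)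
      (fun g h1 h2 => hY.eq_one_of_mem_Upos_Uneg h1 h2) hb ha hg.2
    exact ⟨(⟨b, hb, hbF⟩, ⟨a, ha, haF⟩), rfl⟩

end IdxG

open IdxG

open Classical in
include hY hK in
theorem index_P [Fintype S.fix] {q a : ℕ} (hq : q ≠ 0) (h : ∀ i, a ∣ R.len (S.t i) ∧
    Nat.card (Y.UL (S.orb i) ⊓ T.F : Subgroup Γ) = q ^ (R.len (S.t i) / a)) {J : Set ι}
    (hJ : S.Stable J) : ((Y.P J).subgroupOf K).index * ∑ v : S.fix with (v : R.W) ∈ R.WJ J, q ^ (R.len v / a) =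
      ∑ v : S.fix, q ^ (R.len v / a) := by
  subst hK
  have : ∀ w : S.fix, Finite (Y.Uneg w ⊓ T.F : Subgroup Γ) := fun w =>
    Nat.finite_of_card_ne_zero (by rw [(T.card_Uneg hY h w.2).2]; exact pow_ne_zero _ hq)
  have h1 := ((Y.P J).subgroupOf T.G1).card_mul_index
  have h0 : 0 < Nat.card (Y.B ⊓ T.G1 : Subgroup Γ) := by
    rw [← card_subgroupOf]; exact Nat.card_pos
  rw [card_subgroupOf, card_P_sigma T hY, T.card_G1_sigma hY, mul_assoc, Nat.card_sigma,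
    Nat.card_sigma] at h1
  have h2 := Nat.eq_of_mul_eq_mul_left h0 h1
  rw [Finset.sum_congr rfl fun (w : S.fix) _ => (T.card_Uneg hY h w.2).2,
    Finset.sum_congr rfl fun (w : {v : S.fix // (v : R.W) ∈ R.WJ J}) _ =>
      (T.card_Uneg hY h w.1.2).2] at h2
  rw [← h2, mul_comm]
  congr 1
  symm
  refine Finset.sum_bij (fun w _ => w.1.1) (fun w _ => ?_) (fun w _ w' _ e => Subtype.ext (Subtype.ext e))
    (fun v hv => ?_) fun _ _ => rfl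
  · simp [w.2]
  · simp only [Finset.mem_filter] at hv
    obtain ⟨h3, h4⟩ := hv
    have h5 : v ∈ S.fix := by simpa using h3
    exact ⟨⟨⟨v, h5⟩, h4⟩, Finset.mem_univ _, rfl⟩

/-- The same with the sum taken over a subtype. -/
theorem index_P' [Fintype S.fix] (T : Y.Twist S) (hY : Y.Faithful) (hK : T.G1 = K) {q a : ℕ} (hq : q ≠ 0)
    (h : ∀ i, a ∣ R.len (S.t i) ∧
    Nat.card (Y.UL (S.orb i) ⊓ T.F : Subgroup Γ) = q ^ (R.len (S.t i) / a)) {J : Set ι}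
    (hJ : S.Stable J) (L : Finset S.fix) (hL : ∀ v, v ∈ L ↔ (v : R.W) ∈ R.WJ J) :
    ((Y.P J).subgroupOf K).index * ∑ v ∈ L, q ^ (R.len v / a) = ∑ v : S.fix, q ^ (R.len v / a) := by
  classical
  rw [← index_P T hY hK hq h hJ]
  congr 1
  refine Finset.sum_bij (fun w _ => w.1) (fun w hw => ?_) (fun w _ w' _ e => Subtype.ext e)
    (fun v hv => ?_) fun _ _ => rfl
  · simp [(hL w).1 hw]
  · simp only [Finset.mem_filter] at hv
    obtain ⟨h3, h4⟩ := hv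
    have h5 : v ∈ S.fix := by simpa using h3
    exact ⟨⟨v, h5⟩, (hL _).2 h4, rfl⟩

include hY hK in
theorem card_UJ {q a : ℕ} (h : ∀ i, a ∣ R.len (S.t i) ∧
    Nat.card (Y.UL (S.orb i) ⊓ T.F : Subgroup Γ) = q ^ (R.len (S.t i) / a)) {J : Set ι}
    (hJ : S.Stable J) : Nat.card ((Y.UJ J).subgroupOf K) * q ^ (R.len (R.w0 J) / a) =
      q ^ (R.posRoots.card / a) := by
  subst hK
  rw [card_subgroupOf, T.inf_G1_eq hY (Y.UJ_le_U J), ← T.card_U hY h,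
    card_U_split T hY hJ.w0_mem_fix, (T.card_Uneg hY h hJ.w0_mem_fix).2, RGD.Upos_w0]

end Cfsg.Lib.CKS
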