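import Cfsg.Agent.CKS.IrrX
import Cfsg.Agent.CKS.IdxG
import Cfsg.Agent.Chev.SubMaxTypes

/-!
# The long root parabolic subgroup of `G₂(q)`
-/

set_option autoImplicit false
set_option quotPrecheck false
set_option linter.unusedSectionVars false

namespace Cfsg.Lib.CKS

open MulAction Cfsg.Lib.Chev Cfsg.Lie Cfsg.Lib.Class Subgroup

namespace G2H

open Core HeisH IrrX

variable {F : Type} [Field F] {D : ChevalleyDatum} (C : Cert D) (R : RootData D)

include C R in
theorem nel_mem (r : ℕ) (t : F) : nel D (xGL D F) r t ∈ D.group F :=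
  mul_mem (mul_mem (C.xGL_mem_group R _ _) (C.xGL_mem_group R _ _)) (C.xGL_mem_group R _ _)

theorem closed_ht {c : ℤ} (hc : 0 ≤ c) {L : List ℕ} (h1 : ∀ r ∈ L, r < D.nroots)
    (h2 : ∀ r, r < D.nroots → (r ∈ L ↔ c ≤ R.ht r)) : R.weyl.StClosed {r | r ∈ L} := by
  have e : {r | r ∈ L} = {r | r ∈ R.weyl.Φ ∧ c ≤ R.weyl.stHt ∅ (R.weyl.rc r)} := by
    ext r
    simp only [Set.mem_ofPred_eq, R.weyl_mem, RootData.weyl_rc, R.stHt_empty_eq]
    exact ⟨fun h => ⟨h1 r h, (h2 r (h1 r h)).1 h⟩, fun h => (h2 r h.1).2 h.2⟩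
  exact e ▸ R.weyl.stClosed_ge _ hc

include C R in
theorem card_XL {L : List ℕ} (hnd : L.Nodup) (hL : ∀ r ∈ L, D.IsPosRoot r)
    (hc : R.weyl.StClosed {r | r ∈ L}) :
    Nat.card (XL F D (D.group F) L) = Nat.card F ^ L.length := by
  rw [← card_span C R hnd hL hc]
  exact Nat.card_congr (subgroupOfEquivOfLe (span_le_group C R _)).toEquiv

theorem comm3 {G : Type*} [Group G] {y : ℕ → F → G} (h : StRel chevG2 y) (h3 : (3 : F) = 0)
    {r s : ℕ} (hc : r < chevG2.nroots ∧ s < chevG2.nroots ∧ s ≠ chevG2.neg r ∧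
      ∀ c ∈ chevG2.commTerms r s, c.1 < chevG2.nroots ∧ (c.2.1 = 3 ∨ c.2.1 = -3)) (t u : F) :
    y r t * y s u = y s u * y r t := by
  obtain ⟨h1, h2, h4, h5⟩ := hc
  by_cases e : s = r
  · rw [e, h.add r h1, h.add r h1, add_comm]
  rw [h.comm r s h1 h2 e h4, left_eq_mul, ← mem_bot]
  refine word_mem _ fun p hp => ?_
  obtain ⟨c, hc, rfl⟩ := List.mem_map.1 hp
  obtain ⟨h6, h7 | h7⟩ := h5 c hc <;> simp [h7, h3, h.zero h6]

end G2H

section chev
open Core HeisH IrrX G2H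
variable (F : Type) [Field F] [Finite F]

local notation "YG" => certG2.Y F rootG2
local notation "KG" => chevG2.group F
local notation "qq" => Nat.card F

theorem irrD_G2 (p : ℕ) [Fact p.Prime] [CharP F p] (h : (3 : F) ≠ 0) (h3 : 3 ≤ qq) :
    IrrD p (Pl YG KG (1 : Fin 2)) (Ql YG KG (1 : Fin 2)) (Zl YG KG (1 : Fin 2)) := by
  have hS := (certG2.stRelN F rootG2).toStRel
  have e1 : rootG2.weyl.s (0 : Fin 2) • 10 = 6 :=
    (rootG2.weyl_s_smul _ (by decide +kernel)).trans (by decide +kernel)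
  have e2 : rootG2.weyl.s (0 : Fin 2) • 11 = 11 :=
    (rootG2.weyl_s_smul _ (by decide +kernel)).trans (by decide +kernel)
  refine irrD_of certG2 lv_G2 (by decide +kernel) p (β := 10) (by decide +kernel)
    (nel_mem certG2 rootG2 _ 1) (certG2.lifts_nel rootG2 (0 : Fin 2) one_ne_zero)
    (subset_closure ⟨(0 : Fin 2), (by decide : ¬ (0 : Fin 2) = 1), rfl⟩) (by rw [e1]; decide +kernel) e2
    (by rw [e1, show nb chevG2 10 6 = -1 by decide +kernel]; simp) fun t H => ?_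
  have key : ∀ (u : F) (s : ℕ), s ∈ [6, 9] → ((chevG2.commWord F 7 s u 1).map fun q =>
      ((lvL rootG2 (1 : Fin 2) 1).map fun r => (nb chevG2 r q.1 : F) * t r).sum * q.2).sum = 0 := by
    intro u s hs
    have h1 : ∀ s ∈ [6, 9], s ∈ lvL rootG2 (1 : Fin 2) 1 ∧ s < chevG2.nroots ∧ s ≠ 7 ∧
        s ≠ chevG2.neg 7 ∧ ∀ c ∈ chevG2.commTerms 7 s, c.1 ∈ lvL rootG2 (1 : Fin 2) 1 := by
      decide +kernel
    obtain ⟨a1, a2, a3, a4, a5⟩ := h1 s hs
    refine H _ (inv_mem (RGD.X_le_U _ (rootG2.weyl_pos.2 (by decide +kernel)) (x_mem_xSub _ 7 u)))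
      (inv_mem (certG2.xGL_mem_group rootG2 7 u)) s a1 1 _ (fun q hq => ?_) ?_
    · obtain ⟨c, hc, rfl⟩ := List.mem_map.1 hq
      exact a5 c hc
    · rw [inv_inv, mul_assoc, hS.comm 7 s (by decide +kernel) a2 a3 a4]
      group
  have b8 := sum_nb (R := rootG2) (j := (1 : Fin 2)) (s := 8) (β := 9) (n := -3) (by decide +kernel) t
  have b9 := sum_nb (R := rootG2) (j := (1 : Fin 2)) (s := 9) (β := 8) (n := 3) (by decide +kernel) t
  have b10 := sum_nb (R := rootG2) (j := (1 : Fin 2)) (s := 10) (β := 6) (n := 1) (by decide +kernel) t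
  have b11 := sum_nb (R := rootG2) (j := (1 : Fin 2)) (s := 11) (β := 6) (n := 0) (by decide +kernel) t
  have c6 : chevG2.commTerms 7 6 = [(8, -1, 1, 1), (9, 1, 2, 1), (10, 1, 3, 1), (11, 1, 3, 2)] := by
    decide +kernel
  have c9 : chevG2.commTerms 7 9 = [(10, 3, 1, 1)] := by decide +kernel
  have h6 : t 6 = 0 := by
    have := key 1 9 (by simp)
    simp only [ChevalleyDatum.commWord, c9, List.map_cons, List.map_nil, b10] at this
    simpa [h] using this
  have h7 : ∀ u : F, u ≠ 0 → t 9 = t 8 * u := fun u hu => by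
    have := key u 6 (by simp)
    simp only [ChevalleyDatum.commWord, c6, List.map_cons, List.map_nil, b8, b9, b10, b11, h6,
      List.sum_cons, List.sum_nil] at this
    push_cast at this
    exact mul_left_cancel₀ (mul_ne_zero h hu) (by linear_combination -this)
  obtain ⟨u, h0, h1⟩ : ∃ u : F, u ≠ 0 ∧ u ≠ 1 := by
    have := Fintype.ofFinite F
    obtain ⟨u, h0, h1⟩ := exists_pow_ne_one (K := F) one_ne_zero
      (by rw [← Nat.card_eq_fintype_card]; omega)
    exact ⟨u, h0, by simpa using h1⟩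
  have h8 : t 8 = 0 := by
    have := (h7 u h0).symm.trans (h7 1 one_ne_zero)
    exact (mul_eq_mul_left_iff.1 this).resolve_left h1
  have h9 : t 9 = 0 := by rw [h7 1 one_ne_zero, h8, zero_mul]
  have hl : lvL rootG2 (1 : Fin 2) 1 = [6, 8, 9, 10, 11] := by decide +kernel
  simp [hl, h6, h8, h9]

theorem three_G2 [CharP F 3] : ∃ V V₁ : Subgroup KG, V ≤ (YG).U.subgroupOf KG ∧
    (∀ x ∈ V, ∀ y ∈ V, x * y = y * x) ∧ Nat.card V = qq ^ 4 ∧ V₁ ≤ V ∧ Nat.card V₁ = qq ^ 3 ∧
    ZC ((YG).U.subgroupOf KG) V₁ := by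
  have hW := (certG2.stRelN F rootG2).toStRelW
  have hS := hW.toStRel
  have h3 : (3 : F) = 0 := by exact_mod_cast CharP.cast_eq_zero F 3
  have l1 : ∀ r ∈ [8, 9, 10, 11], r < chevG2.nroots := by decide +kernel
  have l2 : ∀ r ∈ [9, 10, 11], r < chevG2.nroots := by decide +kernel
  have c2 := closed_ht rootG2 (c := 3) (by decide) l2 (by decide +kernel)
  have hZ : ∀ a b : F, ∀ g : KG, (g : GL chevG2.Idx F) = xGL chevG2 F 9 a * xGL chevG2 F 11 b →
      g ∈ (YG).U.subgroupOf KG ∧ ∀ u ∈ (YG).U.subgroupOf KG, u * g = g * u := fun a b g e => by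
    refine ⟨?_, fun u hu => Subtype.ext ?_⟩
    · rw [mem_subgroupOf, e]
      exact mul_mem (RGD.X_le_U _ (rootG2.weyl_pos.2 (by decide +kernel)) (x_mem_xSub _ 9 a))
        (RGD.X_le_U _ (rootG2.weyl_pos.2 (by decide +kernel)) (x_mem_xSub _ 11 b))
    · have h1 := cen_U certG2 lv_G2 (by decide +kernel) hu b
      have h2 := comm_span hS (S := {r | rootG2.weyl.Pos r}) (fun _ hr => rootG2.weyl_mem.1 hr.1)
        (fun r hr t => comm3 hS h3 ((by decide +kernel : ∀ r, r < chevG2.nroots →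
          chevG2.IsPosRoot r → r < chevG2.nroots ∧ 9 < chevG2.nroots ∧ 9 ≠ chevG2.neg r ∧
          ∀ c ∈ chevG2.commTerms r 9, c.1 < chevG2.nroots ∧ (c.2.1 = 3 ∨ c.2.1 = -3)) r
            (rootG2.weyl_mem.1 hr.1) (rootG2.weyl_pos.1 hr)) t a) hu
      rw [coe_subtype] at h1 h2
      rw [coe_mul, coe_mul, e, ← mul_assoc, h2, mul_assoc, h1, mul_assoc]
  refine ⟨XL F chevG2 KG [8, 9, 10, 11], XL F chevG2 KG [9, 10, 11], comap_mono (spanX_mono _ fun r hr =>
      rootG2.weyl_pos.2 ((by decide +kernel : ∀ r ∈ [8, 9, 10, 11], chevG2.IsPosRoot r) r hr)),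
    fun x hx y hy => Subtype.ext ?_, card_XL certG2 rootG2 (by decide) (by decide +kernel)
      (closed_ht rootG2 (c := 2) (by decide) l1 (by decide +kernel)),
    comap_mono (spanX_mono _ fun r hr => List.mem_cons_of_mem _ hr),
    card_XL certG2 rootG2 (by decide) (by decide +kernel) c2, fun v hv => ?_⟩
  · refine comm_span hS l1 (fun r hr t => (comm_span hS l1 (fun s hs u => ?_) hy).symm) hx
    exact comm3 hS h3 ((by decide +kernel : ∀ s ∈ [8, 9, 10, 11], ∀ r ∈ [8, 9, 10, 11],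
      s < chevG2.nroots ∧ r < chevG2.nroots ∧ r ≠ chevG2.neg s ∧
      ∀ c ∈ chevG2.commTerms s r, c.1 < chevG2.nroots ∧ (c.2.1 = 3 ∨ c.2.1 = -3)) s hs r hr) u t
  · obtain ⟨t, -, e⟩ := hW.exists_word rootG2 l2 c2 (LinearMap.proj (0 : Fin 2))
      (by decide +kernel : ∀ r ∈ [9, 10, 11], 0 < rootG2.rc r (0 : Fin 2)) (L := [9, 10, 11])
      (by decide) (fun _ => Iff.rfl) hv
    simp only [List.map_cons, List.map_nil, word_cons, word_nil, mul_one, coe_subtype] at e
    by_cases h0 : t 10 = 0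
    · refine ⟨1, hZ (t 9) (t 11) _ ?_⟩
      rw [one_mul, inv_one, mul_one, e, h0, hS.zero (by decide +kernel), one_mul]
    have hl := certG2.lifts_nel (F := F) rootG2 (1 : Fin 2) one_ne_zero
    obtain ⟨c, -, e1⟩ := hW.lifts_conj_x' rootG2 hl (r := 9) (by decide +kernel)
    obtain ⟨d, -, e2⟩ := hW.lifts_conj_x' rootG2 hl (r := 10) (by decide +kernel)
    have f1 : rootG2.weyl.s (1 : Fin 2) • 9 = 9 :=
      (rootG2.weyl_s_smul _ (by decide +kernel)).trans (by decide +kernel)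
    have f2 : rootG2.weyl.s (1 : Fin 2) • 10 = 11 :=
      (rootG2.weyl_s_smul _ (by decide +kernel)).trans (by decide +kernel)
    rw [f1] at e1
    rw [f2] at e2
    refine ⟨⟨_, nel_mem certG2 rootG2 (chevG2.simple (1 : Fin 2)) 1⟩ *
      ⟨_, certG2.xGL_mem_group rootG2 6 (-(t 11 / t 10))⟩, hZ (c * t 9) (d * t 10) _ ?_⟩
    have e3 : MulAut.conj (xGL chevG2 F 6 (-(t 11 / t 10))) (v : GL chevG2.Idx F) =
        xGL chevG2 F 9 (t 9) * xGL chevG2 F 10 (t 10) := by
      rw [e, map_mul, map_mul, hS.conj_eq_mul rootG2 (r := 10) (k := 11) (m := -1) (by decide +kernel),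
        MulAut.conj_apply, MulAut.conj_apply,
        (hS.commute rootG2 (r := 6) (s := 9) (by decide +kernel) (by decide +kernel)
          (by decide +kernel) (by decide +kernel) _ _).eq,
        (hS.commute rootG2 (r := 6) (s := 11) (by decide +kernel) (by decide +kernel)
          (by decide +kernel) (by decide +kernel) _ _).eq, mul_inv_cancel_right,
        mul_inv_cancel_right, mul_assoc, hS.add 11 (by decide +kernel)]
      convert congrArg _ (mul_one _)
      rw [← hS.zero (r := 11) (by decide +kernel)]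
      congr 1
      field_simp
      simp
    rw [← e1, ← e2, conj_mul, ← e3]
    simp [mul_assoc]

end chev

end Cfsg.Lib.CKS
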