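import Cfsg.Agent.CKS.HeisA

/-!
# Root subgroups inside commutator subgroups
-/

set_option autoImplicit false

namespace Cfsg.Lib.CKS.GenK

open Cfsg.Lib.Chev Cfsg.Lie Subgroup
open scoped commutatorElement

variable {F G : Type*} [Field F] [Group G] {D : ChevalleyDatum} {y : ℕ → F → G} {Y N : Subgroup G}

/-- A pair of roots to which the commutator formula applies. -/
abbrev Pr (D : ChevalleyDatum) (r s : ℕ) : Prop :=
  r < D.nroots ∧ s < D.nroots ∧ s ≠ r ∧ s ≠ D.neg r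

theorem Pr_eq_1' : type_of% @Pr.eq_1 := @Pr.eq_1

theorem word_comm (h : StRel D y) {r s : ℕ} (hp : Pr D r s) (h1 : ∀ t, y r t ∈ Y) (h2 : ∀ t, y s t ∈ Y)
    (t u : F) : word y (D.commWord F r s t u) ∈ ⁅Y, Y⁆ := by
  have e : word y (D.commWord F r s t u) = ⁅(y s u)⁻¹, (y r t)⁻¹⁆ := by
    rw [commutatorElement_def, inv_inv, inv_inv, mul_assoc, h.comm r s hp.1 hp.2.1 hp.2.2.1 hp.2.2.2]
    group
  exact e ▸ commutator_mem_commutator (inv_mem (h2 u)) (inv_mem (h1 t))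

theorem commute (h : StRel D y) {r s : ℕ} (hp : Pr D r s) (e : D.commTerms r s = []) (t u : F) :
    y s u * y r t = y r t * y s u := by
  rw [h.comm r s hp.1 hp.2.1 hp.2.2.1 hp.2.2.2, ChevalleyDatum.commWord, e]
  simp

theorem one (h : StRel D y) {r s k : ℕ} {c : ℤ} (hp : Pr D r s) (h1 : ∀ t, y r t ∈ Y)
    (h2 : ∀ t, y s t ∈ Y) (e : D.commTerms r s = [(k, c, 1, 1)]) (hc : (c : F) ≠ 0) (v : F) :
    y k v ∈ ⁅Y, Y⁆ := by
  have := word_comm h hp h1 h2 (-(v / c)) 1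
  rw [ChevalleyDatum.commWord, e] at this
  simpa [mul_div_cancel₀ _ hc] using this

theorem trick (h : StRel D y) {k l : ℕ} (hk : k < D.nroots) (hl : l < D.nroots) {a b c : F}
    (ha : a ≠ 0) (hb : b ≠ 0) (h0 : c ≠ 0) (h1 : c ≠ 1)
    (hw : ∀ t u, y k (a * t * u) * y l (b * t * u ^ 2) ∈ N) : (∀ v, y k v ∈ N) ∧ ∀ v, y l v ∈ N := by
  have k2 : ∀ v, y l v ∈ N := fun v => by
    have := mul_mem (inv_mem (hw (v / (b * (c - 1))) 1)) (hw (v / (b * (c - 1)) / c) c)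
    rw [show a * (v / (b * (c - 1)) / c) * c = a * (v / (b * (c - 1))) * 1 by field_simp, mul_inv_rev,
      mul_assoc, inv_mul_cancel_left, h.inv hl, h.add l hl] at this
    convert this using 2
    have := sub_ne_zero.2 h1
    field_simp
    ring
  refine ⟨fun v => ?_, k2⟩
  have := (N.mul_mem_cancel_right (k2 _)).1 (hw (v / a) 1)
  rwa [mul_one, mul_div_cancel₀ _ ha] at this

theorem two (h : StRel D y) {r s k l : ℕ} {a b : ℤ} (hp : Pr D r s) (h1 : ∀ t, y r t ∈ Y)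
    (h2 : ∀ t, y s t ∈ Y) (e : D.commTerms r s = [(k, a, 1, 1), (l, b, 1, 2)]) (hk : k < D.nroots)
    (hl : l < D.nroots) (ha : (a : F) ≠ 0) (hb : (b : F) ≠ 0) {c : F} (h0 : c ≠ 0) (h3 : c ≠ 1) :
    (∀ v, y k v ∈ ⁅Y, Y⁆) ∧ ∀ v, y l v ∈ ⁅Y, Y⁆ :=
  trick h hk hl ha hb h0 h3 fun t u => by
    have := word_comm h hp h1 h2 (-t) u
    rw [ChevalleyDatum.commWord, e] at this
    simpa using this

omit [Field F] in
theorem exists_ne [Finite F] {n : ℕ} (h : n < Nat.card F) (s : Finset F) (hs : s.card ≤ n) :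
    ∃ c, c ∉ s := by
  have := Fintype.ofFinite F
  obtain ⟨c, -, hc⟩ := Finset.exists_mem_notMem_of_card_lt_card (s := s) (t := Finset.univ)
    (by rw [Finset.card_univ, ← Nat.card_eq_fintype_card]; omega)
  exact ⟨c, hc⟩

theorem exists_c [Finite F] (h : 3 ≤ Nat.card F) : ∃ c : F, c ≠ 0 ∧ c ≠ 1 := by
  classical
  obtain ⟨c, hc⟩ := exists_ne (n := 2) h {0, 1} Finset.card_le_two
  exact ⟨c, by simpa using hc⟩

/-- Conjugation of a root subgroup along a word in the fundamental reflections. -/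
theorem exists_conj (h : StRelW D y) (R : RootData D) {s : ℕ} (hs : s < D.nroots) :
    ∀ ω : List ℕ, (∀ i ∈ ω, i < D.rank) → ω.foldr D.reflectRoot s < D.nroots ∧
      ∃ g : G, ∀ u, ∃ v, g * y s u * g⁻¹ = y (ω.foldr D.reflectRoot s) v
  | [], _ => ⟨hs, 1, fun u => ⟨u, by simp⟩⟩
  | i :: ω, hω => by
    obtain ⟨h1, g, hg⟩ := exists_conj h R hs ω fun j hj => hω j (List.mem_cons_of_mem _ hj)
    have hi := hω i List.mem_cons_self
    obtain ⟨η, -, -, h2⟩ := h.nconj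
    refine ⟨R.reflect_lt _ _ hi h1, nel D y (D.simple i) 1 * g, fun u => ?_⟩
    obtain ⟨v, e⟩ := hg u
    exact ⟨_, by rw [List.foldr_cons, ← h2 i _ hi h1 1 v one_ne_zero, ← e]; group⟩

end Cfsg.Lib.CKS.GenK
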