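import Cfsg.Agent.CKS.Def3
import Cfsg.Agent.Chev.TwGRD

/-!
# Reduction of `Gen` to relative rank two
-/

set_option autoImplicit false

namespace Cfsg.Lib.CKS

open Cfsg.Lib.Chev Subgroup

variable {ι A : Type} [Fintype ι] [DecidableEq ι] [DecidableEq A] {Γ : Type*} [Group Γ]
  {R : WeylData ι A} {Y : RGD R Γ} {S : R.Sym}

namespace GenRed

theorem inJ_of_eqv {J : Set ι} (hJ : S.Stable J) {r s : A} (h : S.Eqv r s) (hs : R.Pos s) (h1 : R.InJ J s) :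
    R.InJ J r := by_contra fun h2 => (R.pos_w0_smul_iff h1).1 ((h _ hJ.w0_mem_fix).1
      (R.pos_smul_of_not_inJ (R.w0_mem J) (h.pos_iff.2 hs) h2)) hs

/-- A positive root outside the rank one systems comes from a system of relative rank two. -/
theorem exists_two {r : A} (hr : R.Pos r) (h : ∀ i, ¬ R.InJ (S.orb i) r) : ∃ i i', ∃ w ∈ S.fix,
    (∀ j ∈ S.orb i ∪ S.orb i', R.Pos (w • R.simple j)) ∧ R.Pos (w⁻¹ • r) ∧
      R.InJ (S.orb i ∪ S.orb i') (w⁻¹ • r) ∧ ∀ k, ¬ R.InJ (S.orb k) (w⁻¹ • r) := by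
  classical
  have h0 : ∃ n, ∃ w ∈ S.fix, R.len w = n ∧ ∃ i, R.InJ (S.orb i) (w⁻¹ • r) := by
    obtain ⟨w, k, e⟩ := (S.cox id fun i => ⟨i, S.self_mem_orb i⟩).exists_simple hr.1
    have e1 : S.Eqv ((w : R.W)⁻¹ • r) (R.simple k) := by
      simpa [Subgroup.smul_def, WeylData.Sym.cox] using WeylData.Sym.Eqv.smul e (inv_mem w.2)
    exact ⟨_, w, w.2, rfl, k, e1.inJ (S.inJ_orb k)⟩
  obtain ⟨w, hw, e, i, h1⟩ := Nat.find_spec h0
  obtain ⟨i', h2⟩ := R.exists_not_pos_of_ne_one (w := w) (by rintro rfl; exact h i (by simpa using h1))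
  obtain ⟨v, hv, hv', h3⟩ := WeylData.Sym.exists_min_rep_fix ((S.stable_orb i).union (S.stable_orb i')) hw
  have h4 : R.InJ (S.orb i ∪ S.orb i') ((w * v)⁻¹ • r) := by
    rw [mul_inv_rev, mul_smul]
    exact R.inJ_smul (inv_mem hv) ⟨h1.1, fun j hj => h1.2 j fun h => hj (Or.inl h)⟩
  refine ⟨i, i', w * v, mul_mem hw hv', h3, (R.pos_smul_iff_of_inJ h3 h4).1 (by rwa [smul_inv_smul]), h4,
    fun k hk => Nat.find_min h0 (m := R.len (w * v)) ?_ ⟨_, mul_mem hw hv', rfl, k, hk⟩⟩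
  have h5 := R.len_mul_of_min h3 (inv_mem hv)
  rw [mul_inv_cancel_right] at h5
  have h6 : R.len v⁻¹ ≠ 0 := fun h => h2 (by
    simpa [inv_eq_one.1 (R.len_eq_zero_iff.1 h)] using h3 i' (Or.inr (S.self_mem_orb i')))
  omega

end GenRed

variable (T : Y.Twist S) (hY : Y.Faithful)

include hY in
theorem gen_of_gen2 (h : ∀ i i', Gen2 T (S.orb i ∪ S.orb i')) : Gen T := fun g hg => by
  refine spanX_le_iff.2 (fun r hr a ha => ?_) (T.mem_span_of_neg hY rfl S.w0_univ_mem_fix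
    {r | R.Pos r ∧ ∀ i, ¬ R.InJ (S.orb i) r}
    (fun r hr => ⟨hr.1, by rw [R.pos_w0_univ_smul_iff hr.1.1]; exact not_not.2 hr.1⟩)
    (fun r hr s hs k hk => And.intro (hk.pos hr.1 hs.1) <| fun i hi => hr.2 i ⟨hr.1.1, fun j hj => ?_⟩)
    (fun r hr s hs => And.intro (hs.2.pos_iff.2 hr.1) fun i hi => hr.2 i (hs.2.symm.inJ hi)) g hg)
  · obtain ⟨i, i', w, hw, h1, h2, h3, h4⟩ := GenRed.exists_two hr.1 hr.2
    obtain ⟨m, hm, hl⟩ := T.exists_lifts hY hw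
    have hF := T.G1_le_F hm
    have h5 := h i i' (x := m⁻¹ * a * m⁻¹⁻¹) ⟨spanX_mono _ (fun s hs => And.intro (hs.2.pos_iff.2 h2)
      ⟨GenRed.inJ_of_eqv ((S.stable_orb i).union (S.stable_orb i')) hs.2 h2 h3,
        fun k hk => h4 k (hs.2.symm.inJ hk)⟩) (RGD.Twist.conj_cls (inv_mem hw) hl.inv ha.1),
      T.F.mul_mem (mul_mem (inv_mem hF) (T.G1_le_F ha.2)) (inv_mem (inv_mem hF))⟩
    have h6 : (Y.UL (S.orb i ∪ S.orb i') ⊓ T.F).map (MulAut.conj m).toMonoidHom ≤ Y.U ⊓ T.F := by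
      rintro _ ⟨x, hx, rfl⟩
      exact ⟨hl.conj_spanX (fun _ h => h.1.1) (fun s hs => R.pos_smul_of_inJ h1 hs.1 hs.2) hx.1,
        T.F.mul_mem (mul_mem hF hx.2) (inv_mem hF)⟩
    have h7 := mem_map_of_mem (MulAut.conj m).toMonoidHom h5
    rw [map_commutator] at h7
    simpa [mul_assoc] using commutator_mono h6 h6 h7
  · obtain ⟨-, a, b, ha, hb, e⟩ := hk
    have e2 := hi.2 j hj
    have k3 : (0 : ℤ) ≤ _ := hr.1.2 j
    have k4 : (0 : ℤ) ≤ _ := hs.1.2 j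
    simp only [e, Pi.add_apply, Pi.smul_apply, smul_eq_mul] at e2
    nlinarith

end Cfsg.Lib.CKS
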