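import Cfsg.Agent.CKS.GenK

/-!
# The non simple positive root subgroups lie in the derived subgroup of `U`
-/

set_option autoImplicit false
set_option linter.unusedSectionVars false
set_option synthInstance.maxSize 4000

namespace Cfsg.Lib.CKS

open Cfsg.Lib.Chev Cfsg.Lie Subgroup Core
open scoped commutatorElement

namespace GenU

open GenK

theorem mem_F {ι A : Type} [Fintype ι] [DecidableEq ι] [DecidableEq A] {Γ : Type*} [Group Γ]
    {R : WeylData ι A} {Y : RGD R Γ} (hY : Y.Faithful) {g : Γ} (h : g ∈ Y.G0) : g ∈ hY.idTwist.F :=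
  ⟨h, rfl⟩

variable {F : Type} [Field F] {D : ChevalleyDatum} (C : Cert D) (R : RootData D)

theorem mem_U {r : ℕ} (hr : D.IsPosRoot r) (t : F) :
    xGL D F r t ∈ (C.Y F R).U ⊓ (cT F C R).F := by
  have : xGL D F r t ∈ (C.Y F R).U :=
    mem_spanX (C.Y F R).X (T := {r | R.weyl.Pos r}) (r := r) (R.weyl_pos.2 hr) (x_mem_xSub _ _ _)
  exact mem_inf.2 ⟨this, mem_F _ ((C.Y F R).U_le_G0 this)⟩

theorem gen (h : ∀ k, D.IsPosRoot k → (∀ i, i < D.rank → k ≠ D.simple i) → ∀ v, xGL D F k v ∈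
    ⁅(C.Y F R).U ⊓ (cT F C R).F, (C.Y F R).U ⊓ (cT F C R).F⁆) : Gen (cT F C R) := by
  refine inf_le_left.trans (spanX_le_iff.2 fun k hk => (closure_le _).2 ?_)
  rintro _ ⟨v, rfl⟩
  refine h k (R.weyl_pos.1 hk.1) (fun i hi e => hk.2 ⟨i, hi⟩ ?_) v
  rw [e]
  exact R.weyl.inJ_simple_iff.2 (R.weyl.idSym.self_mem_orb ⟨i, hi⟩)

/-- The check in the simply laced case. -/
abbrev Chk (D : ChevalleyDatum) : Prop :=
  ∀ k < D.nroots, D.IsPosRoot k → (∃ i < D.rank, k = D.simple i) ∨ ∃ i < D.rank,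
    ∃ s ∈ D.chainRoot (D.neg (D.simple i)) k 1, D.IsPosRoot (D.simple i) ∧ D.IsPosRoot s ∧
      Pr D (D.simple i) s ∧ ∃ c ∈ [1, -1], D.commTerms (D.simple i) s = [(k, c, 1, 1)]

theorem Chk_eq_1' : type_of% @Chk.eq_1 := @Chk.eq_1

theorem sign {c : ℤ} (h : c ∈ [1, -1]) : (c : F) ≠ 0 := by
  simp only [List.mem_cons, List.not_mem_nil, or_false] at h
  rcases h with rfl | rfl <;> simp

theorem gen_of_chk (h : Chk D) : Gen (cT F C R) := gen C R fun k hk hn v => by
  rcases h k hk.1 hk with ⟨i, hi, e⟩ | ⟨i, -, s, -, h1, h2, h3, c, hc, e⟩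
  · exact absurd e (hn i hi)
  · exact one (C.stRelN F R).toStRel h3 (mem_U C R h1) (mem_U C R h2) e (sign hc) v

end GenU

open GenU GenK

variable (F : Type) [Field F] [Finite F]

theorem gen_G2 (h : 4 ≤ Nat.card F) : Gen (cT F certG2 rootG2) := by
  classical
  obtain ⟨c, hc⟩ := exists_ne (F := F) (n := 3) h {0, 1, -1} Finset.card_le_three
  simp only [Finset.mem_insert, Finset.mem_singleton, not_or] at hc
  have H := (certG2.stRelN F rootG2).toStRel
  have m : ∀ r, chevG2.IsPosRoot r → ∀ t, _ := fun r hr => mem_U (F := F) certG2 rootG2 (r := r) hr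
  generalize hN : (certG2.Y F rootG2).U ⊓ (cT F certG2 rootG2).F = N at m
  have k11 := one H (r := 6) (s := 10) (k := 11) (c := 1) (by decide +kernel) (m 6 (by decide +kernel))
    (m 10 (by decide +kernel)) (by decide +kernel) (by simp)
  have w : ∀ t u : F, xGL chevG2 F 8 (t * u) * (xGL chevG2 F 9 (t * u ^ 2) *
      xGL chevG2 F 10 (-(t * u ^ 3))) ∈ ⁅N, N⁆ := fun t u => by
    have := word_comm H (r := 6) (s := 7) (by decide +kernel) (m 6 (by decide +kernel))
      (m 7 (by decide +kernel)) (-t) u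
    rw [ChevalleyDatum.commWord, show chevG2.commTerms 6 7 =
      [(8, 1, 1, 1), (9, 1, 1, 2), (10, -1, 1, 3), (11, -2, 2, 3)] by decide +kernel] at this
    simp only [List.map_cons, List.map_nil, word_cons, word_nil, mul_one, ← mul_assoc] at this
    simpa [mul_assoc] using (Subgroup.mul_mem_cancel_right _ (k11 _)).1 this
  have h9 : 9 < chevG2.nroots := by decide +kernel
  have h10 : 10 < chevG2.nroots := by decide +kernel
  obtain ⟨k9, k10⟩ := trick H (N := ⁅N, N⁆) h9 h10 (a := c - 1) (b := 1 - c ^ 2) (sub_ne_zero.2 hc.2.1)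
    (fun e => (mul_eq_zero.1 (by linear_combination -e : (c - 1) * (c + 1) = 0)).elim
      (sub_ne_zero.2 hc.2.1) fun e' => hc.2.2 (eq_neg_of_add_eq_zero_left e')) hc.1 hc.2.1 fun t u => by
      rcases eq_or_ne u 0 with rfl | hu
      · simp [H.zero h9, H.zero h10]
      have := mul_mem (inv_mem (w (t / u) u)) (w (t / u / c) (c * u))
      rw [show t / u / c * (c * u) = t / u * u by field_simp [hc.1], mul_inv_rev, mul_assoc,
        inv_mul_cancel_left, mul_inv_rev, mul_assoc, H.inv h9, H.inv h10, ← mul_assoc (xGL _ _ 9 _),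
        H.add 9 h9,
        ← mul_assoc, commute H (r := 9) (s := 10) (by decide +kernel) (by decide +kernel), mul_assoc,
        H.add 10 h10] at this
      convert this using 3 <;> field_simp [hc.1] <;> ring
  refine gen _ _ fun k hk hn v => ?_
  rw [hN]
  rcases (by decide +kernel : ∀ k < chevG2.nroots, chevG2.IsPosRoot k → k = chevG2.simple 0 ∨
    k = chevG2.simple 1 ∨ k = 8 ∨ k = 9 ∨ k = 10 ∨ k = 11) k hk.1 hk with e | e | rfl | rfl | rfl | rfl
  · exact absurd e (hn 0 (by decide))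
  · exact absurd e (hn 1 (by decide))
  · simpa using (Subgroup.mul_mem_cancel_right _ (mul_mem (k9 _) (k10 _))).1 (w v 1)
  exacts [k9 v, k10 v, k11 v]

theorem gen_F4 (h : 3 ≤ Nat.card F) : Gen (cT F certF4 rootF4) := gen _ _ fun k hk hn v => by
  obtain ⟨c, h0, h1⟩ := exists_c h
  have H := (certF4.stRelN F rootF4).toStRel
  rcases (by decide +kernel : ∀ k < chevF4.nroots, chevF4.IsPosRoot k →
    (∃ i < chevF4.rank, k = chevF4.simple i) ∨ ∃ r < 48, chevF4.IsPosRoot r ∧ ∃ s < 48,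
      chevF4.IsPosRoot s ∧ Pr chevF4 r s ∧ ∃ a ∈ [1, -1], (chevF4.commTerms r s = [(k, a, 1, 1)] ∨
        ∃ b ∈ [1, -1], ∃ l ∈ (chevF4.commTerms r s).map Prod.fst, l < chevF4.nroots ∧
          (chevF4.commTerms r s = [(k, a, 1, 1), (l, b, 1, 2)] ∨
            chevF4.commTerms r s = [(l, a, 1, 1), (k, b, 1, 2)]))) k hk.1 hk with
    ⟨i, hi, e⟩ | ⟨r, -, hr, s, -, hs, hp, a, ha, e | ⟨b, hb, l, -, hl, e | e⟩⟩
  · exact absurd e (hn i hi)
  · exact one H hp (mem_U _ _ hr) (mem_U _ _ hs) e (sign ha) v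
  · exact (two H hp (mem_U _ _ hr) (mem_U _ _ hs) e hk.1 hl (sign ha) (sign hb) h0 h1).1 v
  · exact (two H hp (mem_U _ _ hr) (mem_U _ _ hs) e hl hk.1 (sign ha) (sign hb) h0 h1).2 v

theorem gen_E6 : Gen (cT F certE6 rootE6) := gen_of_chk _ _ (by decide +kernel)
theorem gen_E7 : Gen (cT F certE7 rootE7) := gen_of_chk _ _ (by decide +kernel)
theorem gen_E8 : Gen (cT F certE8 rootE8) := gen_of_chk _ _ (by decide +kernel)

end Cfsg.Lib.CKS
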