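import Cfsg.Agent.CKS.Def3

/-!
# The unipotent radical of the long root parabolic subgroup: the commutator form
-/

set_option autoImplicit false

namespace Cfsg.Lib.CKS.HeisH

open Cfsg.Lib.Chev Cfsg.Lie

variable {F G : Type*} [Field F] [Group G] {D : ChevalleyDatum} {y : ℕ → F → G}

/-- The coefficient of the commutator of two roots of level one. -/
def nb (D : ChevalleyDatum) (r s : ℕ) : ℤ := ((D.commTerms r s).map fun c => c.2.1).sum

theorem nb_eq_1' : type_of% @nb.eq_1 := @nb.eq_1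

/-- `θ` is the only root of level two at `j` and no root has a higher level. -/
structure LV (R : RootData D) (j : Fin D.rank) (θ : ℕ) : Prop where
  lt : θ < D.nroots
  lv : ∀ r, r < D.nroots → R.rc r j ≤ 2 ∧ (2 ≤ R.rc r j ↔ r = θ)

theorem word_same (h : StRel D y) {θ : ℕ} (hθ : θ < D.nroots) :
    ∀ v : List (ℕ × F), (∀ p ∈ v, p.1 = θ) → word y v = y θ (v.map Prod.snd).sum
  | [], _ => by simp [h.zero hθ]
  | p :: v, hv => by
    rw [word_cons, word_same h hθ v fun q hq => hv q (List.mem_cons_of_mem _ hq),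
      hv p List.mem_cons_self, h.add θ hθ]
    simp

variable {R : RootData D} {j : Fin D.rank} {θ : ℕ}

theorem LV.term (hL : LV R j θ) {r s : ℕ} (hr : r < D.nroots) (hs : s < D.nroots)
    (h1 : 1 ≤ R.rc r j) (h2 : 1 ≤ R.rc s j) {c : ℕ × ℤ × ℕ × ℕ} (hc : c ∈ D.commTerms r s) :
    c.1 = θ ∧ c.2.2.1 = 1 ∧ c.2.2.2 = 1 ∧ R.rc θ = R.rc r + R.rc s := by
  obtain ⟨a1, a2, a3, a4⟩ := R.commTerms_spec hr hs hc
  have e := congrFun a4 j
  simp only [Pi.add_apply, Pi.smul_apply, smul_eq_mul] at e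
  have b1 := (hL.lv _ a1).1
  have a2' : (1 : ℤ) ≤ c.2.2.1 := by exact_mod_cast a2
  have a3' : (1 : ℤ) ≤ c.2.2.2 := by exact_mod_cast a3
  have c1 : (c.2.2.1 : ℤ) ≤ 1 := by nlinarith
  have c2 : (c.2.2.2 : ℤ) ≤ 1 := by nlinarith
  have d1 : c.2.2.1 = 1 := by omega
  have d2 : c.2.2.2 = 1 := by omega
  have d3 : c.1 = θ := (hL.lv _ a1).2.1 (by nlinarith)
  refine ⟨d3, d1, d2, ?_⟩
  rw [← d3, a4, d1, d2]; simp

theorem LV.sum_of_nb (hL : LV R j θ) {r s : ℕ} (hr : r < D.nroots) (hs : s < D.nroots)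
    (h1 : 1 ≤ R.rc r j) (h2 : 1 ≤ R.rc s j) (h : nb D r s ≠ 0) : R.rc θ = R.rc r + R.rc s := by
  cases e : D.commTerms r s with
  | nil => simp [nb, e] at h
  | cons c l => exact (hL.term hr hs h1 h2 (c := c) (by simp [e])).2.2.2

theorem LV.comm_x (hL : LV R j θ) (h : StRel D y) {r s : ℕ} (hr : r < D.nroots) (hs : s < D.nroots)
    (h1 : 1 ≤ R.rc r j) (h2 : 1 ≤ R.rc s j) (t u : F) :
    y s u * y r t = y r t * y s u * y θ (-((nb D r s : F) * t * u)) := by
  by_cases e : s = r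
  · subst e
    have : D.commTerms s s = [] := R.commTerms_eq_nil hs hs (by
      cases e : D.chainRoot s s 1 with
      | none => rfl
      | some k => exact absurd rfl (R.chainRoot_spec hs hs le_rfl e).1)
    rw [nb, this, h.add s hs, h.add s hs, add_comm]
    simp [h.zero hL.lt]
  have e2 : s ≠ D.neg r := fun e' => by
    rw [e', R.rc_neg r hr, Pi.neg_apply] at h2
    omega
  rw [h.comm r s hr hs e e2, word_same h hL.lt]
  · congr 2
    rw [ChevalleyDatum.commWord, List.map_map, nb]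
    have : ∀ l : List (ℕ × ℤ × ℕ × ℕ), (∀ c ∈ l, c.2.2.1 = 1 ∧ c.2.2.2 = 1) →
        (l.map (Prod.snd ∘ fun c : ℕ × ℤ × ℕ × ℕ =>
          (c.1, (c.2.1 : F) * (-t) ^ c.2.2.1 * u ^ c.2.2.2))).sum =
        -((((l.map fun c => c.2.1).sum : ℤ) : F) * t * u) := by
      intro l hl
      induction l with
      | nil => simp
      | cons c l ih =>
        rw [List.map_cons, List.sum_cons, ih fun d hd => hl d (List.mem_cons_of_mem _ hd)]
        obtain ⟨e1, e2⟩ := hl c List.mem_cons_self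
        simp only [Function.comp, e1, e2, List.map_cons, List.sum_cons]
        push_cast; ring
    exact this _ fun c hc => ⟨(hL.term hr hs h1 h2 hc).2.1, (hL.term hr hs h1 h2 hc).2.2.1⟩
  · intro p hp
    obtain ⟨c, hc, rfl⟩ := List.mem_map.1 hp
    exact (hL.term hr hs h1 h2 hc).1

theorem LV.nb_θ (hL : LV R j θ) {r : ℕ} (hr : r < D.nroots) (h1 : 1 ≤ R.rc r j) :
    nb D r θ = 0 := by
  by_contra h
  have h2 := (hL.lv θ hL.lt).2.2 rfl
  have := congrFun (hL.sum_of_nb hr hL.lt h1 (by omega) h) j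
  simp only [Pi.add_apply] at this
  omega

theorem LV.cen_x (hL : LV R j θ) (h : StRel D y) {r : ℕ} (hr : r < D.nroots) (h1 : 1 ≤ R.rc r j)
    (t u : F) : y θ u * y r t = y r t * y θ u := by
  have h2 := (hL.lv θ hL.lt).2.2 rfl
  rw [hL.comm_x h hr hL.lt h1 (by omega), hL.nb_θ hr h1]
  simp [h.zero hL.lt]

theorem LV.cen_word (hL : LV R j θ) (h : StRel D y) (u : F) : ∀ v : List (ℕ × F),
    (∀ p ∈ v, p.1 < D.nroots ∧ 1 ≤ R.rc p.1 j) → y θ u * word y v = word y v * y θ u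
  | [], _ => by simp
  | p :: v, hv => by
    obtain ⟨a, b⟩ := hv p List.mem_cons_self
    rw [word_cons, ← mul_assoc, hL.cen_x h a b, mul_assoc,
      hL.cen_word h u v fun q hq => hv q (List.mem_cons_of_mem _ hq), mul_assoc]

/-- The commutator of a word in the level one root elements with a root element. -/
theorem LV.comm_word (hL : LV R j θ) (h : StRel D y) {s : ℕ} (hs : s < D.nroots)
    (h2 : 1 ≤ R.rc s j) (u : F) : ∀ v : List (ℕ × F), (∀ p ∈ v, p.1 < D.nroots ∧ 1 ≤ R.rc p.1 j) →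
      y s u * word y v =
        word y v * y s u * y θ (-((v.map fun p => (nb D p.1 s : F) * p.2).sum * u))
  | [], _ => by simp [h.zero hL.lt]
  | p :: v, hv => by
    obtain ⟨a, b⟩ := hv p List.mem_cons_self
    have hv' := fun q hq => hv q (List.mem_cons_of_mem p hq)
    rw [word_cons, ← mul_assoc, hL.comm_x h a hs b h2, mul_assoc, hL.cen_word h _ v hv',
      ← mul_assoc, mul_assoc (y p.1 p.2), hL.comm_word h hs h2 u v hv']
    simp only [mul_assoc]
    rw [h.add θ hL.lt]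
    congr 4
    simp only [List.map_cons, List.sum_cons]
    ring

/-- The roots of level at least `c`. -/
def lvL (R : RootData D) (j : Fin D.rank) (c : ℤ) : List ℕ :=
  (List.range D.nroots).filter fun r => c ≤ R.rc r j

theorem lvL_eq_1' : type_of% @lvL.eq_1 := @lvL.eq_1

theorem mem_lvL {c : ℤ} {r : ℕ} : r ∈ lvL R j c ↔ r < D.nroots ∧ c ≤ R.rc r j := by
  simp [lvL]

theorem nodup_lvL (c : ℤ) : (lvL R j c).Nodup := List.nodup_range.filter _

theorem lev_eq (y : ℕ → F → G) (c : ℤ) : lev R.weyl (xSub y) (LinearMap.proj j) c =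
    spanX (xSub y) {r | r ∈ lvL R j c} := by
  rw [lev]
  congr 1
  ext r
  simp only [Set.mem_setOf_eq, mem_lvL, R.weyl_mem]
  rfl

theorem closed_lvL {c : ℤ} (hc : 0 < c) : R.weyl.StClosed {r | r ∈ lvL R j c} := by
  intro r hr s hs k hk
  obtain ⟨i, l, hi, hl, e⟩ := WeylData.StCone.exists_apply hk (LinearMap.proj j)
  have h1 := (mem_lvL.1 hr).2
  have h2 := (mem_lvL.1 hs).2
  refine mem_lvL.2 ⟨R.weyl_mem.1 hk.1, ?_⟩
  change R.rc k j = i * R.rc r j + l * R.rc s j at e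
  rw [e]; nlinarith

theorem exists_word_lev (h : StRelW D y) {c : ℤ} (hc : 0 < c) {g : G}
    (hg : g ∈ lev R.weyl (xSub y) (LinearMap.proj j) c) :
    ∃ t : ℕ → F, g = word y ((lvL R j c).map fun r => (r, t r)) := by
  rw [lev_eq] at hg
  obtain ⟨t, -, e⟩ := h.exists_word R (fun r hr => (mem_lvL.1 hr).1) (closed_lvL hc)
    (LinearMap.proj j) (fun r hr => hc.trans_le (mem_lvL.1 hr).2) (nodup_lvL c) (fun _ => Iff.rfl) hg
  exact ⟨t, e⟩

theorem LV.lev_two (hL : LV R j θ) (y : ℕ → F → G) :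
    lev R.weyl (xSub y) (LinearMap.proj j) 2 = xSub y θ := by
  rw [lev_eq, ← spanX_singleton (xSub y)]
  congr 1
  ext r
  simp only [Set.mem_setOf_eq, mem_lvL, Set.mem_singleton_iff]
  exact ⟨fun h => (hL.lv r h.1).2.1 h.2, fun h => h ▸ ⟨hL.lt, (hL.lv θ hL.lt).2.2 rfl⟩⟩

/-- Only the partner of `s` contributes to the commutator. -/
theorem LV.sum_eq (hL : LV R j θ) {β s : ℕ} (hβ : β ∈ lvL R j 1) (hs : s ∈ lvL R j 1)
    (e : R.rc θ = R.rc β + R.rc s) (t : ℕ → F) :
    (((lvL R j 1).map fun r => (r, t r)).map fun p => (nb D p.1 s : F) * p.2).sum =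
      (nb D β s : F) * t β := by
  rw [List.map_map, ← List.sum_toFinset _ (nodup_lvL 1), Finset.sum_eq_single β]
  · rfl
  · intro r hr hne
    have hr' := mem_lvL.1 (List.mem_toFinset.1 hr)
    have : nb D r s = 0 := by
      by_contra h
      have := hL.sum_of_nb hr'.1 (mem_lvL.1 hs).1 hr'.2 (mem_lvL.1 hs).2 h
      exact hne (R.rc_inj hr'.1 (mem_lvL.1 hβ).1 (add_right_cancel (this.symm.trans e)))
    simp [this]
  · intro h
    exact absurd (List.mem_toFinset.2 hβ) h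

/-- The commutator of an element of level one with coordinates `t` and a root element. -/
theorem LV.comm_coord (hL : LV R j θ) (h : StRel D y) {β s : ℕ} (hβ : β ∈ lvL R j 1)
    (hs : s ∈ lvL R j 1) (e : R.rc θ = R.rc β + R.rc s) (t : ℕ → F) (u : F) :
    y s u * word y ((lvL R j 1).map fun r => (r, t r)) =
      word y ((lvL R j 1).map fun r => (r, t r)) * y s u * y θ (-((nb D β s : F) * t β * u)) := by
  rw [hL.comm_word h (mem_lvL.1 hs).1 (mem_lvL.1 hs).2 u, hL.sum_eq hβ hs e]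
  intro p hp
  obtain ⟨r, hr, rfl⟩ := List.mem_map.1 hp
  exact mem_lvL.1 hr

theorem word_mem_span (h : StRel D y) {L : List ℕ} (hL : ∀ r ∈ L, r < D.nroots) {T : Set ℕ}
    {t : ℕ → F} (ht : ∀ r ∈ L, r ∉ T → t r = 0) :
    word y (L.map fun r => (r, t r)) ∈ spanX (xSub y) T := by
  refine word_mem _ fun p hp => ?_
  obtain ⟨r, hr, rfl⟩ := List.mem_map.1 hp
  by_cases e : r ∈ T
  · exact mem_spanX _ e (x_mem_xSub y r _)
  · change y r (t r) ∈ _
    rw [ht r hr e, h.zero (hL r hr)]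
    exact one_mem _

theorem LV.cen (hL : LV R j θ) (h : StRelW D y) {z x : G} (hz : z ∈ xSub y θ)
    (hx : x ∈ lev R.weyl (xSub y) (LinearMap.proj j) 1) : z * x = x * z := by
  obtain ⟨u, rfl⟩ := (h.toStRel.mem_xSub_iff hL.lt).1 hz
  obtain ⟨t, rfl⟩ := exists_word_lev h one_pos hx
  refine hL.cen_word h.toStRel u _ fun p hp => ?_
  obtain ⟨r, hr, rfl⟩ := List.mem_map.1 hp
  exact mem_lvL.1 hr

theorem LV.com (hL : LV R j θ) (h : StRelW D y) {x x' : G}
    (hx : x ∈ lev R.weyl (xSub y) (LinearMap.proj j) 1)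
    (hx' : x' ∈ lev R.weyl (xSub y) (LinearMap.proj j) 1) : x * x' * x⁻¹ * x'⁻¹ ∈ xSub y θ := by
  have := (h.toStRel.rcomm R).comm_lev
    (fun r hr a ha b hb => h.toStRel.xSub_comm (R.weyl_mem.1 hr) ha hb) _ one_pos one_pos
    (inv_mem hx) (inv_mem hx')
  rw [inv_inv, inv_inv, show (1 + 1 : ℤ) = 2 from rfl, hL.lev_two] at this
  exact this

section mat
open Core
variable {F : Type} [Field F] (C : Cert D)

include C in
theorem card_span (R : RootData D) {L : List ℕ} (hnd : L.Nodup) (hL : ∀ r ∈ L, D.IsPosRoot r)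
    (hc : R.weyl.StClosed {r | r ∈ L}) :
    Nat.card (spanX (xSub (xGL D F)) {r | r ∈ L}) = Nat.card F ^ L.length := by
  have hlt : ∀ r ∈ L, r < D.nroots := fun r hr => ((R.pos_iff r).1 (hL r hr)).2
  have e : {r | r ∈ L} = (L.toFinset : Set ℕ) := by ext r; simp
  have := (C.faithful F R).card_spanX (S := L.toFinset)
    (fun r hr => R.weyl_mem.2 (hlt r (List.mem_toFinset.1 hr))) (e ▸ hc) (R.weyl.stHt ∅)
    (fun r hr => by
      change 0 < R.weyl.stHt ∅ (R.rc r)
      rw [R.stHt_empty_eq]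
      exact R.ht_pos (hL r (List.mem_toFinset.1 hr)))
  rw [e]
  refine this.trans ((Finset.prod_congr rfl fun r hr =>
    C.card_xSub (F := F) R (hlt r (List.mem_toFinset.1 hr))).trans ?_)
  rw [Finset.prod_const, List.toFinset_card_of_nodup hnd]

include C in
theorem card_lev {c : ℤ} (hc : 0 < c) : Nat.card (lev R.weyl (xSub (xGL D F)) (LinearMap.proj j) c) =
    Nat.card F ^ (lvL R j c).length := by
  rw [lev_eq]
  exact card_span C R (nodup_lvL c)
    (fun r hr => R.pos_of_coord (mem_lvL.1 hr).1 j (hc.trans_le (mem_lvL.1 hr).2)) (closed_lvL hc)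

theorem mem_Ql {K : Subgroup (GL D.Idx F)} {x : K} : x ∈ Ql (C.Y F R) K j ↔
    (x : GL D.Idx F) ∈ lev R.weyl (xSub (xGL D F)) (LinearMap.proj j) 1 := by
  rw [Ql, Subgroup.mem_subgroupOf, ← RGD.Twist.lev_one]
  rfl

theorem LV.mem_Zl (hL : LV R j θ) {K : Subgroup (GL D.Idx F)} {x : K} : x ∈ Zl (C.Y F R) K j ↔
    (x : GL D.Idx F) ∈ xSub (xGL D F) θ := by
  rw [Zl, Subgroup.mem_subgroupOf, ← hL.lev_two]
  rfl

include C in
theorem span_le_group (R : RootData D) (T : Set ℕ) : spanX (xSub (xGL D F)) T ≤ D.group F :=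
  spanX_le_iff.2 fun r _ => (Subgroup.closure_le _).2 (by
    rintro _ ⟨t, rfl⟩
    exact C.xGL_mem_group R r t)

end mat

end Cfsg.Lib.CKS.HeisH
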