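import Cfsg.Agent.CKS.HeisU
import Cfsg.Agent.CKS.IdxG

/-!
# The unipotent radical of the long root parabolic subgroup in a twisted group
-/

set_option autoImplicit false
set_option linter.unusedSectionVars false

namespace Cfsg.Lib.CKS.HeisH

open MulAction Cfsg.Lib.Chev Cfsg.Lie Subgroup Core

section gen
variable {F G : Type*} [Field F] [Group G] {D : ChevalleyDatum} {y : ℕ → F → G} {R : RootData D}
  {j : Fin D.rank} {θ : ℕ}

theorem LV.comm_words (hL : LV R j θ) (h : StRel D y) {w : List (ℕ × F)}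
    (hw : ∀ p ∈ w, p.1 < D.nroots ∧ 1 ≤ R.rc p.1 j) {c : ℕ → F}
    (hc : ∀ s, c s = (w.map fun p => (nb D p.1 s : F) * p.2).sum) : ∀ v : List (ℕ × F),
    (∀ p ∈ v, p.1 < D.nroots ∧ 1 ≤ R.rc p.1 j) → word y v * word y w =
      word y w * word y v * y θ (-(v.map fun p => c p.1 * p.2).sum)
  | [], _ => by simp [h.zero hL.lt]
  | p :: v, hv => by
    obtain ⟨a, b⟩ := hv p List.mem_cons_self
    have hv' := fun q hq => hv q (List.mem_cons_of_mem p hq)
    rw [word_cons, mul_assoc, hL.comm_words h hw hc v hv', ← mul_assoc, ← mul_assoc,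
      hL.comm_word h a b _ w hw, ← hc, mul_assoc _ (y θ _), hL.cen_word h _ v hv']
    simp only [mul_assoc]
    rw [h.add θ hL.lt]
    congr 4
    simp only [List.map_cons, List.sum_cons]
    ring

/-- A list of level one root elements whose product is fixed by the twist. -/
structure Good (R : RootData D) (j : Fin D.rank) (f : F →+* F) (σ : ℕ → ℕ) (ε : ℕ → ℤ)
    (v : List (ℕ × F)) : Prop where
  lv : ∀ r ∈ v.map Prod.fst, r ∈ lvL R j 1
  orth : (v.map Prod.fst).Pairwise fun r s => orthChk D r s = true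
  perm : (v.map fun p => (σ p.1, ε p.1 * f p.2)).Perm v

variable {f : F →+* F} {σ : ℕ → ℕ} {ε : ℕ → ℤ}

theorem Good.smul {v : List (ℕ × F)} (h : Good R j f σ ε v) {k : F} (hk : f k = k) :
    Good R j f σ ε (v.map fun p => (p.1, k * p.2)) := by
  have e : (v.map fun p => (p.1, k * p.2)).map Prod.fst = v.map Prod.fst := by
    rw [List.map_map]; rfl
  refine ⟨e ▸ h.lv, e ▸ h.orth, ?_⟩
  have := h.perm.map fun p : ℕ × F => (p.1, k * p.2)
  rw [List.map_map] at this ⊢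
  convert this using 2
  ext p
  · rfl
  · simp only [Function.comp, map_mul, hk]; ring

theorem good_one {s : ℕ} (hs : s ∈ lvL R j 1) (h1 : σ s = s) (h2 : ε s = 1) {c : ℕ → F}
    (hc : c s ≠ 0) : ∃ v, Good R j f σ ε v ∧ (v.map fun p => c p.1 * p.2).sum ≠ 0 :=
  ⟨[(s, 1)], ⟨by simpa using hs, by simp, by simp [h1, h2]⟩, by simpa using hc⟩

theorem good_two (hf : ∀ t, f (f t) = t) {w : F} (hw : f w ≠ w) {s : ℕ}
    (hs : ∀ r ∈ [s, σ s], r ∈ lvL R j 1) (h1 : σ (σ s) = s) (h2 : ε (σ s) * ε s = 1)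
    (h3 : [s, σ s].Pairwise fun r s => orthChk D r s = true) {c : ℕ → F} (hc : c s ≠ 0) :
    ∃ v, Good R j f σ ε v ∧ (v.map fun p => c p.1 * p.2).sum ≠ 0 := by
  have h2' : (ε (σ s) : F) * ε s = 1 := by exact_mod_cast congrArg (Int.cast : ℤ → F) h2
  have g : ∀ u : F, Good R j f σ ε [(s, u), (σ s, ε s * f u)] := fun u => ⟨hs, h3, by
    simp only [List.map_cons, List.map_nil, h1, map_mul, map_intCast, hf, ← mul_assoc, h2', one_mul]
    exact List.Perm.swap _ _ _⟩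
  by_contra hn
  push Not at hn
  have e0 := hn _ (g 1)
  have e1 := hn _ (g w)
  simp only [List.map_cons, List.map_nil, List.sum_cons, List.sum_nil, map_one] at e0 e1
  exact mul_ne_zero hc (sub_ne_zero.2 hw.symm) (by linear_combination e1 - f w * e0)

theorem good_three (hf : ∀ t, f (f (f t)) = t) {w : F} (hw : f w ≠ w) {s : ℕ}
    (hs : ∀ r ∈ [s, σ s, σ (σ s)], r ∈ lvL R j 1) (h1 : σ (σ (σ s)) = s)
    (h2 : ε (σ (σ s)) * ε (σ s) * ε s = 1)
    (h3 : [s, σ s, σ (σ s)].Pairwise fun r s => orthChk D r s = true) {c : ℕ → F} (hc : c s ≠ 0) :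
    ∃ v, Good R j f σ ε v ∧ (v.map fun p => c p.1 * p.2).sum ≠ 0 := by
  have h2' : (ε (σ (σ s)) : F) * ε (σ s) * ε s = 1 := by
    exact_mod_cast congrArg (Int.cast : ℤ → F) h2
  have g : ∀ u : F, Good R j f σ ε
      [(s, u), (σ s, ε s * f u), (σ (σ s), ε (σ s) * ε s * f (f u))] := fun u => ⟨hs, h3, by
    simp only [List.map_cons, List.map_nil, h1, map_mul, map_intCast, hf, ← mul_assoc, h2', one_mul]
    exact List.perm_append_comm (l₁ := [_, _]) (l₂ := [_])⟩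
  by_contra hn
  push Not at hn
  have e0 := hn _ (g 1)
  have e1 := hn _ (g w)
  have e2 := hn _ (g (w * w))
  simp only [List.map_cons, List.map_nil, List.sum_cons, List.sum_nil, map_one, map_mul] at e0 e1 e2
  have hw' : w - f (f w) ≠ 0 := sub_ne_zero.2 fun e => hw ((congrArg f e).trans (hf w))
  exact mul_ne_zero (mul_ne_zero hc (sub_ne_zero.2 hw.symm)) hw'
    (by linear_combination e2 - (f w + f (f w)) * e1 + f w * f (f w) * e0)

end gen

variable {F : Type} [Field F] [Finite F] {D : ChevalleyDatum} (C : Cert D) {R : RootData D}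
  {j : Fin D.rank} {θ : ℕ} {P : RootSubst R F} (E : StEnd (C.model F R) P)
  {L : Classes P (GL D.Idx F)} {f : F →+* F} {σ : ℕ → ℕ} {ε : ℕ → ℤ}
  {O : Fin D.rank → List (Fin D.rank)} (hS : SubData L f σ ε O)

include hS

theorem x_mem_iff {r : ℕ} (hr : r < D.nroots) (h : σ r = r) {t : F} :
    xGL D F r t ∈ (E.twist C L).G1 ↔ f t = t := by
  have h1 := (hS.ρ_eq r hr).trans h
  have h2 := (hS.ε_eq r).trans (hS.ε_one r hr h)
  refine ⟨fun hF => ?_, fun ht => E.x_mem_G1 C L hr h1 h2 (by rw [hS.g_eq, ht])⟩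
  have h3 := ((E.twist C L).G1_le_F hF).2
  rw [StEnd.twist_σ, E.map_x r hr, RootSubst.app_apply, h1, h2, Int.cast_one, one_mul,
    hS.g_eq] at h3
  exact C.xGL_injective R hr h3

theorem LV.card_Zl_tw (hL : LV R j θ) (hθ : σ θ = θ) :
    Nat.card (Zl (C.Y F R) (E.twist C L).G1 j) = Nat.card {t : F // f t = t} := by
  symm
  refine Nat.card_congr (Equiv.ofBijective (fun t => ⟨⟨_, (x_mem_iff C E hS hL.lt hθ).2 t.2⟩,
    (hL.mem_Zl C).2 (x_mem_xSub _ _ _)⟩) ⟨fun t u e => Subtype.ext (C.xGL_injective R hL.lt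
      (congrArg (fun z => (z.1 : GL D.Idx F)) e)), ?_⟩)
  rintro ⟨⟨z, hz⟩, hz'⟩
  obtain ⟨c, rfl⟩ := ((C.stRelN F R).toStRelW.toStRel.mem_xSub_iff hL.lt).1 ((hL.mem_Zl C).1 hz')
  exact ⟨⟨c, (x_mem_iff C E hS hL.lt hθ).1 hz⟩, rfl⟩

theorem Good.mem {v : List (ℕ × F)} (h : Good R j f σ ε v) :
    word (xGL D F) v ∈ (E.twist C L).G1 ∧
      word (xGL D F) v ∈ lev R.weyl (xSub (xGL D F)) (LinearMap.proj j) 1 := by
  have h1 := fun p (hp : p ∈ v) => mem_lvL.1 (h.lv _ (List.mem_map_of_mem hp))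
  exact ⟨(E.twist C L).U_inf_le_G1 (C.faithful F R) ⟨(C.model F R).word_mem_U fun p hp =>
    R.pos_of_coord (h1 p hp).1 j (one_pos.trans_le (h1 p hp).2), C.word_mem_F E hS
      (fun r hr => (mem_lvL.1 (h.lv r hr)).1) h.orth h.perm⟩, word_mem _ fun p hp =>
    mem_lev (R.weyl_mem.2 (h1 p hp).1) (h1 p hp).2 (x_mem_xSub _ _ _)⟩

theorem LV.heis_tw (hL : LV R j θ) (hθ : σ θ = θ)
    (hp : ∀ β ∈ lvL R j 1, β = θ ∨ ∃ s ∈ lvL R j 1, nb D β s = 1 ∨ nb D β s = -1)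
    (hex : ∀ s ∈ lvL R j 1, ∀ c : ℕ → F, c s ≠ 0 →
      ∃ v, Good R j f σ ε v ∧ (v.map fun p => c p.1 * p.2).sum ≠ 0) {a : ℕ}
    (ha : Nat.card (Ql (C.Y F R) (E.twist C L).G1 j) =
      a ^ 2 * Nat.card (Zl (C.Y F R) (E.twist C L).G1 j)) :
    Heis (Ql (C.Y F R) (E.twist C L).G1 j) (Zl (C.Y F R) (E.twist C L).G1 j) a := by
  have hW := (C.stRelN F R).toStRelW
  refine ⟨fun z hz => ?_, fun z hz x hx => ?_, fun x hx x' hx' => ?_, fun x hx hxZ z hz => ?_, ha⟩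
  · rw [hL.mem_Zl, ← hL.lev_two] at hz
    exact (mem_Ql C).2 (lev_anti _ _ _ (by norm_num) hz)
  · exact Subtype.ext (hL.cen hW ((hL.mem_Zl C).1 hz) ((mem_Ql C).1 hx))
  · exact (hL.mem_Zl C).2 (hL.com hW ((mem_Ql C).1 hx) ((mem_Ql C).1 hx'))
  obtain ⟨t, e⟩ := exists_word_lev hW one_pos ((mem_Ql C).1 hx)
  obtain ⟨c₀, ec⟩ := (hW.toStRel.mem_xSub_iff hL.lt).1 ((hL.mem_Zl C).1 hz)
  have hc₀ : f c₀ = c₀ := (x_mem_iff C E hS hL.lt hθ).1 (ec ▸ z.2)
  have : ∃ β ∈ lvL R j 1, β ≠ θ ∧ t β ≠ 0 := by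
    by_contra hn
    push Not at hn
    refine hxZ ((hL.mem_Zl C).2 ?_)
    rw [e, ← spanX_singleton (xSub (xGL D F))]
    exact word_mem_span hW.toStRel (fun r hr => (mem_lvL.1 hr).1) fun r hr h => hn r hr h
  obtain ⟨β, hβ, h1, h2⟩ := this
  obtain ⟨s, hs, hn⟩ := (hp β hβ).resolve_left h1
  have hn' : (nb D β s : F) ≠ 0 := by rcases hn with h | h <;> simp [h]
  have hn0 : nb D β s ≠ 0 := by omega
  obtain ⟨c, hc⟩ : ∃ c : ℕ → F, ∀ s, c s = (((lvL R j 1).map fun r => (r, t r)).map fun p =>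
    (nb D p.1 s : F) * p.2).sum := ⟨_, fun _ => rfl⟩
  have key : ∀ v, Good R j f σ ε v → (x : GL D.Idx F) * word (xGL D F) v * (x : GL D.Idx F)⁻¹ *
      (word (xGL D F) v)⁻¹ = xGL D F θ (v.map fun p => c p.1 * p.2).sum := fun v hv => by
    have e1 := hL.comm_words hW.toStRel (List.forall_mem_map.2 fun r hr => mem_lvL.1 hr) hc v
      fun p hp => mem_lvL.1 (hv.lv _ (List.mem_map_of_mem hp))
    rw [← e, ← hW.toStRel.inv hL.lt] at e1
    have e2 := hL.cen hW (x_mem_xSub (xGL D F) θ (v.map fun p => c p.1 * p.2).sum)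
      (mul_mem (hv.mem C E hS).2 ((mem_Ql C).1 hx))
    generalize word (xGL D F) v = b at e1 e2
    generalize (x : GL D.Idx F) = a at e1 e2
    generalize xGL D F θ (v.map fun p => c p.1 * p.2).sum = z at e1 e2
    calc a * b * a⁻¹ * b⁻¹ = (a * b * z⁻¹) * z * (b * a)⁻¹ := by group
      _ = (b * a * z) * (b * a)⁻¹ := by rw [← e1]
      _ = z := by rw [← e2]; group
  obtain ⟨v, hv, hl⟩ := hex s hs c (by
    rw [hc, hL.sum_eq hβ hs (hL.sum_of_nb (mem_lvL.1 hβ).1 (mem_lvL.1 hs).1 (mem_lvL.1 hβ).2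
      (mem_lvL.1 hs).2 hn0)]
    exact mul_ne_zero hn' h2)
  have hm := (hv.mem C E hS).1
  have hfl := (x_mem_iff C E hS hL.lt hθ).1 (key v hv ▸ mul_mem (mul_mem (mul_mem x.2 hm)
    (Subgroup.inv_mem _ x.2)) (Subgroup.inv_mem _ hm))
  have hv' := hv.smul (k := c₀ / (v.map fun p => c p.1 * p.2).sum) (by rw [map_div₀, hc₀, hfl])
  refine ⟨⟨_, (hv'.mem C E hS).1⟩, (mem_Ql C).2 (hv'.mem C E hS).2, Subtype.ext ?_⟩
  refine (key _ hv').trans ((congrArg _ ?_).trans ec.symm)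
  refine Eq.trans ?_ (div_mul_cancel₀ c₀ hl)
  rw [List.map_map, ← List.sum_map_mul_left]
  exact congrArg _ (List.map_congr_left fun p _ => mul_left_comm _ _ _)

end Cfsg.Lib.CKS.HeisH
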