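import Cfsg.Agent.CKS.Def4
import Cfsg.Agent.CKS.HeisA

/-!
# The unipotent radical of the long root parabolic subgroup is of Heisenberg type
-/

set_option autoImplicit false
set_option quotPrecheck false

namespace Cfsg.Lib.CKS

open MulAction Cfsg.Lib.Chev Cfsg.Lie Cfsg.Lib.Class Subgroup

namespace HeisH

open Core

variable {F : Type} [Field F] {D : ChevalleyDatum} (C : Cert D) {R : RootData D} {j : Fin D.rank}
  {θ : ℕ}

theorem card_Ql : Nat.card (Ql (C.Y F R) (D.group F) j) = Nat.card F ^ (lvL R j 1).length := by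
  rw [← card_lev C one_pos, Ql, ← RGD.Twist.lev_one]
  exact Nat.card_congr (subgroupOfEquivOfLe (span_le_group C R _)).toEquiv

theorem LV.card_Zl (hL : LV R j θ) : Nat.card (Zl (C.Y F R) (D.group F) j) = Nat.card F := by
  rw [← C.card_xSub (F := F) R hL.lt, ← hL.lev_two, Zl]
  exact Nat.card_congr (subgroupOfEquivOfLe (span_le_group C R _)).toEquiv

theorem LV.heis (hL : LV R j θ) {N : List ℤ} (hN : ∀ n ∈ N, (n : F) ≠ 0)
    (hp : ∀ β ∈ lvL R j 1, β = θ ∨ ∃ s ∈ lvL R j 1, nb D β s ∈ N) {a : ℕ}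
    (ha : (lvL R j 1).length = 2 * a + 1) :
    Heis (Ql (C.Y F R) (D.group F) j) (Zl (C.Y F R) (D.group F) j) (Nat.card F ^ a) := by
  have hW := (C.stRelN F R).toStRelW
  refine ⟨fun z hz => ?_, fun z hz x hx => ?_, fun x hx x' hx' => ?_, fun x hx hxZ z hz => ?_, ?_⟩
  · rw [hL.mem_Zl, ← hL.lev_two] at hz
    exact (mem_Ql C).2 (lev_anti _ _ _ (by norm_num) hz)
  · exact Subtype.ext (hL.cen hW ((hL.mem_Zl C).1 hz) ((mem_Ql C).1 hx))
  · exact (hL.mem_Zl C).2 (hL.com hW ((mem_Ql C).1 hx) ((mem_Ql C).1 hx'))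
  · obtain ⟨t, e⟩ := exists_word_lev hW one_pos ((mem_Ql C).1 hx)
    obtain ⟨c, ec⟩ := (hW.toStRel.mem_xSub_iff hL.lt).1 ((hL.mem_Zl C).1 hz)
    have : ∃ β ∈ lvL R j 1, β ≠ θ ∧ t β ≠ 0 := by
      by_contra hn
      push Not at hn
      refine hxZ ((hL.mem_Zl C).2 ?_)
      rw [e, ← spanX_singleton (xSub (xGL D F))]
      exact word_mem_span hW.toStRel (fun r hr => (mem_lvL.1 hr).1) fun r hr h => hn r hr h
    obtain ⟨β, hβ, h1, h2⟩ := this
    obtain ⟨s, hs, hn⟩ := (hp β hβ).resolve_left h1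
    have hn' := hN _ hn
    have hn0 : nb D β s ≠ 0 := fun h => hn' (by rw [h, Int.cast_zero])
    have e1 := hL.comm_coord hW.toStRel hβ hs (hL.sum_of_nb (mem_lvL.1 hβ).1 (mem_lvL.1 hs).1
      (mem_lvL.1 hβ).2 (mem_lvL.1 hs).2 hn0) t (c / ((nb D β s : F) * t β))
    rw [← e, mul_div_cancel₀ _ (mul_ne_zero hn' h2), ← hW.toStRel.inv hL.lt, ← ec] at e1
    have hy : xGL D F s (c / ((nb D β s : F) * t β)) ∈
        lev R.weyl (xSub (xGL D F)) (LinearMap.proj j) 1 :=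
      mem_lev (R.weyl_mem.2 (mem_lvL.1 hs).1) (mem_lvL.1 hs).2 (x_mem_xSub _ _ _)
    refine ⟨⟨_, C.xGL_mem_group R s (c / ((nb D β s : F) * t β))⟩, (mem_Ql C).2 hy, Subtype.ext ?_⟩
    have e2 := hL.cen hW ((hL.mem_Zl C).1 hz) (mul_mem hy ((mem_Ql C).1 hx))
    simp only [Subgroup.coe_mul, Subgroup.coe_inv]
    generalize xGL D F s (c / ((nb D β s : F) * t β)) = b at e1 e2
    generalize (x : GL D.Idx F) = a at e1 e2
    generalize (z : GL D.Idx F) = z at e1 e2
    calc a * b * a⁻¹ * b⁻¹ = (a * b * z⁻¹) * z * (b * a)⁻¹ := by group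
      _ = (b * a * z) * (b * a)⁻¹ := by rw [← e1]
      _ = z := by rw [← e2]; group
  · rw [card_Ql, hL.card_Zl, ha]
    ring

theorem lv_G2 : LV rootG2 (1 : Fin 2) 11 := ⟨by decide +kernel, by decide +kernel⟩
theorem lv_F4 : LV rootF4 (3 : Fin 4) 47 := ⟨by decide +kernel, by decide +kernel⟩
theorem lv_E6 : LV rootE6 (1 : Fin 6) 71 := ⟨by decide +kernel, by decide +kernel⟩
theorem lv_E7 : LV rootE7 (0 : Fin 7) 125 := ⟨by decide +kernel, by decide +kernel⟩
theorem lv_E8 : LV rootE8 (7 : Fin 8) 239 := ⟨by decide +kernel, by decide +kernel⟩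

theorem ne_zero_of_mem {n : ℤ} (h : (n : F) ≠ 0) : ∀ k ∈ [1, -1, n, -n], ((k : ℤ) : F) ≠ 0 := by
  simpa using h

end HeisH

section chev
open Core HeisH
variable (F : Type) [Field F] [Finite F]

local notation "YG" => certG2.Y F rootG2
local notation "YF" => certF4.Y F rootF4
local notation "Y6" => certE6.Y F rootE6
local notation "Y7" => certE7.Y F rootE7
local notation "Y8" => certE8.Y F rootE8
local notation "KG" => chevG2.group F
local notation "KF" => chevF4.group F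
local notation "K6" => chevE6.group F
local notation "K7" => chevE7.group F
local notation "K8" => chevE8.group F
local notation "qq" => Nat.card F

theorem heis_G2 (h : (3 : F) ≠ 0) : Heis (Ql YG KG (1 : Fin 2)) (Zl YG KG (1 : Fin 2)) (qq ^ 2) :=
  lv_G2.heis certG2 (ne_zero_of_mem (n := 3) (by exact_mod_cast h)) (by decide +kernel)
    (by decide +kernel)
theorem heis_F4 (h : (2 : F) ≠ 0) : Heis (Ql YF KF (3 : Fin 4)) (Zl YF KF (3 : Fin 4)) (qq ^ 7) :=
  lv_F4.heis certF4 (ne_zero_of_mem (n := 2) (by exact_mod_cast h)) (by decide +kernel)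
    (by decide +kernel)
theorem heis_E6 : Heis (Ql Y6 K6 (1 : Fin 6)) (Zl Y6 K6 (1 : Fin 6)) (qq ^ 10) :=
  lv_E6.heis certE6 (ne_zero_of_mem (n := 1) (by simp)) (by decide +kernel) (by decide +kernel)
theorem heis_E7 : Heis (Ql Y7 K7 (0 : Fin 7)) (Zl Y7 K7 (0 : Fin 7)) (qq ^ 16) :=
  lv_E7.heis certE7 (ne_zero_of_mem (n := 1) (by simp)) (by decide +kernel) (by decide +kernel)
theorem heis_E8 : Heis (Ql Y8 K8 (7 : Fin 8)) (Zl Y8 K8 (7 : Fin 8)) (qq ^ 28) :=
  lv_E8.heis certE8 (ne_zero_of_mem (n := 1) (by simp)) (by decide +kernel) (by decide +kernel)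

end chev

end Cfsg.Lib.CKS
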