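import Cfsg.Agent.CKS.Def2

/-!
# The Steinberg character of a standard parabolic subgroup
-/

set_option autoImplicit false

namespace Cfsg.Lib.CKS

open MulAction Cfsg.Lib.Chev

namespace HowAx

theorem fixed_comap {H K : Type*} [Group H] [Group K] (e : H ≃* K) (A : Subgroup K) (h : H) :
    fixedPointCharacter (A.comap e.toMonoidHom) h = fixedPointCharacter A (e h) := by
  rw [fixedPointCharacter, fixedPointCharacter]
  congr 1
  let f : H ⧸ A.comap e.toMonoidHom ≃ K ⧸ A := Quotient.congr e.toEquiv fun a b => by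
    rw [QuotientGroup.leftRel_apply, QuotientGroup.leftRel_apply, Subgroup.mem_comap]
    simp
  refine Nat.card_congr (f.subtypeEquiv fun c => ?_)
  obtain ⟨x, rfl⟩ := QuotientGroup.mk_surjective c
  rw [mem_fixedBy, mem_fixedBy, ← f.injective.eq_iff]
  change ((e (h * x) : K) : K ⧸ A) = _ ↔ ((e h * e x : K) : K ⧸ A) = _
  rw [map_mul]

variable {G : Type*} [Group G] (P : Cfsg.BNPair G) (J : Set P.S)

theorem closure_eq {I : Set P.S} (h : I ⊆ J) :
    Subgroup.closure {s : BN.par P J | (s : G) ∈ Subtype.val '' I} =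
      (Subgroup.closure (Subtype.val '' I)).subgroupOf (BN.par P J) := by
  have h1 : Subtype.val '' I ⊆ (BN.par P J : Set G) :=
    (Set.image_mono h).trans (BN.subset_parabolic P _)
  apply Subgroup.map_injective (BN.par P J).subtype_injective
  rw [MonoidHom.map_closure, Subgroup.subgroupOf_map_subtype,
    inf_eq_left.2 ((Subgroup.closure_le _).2 h1)]
  congr 1
  ext x
  exact ⟨fun ⟨y, hy, e⟩ => e ▸ hy, fun hx => ⟨⟨x, h1 hx⟩, hx, rfl⟩⟩

/-- The (B,N)-pair of a standard parabolic subgroup. -/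
def res : Cfsg.BNPair (BN.par P J) where
  B := P.B.subgroupOf _
  N := P.N.subgroupOf _
  S := {s | (s : G) ∈ Subtype.val '' J}
  sup_eq_top := by
    refine eq_top_iff.2 fun ⟨g, hg⟩ _ => ?_
    obtain ⟨w, hw, h1⟩ := (BN.mem_parabolic_iff P).1 hg
    obtain ⟨n, hn, rfl⟩ := BN.exists_rep_of_mem_closure P hw
    obtain ⟨b, hb, b', hb', rfl⟩ := (BN.mem_cell_mk P).1 h1
    change (⟨b, BN.B_le_par P J hb⟩ : BN.par P J) * ⟨n, Subgroup.mem_sup_right hn⟩ *
      ⟨b', BN.B_le_par P J hb'⟩ ∈ _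
    exact mul_mem (mul_mem (Subgroup.mem_sup_left hb) (Subgroup.mem_sup_right n.2))
      (Subgroup.mem_sup_left hb')
  conj_mem n hn t ht := P.conj_mem n hn t ht
  subset s := fun ⟨i, _, e⟩ => (e ▸ P.subset i.2 : (s : G) ∈ P.N)
  sq_mem s := fun ⟨i, _, e⟩ => P.sq_mem s (e ▸ i.2)
  inj s := fun ⟨i, _, e⟩ s' ⟨i', _, e'⟩ h => Subtype.ext (P.inj s (e ▸ i.2) s' (e' ▸ i'.2) h)
  closure_sup := by
    refine le_antisymm (sup_le ((Subgroup.closure_le _).2 fun s ⟨i, _, e⟩ =>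
      (e ▸ P.subset i.2 : (s : G) ∈ P.N)) inf_le_right) fun n hn => ?_
    obtain ⟨m, hm, e⟩ := BN.exists_rep_of_mem_closure P
      ((BN.mem_par_iff (BN.self_mem_cell P ⟨n, hn⟩)).1 n.2)
    rw [closure_eq P J le_rfl, ← mul_inv_cancel_left (⟨m, Subgroup.mem_sup_right hm⟩ : BN.par P J) n]
    exact mul_mem (Subgroup.mem_sup_left hm) (Subgroup.mem_sup_right
      ⟨(BN.mk_eq_iff P).1 e, P.N.mul_mem (P.N.inv_mem m.2) hn⟩)
  mul_mem_union s := fun ⟨i, _, e⟩ n hn b hb => by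
    rcases P.mul_mem_union s (e ▸ i.2) n hn b hb with h | h
    · obtain ⟨x, hx, y, hy, h1⟩ := DoubleCoset.mem_doubleCoset.1 h
      exact .inl (DoubleCoset.mem_doubleCoset.2 ⟨⟨x, BN.B_le_par P J hx⟩, hx,
        ⟨y, BN.B_le_par P J hy⟩, hy, Subtype.ext h1⟩)
    · obtain ⟨x, hx, y, hy, h1⟩ := DoubleCoset.mem_doubleCoset.1 h
      exact .inr (DoubleCoset.mem_doubleCoset.2 ⟨⟨x, BN.B_le_par P J hx⟩, hx,
        ⟨y, BN.B_le_par P J hy⟩, hy, Subtype.ext h1⟩)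
  conj_ne s := fun ⟨i, _, e⟩ h => P.conj_ne s (e ▸ i.2) (Set.ext fun x => ⟨fun ⟨b, hb, h1⟩ =>
    h1 ▸ h.le ⟨⟨b, BN.B_le_par P J hb⟩, hb, rfl⟩, fun hx =>
      let ⟨b, hb, h1⟩ := h.ge (show (⟨x, BN.B_le_par P J hx⟩ : BN.par P J) ∈ _ from hx)
      ⟨b, hb, congrArg Subtype.val h1⟩⟩)

/-- The distinguished generators of the parabolic subgroup. -/
def emb : (res P J).S ↪ P.S :=
  ⟨fun s => ⟨s.1, let ⟨i, _, e⟩ := s.2; e ▸ i.2⟩, fun _ _ e =>
    Subtype.ext (Subtype.ext (congrArg (Subtype.val : P.S → G) e))⟩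

theorem emb_mem (s : (res P J).S) : emb P J s ∈ J := by
  obtain ⟨i, hi, e⟩ := s.2
  rwa [show emb P J s = i from Subtype.ext e.symm]

theorem exists_emb {i : P.S} (hi : i ∈ J) : ∃ s, emb P J s = i :=
  ⟨⟨⟨i, BN.coe_mem_par_iff.2 hi⟩, i, hi, rfl⟩, rfl⟩

theorem par_res (I : Set (res P J).S) :
    BN.par (res P J) I = (BN.par P (emb P J '' I)).subgroupOf (BN.par P J) := by
  have h : emb P J '' I ⊆ J := fun _ ⟨s, _, e⟩ => e ▸ emb_mem P J s
  rw [show BN.par (res P J) I = _ from BN.parabolic_def _ _,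
    show BN.par P (emb P J '' I) = _ from BN.parabolic_def P _,
    Subgroup.subgroupOf_sup (BN.B_le_par P J) ((Subgroup.closure_le _).2
      ((Set.image_mono h).trans (BN.subset_parabolic P _))), ← closure_eq P J h]
  congr 2
  ext s
  constructor
  · rintro ⟨t, ht, rfl⟩
    exact ⟨_, ⟨t, ht, rfl⟩, rfl⟩
  · rintro ⟨_, ⟨t, ht, rfl⟩, e⟩
    exact ⟨t, ht, Subtype.ext e⟩

theorem not_mem_P {n : P.N} (hn : (n : G) ∈ BN.par P J) (i : (res P J).S)
    (h : BN.mk P n ∉ (BN.preCox P).P (emb P J i)) :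
    BN.mk (res P J) ⟨⟨n, hn⟩, n.2⟩ ∉ (BN.preCox (res P J)).P i := fun h1 => by
  obtain ⟨b, hb, h2⟩ := BN.exists_mem_cell_of_not_mem_P h
  have h3 := h1 _ (BN.mul_B_mem_cell (BN.coe_mem_cell_sg _ i) (b := ⟨b, BN.B_le_par P J hb⟩) hb)
    _ (BN.self_mem_cell _ _)
  rw [BN.sg_def, ← BN.mk_mul, BN.mem_cell_mk] at h3
  obtain ⟨x, hx, y, hy, h4⟩ := h3
  refine BN.sg_mul_ne P (emb P J i) _ (BN.eq_of_mem_cell ?_ h2)
  rw [BN.sg_def, ← BN.mk_mul, BN.mem_cell_mk]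
  exact ⟨x, hx, y, hy, congrArg Subtype.val h4⟩

end HowAx

variable {G : Type*} [Group G] [Fintype G]

theorem exists_StJ (P : Cfsg.BNPair G) (J : Finset P.S) :
    ∃ ψ : BN.par P (J : Set P.S) → ℂ, IsIrrCharacter _ ψ ∧
      (∀ g, ψ g = ∑ I ∈ J.powerset, (-1 : ℂ) ^ I.card *
        fixedPointCharacter ((BN.par P (I : Set P.S)).subgroupOf (BN.par P (J : Set P.S))) g) ∧
      ∀ n : P.N, BN.mk P n ∈ (BN.preCox P).WJ J → (∀ j ∈ J, BN.mk P n ∉ (BN.preCox P).P j) →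
        ∀ b : P.B, ψ ⟨b, BN.B_le_par P _ b.2⟩ =
          fixedPointCharacter ((cj (n : G) P.B).subgroupOf P.B) b := by
  classical
  refine ⟨BN.St (HowAx.res P J), BN.isIrrCharacter_St _, fun g => ?_, fun n h1 h2 b => ?_⟩
  · rw [BN.St_apply]
    refine Finset.sum_bij (fun I _ => I.map (HowAx.emb P J)) (fun I _ => ?_)
      (fun I _ I' _ e => Finset.map_injective _ e) (fun I hI => ?_) fun I _ => ?_
    · refine Finset.mem_powerset.2 fun i hi => ?_
      obtain ⟨s, -, rfl⟩ := Finset.mem_map.1 hi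
      exact HowAx.emb_mem P J s
    · refine ⟨Finset.univ.filter fun s => HowAx.emb P J s ∈ I, Finset.mem_univ _, ?_⟩
      ext i
      simp only [Finset.mem_map, Finset.mem_filter, Finset.mem_univ, true_and]
      refine ⟨fun ⟨s, hs, e⟩ => e ▸ hs, fun hi => ?_⟩
      obtain ⟨s, rfl⟩ := HowAx.exists_emb P J (Finset.mem_powerset.1 hI hi)
      exact ⟨s, hi, rfl⟩
    · rw [HowAx.par_res, Finset.card_map, Finset.coe_map]
  · have hn : (n : G) ∈ BN.par P J := (BN.mem_par_iff (BN.self_mem_cell P n)).2 h1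
    have h3 := BN.St_apply_coe (P := HowAx.res P J) (n := ⟨⟨n, hn⟩, n.2⟩)
      ((BN.preCox _).eq_w0_iff.2 fun i => HowAx.not_mem_P P J hn i (h2 _ (HowAx.emb_mem P J i)))
      (T := (cj (n : G) P.B).subgroupOf _) (fun x _ => mem_cj) ⟨⟨b, BN.B_le_par P _ b.2⟩, b.2⟩
    exact h3.trans (HowAx.fixed_comap (Subgroup.subgroupOfEquivOfLe (BN.B_le_par P _))
      ((cj (n : G) P.B).subgroupOf P.B) _)

end Cfsg.Lib.CKS
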