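import Cfsg.Agent.CKS.Def2
import Cfsg.Agent.Solv.Frattini

/-!
# Degrees modulo `p` and the linear characters of a `p`-group
-/

set_option autoImplicit false

namespace Cfsg.Lib.CKS

open MulAction Cfsg.Lib.Chev Cfsg.Lib.Char

namespace HowCx

variable {G : Type*} [Group G]

theorem mult_eq_inner [Finite G] (χ : G → ℂ) (U : Subgroup G) [Fintype U] (l : U →* ℂˣ) :
    mult χ U l = classInner (fun u : U => χ u) fun u => (l u : ℂ) := by
  rw [mult, classInner, finsum_eq_sum_of_fintype]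
  simp only [monoidHom_apply_inv]

theorem kills_iff {U X : Subgroup G} (hX : X ≤ U) {l : U →* ℂˣ} :
    Kills l X ↔ X ≤ l.ker.map U.subtype :=
  ⟨fun h x hx => ⟨⟨x, hX hx⟩, h _ hx, rfl⟩, fun h u hu => by
    obtain ⟨v, hv, e⟩ := h hu
    rwa [← show v = u from Subtype.ext e]⟩

theorem kills_mono {U X Z : Subgroup G} {l : U →* ℂˣ} (h : Kills l X) (hZ : Z ≤ X) : Kills l Z :=
  fun u hu => h u (hZ hu)

theorem kills_sup {U X Z : Subgroup G} {l : U →* ℂˣ} (hX : X ≤ U) (hZ : Z ≤ U) (h : Kills l X)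
    (h' : Kills l Z) : Kills l (X ⊔ Z) :=
  (kills_iff (sup_le hX hZ)).2 (sup_le ((kills_iff hX).1 h) ((kills_iff hZ).1 h'))

theorem dvd_card [Finite G] {p : ℕ} [Fact p.Prime] {U X : Subgroup G} (hU : IsPGroup p U)
    (hX : X ≤ U) (hne : X ≠ U) : p ∣ Nat.card {l : U →* ℂˣ // Kills l X} := by
  let S : Subgroup (U →* ℂˣ) :=
    { carrier := {l | Kills l X}
      one_mem' := fun _ _ => rfl
      mul_mem' := fun h h' u hu => by rw [MonoidHom.mul_apply, h u hu, h' u hu, one_mul]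
      inv_mem' := fun h u hu => by rw [MonoidHom.inv_apply, h u hu, inv_one] }
  have h1 : IsPGroup p (U →* ℂˣ) := fun l => by
    obtain ⟨k, hk⟩ := hU.exists_card_eq
    refine ⟨k, MonoidHom.ext fun u => ?_⟩
    rw [MonoidHom.pow_apply, ← map_pow, ← hk, pow_card_eq_one', map_one, MonoidHom.one_apply]
  have := hU.isNilpotent
  have h2 : X.subgroupOf U ⊔ commutator U ≠ ⊤ := fun e => hne (le_antisymm hX
    (Subgroup.subgroupOf_eq_top.1 (Solv.eq_top_of_sup_commutator_eq_top e)))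
  obtain ⟨g, hg⟩ : ∃ g, g ∉ X.subgroupOf U ⊔ commutator U := by
    by_contra! h3
    exact h2 (eq_top_iff.2 fun g _ => h3 g)
  obtain ⟨l, h3, h4⟩ := exists_monoidHom_ker_ge_apply_ne_one _ le_sup_right hg
  have : Nontrivial S := ⟨⟨l, fun u hu => h3 u (Subgroup.mem_sup_left hu)⟩, 1,
    fun e => h4 (by rw [show l = 1 from congrArg Subtype.val e]; rfl)⟩
  obtain ⟨n, hn, e⟩ := (h1.to_subgroup S).nontrivial_iff_card.1 this
  exact (dvd_pow_self p hn.ne').trans (dvd_of_eq e.symm)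

end HowCx

variable {G : Type*} [Group G] [Fintype G]

theorem deg_mod {p : ℕ} [Fact p.Prime] {U : Subgroup G} (hU : IsPGroup p U) {χ : G → ℂ}
    (hχ : IsCharacter G χ) : ∃ k : ℕ, χ 1 = ∑ᶠ l : U →* ℂˣ, mult χ U l + p * k := by
  classical
  have := Fintype.ofFinite (U →* ℂˣ)
  have h1 := (hχ.res U).isClassFunction.apply_eq_sum_irr 1
  have h2 : ∀ ψ : IrrCharacter U, ∃ k : ℕ, (ψ : U → ℂ) 1 ≠ 1 →
      classInner (fun u : U => χ u) ψ * (ψ : U → ℂ) 1 = p * k := fun ψ => by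
    obtain ⟨a, ha⟩ := (hχ.res U).exists_nat_classInner ψ.2.isCharacter
    obtain ⟨d, -, hd⟩ := ψ.2.exists_nat_degree_pos
    obtain ⟨n, hn⟩ := hU.exists_card_eq
    obtain ⟨j, -, rfl⟩ := (Nat.dvd_prime_pow Fact.out).1 (hn ▸ irr_degree_dvd_card ψ.2 hd)
    rcases j with _ | j
    · exact ⟨0, fun h => absurd (by simpa using hd) h⟩
    · exact ⟨a * p ^ j, fun _ => by rw [ha, hd]; push_cast; ring⟩
  choose k hk using h2
  rw [← Finset.sum_filter_add_sum_filter_not _ fun ψ : IrrCharacter U => (ψ : U → ℂ) 1 = 1,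
    Finset.sum_congr (s₁ := Finset.filter (fun ψ : IrrCharacter U => ¬ (ψ : U → ℂ) 1 = 1) _) rfl
      fun ψ hψ => hk ψ (Finset.mem_filter.1 hψ).2, ← Finset.mul_sum, ← Nat.cast_sum,
    Finset.sum_subtype (p := fun ψ : IrrCharacter U => (ψ : U → ℂ) 1 = 1) _ (by simp),
    ← (linearEquivIrr U).sum_comp] at h1
  refine ⟨_, h1.trans (congrArg (· + _) ?_)⟩
  rw [finsum_eq_sum_of_fintype]
  refine Finset.sum_congr rfl fun l _ => ?_
  rw [(linearEquivIrr U l).2, mul_one, HowCx.mult_eq_inner]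
  exact congrArg _ (funext fun g => linearEquivIrr_apply l g)

open Classical in
theorem sum_supp {p : ℕ} [Fact p.Prime] {I : Type*} [Fintype I] (Q : Set I → Subgroup G)
    (hU : IsPGroup p (Q ∅)) (inf : ∀ I J, Q (I ∩ J) ≤ Q I ⊔ Q J) (anti : ∀ I J, I ⊆ J → Q J ≤ Q I)
    (ne : ∀ J : Set I, J.Nonempty → Q J ≠ Q ∅) (top : Q Set.univ = ⊥) (F : Finset I → ℤ) :
    (∀ l : Q ∅ →* ℂˣ, Kills l (Q (Finset.univ.filter fun i => ¬ Kills l (Q {i}ᶜ) : Finset I))) ∧
    ∑ᶠ l : Q ∅ →* ℂˣ, F (Finset.univ.filter fun i => ¬ Kills l (Q {i}ᶜ)) ≡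
      ∑ J : Finset I, (-1) ^ J.card * F J [ZMOD p] := by
  have := Fintype.ofFinite (Q ∅ →* ℂˣ)
  have hle : ∀ J, Q J ≤ Q ∅ := fun J => anti _ _ (Set.empty_subset J)
  have h1 : ∀ (l : Q ∅ →* ℂˣ) (T : Finset I), (∀ i ∈ T, Kills l (Q {i}ᶜ)) →
      Kills l (Q (T : Set I)ᶜ) := fun l T => by
    induction T using Finset.induction_on with
    | empty =>
      intro _ u hu
      rw [Finset.coe_empty, Set.compl_empty, top, Subgroup.mem_bot, OneMemClass.coe_eq_one] at hu
      rw [hu, map_one]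
    | insert i T _ ih =>
      intro h
      rw [Finset.coe_insert, Set.insert_eq, Set.compl_union]
      exact HowCx.kills_mono (HowCx.kills_sup (hle _) (hle _) (h i (by simp))
        (ih fun j hj => h j (by simp [hj]))) (inf _ _)
  have h2 : ∀ l : Q ∅ →* ℂˣ,
      Kills l (Q (Finset.univ.filter fun i => ¬ Kills l (Q {i}ᶜ) : Finset I)) := fun l => by
    convert h1 l (Finset.univ.filter fun i => Kills l (Q {i}ᶜ)) (by simp) using 2
    ext i
    simp
  refine ⟨h2, ?_⟩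
  generalize hs : (fun l : Q ∅ →* ℂˣ =>
    (Finset.univ.filter fun i => ¬ Kills l (Q {i}ᶜ) : Finset I)) = s
  have h3 : ∀ l (J : Finset I), Kills l (Q J) ↔ s l ⊆ J := fun l J => by
    subst hs
    refine ⟨fun h i hi => not_not.1 fun hJ => (Finset.mem_filter.1 hi).2
      (HowCx.kills_mono h (anti _ _ ?_)), fun h => HowCx.kills_mono (h2 l) (anti _ _ h)⟩
    rintro j hj rfl
    exact hJ hj
  have h4 : ∀ J : Finset I, ∑ K ∈ J.powerset, ((Finset.univ.filter (s · = K)).card : ZMod p) =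
      ∑ K ∈ J.powerset, (-1 : ZMod p) ^ K.card := fun J => by
    have h5 := congrArg (Int.cast : ℤ → ZMod p) (Finset.sum_powerset_neg_one_pow_card (x := J))
    push_cast at h5
    rw [h5, ← Nat.cast_sum, Finset.sum_card_fiberwise_eq_card_filter,
      show (Finset.univ.filter fun l => s l ∈ J.powerset).card =
        Nat.card {l : Q ∅ →* ℂˣ // Kills l (Q J)} by
      rw [Nat.card_eq_fintype_card, Fintype.card_subtype]
      simp only [h3, Finset.mem_powerset]]
    split_ifs with h6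
    · rw [show Nat.card {l : Q ∅ →* ℂˣ // Kills l (Q J)} = 1 from
        Nat.card_eq_one_iff_exists.2 ⟨⟨1, fun _ _ => rfl⟩, fun l => Subtype.ext
          (MonoidHom.ext fun u => l.2 u (by simp [h6]))⟩, Nat.cast_one]
    · exact (ZMod.natCast_eq_zero_iff _ _).2 (HowCx.dvd_card hU (hle _)
        (ne _ (Finset.coe_nonempty.2 (Finset.nonempty_iff_ne_empty.2 h6))))
  have h5 : ∀ J : Finset I, ((Finset.univ.filter (s · = J)).card : ZMod p) = (-1) ^ J.card :=
    fun J => by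
    induction J using Finset.strongInduction with
    | H J ih =>
      have h6 := h4 J
      rw [← Finset.add_sum_erase _ _ (Finset.mem_powerset_self J),
        ← Finset.add_sum_erase _ _ (Finset.mem_powerset_self J), Finset.sum_congr rfl fun K hK =>
          ih K (Finset.ssubset_iff_subset_ne.2 ⟨Finset.mem_powerset.1 (Finset.mem_erase.1 hK).2,
            (Finset.mem_erase.1 hK).1⟩)] at h6
      exact add_right_cancel h6
  rw [← ZMod.intCast_eq_intCast_iff, finsum_eq_sum_of_fintype]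
  change ((∑ l, F ((fun l : Q ∅ →* ℂˣ =>
    (Finset.univ.filter fun i => ¬ Kills l (Q {i}ᶜ) : Finset I)) l) : ℤ) : ZMod p) = _
  rw [hs, ← Finset.sum_fiberwise Finset.univ s]
  push_cast
  refine Finset.sum_congr rfl fun J _ => ?_
  rw [Finset.sum_congr rfl fun l hl => by rw [(Finset.mem_filter.1 hl).2], Finset.sum_const,
    nsmul_eq_mul, h5]

end Cfsg.Lib.CKS
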