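import Cfsg.Agent.CKS.HowA
import Cfsg.Agent.CKS.HowC

/-!
# The multiplicity of a linear character of `U` in a constituent of the permutation character
-/

set_option autoImplicit false
set_option linter.unusedSectionVars false

open scoped ComplexConjugate commutatorElement

namespace Cfsg.Lib.CKS

open MulAction Cfsg.Lib.Chev Cfsg.Lib.Char

namespace HowBx

section gen

variable {K X : Type*} [Group K] [Group X] [Fintype K] [Fintype X]

theorem avg_sum (f : K → ℂ) (A : Subgroup K) [Fintype A] :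
    avg f A = (Nat.card A : ℂ)⁻¹ * ∑ x : A, f x := by
  classical
  rw [avg_def, ← Finset.sum_filter, Finset.sum_subtype (p := (· ∈ A)) _ (by simp)]

theorem avg_sub (f : K → ℂ) {A H : Subgroup K} [Fintype H] (h : A ≤ H) :
    avg (fun x : H => f x) (A.subgroupOf H) = avg f A := by
  classical
  rw [avg_sum, avg_sum, Nat.card_congr (Subgroup.subgroupOfEquivOfLe h).toEquiv,
    ← (Subgroup.subgroupOfEquivOfLe h).toEquiv.sum_comp]
  rfl

theorem avg_eq_one {f : K → ℂ} {A : Subgroup K} (h : ∀ x ∈ A, f x = 1) : avg f A = 1 := by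
  classical
  rw [← avg_one A, avg_def, avg_def]
  exact congrArg _ (Finset.sum_congr rfl fun x _ => if_ctx_congr Iff.rfl (h x) fun _ => rfl)

theorem avg_eq_zero {l : K →* ℂˣ} {A : Subgroup K} (h : ¬ ∀ x ∈ A, l x = 1) :
    avg (fun x => conj (l x : ℂ)) A = 0 := by
  classical
  rw [avg_sum, ← map_sum]
  erw [sum_monoidHom_apply_of_ne_one (lam := l.comp A.subtype) fun e =>
    h fun x hx => DFunLike.congr_fun e ⟨x, hx⟩]
  simp

omit [Fintype K] in
theorem inner_fixed [Finite K] (i : X →* K) (A : Subgroup K) {T : Type*} [Fintype T]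
    (r : T → K ⧸ A) (hex : ∀ ω, ∃ t, ∃ a : X, i a • r t = ω)
    (huniq : ∀ t t', ∀ a : X, i a • r t = r t' → t = t') {f : X → ℂ} (hf : IsClassFunction X f) :
    classInner (fun x => fixedPointCharacter A (i x)) f =
      ∑ t, avg (fun x => conj (f x)) ((stabilizer K (r t)).comap i) := by
  let _ := MulAction.compHom (K ⧸ A) i
  apply mul_left_cancel₀ (card_ne_zero X)
  rw [card_mul_classInner]
  simp only [mul_comm (fixedPointCharacter A _)]
  exact sum_mul_card_fixedBy r hex huniq (f := fun x => conj (f x))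
    fun a b => congrArg conj (hf a b)

theorem inner_ind (A : Subgroup K) {f : K → ℂ} (hf : IsClassFunction K f) :
    classInner (fixedPointCharacter A) f = avg (fun x => conj (f x)) A := by
  have := inner_fixed (MonoidHom.id K) A (fun _ : Unit => ((1 : K) : K ⧸ A))
    (fun ω => ⟨(), ω.out, by simp⟩) (fun _ _ _ _ => rfl) hf
  rwa [Fintype.sum_unique, stabilizer_quotient, Subgroup.comap_id] at this

theorem inner_ind' (A : Subgroup K) {f : K → ℂ} (hf : IsClassFunction K f) :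
    classInner f (fixedPointCharacter A) = avg f A := by
  have := inner_ind A (f := fun x => conj (f x)) fun a b => congrArg conj (hf a b)
  simp only [Complex.conj_conj] at this
  rw [← classInner_conj_conj, ← this]
  exact congrArg (classInner · _) (funext fun g => map_natCast _ _)

theorem sum_zero {Ω : Type*} [MulAction X Ω] [Finite Ω] {f : X → ℂ} (hf : IsClassFunction X f)
    (h : ∀ ω : Ω, ∃ (a : X) (ω' : Ω), a • ω' = ω ∧ avg f (stabilizer X ω') = 0) :
    ∑ g, f g * (Nat.card (fixedBy Ω g) : ℂ) = 0 := by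
  classical
  have := Fintype.ofFinite Ω
  have h1 : ∀ g : X, f g * (Nat.card (fixedBy Ω g) : ℂ) =
      ∑ ω : Ω, if g • ω = ω then f g else 0 := fun g => by
    rw [← Finset.sum_filter, Finset.sum_const, nsmul_eq_mul, mul_comm, Nat.card_eq_fintype_card,
      Fintype.card_subtype]
    rfl
  rw [Finset.sum_congr rfl fun g _ => h1 g, Finset.sum_comm]
  refine Finset.sum_eq_zero fun ω _ => ?_
  obtain ⟨a, ω', rfl, h2⟩ := h ω
  have h3 := card_mul_avg f (stabilizer X ω')
  rw [h2, mul_zero] at h3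
  refine Eq.trans (Fintype.sum_equiv (MulAut.conj a⁻¹).toEquiv _ _ fun g => ?_) h3.symm
  rw [show (MulAut.conj a⁻¹).toEquiv g = a⁻¹ * g * a by simp, hf.apply_conj']
  exact if_congr (by rw [mem_stabilizer_iff, mul_smul, mul_smul, inv_smul_eq_iff]) rfl rfl

theorem inner_comp_ne {φ θ : K → ℂ} (hφ : IsCharacter K φ) (hθ : IsIrrCharacter K θ)
    (h : classInner φ θ ≠ 0) (i : X →* K) {η : X → ℂ} (hη : IsCharacter X η)
    (h1 : classInner (fun x => θ (i x)) η ≠ 0) : classInner (fun x => φ (i x)) η ≠ 0 := by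
  obtain ⟨a, ha⟩ := ((hφ.sub_of_classInner_ne_zero hθ h).comp i).exists_nat_classInner hη
  obtain ⟨b, hb⟩ := (hθ.isCharacter.comp i).exists_nat_classInner hη
  rw [show (fun x => φ (i x)) = (fun x => (φ - θ) (i x)) + fun x => θ (i x) from
    funext fun x => by simp, classInner_add_left, ha, hb, ← Nat.cast_add, Nat.cast_ne_zero]
  rw [hb, Nat.cast_ne_zero] at h1
  omega

theorem inner_comp_sum {φ : K → ℂ} (hφ : IsClassFunction K φ) (i : X →* K) (η : X → ℂ) :
    classInner (fun x => φ (i x)) η = ∑ ψ : IrrCharacter K,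
      classInner φ ψ * classInner (fun x => (ψ : K → ℂ) (i x)) η := by
  simp only [← classInner_smul_left, ← classInner_sum_left]
  exact congrArg (classInner · η) (funext fun x => by
    rw [hφ.apply_eq_sum_irr (i x), Finset.sum_apply]; rfl)

end gen

variable {G : Type*} [Group G] [Fintype G] {P : Cfsg.BNPair G} {p : ℕ} [Fact p.Prime]
  {Y : BN.SplitAt P p} {J : Set P.S} [Fintype (BN.par P J)] [Fintype (Y.U ∅)]

/-- The inclusion of `U` in a parabolic subgroup. -/
def inc (Y : BN.SplitAt P p) (J : Set P.S) : Y.U ∅ →* BN.par P J :=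
  Subgroup.inclusion ((Y.le_B ∅).trans (BN.B_le_par P J))

omit [Fintype G] in
theorem stab_iff {H : Subgroup G} (x n : H) :
    x ∈ stabilizer H (n : H ⧸ P.B.subgroupOf H) ↔ (n : G)⁻¹ * x * n ∈ P.B := by
  rw [mem_stabilizer_iff, MulAction.Quotient.smul_mk, eq_comm, QuotientGroup.eq,
    Subgroup.mem_subgroupOf, mul_assoc]
  rfl

theorem ker (hY : HowData Y) {ψ : BN.par P J → ℂ} (hψ : IsIrrCharacter _ ψ) {l : Y.U ∅ →* ℂˣ}
    (h1 : Kills l (Y.U J)) (h : classInner (fun u => ψ (inc Y J u)) (fun u => (l u : ℂ)) ≠ 0) :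
    (Y.U J).subgroupOf (BN.par P J) ≤ charKer ψ := by
  classical
  have := Subgroup.normal_subgroupOf_of_le_normalizer (Y.norm J)
  refine hψ.le_charKer_of_classInner_res_one_ne_zero _ (inner_comp_ne (hψ.isCharacter.comp (inc Y J))
    (isIrrCharacter_monoidHom l) h (((BN.par P J).subtype.comp (Subgroup.subtype _)).codRestrict
      (Y.U ∅) fun q => hY.anti ∅ J (Set.empty_subset J) q.2) isCharacter_one ?_)
  erw [show (fun x : (Y.U J).subgroupOf (BN.par P J) => _) = fun _ => (1 : ℂ) from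
    funext fun x => congrArg Units.val (h1 ⟨x.1.1, hY.anti ∅ J (Set.empty_subset J) x.2⟩ x.2),
      classInner_one_one]
  exact one_ne_zero

omit [Fintype (Y.U ∅)] in
theorem lies {χ : G → ℂ} (hχ : IsIrrCharacter G χ) (hB : avg χ P.B ≠ 0) {ψ : BN.par P J → ℂ}
    (hψ : IsIrrCharacter _ ψ) (h : classInner (fun x : BN.par P J => χ x) ψ ≠ 0)
    (hk : (Y.U J).subgroupOf (BN.par P J) ≤ charKer ψ) :
    classInner (fixedPointCharacter (P.B.subgroupOf (BN.par P J))) ψ ≠ 0 := fun h0 => by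
  rw [inner_ind _ hψ.isClassFunction] at h0
  refine inner_comp_ne (isCharacter_card_fixedBy G (G ⧸ P.B)) hχ
    (fun e => hB ?_) (BN.par P J).subtype hψ.isCharacter h ?_
  · rw [← inner_ind' _ hχ.isClassFunction]
    exact classInner_eq_zero_comm.1 e
  rw [classInner]
  simp only [mul_comm (Nat.cast (Nat.card (fixedBy _ _)) : ℂ)]
  refine mul_eq_zero_of_right _ (sum_zero (Ω := G ⧸ P.B) (f := fun x => conj (ψ x))
    (fun a b => congrArg conj (hψ.isClassFunction a b)) fun ω => ?_)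
  obtain ⟨g, rfl⟩ := QuotientGroup.mk_surjective ω
  obtain ⟨u, hu, w, hw, e⟩ := (BN.preCox P).exists_lRed J (BN.cellOf P g)
  obtain ⟨m, rfl⟩ := BN.mk_surj P u
  obtain ⟨n, rfl⟩ := BN.mk_surj P w
  have hg := BN.mem_cell_cellOf P g
  rw [e, ← BN.mk_mul, BN.mem_cell_mk] at hg
  obtain ⟨b, hb, b', hb', rfl⟩ := hg
  refine ⟨⟨b * m, mul_mem (BN.B_le_par P J hb) ((BN.mem_par_iff (BN.self_mem_cell P m)).2 hu)⟩,
    ((n : G) : G ⧸ P.B), QuotientGroup.eq.2 (by simpa [mul_assoc] using hb'), ?_⟩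
  rw [← h0]
  have h3 : ∀ x : BN.par P J, x ∈ stabilizer (BN.par P J) ((n : G) : G ⧸ P.B) ↔
      (x : G) ∈ BN.inter P J ∅ n := fun x => by
    rw [BN.mem_inter_iff, and_iff_right x.2, BN.par_empty, mem_stabilizer_iff, eq_comm, mul_assoc]
    exact QuotientGroup.eq
  refine (avg_eq_of_mul (Q := (Y.U J).subgroupOf (BN.par P J)) (fun y => ?_) fun x _ q hq =>
    congrArg conj (hψ.isClassFunction.apply_mul_of_mem_charKer (hk hq) x)).symm
  have h4 := Y.mem_par_iff_inter hw ((BN.preCox P).lRed_empty _) y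
  simp only [Set.mem_empty_iff_false, false_and, exists_false, and_false, Set.ofPred_false,
    BN.par_empty] at h4
  rw [Subgroup.mem_subgroupOf, h4]
  constructor
  · rintro ⟨x, hx, q, hq, e⟩
    exact ⟨⟨x, (BN.mem_inter_iff.1 hx).1⟩, (h3 _).2 hx, ⟨q, BN.B_le_par P J (Y.le_B J hq)⟩, hq,
      Subtype.ext e⟩
  · rintro ⟨x, hx, q, hq, rfl⟩
    exact ⟨x, (h3 _).1 hx, q, hq, rfl⟩

theorem one (hY : HowData Y) {l : Y.U ∅ →* ℂˣ} (h1 : Kills l (Y.U J))
    (h2 : ∀ i ∈ J, ¬ Kills l (Y.U {i}ᶜ)) :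
    classInner (fun u => fixedPointCharacter (P.B.subgroupOf (BN.par P J)) (inc Y J u))
      (fun u => (l u : ℂ)) = 1 := by
  have := Fintype.ofFinite ((BN.preCox P).WJ J)
  obtain ⟨x, hx, hx'⟩ := (BN.preCox P).exists_longest J
  choose n hn using BN.mk_surj P
  have hU : ⁅Y.U ∅, Y.U ∅⁆ ≤ Y.U ∅ := Subgroup.commutator_le.2 fun a ha b hb =>
    mul_mem (mul_mem (mul_mem ha hb) (inv_mem ha)) (inv_mem hb)
  have hc : ∀ w, (n w : G) ∈ BN.cell P w := fun w => by
    have := BN.self_mem_cell P (n w)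
    rwa [hn] at this
  rw [inner_fixed (inc Y J) _ (fun w : (BN.preCox P).WJ J =>
    ((⟨n w, (BN.mem_par_iff (hc w)).2 w.2⟩ : BN.par P J) : _ ⧸ P.B.subgroupOf (BN.par P J))) ?_ ?_
      (isIrrCharacter_monoidHom l).isClassFunction, Finset.sum_eq_single ⟨x, hx⟩ ?_ (by simp)]
  · refine avg_eq_one fun u hu => ?_
    rw [h1 u (hY.opp J (n x) ((hn x).symm ▸ hx) ((hn x).symm ▸ hx')
      ⟨u.2, mem_cj.2 ((stab_iff _ _).1 hu)⟩), Units.val_one, map_one]
  · rintro ⟨w, hw⟩ - hne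
    refine avg_eq_zero fun h => hne (Subtype.ext ((BN.preCox P).longest_unique hx hx' hw
      fun i hi h3 => h2 i hi (HowCx.kills_mono (HowCx.kills_sup inf_le_left
        hU (fun u hu => h u ((stab_iff _ _).2 (mem_cj.1 hu.2)))
        ((HowCx.kills_iff hU).2 ?_))
        (hY.gen i (n w) ((hn w).symm ▸ h3)))))
    exact Subgroup.commutator_le.2 fun a ha b hb => ⟨⁅(⟨a, ha⟩ : Y.U ∅), ⟨b, hb⟩⁆, by
      rw [SetLike.mem_coe, MonoidHom.mem_ker, map_commutatorElement,
        commutatorElement_eq_one_iff_mul_comm, mul_comm], rfl⟩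
  · intro ω
    obtain ⟨⟨g, hg⟩, rfl⟩ := QuotientGroup.mk_surjective ω
    have h3 := BN.mem_cell_cellOf P g
    have h4 := (BN.mem_par_iff h3).1 hg
    generalize BN.cellOf P g = w at h3 h4
    obtain ⟨b, hb, b', hb', rfl⟩ := BN.exists_of_mem_cell (hc w) h3
    obtain ⟨u, hu, b1, -, h5, rfl⟩ := Y.fact ∅ (n w) ((BN.preCox P).lRed_empty _) b hb
    refine ⟨⟨w, h4⟩, ⟨u, hu⟩, QuotientGroup.eq.2 ?_⟩
    have := mul_mem h5 hb'
    rw [Subgroup.mem_subgroupOf]
    simpa [inc, mul_assoc] using this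
  · rintro ⟨w, hw⟩ ⟨w', hw'⟩ a e
    have h3 : ((a : G) * n w)⁻¹ * n w' ∈ P.B :=
      Subgroup.mem_subgroupOf.1 (QuotientGroup.eq.1
        ((MulAction.Quotient.smul_mk _ _ _).symm.trans e))
    have h4 := BN.mul_B_mem_cell (BN.B_mul_mem_cell (Y.le_B ∅ a.2) (hc w)) h3
    rw [mul_inv_cancel_left] at h4
    exact Subtype.ext (BN.eq_of_mem_cell h4 (hc w'))

end HowBx

variable {G : Type*} [Group G] [Fintype G]

theorem mult_eq {P : Cfsg.BNPair G} {p : ℕ} [Fact p.Prime] {Y : BN.SplitAt P p} (hY : HowData Y)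
    {χ : G → ℂ} (hχ : IsIrrCharacter G χ) (hB : avg χ P.B ≠ 0) (l : Y.U ∅ →* ℂˣ) (J : Finset P.S)
    (h1 : Kills l (Y.U J)) (h2 : ∀ i ∈ J, ¬ Kills l (Y.U {i}ᶜ)) :
    mult χ (Y.U ∅) l = ∑ I ∈ J.powerset, (-1 : ℂ) ^ I.card * avg χ (BN.par P (I : Set P.S)) := by
  classical
  obtain ⟨St, s1, s2, s3⟩ := exists_StJ P J
  obtain ⟨x, hx, hx'⟩ := (BN.preCox P).exists_longest (J : Set P.S)
  obtain ⟨n, rfl⟩ := BN.mk_surj P x
  replace s3 := s3 n hx hx'
  have hl := isIrrCharacter_monoidHom l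
  have hπ : IsCharacter _ (fixedPointCharacter (P.B.subgroupOf (BN.par P (J : Set P.S)))) :=
    isCharacter_card_fixedBy _ _
  have k1 : classInner (fun u => St (HowBx.inc Y J u)) (fun u => (l u : ℂ)) = 1 := by
    have := HowBx.inner_fixed (Subgroup.inclusion (Y.le_B ∅)) ((cj (n : G) P.B).subgroupOf P.B)
      (fun _ : Unit => ((1 : P.B) : P.B ⧸ (cj (n : G) P.B).subgroupOf P.B)) (fun ω => ?_)
      (fun _ _ _ _ => rfl) hl.isClassFunction
    · rw [Fintype.sum_unique, stabilizer_quotient, HowBx.avg_eq_one fun u hu => by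
        rw [h1 u (hY.opp J n hx hx' ⟨u.2, hu⟩), Units.val_one, map_one]] at this
      rw [← this]
      exact congrArg (classInner · _) (funext fun u => s3 ⟨u, Y.le_B ∅ u.2⟩)
    obtain ⟨⟨b, hb⟩, rfl⟩ := QuotientGroup.mk_surjective ω
    obtain ⟨u, hu, b1, -, h5, rfl⟩ := Y.fact ∅ n ((BN.preCox P).lRed_empty _) b hb
    refine ⟨(), ⟨u, hu⟩, QuotientGroup.eq.2 ?_⟩
    rw [Subgroup.mem_subgroupOf, mem_cj]
    simpa using h5
  have k2 : classInner (fixedPointCharacter (P.B.subgroupOf (BN.par P (J : Set P.S)))) St ≠ 0 := by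
    rw [Ne, classInner_eq_zero_comm, HowBx.inner_ind' _ s1.isClassFunction, HowBx.avg_sum,
      Nat.card_congr (Subgroup.subgroupOfEquivOfLe (BN.B_le_par P _)).toEquiv,
      ← (Subgroup.subgroupOfEquivOfLe (BN.B_le_par P (J : Set P.S))).symm.toEquiv.sum_comp]
    have h3 := HowBx.inner_ind ((cj (n : G) P.B).subgroupOf P.B) (isClassFunction_const 1)
    rw [classInner_one_right, HowBx.avg_eq_one (by simp)] at h3
    simp only [← s3] at h3
    exact fun e => one_ne_zero (h3.symm.trans e)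
  have k3 := HowBx.one hY h1 h2
  rw [HowBx.inner_comp_sum hπ.isClassFunction] at k3
  choose b hb using fun ψ : IrrCharacter (BN.par P (J : Set P.S)) =>
    hπ.exists_nat_classInner ψ.2.isCharacter
  choose m hm using fun ψ : IrrCharacter (BN.par P (J : Set P.S)) =>
    (ψ.2.isCharacter.comp (HowBx.inc Y J)).exists_nat_classInner hl.isCharacter
  simp only [hb, hm] at k3
  replace k3 : ∑ ψ, b ψ * m ψ = 1 := by exact_mod_cast k3
  have k4 : m ⟨St, s1⟩ = 1 := by exact_mod_cast (hm ⟨St, s1⟩).symm.trans k1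
  have k5 : b ⟨St, s1⟩ ≠ 0 := fun e => k2 ((hb ⟨St, s1⟩).trans (by rw [e, Nat.cast_zero]))
  rw [HowCx.mult_eq_inner]
  refine (HowBx.inner_comp_sum (hχ.isCharacter.res (BN.par P (J : Set P.S))).isClassFunction
    (HowBx.inc Y J) _).trans ?_
  rw [Finset.sum_eq_single ⟨St, s1⟩ (fun ψ _ hne => ?_) (by simp), k1, mul_one]
  · rw [show ((⟨St, s1⟩ : IrrCharacter _) : _ → ℂ) = ∑ I ∈ J.powerset, (-1 : ℂ) ^ I.card •
      fixedPointCharacter ((BN.par P (I : Set P.S)).subgroupOf (BN.par P (J : Set P.S))) from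
        funext fun g => by rw [Finset.sum_apply]; exact s2 g, classInner_sum_right]
    refine Finset.sum_congr rfl fun I hI => ?_
    rw [classInner_smul_right, HowBx.inner_ind' _ (hχ.isCharacter.res _).isClassFunction,
      HowBx.avg_sub _ (BN.parabolic_mono P (Set.image_mono (Finset.mem_powerset.1 hI)))]
    simp
  by_contra h3
  obtain ⟨h4, h5⟩ := mul_ne_zero_iff.1 h3
  have h6 := HowBx.lies hχ hB ψ.2 h4 (HowBx.ker hY ψ.2 h1 h5)
  rw [hb, Nat.cast_ne_zero] at h6
  rw [hm, Nat.cast_ne_zero] at h5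
  have h7 := Finset.sum_le_sum_of_subset (f := fun ψ => b ψ * m ψ)
    (Finset.subset_univ {ψ, ⟨St, s1⟩})
  rw [Finset.sum_pair hne, k3, k4] at h7
  have := Nat.pos_of_ne_zero (mul_ne_zero h6 h5)
  omega

end Cfsg.Lib.CKS
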