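import Cfsg.Agent.CKS.HowB
import Cfsg.Agent.CKS.HowC
import Cfsg.Agent.CKS.Act

/-!
# Howlett's theorem and the fixed point of the unipotent subgroup
-/

set_option autoImplicit false

namespace Cfsg.Lib.CKS

open MulAction Cfsg.Lib.Chev Cfsg.Lib.Char

variable {G : Type*} [Group G] [Fintype G]

theorem HowD.avg_eq (χ : G → ℂ) (X : Subgroup G) [Fintype X] :
    avg χ X = classInner (fun u : X => χ u) fun _ => 1 := by
  classical
  rw [avg_def, classInner_one_right, ← Finset.sum_filter, Nat.card_eq_fintype_card,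
    Finset.sum_subtype (p := (· ∈ X)) _ (by simp)]

theorem HowD.avg_fix {Ω : Type*} [MulAction G Ω] [Finite Ω] (X : Subgroup G) :
    avg (fun g => (Nat.card (fixedBy Ω g) : ℂ) - 1) X = Nat.card (orbitRel.Quotient X Ω) - 1 := by
  have := Fintype.ofFinite X
  have h := classInner_sub_left (fun g : X => (Nat.card (fixedBy Ω g) : ℂ)) (fun _ => 1) fun _ => 1
  rw [Cfsg.Agent.S0157.inner_one Ω, classInner_one_one] at h
  rw [HowD.avg_eq]
  exact h

theorem howlett {P : Cfsg.BNPair G} {p : ℕ} [Fact p.Prime] {Y : BN.SplitAt P p} (hY : HowData Y)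
    {χ : G → ℂ} (hχ : IsIrrCharacter G χ) (hB : avg χ P.B ≠ 0) (h1 : avg χ ⊤ = 0) :
    ∃ k : ℤ, χ 1 = p * k := by
  classical
  have := Fintype.ofFinite P.S
  have := Fintype.ofFinite (Y.U ∅ →* ℂˣ)
  have h2 : ∀ I : Finset P.S, ∃ a : ℕ, avg χ (BN.par P (I : Set P.S)) = a := fun I => by
    rw [HowD.avg_eq]
    exact (hχ.isCharacter.res _).exists_nat_classInner isIrrCharacter_one.isCharacter
  choose a ha using h2
  obtain ⟨k, hk⟩ := deg_mod (Y.pgrp ∅) hχ.isCharacter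
  obtain ⟨h3, c, h4⟩ := (sum_supp Y.U (Y.pgrp ∅) hY.inf hY.anti hY.ne hY.top
    fun J => ∑ I ∈ J.powerset, (-1) ^ I.card * (a I : ℤ)).imp_right Int.ModEq.dvd
  have h5 := congrArg (Int.cast : ℤ → ℂ) h4
  rw [finsum_eq_sum_of_fintype] at h5 hk
  push_cast at h5
  rw [sum_alt_sum_alt, ← ha, Finset.coe_univ, BN.par_univ, h1] at h5
  rw [Finset.sum_congr rfl fun l _ => mult_eq hY hχ hB l _ (h3 l) fun i hi => (Finset.mem_filter.1 hi).2] at hk
  simp only [ha] at hk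
  refine ⟨k - c, ?_⟩
  push_cast
  linear_combination hk - h5

theorem fx_of_not_tr {P : Cfsg.BNPair G} {p : ℕ} [Fact p.Prime] {Y : BN.SplitAt P p}
    (hY : HowData Y) {Ω : Type*} [MulAction G Ω] [Finite Ω] (h : Two G Ω) (hB : ¬ Tr P.B Ω) :
    Fx (Y.U ∅) Ω := by
  have := h.nt
  have k : ∀ X : Subgroup G, Nat.card (orbitRel.Quotient X Ω) = 1 ↔ Tr X Ω := fun X => by
    rw [Nat.card_eq_one_iff_unique, ← pretransitive_iff_subsingleton_quotient,
      and_iff_left ⟨Quotient.mk'' (Classical.arbitrary Ω)⟩]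
    exact ⟨fun ⟨h⟩ a b => (h a b).elim fun g e => ⟨g, g.2, e⟩,
      fun h => ⟨fun a b => (h a b).elim fun g e => ⟨⟨g, e.1⟩, e.2⟩⟩⟩
  obtain ⟨c, hc⟩ := howlett hY h.irr (by
    rw [HowD.avg_fix, sub_ne_zero]
    exact_mod_cast (k _).not.2 hB) (by
    rw [HowD.avg_fix, (k ⊤).2 fun a b => (h.pre.exists_smul_eq a b).imp fun g e => ⟨trivial, e⟩]
    simp)
  obtain ⟨a, ha⟩ := (Y.pgrp ∅).nonempty_fixed_point_of_prime_not_dvd_card Ω fun ⟨d, hd⟩ => by
    have h1 : (p : ℤ) * d - 1 = p * c := by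
      have : ((p : ℂ) * d - 1) = p * c := by simpa [hd] using hc
      exact_mod_cast this
    exact (Fact.out : p.Prime).not_dvd_one (Int.natCast_dvd_natCast.1 ⟨d - c, by push_cast; linear_combination -h1⟩)
  exact ⟨a, fun g hg => ha ⟨g, hg⟩⟩

end Cfsg.Lib.CKS
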