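import Cfsg.Agent.CKS.IdxG

/-!
# The index of the long root parabolic subgroup in `²E₆(q)` and `³D₄(q)`
-/

set_option autoImplicit false
set_option quotPrecheck false
set_option linter.unusedSectionVars false

namespace Cfsg.Lib.CKS

open MulAction Cfsg.Lib.Chev Cfsg.Lie Subgroup

namespace IdxTAux

open WeylData WeylData.Sym

section gen
variable {ι A : Type} [Fintype ι] [DecidableEq ι] [DecidableEq A] {R : WeylData ι A} (S : R.Sym)

theorem sum_WJ {M : Type} (ev : M → ι → ℤ) (rf : ι → M → M) {T : Set ι} (hT : S.Stable T)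
    (J : List ι) (hJ : J.Nodup) (hJT : ∀ k ∈ J, k ∈ T) (hrep : ∀ i ∈ T, ∃ k ∈ J, i ∈ S.orb k)
    (val : (ι → ℤ) → M) (hev : ∀ μ, ev (val μ) = μ)
    (hrf : ∀ i ∈ J, ∀ μ, val (R.co (S.t i) μ) = rf i (val μ)) {a : ℕ}
    (ha : ∀ i, a ∣ R.len (S.t i)) (e : ι → ℕ) (he : ∀ i ∈ J, e i = R.len (S.t i) / a) (q m : ℕ)
    (hm : R.posRoots.card < m) (L : Finset S.fix) (hL : ∀ v, v ∈ L ↔ (v : R.W) ∈ R.WJ T) :
    ∑ w ∈ L, q ^ (R.len w / a) =
      ((expsG ev rf J e m 0 (val fun _ => 1)).map fun k => q ^ k).sum := by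
  have hmem : ∀ u ∈ L, ∀ i ∈ J, S.tF i * u ∈ L := fun u hu i hi => (hL _).2
    (mul_mem (R.WJ_mono (hT.orb_subset (hJT i hi)) (S.t_mem_WJ i)) ((hL u).1 hu))
  have key := tree_sum ev rf J hJ e L 1 ((hL _).2 (one_mem _))
    (fun i u => S.tF i * u) (fun u => val (R.co u fun _ => 1)) (fun u => R.len u / a)
    (fun u => R.len u) R.posRoots.card (fun u _ => R.len_le_card_posRoots u)
    (fun u _ i hi => by simp only [Subgroup.coe_mul, coe_tF]; rw [co_mul, hrf i hi])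
    (fun u _ i _ => Subtype.ext (by simp)) ?_ ?_ ?_ ?_ q m hm
  · simpa using key
  · intro u hu i hi h
    rw [hev, R.co_pos_iff fun _ => one_pos] at h
    have h1 := len_t_mul_of_pos u.2 h
    have h2 := S.len_t_pos i
    refine ⟨hmem u hu i hi, ?_⟩
    simp only [Subgroup.coe_mul, coe_tF]
    refine ⟨by omega, ?_⟩
    rw [h1, he i hi, Nat.add_div_of_dvd_left (ha i)]
  · intro u hu i hi h
    rw [hev, R.co_neg_iff fun _ => one_pos] at h
    refine ⟨hmem u hu i hi, ?_⟩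
    rw [hev, R.co_pos_iff fun _ => one_pos]
    simp only [Subgroup.coe_mul, coe_tF, mul_inv_rev, t_inv]
    rwa [pos_mul_t_iff (Subgroup.inv_mem _ u.2)]
  · intro u hu hne
    have : (u : R.W)⁻¹ ≠ 1 := fun hc => hne (Subtype.ext (inv_eq_one.mp hc))
    obtain ⟨i, hi⟩ := R.exists_not_pos_of_ne_one this
    obtain ⟨k, hk, hik⟩ := hrep i
      (R.mem_of_not_pos_of_mem_WJ (Subgroup.inv_mem _ ((hL u).1 hu)) hi)
    refine ⟨k, hk, ?_⟩
    rw [hev, R.co_neg_iff fun _ => one_pos]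
    refine not_pos_orb (Subgroup.inv_mem _ u.2) hi k ?_
    rw [S.orb_eq_of_mem hik]; exact S.self_mem_orb k
  · intro i _
    rw [hev]; simp

end gen

variable {l : ℕ} {A : Type} [DecidableEq A] {R : WeylData (Fin l) A} {CL : List (List ℤ)}

theorem sum_WJ_chk (h : R.HasC CL) (S : R.Sym) {p : Fin l → Fin l} (hp : ∀ i, S.π i = p i)
    {orbL tw : Fin l → List (Fin l)} (hc : twChk CL p orbL tw = true) {j : Fin l} (hj : p j = j)
    (J : List (Fin l)) (hJ : J.Nodup) (hJT : j ∉ J) (hrep : ∀ i, i ≠ j → ∃ k ∈ J, i ∈ orbL k)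
    (q m : ℕ) (hm : R.posRoots.card < m) (L : Finset S.fix)
    (hL : ∀ v, v ∈ L ↔ (v : R.W) ∈ R.WJ {j}ᶜ) :
    ∑ w ∈ L, q ^ (R.len w / 1) = evalP (polyOf (expsG evL (fun i => actL CL (tw i)) J
      (fun i => (tw i).length / 1) m 0 (rhoL l))) q := by
  have H := h.of_twChk S hp hc
  rw [evalP_polyOf, rhoL_eq]
  exact sum_WJ S evL _ (S.stable_compl ((hp j).trans hj)) J hJ
    (fun k hk e => hJT (Set.mem_singleton_iff.1 e ▸ hk))
    (fun i hi => by simpa only [(H _).1, Set.mem_ofPred_eq] using hrep i hi) List.ofFn evL_ofFn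
    (fun i _ μ => by rw [(H i).2.1, h.ofFn_co_wprod]) (fun i => one_dvd _) _
    (fun i _ => by rw [(H i).2.2]) q m hm L hL

theorem idx {Γ : Type*} [Group Γ] {Y : RGD R Γ} {S : R.Sym} (T : Y.Twist S) (hY : Y.Faithful)
    [Finite T.G1] (h : R.HasC CL) {p : Fin l → Fin l} (hp : ∀ i, S.π i = p i)
    {orbL tw : Fin l → List (Fin l)} (hc : twChk CL p orbL tw = true) {j : Fin l} (hj : p j = j)
    (J : List (Fin l)) (hJ : (j :: J).Nodup) (hrep : ∀ i, ∃ k ∈ j :: J, i ∈ orbL k)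
    (hrep' : ∀ i, i ≠ j → ∃ k ∈ J, i ∈ orbL k) {q : ℕ} (hq : q ≠ 0) (m : ℕ)
    (hm : R.posRoots.card < m) (hU : ∀ i, 1 ∣ R.len (S.t i) ∧
      Nat.card (Y.UL (S.orb i) ⊓ T.F : Subgroup Γ) = q ^ (R.len (S.t i) / 1)) {c₁ c₂ : List ℕ}
    (e₁ : polyOf (expsG evL (fun i => actL CL (tw i)) J (fun i => (tw i).length / 1) m 0
      (rhoL l)) = c₁)
    (e₂ : polyOf (expsG evL (fun i => actL CL (tw i)) (j :: J) (fun i => (tw i).length / 1) m 0
      (rhoL l)) = c₂) : (Pl Y T.G1 j).index * evalP c₁ q = evalP c₂ q := by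
  classical
  have : Fintype S.fix := Fintype.ofFinite _
  have h1 := index_P' T hY rfl hq hU (S.stable_compl ((hp j).trans hj))
    (Finset.univ.filter fun v : S.fix => (v : R.W) ∈ R.WJ {j}ᶜ) (by simp)
  rwa [h.sum_fix_eq S hp hc _ hJ hrep 1 (fun _ => one_dvd _) q m hm, sum_WJ_chk h S hp hc hj J
    (List.nodup_cons.1 hJ).2 (List.nodup_cons.1 hJ).1 hrep' q m hm _ (by simp), e₁, e₂] at h1

end IdxTAux

open IdxTAux

section tw
open Core
variable {F : Type} [Field F] [Fintype F] {q : ℕ}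

local notation "Y6" => certE6.Y F rootE6
local notation "YD" => certD4.Y F rootD4

section E6
variable (f : F →+* F) (hf : ∀ t, f (f t) = t) (hF : Fintype.card F = q ^ 2) (hq : ∀ t, f t = t ^ q)
local notation "K6" => (twE6 f hf).G1
include hF hq

theorem idx_twE6 : (Pl Y6 K6 (1 : Fin 6)).index * (q - 1) =
    (q ^ 12 - 1) * ((q ^ 6 - q ^ 3 + 1) * (q ^ 4 + 1)) := by
  have h2 := two_le_of_card hF
  have h1 : (Pl Y6 K6 (1 : Fin 6)).index * _ = _ := idx (l := 6) (twE6 f hf)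
    (certE6.faithful F rootE6) (hasC_E6 rootE6) (subE6_π f) twChk_E6 (j := 1) rfl [3, 2, 0]
    (by decide) (by decide) (by decide) (by omega) 37
    ((card_posRoots_E6 (hasC_E6 rootE6)).trans_lt (by decide)) (twE6_card_UL f hf hF hq)
    (c₁ := [1, 1, 2, 3, 3, 5, 4, 5, 5, 4, 5, 3, 3, 2, 1, 1])
    (c₂ := [1, 2, 4, 6, 9, 13, 17, 22, 26, 32, 37, 43, 47, 51, 55, 58, 61, 61, 62, 61, 61, 58, 55,
      51, 47, 43, 37, 32, 26, 22, 17, 13, 9, 6, 4, 2, 1]) (by decide +kernel) (by decide +kernel)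
  generalize (Pl Y6 K6 (1 : Fin 6)).index = n at h1 ⊢
  refine Nat.eq_of_mul_eq_mul_right (m := evalP [1, 1, 2, 3, 3, 5, 4, 5, 5, 4, 5, 3, 3, 2, 1, 1] q)
    (by rw [evalP_cons]; omega) ?_
  rw [mul_right_comm, h1]
  zify [Nat.one_le_pow 12 q (by omega), (show 1 ≤ q by omega),
    Nat.pow_le_pow_right (show 0 < q by omega) (show 3 ≤ 6 by omega), evalP_cons, evalP_nil]
  ring

end E6

section D4
variable (f : F →+* F) (hf : ∀ t, f (f (f t)) = t) (hF : Fintype.card F = q ^ 3)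
  (hq : ∀ t, f t = t ^ q)
local notation "KD" => (twD4 f hf).G1
include hF hq

theorem idx_twD4 : (Pl YD KD (1 : Fin 4)).index * (q - 1) = (q ^ 6 - 1) * (q ^ 4 - q ^ 2 + 1) := by
  have h2 := two_le_of_card hF
  have h1 : (Pl YD KD (1 : Fin 4)).index * _ = _ := idx (l := 4) (twD4 f hf)
    (certD4.faithful F rootD4) (hasC_D4 rootD4) (subD4_π f) twChk_D4 (j := 1) rfl [0]
    (by decide) (by decide) (by decide) (by omega) 13
    ((card_posRoots_D4 (hasC_D4 rootD4)).trans_lt (by decide)) (twD4_card_UL f hf hF hq)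
    (c₁ := [1, 0, 0, 1]) (c₂ := [1, 1, 0, 1, 2, 1, 0, 1, 2, 1, 0, 1, 1]) (by decide +kernel)
    (by decide +kernel)
  generalize (Pl YD KD (1 : Fin 4)).index = n at h1 ⊢
  refine Nat.eq_of_mul_eq_mul_right (m := evalP [1, 0, 0, 1] q) (by rw [evalP_cons]; omega) ?_
  rw [mul_right_comm, h1]
  zify [Nat.one_le_pow 6 q (by omega), (show 1 ≤ q by omega),
    Nat.pow_le_pow_right (show 0 < q by omega) (show 2 ≤ 4 by omega), evalP_cons, evalP_nil]
  ring

end D4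

end tw

end Cfsg.Lib.CKS
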