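import Cfsg.Agent.CKS.IdxG

/-!
# The index of the long root parabolic subgroup in the exceptional Chevalley groups
-/

set_option autoImplicit false
set_option quotPrecheck false

namespace Cfsg.Lib.CKS

open MulAction Cfsg.Lib.Chev Cfsg.Lie Subgroup Core

variable (F : Type) [Field F] [Finite F]

namespace IdxUAux

variable {D : ChevalleyDatum} (C : Cert D) (R : RootData D)

omit [Finite F] in
theorem rank_one (i : Fin D.rank) : 1 ∣ R.weyl.len (R.weyl.idSym.t i) ∧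
    Nat.card ((C.Y F R).UL (R.weyl.idSym.orb i) ⊓ (cT F C R).F : Subgroup (GL D.Idx F)) =
      Nat.card F ^ (R.weyl.len (R.weyl.idSym.t i) / 1) := by
  refine ⟨one_dvd _, ?_⟩
  rw [WeylData.Sym.t_def, WeylData.idSym_orb, R.weyl.w0_singleton, R.weyl.len_s, RGD.UL_singleton,
    inf_eq_left.2 fun g hg => ⟨(C.Y F R).X_le_G0 (R.weyl.simple_mem i) hg, rfl⟩, Nat.div_one,
    pow_one]
  exact C.card_xSub R (R.simple_lt i i.2)

theorem mem_fix (w : R.weyl.W) : w ∈ R.weyl.idSym.fix :=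
  R.weyl.idSym.mem_fix_iff_smul.2 fun _ _ => rfl

theorem idx {CL : List (List ℤ)} (h : R.weyl.HasC CL) (m : ℕ) (hm : R.weyl.posRoots.card < m)
    (j : Fin D.rank) (J : List (Fin D.rank)) (hJ : (j :: J).Nodup) (hall : ∀ i, i ∈ j :: J)
    {cs : List ℕ} (e : polyOf (expsG evL (sreflL CL) (j :: J) (fun _ => 1) m 0 (omegaL j)) = cs) :
    (Pl (C.Y F R) (D.group F) j).index = evalP cs (Nat.card F) := by
  classical
  have : Finite (D.group F) := C.finite_group R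
  have : Fintype R.weyl.W := Fintype.ofFinite _
  have : Fintype R.weyl.idSym.fix := Fintype.ofFinite _
  have hq : Nat.card F ≠ 0 := Nat.card_pos.ne'
  have h1 := index_P' (cT F C R) (C.faithful F R) (cT_G1 F C R) hq (rank_one F C R)
    (R.weyl.idSym.stable_compl (j := j) rfl)
    (Finset.univ.filter fun v : R.weyl.idSym.fix => (v : R.weyl.W) ∈ R.weyl.WJ {j}ᶜ) (by simp)
  have key : ∀ T : Set (Fin D.rank),
      ∑ v ∈ Finset.univ.filter fun v : R.weyl.idSym.fix => (v : R.weyl.W) ∈ R.weyl.WJ T,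
        Nat.card F ^ (R.weyl.len v / 1) = R.weyl.poinc (fun _ => 1) T (Nat.card F) := fun T => by
    rw [WeylData.poinc_eq_1']
    refine Finset.sum_bij (fun w _ => w.1) (fun w hw => by simpa using hw)
      (fun w _ w' _ e => Subtype.ext e) (fun v hv => ⟨⟨v, mem_fix R v⟩, by simpa using hv, rfl⟩)
      fun w _ => by rw [Nat.div_one, WeylData.wt_const_one]
  have h2 := key Set.univ
  rw [Finset.filter_true_of_mem fun _ _ => by rw [R.weyl.WJ_univ]; trivial] at h2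
  have e1 : ({j}ᶜ : Set (Fin D.rank)) = {k | k ∈ J} := by
    ext k
    have := List.mem_cons.1 (hall k)
    have := (List.nodup_cons.1 hJ).1
    simp only [Set.mem_compl_iff, Set.mem_singleton_iff, Set.mem_setOf_eq]
    constructor
    · tauto
    · rintro hk rfl; contradiction
  have e2 : (Set.univ : Set (Fin D.rank)) = {k | k ∈ j :: J} := (Set.eq_univ_of_forall hall).symm
  have h3 := h.poinc_eq (R.weyl.invariant_const 1) m hm (Nat.card F) _ hJ
  have h4 := h.poinc_eq (R.weyl.invariant_const 1) m hm (Nat.card F) _ (List.nodup_cons.1 hJ).2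
  have h5 : 0 < R.weyl.poinc (fun _ => 1) {j}ᶜ (Nat.card F) := by
    rw [← key]
    exact Finset.sum_pos (fun _ _ => Nat.pos_of_ne_zero (pow_ne_zero _ hq)) ⟨1, by simp [one_mem]⟩
  rw [key, h2, e2, h3] at h1
  refine Nat.eq_of_mul_eq_mul_right h5 (h1.trans ?_)
  rw [e1, h4, ← e]
  rfl

end IdxUAux

open IdxUAux

local notation "YG" => certG2.Y F rootG2
local notation "YF" => certF4.Y F rootF4
local notation "Y6" => certE6.Y F rootE6
local notation "Y7" => certE7.Y F rootE7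
local notation "Y8" => certE8.Y F rootE8
local notation "KG" => chevG2.group F
local notation "KF" => chevF4.group F
local notation "K6" => chevE6.group F
local notation "K7" => chevE7.group F
local notation "K8" => chevE8.group F
local notation "qq" => Nat.card F

theorem idx_G2 : (Pl YG KG (1 : Fin 2)).index * (qq - 1) = qq ^ 6 - 1 := by
  rw [idx F certG2 rootG2 (hasC_G2 _) 7 ((card_posRoots_G2 (hasC_G2 rootG2)).trans_lt (by decide)) (1 : Fin 2)
    ([0] : List (Fin 2)) (by decide) (by decide) (cs := [1, 1, 1, 1, 1, 1]) (by decide +kernel)]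
  have hq : 0 < qq := Nat.card_pos
  zify [Nat.one_le_pow 6 _ hq, (show 1 ≤ qq from hq), Chev.evalP_cons, Chev.evalP_nil]
  ring

theorem idx_F4 : (Pl YF KF (3 : Fin 4)).index * (qq - 1) = (qq ^ 12 - 1) * (qq ^ 4 + 1) := by
  rw [idx F certF4 rootF4 (hasC_F4 _) 25 ((card_posRoots_F4 (hasC_F4 rootF4)).trans_lt (by decide)) (3 : Fin 4)
    ([0, 1, 2] : List (Fin 4)) (by decide) (by decide)
    (cs := [1, 1, 1, 1, 2, 2, 2, 2, 2, 2, 2, 2, 1, 1, 1, 1]) (by decide +kernel)]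
  have hq : 0 < qq := Nat.card_pos
  zify [Nat.one_le_pow 12 _ hq, (show 1 ≤ qq from hq), Chev.evalP_cons, Chev.evalP_nil]
  ring

theorem idx_E6 : (Pl Y6 K6 (1 : Fin 6)).index * (qq - 1) =
    (qq ^ 12 - 1) * ((qq ^ 6 + qq ^ 3 + 1) * (qq ^ 4 + 1)) := by
  rw [idx F certE6 rootE6 (hasC_E6 _) 37 ((card_posRoots_E6 (hasC_E6 rootE6)).trans_lt (by decide)) (1 : Fin 6)
    ([0, 2, 3, 4, 5] : List (Fin 6)) (by decide) (by decide)
    (cs := [1, 1, 1, 2, 3, 3, 4, 5, 5, 5, 6, 6, 5, 5, 5, 4, 3, 3, 2, 1, 1, 1]) (by decide +kernel)]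
  have hq : 0 < qq := Nat.card_pos
  zify [Nat.one_le_pow 12 _ hq, (show 1 ≤ qq from hq), Chev.evalP_cons, Chev.evalP_nil]
  ring

theorem idx_E7 : (Pl Y7 K7 (0 : Fin 7)).index * (qq - 1) =
    (qq ^ 18 - 1) * (qq ^ 16 + qq ^ 12 + qq ^ 10 + qq ^ 8 + qq ^ 6 + qq ^ 4 + 1) := by
  rw [idx F certE7 rootE7 (hasC_E7 _) 64 ((card_posRoots_E7 (hasC_E7 rootE7)).trans_lt (by decide)) (0 : Fin 7)
    ([1, 2, 3, 4, 5, 6] : List (Fin 7)) (by decide) (by decide)
    (cs := [1, 1, 1, 1, 2, 2, 3, 3, 4, 4, 5, 5, 6, 6, 6, 6, 7, 7, 6, 6, 6, 6, 5, 5, 4, 4, 3, 3, 2,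
      2, 1, 1, 1, 1]) (by decide +kernel)]
  have hq : 0 < qq := Nat.card_pos
  zify [Nat.one_le_pow 18 _ hq, (show 1 ≤ qq from hq), Chev.evalP_cons, Chev.evalP_nil]
  ring

theorem idx_E8 : (Pl Y8 K8 (7 : Fin 8)).index * (qq - 1) =
    (qq ^ 30 - 1) * ((qq ^ 10 + 1) * (qq ^ 18 + qq ^ 12 + qq ^ 6 + 1)) := by
  rw [idx F certE8 rootE8 (hasC_E8 _) 121 ((card_posRoots_E8 (hasC_E8 rootE8)).trans_lt (by decide))
    (7 : Fin 8) ([6, 5, 0, 4, 1, 2, 3] : List (Fin 8)) (by decide) (by decide)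
    (cs := [1, 1, 1, 1, 1, 1, 2, 2, 2, 2, 3, 3, 4, 4, 4, 4, 5, 5, 6, 6, 6, 6, 7, 7, 7, 7, 7, 7, 8,
      8, 7, 7, 7, 7, 7, 7, 6, 6, 6, 6, 5, 5, 4, 4, 4, 4, 3, 3, 2, 2, 2, 2, 1, 1, 1, 1, 1, 1])
    (by decide +kernel)]
  have hq : 0 < qq := Nat.card_pos
  zify [Nat.one_le_pow 30 _ hq, (show 1 ≤ qq from hq), Chev.evalP_cons, Chev.evalP_nil]
  ring

theorem card_Ql_F4 : Nat.card (Ql YF KF (3 : Fin 4)) = qq ^ 15 := by
  have : Finite KF := certF4.finite_group rootF4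
  have h := card_UJ (cT F certF4 rootF4) (certF4.faithful F rootF4) (cT_G1 F _ _)
    (rank_one F certF4 rootF4) (rootF4.weyl.idSym.stable_compl (j := (3 : Fin 4)) rfl)
  have e1 : rootF4.weyl.posRoots.card = 24 := card_posRoots_F4 (hasC_F4 rootF4)
  have e2 : rootF4.weyl.len (rootF4.weyl.w0 ({(3 : Fin 4)}ᶜ : Set (Fin 4))) = 9 :=
    (congrArg rootF4.weyl.len (WeylData.HasC.eq_w0 (l := 4) (hasC_F4 rootF4) (J := {3}ᶜ)
      (ω := [2, 1, 2, 0, 1, 2, 0, 1, 0]) (by decide) (by decide +kernel))).symm.trans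
      (WeylData.HasC.len_wprod (l := 4) (hasC_F4 rootF4) (by decide +kernel))
  rw [e1] at h
  refine Nat.eq_of_mul_eq_mul_right (pow_pos (Nat.card_pos (α := F)) 9) ?_
  refine ((congrArg (fun n => _ * qq ^ (n / 1)) e2).symm.trans h).trans ?_
  rw [← pow_add]

omit [Finite F] in
theorem card_Zl' {D : ChevalleyDatum} (C : Cert D) (R : RootData D) {j : Fin D.rank} {w : R.weyl.W}
    (hL : R.weyl.idSym.LongRoot j w) : Nat.card (Zl (C.Y F R) (D.group F) j) = qq := by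
  have hθ := R.weyl.smul_mem w (R.weyl.simple_mem j)
  rw [Zl, IdxG.card_subgroupOf, RGD.Twist.lev_two hL, C.group_eq_Y R,
    inf_eq_left.2 ((C.Y F R).X_le_G0 hθ)]
  exact C.card_xSub R (R.weyl_mem.1 hθ)

theorem card_Zl {D : ChevalleyDatum} (C : Cert D) (R : RootData D) {j : Fin D.rank} {w : R.weyl.W}
    (hL : R.weyl.idSym.LongRoot j w) : Nat.card (Zl (C.Y F R) (D.group F) j) = qq :=
  card_Zl' F C R hL

end Cfsg.Lib.CKS
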