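import Cfsg.Agent.CKS.Def3
import Cfsg.Agent.Chev.AutChev

/-!
# Doubly transitive actions of groups of Lie type: the highest root subgroup
-/

set_option autoImplicit false
set_option linter.unusedSectionVars false

namespace Cfsg.Lib.CKS

open MulAction Cfsg.Lib.Chev Cfsg.Lie Subgroup

variable {ι A : Type} [Fintype ι] [DecidableEq ι] [DecidableEq A] {Γ : Type*} [Group Γ]
  {R : WeylData ι A} {Y : RGD R Γ} {S : R.Sym} (T : Y.Twist S) (hY : Y.Faithful)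
  {K : Subgroup Γ} [Finite K] (hK : T.G1 = K) {p : ℕ} [Fact p.Prime] (hU : IsPGroup p Y.U)
  (hH : ∀ h ∈ Y.H, h ∈ T.G1 → (∃ k, orderOf h = p ^ k) → h = 1) {j : ι} {w : R.W}
  (hab : ∀ r ∈ R.Φ, ∀ a ∈ Y.X r, ∀ b ∈ Y.X r, a * b = b * a)

namespace Long1

omit [Finite K] in
theorem le_nor {M N : Subgroup Γ} (h : M ≤ normalizer (N : Set Γ)) :
    M.subgroupOf K ≤ normalizer (N.subgroupOf K : Set K) := fun _ hg =>
  mem_normalizer_iff.2 fun x => mem_normalizer_iff.1 (h hg) x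

theorem form_theta (hL : S.LongRoot j w) {r : A} (hr : r ∈ R.Φ) :
    R.d j * R.rc r j = R.form (R.rc (w • R.simple j)) (R.rc r) := by
  have hθ := R.smul_mem w (R.simple_mem j)
  have h2 : R.rc (w • R.simple j) j = 2 := le_antisymm (hL.le_two _ hθ) ((hL.two _ hθ).2 rfl)
  have h1 := hL.neg r hr
  rw [R.rc_smul _ hr, R.lin_mul_apply, R.lin_mul_apply, R.lin_s, R.sl_apply, map_sub, map_smul,
    R.lin_lin_inv, R.lin_single, Pi.sub_apply, Pi.smul_apply, h2, smul_eq_mul] at h1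
  rw [← R.lin_single, ← R.lin_lin_inv w (R.rc r), R.form_lin, R.form_single, R.lin_lin_inv]
  congr 1
  omega

theorem mem_WJ (hL : S.LongRoot j w) {v : R.W} (hv : v • w • R.simple j = w • R.simple j) :
    v ∈ R.WJ {j}ᶜ := by
  refine R.mem_WJ_iff.2 fun r hr => ?_
  obtain ⟨h1, h2⟩ := R.mem_invs.1 hr
  have h3 := form_theta hL (R.smul_mem v h1.1)
  rw [← hv, R.rc_smul v (R.smul_mem w (R.simple_mem j)), R.rc_smul v h1.1, R.form_lin,
    ← form_theta hL h1.1, ← R.rc_smul v h1.1] at h3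
  have h4 := mul_left_cancel₀ (R.d_pos j).ne' h3
  refine ⟨h1.1, fun i hi => ?_⟩
  obtain rfl : i = j := by simpa using hi
  exact le_antisymm (h4 ▸ (R.not_pos_iff (R.smul_mem v h1.1)).1 h2 i) (h1.2 i)

theorem P_le_nor (j : ι) : Y.P {j}ᶜ ≤ normalizer (lev R Y.X (LinearMap.proj j) 2 : Set Γ) := by
  have := Y.P_le_normalizer_level {j}ᶜ two_pos
  rwa [R.stHt_compl_singleton] at this

include hY in
theorem mem_P (hL : S.LongRoot j w) {g x : Γ} (hg : g ∈ Y.G0)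
    (hx : x ∈ lev R Y.X (LinearMap.proj j) 2) (h1 : x ≠ 1)
    (h : g * x * g⁻¹ ∈ lev R Y.X (LinearMap.proj j) 2) : g ∈ Y.P {j}ᶜ := by
  obtain ⟨v, hv⟩ := RGD.mem_G0_iff.1 hg
  refine RGD.mem_P_iff.2 ⟨v, mem_WJ hL ?_, hv⟩
  obtain ⟨b, hb, m, hm, c, hc, rfl⟩ := hv
  have hθ := R.smul_mem w (R.simple_mem j)
  have h2 := conj_mem_of_mem_normalizer (P_le_nor j (Y.B_le_P _ hc)) hx
  have h3 := inv_conj_mem_of_mem_normalizer (P_le_nor j (Y.B_le_P _ hb)) h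
  rw [RGD.Twist.lev_two hL] at h2 h3
  by_contra hne
  have h4 := hY.eq_one_of_mem_X_X (R.smul_mem v hθ) hθ hne (hm.conj_X hθ h2)
    (by convert h3 using 1; group)
  exact h1 (by simpa using h4)

theorem t_eq (hL : S.LongRoot j w) : S.t j = R.s j := by
  rw [S.t_def, S.orb_of_fixed hL.π_eq, R.w0_singleton]

include hY in
theorem exists_X (hL : S.LongRoot j w) : ∃ x ∈ Y.X (R.simple j), x ∈ T.G1 ∧ x ≠ 1 := by
  obtain ⟨x, hx, hx1, hxσ⟩ := T.ne_bot j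
  obtain ⟨m, hm, hl⟩ := T.exists_lifts_t hY j
  have h1 := hl.conj_VL hx
  rw [S.orb_of_fixed hL.π_eq, RGD.UL_singleton] at h1
  exact ⟨_, h1, mul_mem (mul_mem hm (T.VL_inf_le_G1 j ⟨hx, Y.VL_le_G0 _ hx, hxσ⟩)) (inv_mem hm),
    by simpa using hx1⟩

include hY hK in
theorem nc {u : K} (hu : (u : Γ) ∈ Y.U) (hc : u ∈ center K) : u = 1 := by
  obtain ⟨m, hm, hl⟩ := T.exists_lifts hY S.w0_univ_mem_fix
  have h1 : m * u * m⁻¹ ∈ Y.V := hl.map_U_w0 ▸ ⟨u, hu, rfl⟩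
  have h2 : m * u = u * m := congrArg Subtype.val (mem_center_iff.1 hc ⟨m, hK ▸ hm⟩)
  rw [h2, mul_inv_cancel_right] at h1
  exact Subtype.ext (hY.eq_one_of_mem_U_of_mem_V hu h1)

theorem lev_le (j : ι) : lev R Y.X (LinearMap.proj j) 2 ≤ Y.UJ {j}ᶜ := by
  rw [← RGD.Twist.lev_one]; exact lev_anti _ _ _ one_le_two

end Long1

open Long1

include hY hK hU hH in
theorem bor [Nonempty ι] : Bor p (Y.B.subgroupOf K) (Y.U.subgroupOf K) where
  pg := hU.comap_subtype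
  le := comap_mono Y.U_le_B
  nor := le_nor Y.B_le_normalizer_U
  syl := T.splitAt_U_empty hY hK hU hH ▸ (T.splitAt hY hK hU hH).not_dvd_index_U
  nc u hu hc := nc T hY hK hu hc
  ne e := by
    obtain ⟨i⟩ := ‹Nonempty ι›
    obtain ⟨x, hx, hx1, hxσ⟩ := T.ne_bot i
    obtain ⟨m, hm, hl⟩ := T.exists_lifts_t hY i
    have h1 : (⟨m * x * m⁻¹, hK ▸ mul_mem (mul_mem hm
        (T.VL_inf_le_G1 i ⟨hx, Y.VL_le_G0 _ hx, hxσ⟩)) (inv_mem hm)⟩ : K) ∈ Y.U.subgroupOf K :=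
      Y.UL_le_U _ (hl.conj_VL hx)
    rw [e, mem_bot, Subtype.ext_iff] at h1
    exact hx1 (by simpa using h1)

include hY hK hU hab in
theorem long_rt0 (hL : S.LongRoot j w) :
    RT0 p (Nat.card (Zl Y K j)) (Pl Y K j).index (Pl Y K j) (Zl Y K j) := by
  have key : ∀ g : K, ∀ x ∈ Zl Y K j, x ≠ 1 → g * x * g⁻¹ ∈ Zl Y K j → g ∈ Pl Y K j :=
    fun g x hx h1 h => mem_P hY hL (T.G1_le_G0 (hK ▸ g.2)) hx (fun e => h1 (Subtype.ext e)) h
  have hP : Pl Y K j ≤ normalizer (Zl Y K j : Set K) := le_nor (P_le_nor j)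
  obtain ⟨z, hz, hz1⟩ : ∃ z ∈ Zl Y K j, z ≠ 1 := by
    obtain ⟨x, hx, hxG, hx1⟩ := exists_X T hY hL
    obtain ⟨m, hm, hl⟩ := T.exists_lifts hY hL.mem_fix
    refine ⟨⟨m * x * m⁻¹, hK ▸ mul_mem (mul_mem hm hxG) (inv_mem hm)⟩, ?_, fun e => hx1 ?_⟩
    · change _ ∈ lev _ _ _ _
      rw [RGD.Twist.lev_two hL]
      exact hl.conj_X (R.simple_mem j) hx
    · simpa [Subtype.ext_iff] using e
  exact ⟨(hU.to_le ((lev_le j).trans (Y.UJ_le_U _))).comap_subtype, rfl,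
    (one_lt_card_iff_ne_bot _).2 ((ne_bot_iff_exists_ne_one).2 ⟨⟨z, hz⟩, fun e => hz1 (congrArg Subtype.val e)⟩),
    le_antisymm (fun g hg => key g z hz hz1 ((mem_normalizer_iff.1 hg z).1 hz)) hP,
    fun g x hx h1 h => hP (key g x hx h1 h), rfl,
    fun z hz hc => nc T hY hK (Y.UJ_le_U _ (lev_le j hz)) hc⟩

include hY hK hab in
theorem long_opp (hL : S.LongRoot j w) : Opp (Ql Y K j) (Zl Y K j) (Zm Y K j) := by
  obtain ⟨m, hm, hl⟩ := T.exists_lifts hY hL.mem_fix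
  refine ⟨?_, fun u hu z hz => Subtype.ext ?_, fun u hu z hz h1 e => Subtype.ext ?_⟩
  · obtain ⟨n, hn, hl'⟩ := T.exists_lifts hY (mul_mem (mul_mem hL.mem_fix
      (t_eq hL ▸ S.t_mem_fix j : R.s j ∈ S.fix)) (inv_mem hL.mem_fix))
    have h2 := hl'.inv
    rw [show (w * R.s j * w⁻¹)⁻¹ = w * R.s j * w⁻¹ by simp [mul_assoc]] at h2
    refine ⟨⟨n, hK ▸ hn⟩, Subgroup.ext fun x => ?_⟩
    rw [mem_cj]
    refine ⟨fun hx => ?_, fun hx => ?_⟩
    · have := h2.conj_lev (φ := -LinearMap.proj j) (ψ := LinearMap.proj j)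
        (fun r hr => by simp [hL.neg r hr]) hx
      rwa [inv_inv] at this
    · have := hl'.conj_lev (φ := LinearMap.proj j) (ψ := -LinearMap.proj j)
        (fun r hr => by simp [hL.neg r hr]) hx
      change (x : Γ) ∈ lev _ _ _ _
      simpa [mul_assoc] using this
  · exact (RGD.Twist.commute_Z hL hab hz ((RGD.Twist.lev_one j).ge hu)).symm
  · exact T.eq_one_of_commute_long hY hL hab (T.G1_le_F hm) hl ⟨hz, T.G1_le_F (hK ▸ z.2)⟩
      (fun e => h1 (Subtype.ext e)) ((RGD.Twist.lev_one j).ge hu) (congrArg Subtype.val e).symm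

omit [Finite K] in
theorem long_le : Y.B.subgroupOf K ≤ Pl Y K j ∧ Ql Y K j ≤ Y.U.subgroupOf K ∧
    Zl Y K j ≤ Ql Y K j ∧ Pl Y K j ≤ normalizer (Ql Y K j : Set K) :=
  ⟨comap_mono (Y.B_le_P _), comap_mono (Y.UJ_le_U _), comap_mono (lev_le j),
    le_nor (Y.P_le_normalizer_UJ _)⟩

end Cfsg.Lib.CKS
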