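import Cfsg.Agent.CKS.HeisU
import Cfsg.Agent.CKS.Long1
import Cfsg.Agent.Chev.AutTw

/-!
# Irreducibility data for the unipotent radical of the long root parabolic subgroup
-/

set_option autoImplicit false
set_option linter.unusedSectionVars false

namespace Cfsg.Lib.CKS.IrrX

open Cfsg.Lib.Chev Cfsg.Lie Subgroup HeisH Core

theorem comm_of_fix {G : Type*} [Group G] {x g w : G}
    (h1 : g * (x * w * x⁻¹ * w⁻¹) = (x * w * x⁻¹ * w⁻¹) * g)
    (h2 : x⁻¹ * (g * x * g⁻¹) * (g * w * g⁻¹) = (g * w * g⁻¹) * (x⁻¹ * (g * x * g⁻¹))) :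
    x * (w⁻¹ * (g * w * g⁻¹)) = (w⁻¹ * (g * w * g⁻¹)) * x := by
  have h3 : x * (g * w * g⁻¹) * x⁻¹ * (g * w * g⁻¹)⁻¹ = x * w * x⁻¹ * w⁻¹ :=
    calc x * (g * w * g⁻¹) * x⁻¹ * (g * w * g⁻¹)⁻¹
        = x * ((g * w * g⁻¹) * (x⁻¹ * (g * x * g⁻¹))) * (g * x⁻¹ * w⁻¹ * g⁻¹) := by group
      _ = (g * (x * w * x⁻¹ * w⁻¹)) * g⁻¹ := by rw [← h2]; group
      _ = _ := by rw [h1]; group
  generalize g * w * g⁻¹ = v at h3
  calc x * (w⁻¹ * v) = x * w⁻¹ * x⁻¹ * (x * v * x⁻¹ * v⁻¹) * v * x := by group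
    _ = _ := by rw [h3]; group

section
variable {F G : Type*} [Field F] [Group G] {D : ChevalleyDatum} {y : ℕ → F → G}
  {R : RootData D} {j : Fin D.rank} {θ : ℕ}

theorem comm_words (hL : LV R j θ) (h : StRel D y) {v : List (ℕ × F)}
    (hv : ∀ p ∈ v, p.1 < D.nroots ∧ 1 ≤ R.rc p.1 j) : ∀ w : List (ℕ × F),
    (∀ p ∈ w, p.1 < D.nroots ∧ 1 ≤ R.rc p.1 j) → word y w * word y v = word y v * word y w *
      y θ (-(w.map fun q => (v.map fun p => (nb D p.1 q.1 : F) * p.2).sum * q.2).sum)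
  | [], _ => by simp [h.zero hL.lt]
  | q :: w, hw => by
    obtain ⟨a, b⟩ := hw q List.mem_cons_self
    have hw' := fun r hr => hw r (List.mem_cons_of_mem q hr)
    rw [word_cons, mul_assoc, comm_words hL h hv w hw', ← mul_assoc, ← mul_assoc,
      hL.comm_word h a b _ v hv, mul_assoc _ (y θ _), hL.cen_word h _ w hw']
    simp only [mul_assoc]
    rw [h.add θ hL.lt]
    congr 4
    simp only [List.map_cons, List.sum_cons]
    ring

theorem nb_θ' (hL : LV R j θ) {r : ℕ} (hr : r < D.nroots) (h1 : 1 ≤ R.rc r j) : nb D θ r = 0 := by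
  by_contra h
  have h2 := (hL.lv θ hL.lt).2.2 rfl
  have := congrFun (hL.sum_of_nb hL.lt hr (by omega) h1 h) j
  simp only [Pi.add_apply] at this
  omega

theorem sum_nb {s β : ℕ} {n : ℤ}
    (h : β ∈ lvL R j 1 ∧ ∀ r ∈ lvL R j 1, nb D r s = if r = β then n else 0) (t : ℕ → F) :
    ((lvL R j 1).map fun r => (nb D r s : F) * t r).sum = n * t β := by
  rw [← List.sum_toFinset _ (nodup_lvL 1), Finset.sum_eq_single β]
  · rw [h.2 β h.1, if_pos rfl]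
  · intro r hr hne
    rw [h.2 r (List.mem_toFinset.1 hr), if_neg hne, Int.cast_zero, zero_mul]
  · intro h'
    exact absurd (List.mem_toFinset.2 h.1) h'

theorem comm_span (h : StRel D y) {S : Set ℕ} (hS : ∀ r ∈ S, r < D.nroots) {z : G}
    (hz : ∀ r ∈ S, ∀ t, y r t * z = z * y r t) {g : G} (hg : g ∈ spanX (xSub y) S) :
    g * z = z * g := by
  refine spanX_induction (p := fun g => g * z = z * g) hg (by simp) fun r hr a ha b _ hb => ?_
  obtain ⟨t, rfl⟩ := (h.mem_xSub_iff (hS r hr)).1 ha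
  rw [mul_assoc, hb, ← mul_assoc, hz r hr, mul_assoc]

theorem exists_pair (h : StRel D y) {β γ : ℕ} (hβ : β < D.nroots) (hγ : γ < D.nroots)
    (hc : ∀ t u, y γ u * y β t = y β t * y γ u) {g : G} (hg : g ∈ spanX (xSub y) {β, γ}) :
    ∃ a b, g = y β a * y γ b := by
  refine spanX_induction (p := fun g => ∃ a b, g = y β a * y γ b) hg
    ⟨0, 0, by rw [h.zero hβ, h.zero hγ, one_mul]⟩ ?_
  rintro r (rfl | rfl) a ha _ - ⟨s, u, rfl⟩
  · obtain ⟨t, rfl⟩ := (h.mem_xSub_iff hβ).1 ha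
    exact ⟨t + s, u, by rw [← mul_assoc, h.add _ hβ]⟩
  · obtain ⟨t, rfl⟩ := (h.mem_xSub_iff hγ).1 ha
    exact ⟨s, t + u, by rw [← mul_assoc, hc, mul_assoc, h.add _ hγ]⟩

end

variable {F : Type} [Field F] {D : ChevalleyDatum} (C : Cert D) {R : RootData D} {j : Fin D.rank}
  {θ : ℕ}

include C in
theorem sum_eq_zero (hL : LV R j θ) {v w : List (ℕ × F)}
    (hv : ∀ p ∈ v, p.1 < D.nroots ∧ 1 ≤ R.rc p.1 j) (hw : ∀ p ∈ w, p.1 < D.nroots ∧ 1 ≤ R.rc p.1 j)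
    (h : word (xGL D F) v * word (xGL D F) w = word (xGL D F) w * word (xGL D F) v) :
    (w.map fun q => (v.map fun p => (nb D p.1 q.1 : F) * p.2).sum * q.2).sum = 0 := by
  rw [comm_words hL (C.stRelN F R).toStRel hv w hw, left_eq_mul, C.xGL_eq_one_iff R hL.lt] at h
  exact neg_eq_zero.1 h

theorem cen_U (hL : LV R j θ)
    (hθ : ∀ r, r < D.nroots → D.IsPosRoot r → θ ≠ D.neg r ∧ D.chainRoot r θ 1 = none)
    {g : GL D.Idx F} (hg : g ∈ (C.Y F R).U) (u : F) : g * xGL D F θ u = xGL D F θ u * g :=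
  comm_span (C.stRelN F R).toStRel (S := {r | R.weyl.Pos r}) (fun _ hr => R.weyl_mem.1 hr.1)
    (fun r hr t => by
      have h1 := R.weyl_mem.1 hr.1
      obtain ⟨h2, h3⟩ := hθ r h1 (R.weyl_pos.1 hr)
      exact ((C.stRelN F R).toStRel.commute R h1 hL.lt h2 h3 t u).eq) hg

theorem irrD_of [Finite F] (hL : LV R j θ)
    (hθ : ∀ r, r < D.nroots → D.IsPosRoot r → θ ≠ D.neg r ∧ D.chainRoot r θ 1 = none)
    (p : ℕ) [Fact p.Prime] [CharP F p] {K : Subgroup (GL D.Idx F)} {β : ℕ} (hβ : β ∈ lvL R j 1)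
    {m : GL D.Idx F} (hm : m ∈ K) {w : R.weyl.W} (hl : (C.Y F R).Lifts m w)
    (hw : w ∈ R.weyl.WJ {j}ᶜ) (hs : w • β ∈ lvL R j 1) (hwθ : w • θ = θ)
    (hn : (nb D β (w • β) : F) ≠ 0)
    (H : ∀ t : ℕ → F, (∀ g ∈ (C.Y F R).U, g ∈ K → ∀ r ∈ lvL R j 1, ∀ (a : F) (v : List (ℕ × F)),
      (∀ q ∈ v, q.1 ∈ lvL R j 1) → g * xGL D F r a * g⁻¹ = xGL D F r a * word (xGL D F) v →
      (v.map fun q => ((lvL R j 1).map fun r => (nb D r q.1 : F) * t r).sum * q.2).sum = 0) →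
      ∀ r ∈ lvL R j 1, r ≠ β → r ≠ θ → t r = 0) :
    IrrD p (Pl (C.Y F R) K j) (Ql (C.Y F R) K j) (Zl (C.Y F R) K j) := by
  have hW := (C.stRelN F R).toStRelW
  obtain ⟨b1, b2⟩ := mem_lvL.1 hβ
  obtain ⟨s1, s2⟩ := mem_lvL.1 hs
  have hθ1 : 1 ≤ R.rc θ j := by have := (hL.lv θ hL.lt).2.2 rfl; omega
  refine ⟨(C.Y F R).U.subgroupOf K,
    {v | v = 1 ∨ ∃ a : F, a ≠ 0 ∧ ∃ b, (v : GL D.Idx F) = xGL D F β a * xGL D F θ b},
    (C.isPGroup_U R p).comap_subtype, comap_mono ((C.Y F R).U_le_B.trans ((C.Y F R).B_le_P _)),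
    fun x hx hf => ?_, ?_⟩
  · have hx' := (mem_Ql C).1 hx
    obtain ⟨t, e⟩ := exists_word_lev hW one_pos hx'
    have h0 := H t fun g hg hK r hr a v hv e' => by
      have ha : xGL D F r a ∈ lev R.weyl (xSub (xGL D F)) (LinearMap.proj j) 1 :=
        mem_lev (R.weyl_mem.2 (mem_lvL.1 hr).1) (mem_lvL.1 hr).2 (x_mem_xSub _ _ _)
      have h1 : g * xGL D F r a * g⁻¹ ∈ lev R.weyl (xSub (xGL D F)) (LinearMap.proj j) 1 :=
        (RGD.Twist.lev_one (Y := C.Y F R) j).ge (conj_mem_of_mem_normalizer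
          ((C.Y F R).P_le_normalizer_UJ _ ((C.Y F R).B_le_P _ ((C.Y F R).U_le_B hg)))
          ((RGD.Twist.lev_one (Y := C.Y F R) j).le ha))
      obtain ⟨c, hc⟩ := (hW.toStRel.mem_xSub_iff hL.lt).1 (hL.com hW hx' ha)
      have h2 := comm_of_fix (x := (x : GL D.Idx F)) (g := g) (w := xGL D F r a)
        (by rw [hc]; exact cen_U C hL hθ hg c)
        (hL.cen hW ((hL.mem_Zl C).1 (hf ⟨g, hK⟩ hg)) h1)
      rw [e', inv_mul_cancel_left, e] at h2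
      have := sum_eq_zero C hL (fun q hq => by
        obtain ⟨r, hr, rfl⟩ := List.mem_map.1 hq
        exact mem_lvL.1 hr) (fun q hq => mem_lvL.1 (hv q hq)) h2
      simpa only [List.map_map, Function.comp_def] using this
    obtain ⟨a, b, e2⟩ := exists_pair hW.toStRel b1 hL.lt (hL.cen_x hW.toStRel b1 b2)
      (e ▸ word_mem_span hW.toStRel (T := {β, θ}) (fun r hr => (mem_lvL.1 hr).1)
        fun r hr h => h0 r hr (fun e => h (.inl e)) fun e => h (.inr e) :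
        (x : GL D.Idx F) ∈ spanX (xSub (xGL D F)) {β, θ})
    by_cases ha : a = 0
    · refine ⟨1, .inl rfl, x, (hL.mem_Zl C).2 ?_, (one_mul _).symm⟩
      rw [e2, ha, hW.toStRel.zero b1, one_mul]
      exact x_mem_xSub _ _ _
    · exact ⟨x, .inr ⟨a, ha, b, e2⟩, 1, one_mem _, (mul_one _).symm⟩
  · rintro v (rfl | ⟨a, ha, b, e⟩) h1
    · exact absurd rfl h1
    refine ⟨⟨m, hm⟩, hl.mem_P hw, fun h => ?_⟩
    obtain ⟨c, hc, e1⟩ := hW.lifts_conj_x' R hl b1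
    obtain ⟨d, -, e2⟩ := hW.lifts_conj_x' R hl hL.lt
    have h2 := congrArg Subtype.val h
    have h3 : m * (v : GL D.Idx F) * m⁻¹ = word (xGL D F) [(w • β, c * a), (θ, d * b)] := by
      rw [e, ← conj_mul, e1, e2, hwθ]; simp
    have h4 : (v : GL D.Idx F) = word (xGL D F) [(β, a), (θ, b)] := by rw [e]; simp
    simp only [Subgroup.coe_mul, Subgroup.coe_inv] at h2
    rw [h3, h4] at h2
    have := sum_eq_zero C hL (by simp [b1, b2, hL.lt, hθ1]) (by simp [s1, s2, hL.lt, hθ1]) h2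
    simp [hL.nb_θ b1 b2, hL.nb_θ hL.lt hθ1, nb_θ' hL s1 s2, hn, ha, hc] at this

end Cfsg.Lib.CKS.IrrX
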