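import Cfsg.Agent.CKS.Def3

/-!
# The highest root in the exceptional types
-/

set_option autoImplicit false

namespace Cfsg.Lib.CKS

open Cfsg.Lib.Chev Cfsg.Lie Core

namespace LRiAux

theorem longR_of_chk {D : ChevalleyDatum} (R : RootData D) (S : R.weyl.Sym) {j : Fin D.rank}
    {τ ω : List (Fin D.rank)} (hπ : S.π j = j) (hfix : wprod R.weyl.s τ ∈ S.fix)
    (h0 : wprod R.weyl.s ω = R.weyl.w0 Set.univ) {θ : ℕ}
    (h1 : τ.foldr (fun i s => D.reflectRoot i s) (D.simple j) = θ)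
    (h2 : ∀ r, r < D.nroots → (2 ≤ R.rc r j ↔ r = θ) ∧ R.rc r j ≤ 2)
    (h5 : ∀ k : Fin D.rank, R.rc ((τ ++ j :: τ.reverse).foldr (fun i s => D.reflectRoot i s)
      (D.simple k)) j = if k = j then -1 else 0)
    (h3 : ω.foldr (fun i s => D.reflectRoot i s) θ = D.neg θ)
    (h4 : R.rc (D.reflectRoot j θ) j = 1) : LongR S j (wprod R.weyl.s τ) := by
  have hj := R.simple_lt j j.2
  have e : wprod R.weyl.s τ • D.simple j = θ := (R.wprod_smul τ hj).trans h1
  have hθ : θ < D.nroots := e ▸ R.weyl_smul_lt _ hj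
  refine ⟨⟨hπ, hfix, fun r hr => e ▸ (h2 r (R.weyl_mem.1 hr)).1,
    fun r hr => (h2 r (R.weyl_mem.1 hr)).2, fun r hr => ?_, ?_⟩, ?_⟩
  · have : ∀ k : Fin D.rank, R.weyl.rc ((wprod R.weyl.s τ * R.weyl.s j * (wprod R.weyl.s τ)⁻¹) •
        R.weyl.simple k) j = if k = j then -1 else 0 := fun k => by
      have := h5 k
      rwa [← R.wprod_smul _ (R.simple_lt k k.2), wprod_append, wprod_cons, R.weyl.wprod_reverse,
        ← mul_assoc] at this
    rw [R.weyl.rc_smul _ hr, R.weyl.lin_apply, Finset.sum_apply]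
    simp only [Pi.smul_apply, this]
    simp
  · rw [← h0, RootData.weyl_simple, e, R.wprod_smul ω hθ, h3]; rfl
  · have := R.wprod_smul [j] hθ
    rw [wprod_cons, wprod_nil, mul_one] at this
    rw [RootData.weyl_simple, e, this]
    exact h4

theorem mem_fix_id {ι A : Type} [Fintype ι] [DecidableEq ι] [DecidableEq A] (R : WeylData ι A)
    (w : R.W) : w ∈ R.idSym.fix := R.idSym.mem_fix_iff_smul.2 fun _ _ => rfl

theorem mem_fix_flat {ι A : Type} [Fintype ι] [DecidableEq ι] [DecidableEq A] {R : WeylData ι A}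
    (S : R.Sym) {O : ι → List ι} (h : ∀ i, S.t i = wprod R.s (O i)) (τ : List ι) :
    wprod R.s (τ.flatMap O) ∈ S.fix := by
  induction τ with
  | nil => exact one_mem _
  | cons i τ ih =>
    rw [List.flatMap_cons, wprod_append, ← h]
    exact mul_mem (S.t_mem_fix i) ih

end LRiAux

open LRiAux

theorem longR_G2 : ∃ w, LongR rootG2.weyl.idSym (1 : Fin 2) w :=
  ⟨_, longR_of_chk rootG2 _ (τ := ([1, 0] : List (Fin 2))) rfl (mem_fix_id _ _)
    (longest_G2 (hasC_G2 rootG2)) (θ := 11) (by decide +kernel) (by decide +kernel)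
    (by decide +kernel) (by decide +kernel) (by decide +kernel)⟩

theorem longR_F4 : ∃ w, LongR rootF4.weyl.idSym (3 : Fin 4) w :=
  ⟨_, longR_of_chk rootF4 _ (τ := ([3, 2, 1, 2, 0, 1, 2] : List (Fin 4))) rfl (mem_fix_id _ _)
    (longest_F4 (hasC_F4 rootF4)) (θ := 47) (by decide +kernel) (by decide +kernel)
    (by decide +kernel) (by decide +kernel) (by decide +kernel)⟩

theorem longR_E6 : ∃ w, LongR rootE6.weyl.idSym (1 : Fin 6) w :=
  ⟨_, longR_of_chk rootE6 _ (τ := ([1, 3, 4, 5, 2, 3, 4, 0, 2, 3] : List (Fin 6))) rfl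
    (mem_fix_id _ _) (longest_E6 (hasC_E6 rootE6)) (θ := 71) (by decide +kernel)
    (by decide +kernel) (by decide +kernel) (by decide +kernel) (by decide +kernel)⟩

theorem longR_E7 : ∃ w, LongR rootE7.weyl.idSym (0 : Fin 7) w :=
  ⟨_, longR_of_chk rootE7 _
    (τ := ([0, 2, 3, 4, 5, 6, 1, 3, 4, 5, 2, 3, 4, 1, 3, 2] : List (Fin 7))) rfl
    (mem_fix_id _ _) (longest_E7 (hasC_E7 rootE7)) (θ := 125) (by decide +kernel)
    (by decide +kernel) (by decide +kernel) (by decide +kernel) (by decide +kernel)⟩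

theorem longR_E8 : ∃ w, LongR rootE8.weyl.idSym (7 : Fin 8) w :=
  ⟨_, longR_of_chk rootE8 _
    (τ := ([7, 6, 5, 4, 3, 2, 1, 3, 4, 5, 6, 0, 2, 3, 4, 5, 1, 3, 4, 2, 3, 0, 2, 1, 3, 4, 5, 6] :
      List (Fin 8))) rfl
    (mem_fix_id _ _) (longest_E8 (hasC_E8 rootE8)) (θ := 239) (by decide +kernel)
    (by decide +kernel) (by decide +kernel) (by decide +kernel) (by decide +kernel)⟩

theorem longR_twE6 {K : Type} [Field K] (f : K →+* K) :
    ∃ w, LongR (subE6 f).S (1 : Fin 6) w :=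
  ⟨_, longR_of_chk rootE6 _ (τ := ([1, 3, 2, 3, 0, 2, 3] : List (Fin 6)).flatMap orbE6)
    (subE6_π f 1) (mem_fix_flat _
      (fun i => (twist_E6_t (hasC_E6 rootE6) (subE6 f).S (subE6_π f) i).2.1) _)
    (longest_E6 (hasC_E6 rootE6)) (θ := 71) (by decide +kernel)
    (by decide +kernel) (by decide +kernel) (by decide +kernel) (by decide +kernel)⟩

theorem longR_twD4 {K : Type} [Field K] (f : K →+* K) :
    ∃ w, LongR (subD4 f).S (1 : Fin 4) w :=
  ⟨_, longR_of_chk rootD4 _ (τ := ([1, 0] : List (Fin 4)).flatMap orbD4)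
    (subD4_π f 1) (mem_fix_flat _
      (fun i => (twist_D4_t (hasC_D4 rootD4) (subD4 f).S (subD4_π f) i).2.1) _)
    (longest_D4 (hasC_D4 rootD4)) (θ := 23) (by decide +kernel)
    (by decide +kernel) (by decide +kernel) (by decide +kernel) (by decide +kernel)⟩

end Cfsg.Lib.CKS
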