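import Cfsg.Agent.CKS.Long1
import Cfsg.Agent.Chev.TwistBT

/-!
# Doubly transitive actions of groups of Lie type: the line through the highest root subgroup
-/

set_option autoImplicit false
set_option linter.unusedSectionVars false

namespace Cfsg.Lib.CKS

open MulAction Cfsg.Lib.Chev Cfsg.Lie Subgroup

variable {ι A : Type} [Fintype ι] [DecidableEq ι] [DecidableEq A] {Γ : Type*} [Group Γ]
  {R : WeylData ι A} {Y : RGD R Γ} {S : R.Sym} (T : Y.Twist S) (hY : Y.Faithful)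
  {K : Subgroup Γ} [Finite K] (hK : T.G1 = K) {p : ℕ} [Fact p.Prime] (hU : IsPGroup p Y.U)
  (hH : ∀ h ∈ Y.H, h ∈ T.G1 → (∃ k, orderOf h = p ^ k) → h = 1) {j : ι} {w : R.W}
  (hab : ∀ r ∈ R.Φ, ∀ a ∈ Y.X r, ∀ b ∈ Y.X r, a * b = b * a)

namespace Long2

theorem inf_bot {G : Type*} [Group G] {Z : Subgroup G} (h : TI Z) {a b : G}
    (hn : b⁻¹ * a ∉ normalizer (Z : Set G)) : cj a Z ⊓ cj b Z = ⊥ := by
  refine eq_bot_iff.2 fun y ⟨h1, h2⟩ => ?_
  by_contra hy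
  refine hn (h _ _ (mem_cj.1 h1) (fun e => hy ?_) ?_)
  · rw [mem_bot, ← conj_eq_one_iff (a := a⁻¹), inv_inv, e]
  · convert mem_cj.1 h2 using 1
    group

end Long2

open Long1 Long2

include hY hK hab in
theorem long_line (hL : LongR S j w) (hti : TI (Zl Y K j))
    (hnz : normalizer (Zl Y K j : Set K) = Pl Y K j) : ∃ E, Line E (Zl Y K j) := by
  have hL' := hL.toLongRoot
  have hj := R.simple_mem j
  have hθ := R.smul_mem w hj
  obtain ⟨m₀, hm₀, hl⟩ := T.exists_lifts_t hY j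
  obtain ⟨n₀, hn₀, hn⟩ := T.exists_lifts hY hL'.mem_fix
  rw [t_eq hL'] at hl
  obtain ⟨m, rfl⟩ : ∃ m : K, (m : Γ) = m₀ := ⟨⟨m₀, hK ▸ hm₀⟩, rfl⟩
  obtain ⟨n, rfl⟩ : ∃ n : K, (n : Γ) = n₀ := ⟨⟨n₀, hK ▸ hn₀⟩, rfl⟩
  have hZ : ∀ z : K, z ∈ Zl Y K j ↔ (z : Γ) ∈ Y.X (w • R.simple j) := fun z => by
    rw [← RGD.Twist.lev_two hL']; rfl
  set B := (Y.X (R.simple j)).subgroupOf K with hB
  have hc : Nat.card B = Nat.card (Zl Y K j) := by
    rw [← card_cj n B]
    congr 2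
    ext z
    rw [mem_cj, hZ]
    refine ⟨fun h => ?_, fun h => ?_⟩
    · simpa [mul_assoc] using hn.conj_X hj h
    · have := hn.inv_conj_X hθ h
      rwa [inv_smul_smul] at this
  have h1 : ∀ z ∈ cj m (Zl Y K j), (z : Γ) ∈ lev R Y.X (LinearMap.proj j) 1 := fun z hz => by
    have := hl.conj_X hθ ((hZ _).1 (mem_cj.1 hz))
    exact mem_lev (R.smul_mem _ hθ) hL.one.ge (by simpa [mul_assoc] using this)
  have h2 : ∀ x ∈ B, (x : Γ) ∈ lev R Y.X (LinearMap.proj j) 1 := fun x hx =>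
    mem_lev hj (by simp [R.rc_simple]) hx
  have hBP : ∀ x ∈ B, (x : Γ) ∈ Y.P {j}ᶜ := fun x hx =>
    Y.B_le_P _ (Y.U_le_B (Y.X_le_U (R.pos_simple j) hx))
  have h3 : ∀ x ∈ B, (1 : K)⁻¹ * (x * m) ∉ normalizer (Zl Y K j : Set K) := fun x hx h => by
    rw [hnz, inv_one, one_mul] at h
    have h4 : (m : Γ) ∈ Y.P {j}ᶜ := ((Y.P {j}ᶜ).mul_mem_cancel_left (hBP x hx)).1 h
    simpa using R.s_mem_WJ_iff.1 (hY.mem_WJ_of_mem_P hl.mem_cell h4)
  have h4 : ∀ x ∈ B, ∀ x' ∈ B, (x' * m)⁻¹ * (x * m) ∈ normalizer (Zl Y K j : Set K) → x' = x :=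
    fun x hx x' hx' h => by
      rw [hnz] at h
      have h5 := hl.inv_conj_X hj (mul_mem (inv_mem hx') hx : ((x'⁻¹ * x : K) : Γ) ∈ _)
      rw [R.s_inv, R.s_smul_simple] at h5
      have h6 := hY.eq_one_of_mem_P (J := {j}ᶜ) (R.neg_mem _ hj)
        (by rw [R.pos_neg_iff hj, not_not]; exact R.pos_simple j)
        (fun h => by simpa [R.rc_neg _ hj, R.rc_simple] using h.2 j (by simp)) h5
        (by simpa [mul_assoc] using mem_subgroupOf.1 h)
      have h7 : (x' : Γ)⁻¹ * x = 1 := (conj_eq_one_iff (a := (m : Γ)⁻¹)).1 (by rwa [inv_inv])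
      exact Subtype.ext (inv_mul_eq_one.1 h7)
  have h0 : cj 1 (Zl Y K j) = Zl Y K j := Subgroup.ext fun x => by simp [mem_cj]
  obtain ⟨e⟩ : Nonempty (Fin (Nat.card (Zl Y K j) + 1) ≃ Option B) :=
    ⟨(finSuccEquiv _).trans (Finite.equivFinOfCardEq hc).symm.optionCongr⟩
  refine ⟨Zl Y K j ⊔ cj m (Zl Y K j), ?_, fun i => (e i).elim 1 fun x => x * m, fun i => ?_,
    fun i i' hi => ?_⟩
  · rw [card_sup_of_le_normalizer, card_cj, sq]
    · refine le_normalizer_of_conj_mem fun g hg u hu => ?_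
      have : u * g = g * u := Subtype.ext (RGD.Twist.commute_Z hL' hab hu (h1 g hg))
      rwa [← this, mul_inv_cancel_right]
    · have := inf_bot hti (h3 1 (one_mem _))
      rwa [h0, one_mul, inf_comm] at this
  · beta_reduce
    rcases e i with _ | x
    · exact h0.le.trans le_sup_left
    · intro z hz
      have h5 : (x : K)⁻¹ * z * x ∈ cj m (Zl Y K j) := by
        rw [mem_cj] at hz ⊢
        simpa [mul_assoc] using hz
      have h6 : ((x : K)⁻¹ * z * x)⁻¹ * (x : K)⁻¹⁻¹ * ((x : K)⁻¹ * z * x) * (x : K)⁻¹ ∈ Zl Y K j :=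
        Y.comm.comm_lev hab _ one_pos one_pos (h1 _ h5) (h2 _ (inv_mem x.2))
      convert mul_mem (mem_sup_right h5) (mem_sup_left h6) using 1
      group
  · have hne := e.injective.ne hi
    revert hne
    beta_reduce
    rcases e i with _ | x <;> rcases e i' with _ | x' <;> intro hne
    · exact (hne rfl).elim
    · exact inf_comm _ _ |>.trans (inf_bot hti (h3 _ x'.2))
    · exact inf_bot hti (h3 _ x.2)
    · exact inf_bot hti fun h => hne (congrArg some (Subtype.ext (h4 _ x.2 _ x'.2 h).symm))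

end Cfsg.Lib.CKS
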