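import Cfsg.Agent.CKS.GenK
import Cfsg.Agent.CKS.HeisU

/-!
# A conjugate of the highest root subgroup in the centraliser of `⟨X_θ, X_{-θ}⟩`
-/

set_option autoImplicit false
set_option quotPrecheck false
set_option synthInstance.maxSize 4000

namespace Cfsg.Lib.CKS

open Cfsg.Lib.Chev Cfsg.Lie Subgroup Core HeisH GenK
open scoped commutatorElement

namespace MGu

variable {F : Type} [Field F] {D : ChevalleyDatum} (C : Cert D) {R : RootData D} {j : Fin D.rank}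
  {θ : ℕ}

theorem exists_Zl (hL : LV R j θ) {z : D.group F} (hz : z ∈ Zl (C.Y F R) (D.group F) j) :
    ∃ t, z = xG D F θ t := by
  obtain ⟨t, e⟩ := ((C.stRelN F R).toStRel.mem_xSub_iff hL.lt).1 ((hL.mem_Zl C).1 hz)
  exact ⟨t, Subtype.ext e⟩

theorem exists_Zm (hL : LV R j θ) {z : D.group F} (hz : z ∈ Zm (C.Y F R) (D.group F) j) :
    ∃ t, z = xG D F (D.neg θ) t := by
  have k : lev R.weyl (xSub (xGL D F)) (-LinearMap.proj j) 2 ≤ xSub (xGL D F) (D.neg θ) :=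
    spanX_le_iff.2 fun r hr => by
      have h1 := R.weyl_mem.1 hr.1
      have h2 : 2 ≤ R.rc (D.neg r) j := by rw [R.rc_neg r h1]; exact hr.2
      rw [← (hL.lv _ (R.neg_lt h1)).2.1 h2, R.neg_neg h1]
  obtain ⟨t, e⟩ := ((C.stRelN F R).toStRel.mem_xSub_iff (R.neg_lt hL.lt)).1 (k hz)
  exact ⟨t, Subtype.ext e⟩

/-- The root check. -/
abbrev Chk (D : ChevalleyDatum) (θ k : ℕ) (L ω : List ℕ) : Prop :=
  (∀ i ∈ ω, i < D.rank) ∧ ω.foldr D.reflectRoot θ = k ∧ ∀ r ∈ L, D.IsPosRoot r ∧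
    (Pr D r θ ∧ D.commTerms r θ = []) ∧ (Pr D r (D.neg θ) ∧ D.commTerms r (D.neg θ) = []) ∧
      (r = k ∨ Pr D r k ∧ D.commTerms r k = [])

theorem Chk_eq_1' : type_of% @Chk.eq_1 := @Chk.eq_1

theorem mem_Y {L : List ℕ} {r : ℕ} (hr : r ∈ L) (t : F) :
    xG D F r t ∈ spanX (xSub (xG D F)) {r | r ∈ L} :=
  mem_spanX (xSub (xG D F)) (T := {r | r ∈ L}) (r := r) hr (x_mem_xSub _ _ _)

theorem mg [Finite F] (p : ℕ) [Fact p.Prime] [CharP F p] (hL : LV R j θ) {k : ℕ} {L ω : List ℕ}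
    (hc : Chk D θ k L ω) (hk : ∀ v, xG D F k v ∈
      ⁅spanX (xSub (xG D F)) {r | r ∈ L}, spanX (xSub (xG D F)) {r | r ∈ L}⁆) :
    MG p (Zl (C.Y F R) (D.group F) j)
      (Zl (C.Y F R) (D.group F) j ⊔ Zm (C.Y F R) (D.group F) j) := by
  have H := C.stRelN_xG F R
  obtain ⟨h1, rfl, h3⟩ := hc
  obtain ⟨kl, g, hg⟩ := exists_conj H.toStRelW R hL.lt ω h1
  have le : ∀ {N : Subgroup (D.group F)}, (∀ r ∈ L, ∀ t, xG D F r t ∈ N) →
      spanX (xSub (xG D F)) {r | r ∈ L} ≤ N := fun h => spanX_le_iff.2 fun r hr =>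
    (closure_le _).2 (by rintro _ ⟨t, rfl⟩; exact h r hr t)
  have cz : ∀ z ∈ cj g (Zl (C.Y F R) (D.group F) j), ∃ v, z = xG D F (ω.foldr D.reflectRoot θ) v := by
    rintro _ ⟨z, hz, rfl⟩
    obtain ⟨t, rfl⟩ := exists_Zl C hL hz
    exact hg t
  refine ⟨_, g, ((C.isPGroup_U R p).comap_subtype (K := D.group F)).to_le (le fun r hr t =>
    mem_spanX (C.Y F R).X (T := {r | R.weyl.Pos r}) (r := r) (R.weyl_pos.2 (h3 r hr).1)
      (x_mem_xSub _ _ _)), fun z hz y hy => ?_, fun z hz => ?_, fun y hy s hs => ?_⟩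
  · obtain ⟨v, rfl⟩ := cz z hz
    refine (mem_centralizer_singleton_iff.1 (le (fun r hr t => mem_centralizer_singleton_iff.2 ?_)
      hy)).symm
    rcases (h3 r hr).2.2.2 with rfl | ⟨h4, h5⟩
    · rw [H.add _ kl, H.add _ kl, add_comm]
    · exact (commute H.toStRel h4 h5 _ _).symm
  · obtain ⟨v, rfl⟩ := cz z hz
    exact hk v
  · refine (mem_centralizer_iff.1 (sup_le (b := Zm _ _ _) (c := centralizer _) ?_ ?_ hs) y hy)
    · intro z hz
      obtain ⟨v, rfl⟩ := exists_Zl C hL hz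
      exact le_centralizer_iff.1 (le fun r hr t => mem_centralizer_iff.2 fun a ha => by
        obtain ⟨n, rfl⟩ := mem_zpowers_iff.1 ha
        exact (Commute.zpow_left (commute H.toStRel (h3 r hr).2.1.1 (h3 r hr).2.1.2 t v) n).eq)
        (mem_zpowers _)
    · intro z hz
      obtain ⟨v, rfl⟩ := exists_Zm C hL hz
      exact le_centralizer_iff.1 (le fun r hr t => mem_centralizer_iff.2 fun a ha => by
        obtain ⟨n, rfl⟩ := mem_zpowers_iff.1 ha
        exact (Commute.zpow_left (commute H.toStRel (h3 r hr).2.2.1.1 (h3 r hr).2.2.1.2 t v) n).eq)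
        (mem_zpowers _)

theorem mg_one [Finite F] (p : ℕ) [Fact p.Prime] [CharP F p] (hL : LV R j θ) {r s k : ℕ} {ω : List ℕ}
    (hc : Chk D θ k [r, s, k] ω) (hp : Pr D r s) (e : D.commTerms r s = [(k, 1, 1, 1)]) :
    MG p (Zl (C.Y F R) (D.group F) j)
      (Zl (C.Y F R) (D.group F) j ⊔ Zm (C.Y F R) (D.group F) j) :=
  mg C p hL hc (one (C.stRelN_xG F R).toStRel hp (mem_Y (by simp)) (mem_Y (by simp)) e (by simp))

end MGu

open MGu

variable (F : Type) [Field F] [Finite F]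

local notation "YF" => certF4.Y F rootF4
local notation "Y6" => certE6.Y F rootE6
local notation "Y7" => certE7.Y F rootE7
local notation "Y8" => certE8.Y F rootE8
local notation "KF" => chevF4.group F
local notation "K6" => chevE6.group F
local notation "K7" => chevE7.group F
local notation "K8" => chevE8.group F
local notation "qq" => Nat.card F

theorem mg_F4 (p : ℕ) [Fact p.Prime] [CharP F p] (h : 3 ≤ qq) :
    MG p (Zl YF KF (3 : Fin 4)) (Zl YF KF (3 : Fin 4) ⊔ Zm YF KF (3 : Fin 4)) := by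
  obtain ⟨c, h0, h1⟩ := exists_c h
  exact mg certF4 p lv_F4 (k := 30) (L := [25, 27, 28, 30]) (ω := [0, 3, 2, 1, 2, 3])
    (by decide +kernel) (two (certF4.stRelN_xG F rootF4).toStRel (r := 25) (s := 27) (k := 28)
      (a := 1) (b := -1) (by decide +kernel) (mem_Y (by simp)) (mem_Y (by simp)) (by decide +kernel)
      (by decide +kernel) (by decide +kernel) (by simp) (by simp) h0 h1).2
theorem mg_E6 (p : ℕ) [Fact p.Prime] [CharP F p] :
    MG p (Zl Y6 K6 (1 : Fin 6)) (Zl Y6 K6 (1 : Fin 6) ⊔ Zm Y6 K6 (1 : Fin 6)) :=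
  mg_one certE6 p lv_E6 (r := 36) (s := 37) (k := 38) (ω := [3, 1, 2, 0, 3, 2, 4, 3, 1])
    (by decide +kernel) (by decide +kernel) (by decide +kernel)
theorem mg_E7 (p : ℕ) [Fact p.Prime] [CharP F p] :
    MG p (Zl Y7 K7 (0 : Fin 7)) (Zl Y7 K7 (0 : Fin 7) ⊔ Zm Y7 K7 (0 : Fin 7)) :=
  mg_one certE7 p lv_E7 (r := 63) (s := 64) (k := 65)
    (ω := [4, 3, 1, 2, 0, 3, 2, 4, 3, 1, 5, 4, 3, 2, 0])
    (by decide +kernel) (by decide +kernel) (by decide +kernel)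
theorem mg_E8 (p : ℕ) [Fact p.Prime] [CharP F p] :
    MG p (Zl Y8 K8 (7 : Fin 8)) (Zl Y8 K8 (7 : Fin 8) ⊔ Zm Y8 K8 (7 : Fin 8)) :=
  mg_one certE8 p lv_E8 (r := 121) (s := 123) (k := 124)
    (ω := [4, 3, 1, 2, 0, 3, 2, 4, 3, 1, 5, 4, 3, 2, 0, 7, 6, 5, 4, 3, 1, 2, 3, 4, 5, 6, 7])
    (by decide +kernel) (by decide +kernel) (by decide +kernel)

end Cfsg.Lib.CKS
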