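import Cfsg.Agent.CKS.Def3

/-!
# No parabolic subgroup with two double cosets in the exceptional types
-/

set_option autoImplicit false
set_option maxRecDepth 100000

namespace Cfsg.Lib.CKS

open Cfsg.Lib.Chev Cfsg.Lie

section gen
variable {ι A : Type} [Fintype ι] [DecidableEq ι] [DecidableEq A] {R : WeylData ι A} {S : R.Sym} {i : ι}

theorem not_twoCoset {ι A : Type} [Fintype ι] [DecidableEq ι] [DecidableEq A] {R : WeylData ι A}
    {S : R.Sym} {i : ι} {w : R.W} (hw : w ∈ S.fix) {L : Finset A}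
    (hL : ∀ β ∈ L, β ∈ R.Φ ∧ 0 < R.stHt (S.orb i)ᶜ (R.rc β) ∧ R.stHt (S.orb i)ᶜ (R.rc (w • β)) < 0)
    (hc : {β | R.Pos β ∧ R.InJ (S.orb i) β}.ncard < L.card) : ¬ TwoCoset S i := fun h => by
  obtain ⟨v, hv, h1⟩ := h w hw
  refine hc.not_ge (Set.ncard_coe_finset L ▸ Set.ncard_le_ncard_of_injOn (v • ·) (fun β hβ => ?_)
    (MulAction.injective v).injOn (R.Φ.finite_toSet.subset fun _ h => h.1.1))
  obtain ⟨h2, h3, h4⟩ := hL β hβ
  exact ⟨((R.stHt_pos_iff _ (R.smul_mem v h2)).1 (by rwa [R.stHt_smul_of_mem hv h2])).1, h1 β h2 h3 h4⟩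

namespace NTC

theorem stHt_neg {J : Set ι} {r : A} (hr : r ∈ R.Φ) (h1 : ¬ R.Pos r) (h2 : ¬ R.InJ J r) :
    R.stHt J (R.rc r) < 0 :=
  lt_of_le_of_ne (R.stHt_nonpos J ((R.not_pos_iff hr).1 h1)) fun e => h2 ((R.stHt_eq_zero_iff J hr).1 e)

theorem w0_w0 (r : A) : R.w0 Set.univ • R.w0 Set.univ • r = r := by rw [← mul_smul, R.w0_mul_self, one_smul]

theorem rc_w0_ne {β : A} (hβ : β ∈ R.Φ) (h : ∀ j, 0 < R.rc β j) (k : ι) : R.rc (R.w0 Set.univ • β) k ≠ 0 := by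
  intro e
  have h1 : ∀ j, R.rc (R.w0 Set.univ • R.simple j) k ≤ 0 := fun j =>
    (R.not_pos_iff (R.smul_mem _ (R.simple_mem j))).1 (R.not_pos_w0_simple (Set.mem_univ j)) k
  rw [R.rc_smul _ hβ, R.lin_apply, Finset.sum_apply] at e
  replace e := (Finset.sum_eq_zero_iff_of_nonpos fun j _ => mul_nonpos_of_nonneg_of_nonpos (h j).le (h1 j)).1 e
  have h2 := congrFun (R.rc_smul (R.w0 Set.univ) (R.smul_mem (R.w0 Set.univ) (R.simple_mem k))) k
  rw [w0_w0, R.rc_simple, R.lin_apply, Finset.sum_apply, Finset.sum_eq_zero fun j hj => by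
    rw [Pi.smul_apply, (mul_eq_zero.1 (e j hj)).resolve_left (h j).ne', smul_zero]] at h2
  simp at h2

/-- Enough roots with full support exclude two double cosets. -/
theorem of_full {L : Finset A} (hL : ∀ β ∈ L, β ∈ R.Φ ∧ ∀ j, 0 < R.rc β j) (hc : R.len (S.t i) < L.card) :
    ¬ TwoCoset S i := by
  refine not_twoCoset S.w0_univ_mem_fix (fun β hβ => ?_) (lt_of_le_of_lt (le_of_eq ?_) hc)
  · obtain ⟨h1, h2⟩ := hL β hβ
    have h3 : R.Pos β := ⟨h1, fun j => (h2 j).le⟩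
    have h4 : i ∉ (S.orb i)ᶜ := fun h => h (S.self_mem_orb i)
    exact ⟨h1, (R.stHt_pos_iff _ h1).2 ⟨h3, fun h => (h2 i).ne' (h.2 i h4)⟩, stHt_neg (R.smul_mem _ h1)
      (by rw [R.pos_w0_univ_smul_iff h1]; exact not_not.2 h3) fun h => rc_w0_ne h1 h2 i (h.2 i h4)⟩
  · rw [← R.card_invs, ← Set.ncard_coe_finset]
    congr 1
    ext r
    exact R.mem_invs_w0.symm

theorem of_two {β γ : A} (h : β ≠ γ) (h1 : β ∈ R.Φ) (h2 : γ ∈ R.Φ) (h3 : ∀ j, 0 < R.rc β j ∧ 0 < R.rc γ j)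
    (i : ι) : ¬ TwoCoset R.idSym i :=
  of_full (L := {β, γ}) (by simp [h1, h2, h3]) (by
    rw [WeylData.Sym.t_def, R.idSym_orb, R.w0_singleton, R.len_s, Finset.card_pair h]; exact one_lt_two)

/-- The case where the opposition involution preserves the orbits. -/
theorem of_opp (hw : ∀ j, ∃ k ∈ S.orb j, R.w0 Set.univ • R.simple j = R.neg (R.simple k)) {γ : A}
    (hγ : R.Pos γ) (h1 : ¬ R.InJ (S.orb i)ᶜ γ) (h2 : ¬ R.InJ (S.orb i) γ) : ¬ TwoCoset S i := fun h => by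
  obtain ⟨v, hv, h3⟩ := h _ S.w0_univ_mem_fix
  have h4 := R.smul_mem v⁻¹ hγ.1
  have h5 := (R.stHt_pos_iff (S.orb i)ᶜ hγ.1).2 ⟨hγ, h1⟩
  rw [← R.stHt_smul_of_mem (inv_mem hv) hγ.1] at h5
  obtain ⟨h6, h7⟩ := (R.stHt_pos_iff _ h4).1 h5
  refine h2 (smul_inv_smul v γ ▸ h3 _ h4 h5 (stHt_neg (R.smul_mem _ h4)
    (by rw [R.pos_w0_univ_smul_iff h4]; exact not_not.2 h6) fun h8 => h7 ⟨h4, fun l hl => ?_⟩))
  rw [← w0_w0 (R := R) (v⁻¹ • γ), R.rc_smul _ h8.1, R.lin_apply, Finset.sum_apply]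
  refine Finset.sum_eq_zero fun j _ => ?_
  obtain ⟨k, hk, e⟩ := hw j
  by_cases hj : j ∈ S.orb i
  · rw [h8.2 j fun h => h hj, zero_smul, Pi.zero_apply]
  · rw [e, R.rc_neg _ (R.simple_mem _), R.rc_simple, Pi.smul_apply, Pi.neg_apply, Pi.single_eq_of_ne, neg_zero,
      smul_zero]
    rintro rfl
    exact hj (S.orb_eq_of_mem (not_not.1 hl) ▸ S.orb_eq_of_mem hk ▸ S.self_mem_orb j)

theorem w0_D4 (i : Fin chevD4.rank) :
    rootD4.weyl.w0 Set.univ • chevD4.simple i = chevD4.neg (chevD4.simple i) := by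
  have h : wprod rootD4.weyl.s longestD4 = rootD4.weyl.w0 Set.univ := longest_D4 (hasC_D4 rootD4)
  rw [← h]
  refine (rootD4.wprod_smul longestD4 (rootD4.simple_lt i i.2)).trans ?_
  clear h
  revert i
  decide +kernel

end NTC

end gen

open NTC

theorem ntc_G2 (i) : ¬ TwoCoset rootG2.weyl.idSym i :=
  of_two (β := 11) (γ := 10) (by decide) (by decide +kernel) (by decide +kernel) (by decide +kernel) i

theorem ntc_F4 (i) : ¬ TwoCoset rootF4.weyl.idSym i :=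
  of_two (β := 47) (γ := 46) (by decide) (by decide +kernel) (by decide +kernel) (by decide +kernel) i

theorem ntc_E6 (i) : ¬ TwoCoset rootE6.weyl.idSym i :=
  of_two (β := 71) (γ := 70) (by decide) (by decide +kernel) (by decide +kernel) (by decide +kernel) i

theorem ntc_E7 (i) : ¬ TwoCoset rootE7.weyl.idSym i :=
  of_two (β := 125) (γ := 124) (by decide) (by decide +kernel) (by decide +kernel) (by decide +kernel) i

theorem ntc_E8 (i) : ¬ TwoCoset rootE8.weyl.idSym i :=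
  of_two (β := 239) (γ := 238) (by decide) (by decide +kernel) (by decide +kernel) (by decide +kernel) i

theorem ntc_twE6 {K : Type} [Field K] (f : K →+* K) (i) : ¬ TwoCoset (subE6 f).S i :=
  of_full (L := {69, 70, 71}) (by decide +kernel)
    ((twist_E6_t (hasC_E6 rootE6) (subE6 f).S (subE6_π f) i).2.2.trans_lt
      ((by decide : ∀ i : Fin 6, (orbE6 i).length < 3) i))

theorem ntc_twD4 {K : Type} [Field K] (f : K →+* K) (i) : ¬ TwoCoset (subD4 f).S i := by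
  obtain ⟨h2, h3⟩ := (by decide +kernel : chevD4.IsPosRoot 23 ∧ ∀ j, rootD4.rc 23 j ≠ 0)
  obtain ⟨j, hj⟩ := (by decide : ∀ i : Fin 4, ∃ j : Fin 4, j ∉ orbD4 i) i
  exact of_opp (fun j => ⟨j, WeylData.Sym.self_mem_orb _ j, w0_D4 j⟩) (rootD4.weyl_pos.2 h2)
    (fun h => h3 i (h.2 i fun h' => h' (WeylData.Sym.self_mem_orb _ i)))
    fun h => h3 j (h.2 j (by rwa [subD4_orb f i]))

end Cfsg.Lib.CKS
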