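import Cfsg.Agent.CKS.NTC

/-!
# No parabolic subgroup with two double cosets in types B, D, ²A
-/

set_option autoImplicit false

namespace Cfsg.Lib.CKS

open Cfsg.Lib.Chev NTC

theorem ntc_B {m : ℕ} (hm : 2 ≤ m) (i) : ¬ TwoCoset (typeB m).weyl.idSym i := by
  refine of_two (β := evE m 0) (γ := evE m 0 + evE m 1) (fun h => ?_) (mem_typeB.2 ?_) (mem_typeB.2 ?_)
    (fun j => ?_) i
  · simpa [evE] using congrFun h ⟨1, by omega⟩
  · rw [evE_dot, if_pos (by omega)]; simp
  · simp [add_dotProduct, dotProduct_add, evE_dot, show 0 < m by omega, show 1 < m by omega]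
  · change 0 < psE m j _ / 1 ∧ 0 < psE m j _ / 1
    simp only [map_add, psE_evE]
    constructor <;> split_ifs <;> omega

theorem ntc_D {m : ℕ} (hm : 2 ≤ m) (h4 : 4 ≤ m) (i) : ¬ TwoCoset (typeD m hm).weyl.idSym i := by
  have k : ∀ l, 0 < l → l < 3 → (evE m 0 + evE m l ∈ (typeD m hm).Φ) ∧
      ∀ j, 0 < (typeD m hm).weyl.rc (evE m 0 + evE m l) j := fun l h0 h3 => by
    refine ⟨mem_typeD.2 ?_, fun j => ?_⟩
    · simp [add_dotProduct, dotProduct_add, evE_dot, show 0 < m by omega, show l < m by omega, h0.ne, h0.ne']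
    · have := j.2
      change 0 < (if j.val + 1 = m then psE m j else
        if j.val + 2 = m then (2 : ℤ) • psE m j - psE m (j + 1) else (2 : ℤ) • psE m j) _ / 2
      split_ifs <;> simp only [map_add, LinearMap.smul_apply, LinearMap.sub_apply, psE_evE, smul_eq_mul] <;>
        split_ifs <;> omega
  refine of_two (β := evE m 0 + evE m 1) (γ := evE m 0 + evE m 2) (fun h => ?_) (k 1 (by omega) (by omega)).1
    (k 2 (by omega) (by omega)).1 (fun j => ⟨(k 1 (by omega) (by omega)).2 j, (k 2 (by omega) (by omega)).2 j⟩) i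
  simpa [evE] using congrFun h ⟨1, by omega⟩

namespace NTC

variable {n : ℕ}

theorem wlin_perm (ω : List (Fin n)) : ∃ σ : Equiv.Perm (Fin (n + 1)), ∀ a,
    (Chev.typeA n).wlin ω (Pi.single a 1) = Pi.single (σ a) 1 := by
  induction ω with
  | nil => exact ⟨1, fun a => rfl⟩
  | cons i ω ih =>
    obtain ⟨σ, h⟩ := ih
    refine ⟨Equiv.swap i.castSucc i.succ * σ, fun a => ?_⟩
    have h1 := (Fin.castSucc_lt_succ (i := i)).ne
    rw [Euclid.wlin_cons, h, reflE_apply, corv_of_two (mem_typeA.1 ((Chev.typeA n).α_mem i)).1, typeA_α',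
      Equiv.Perm.mul_apply, Equiv.swap_apply_def]
    split_ifs with h2 h3
    · simp [h2, h1]
    · simp [h3, h1.symm]
    · simp [h2, h3]

theorem w0_A (j : Fin n) :
    (Chev.typeA n).weyl.w0 Set.univ • (Chev.typeA n).α j = -(Chev.typeA n).α j.rev := by
  obtain ⟨ω, -, e⟩ := (Chev.typeA n).weyl.exists_reduced ((Chev.typeA n).weyl.w0 Set.univ)
  obtain ⟨σ, h⟩ := wlin_perm ω
  have h1 : ∀ j, (Chev.typeA n).weyl.w0 Set.univ • (Chev.typeA n).α j =
      Pi.single (σ j.castSucc) 1 - Pi.single (σ j.succ) 1 := fun j => by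
    rw [← e, Euclid.wprod_smul _ _ ((Chev.typeA n).α_mem j), typeA_α', map_sub, h, h]
  have h2 : StrictAnti σ := Fin.strictAnti_iff_succ_lt.2 fun j => by
    have h3 := (Chev.typeA n).weyl.not_pos_w0_simple (Set.mem_univ j)
    rw [Euclid.weyl_simple, (Chev.typeA n).pos_iff ((Chev.typeA n).weyl.smul_mem _ ((Chev.typeA n).α_mem j)),
      h1] at h3
    refine lt_of_not_ge fun h4 => h3 fun l => ?_
    change 0 ≤ psE _ l _
    rw [map_sub, psE_single, psE_single]
    rw [Fin.le_def] at h4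
    split_ifs <;> omega
  have h3 : ∀ a, σ a = a.rev := fun a => by
    simpa using (h2.comp Fin.rev_strictAnti).apply_eq (x := a.rev)
  rw [h1, h3, h3, typeA_α', Fin.rev_castSucc, Fin.rev_succ, neg_sub]

end NTC

theorem ntc_symA {n : ℕ} (hn : 3 ≤ n) (i) : ¬ TwoCoset (symA n) i := by
  have h1 : evE (n + 1) 0 - evE (n + 1) n ∈ (Chev.typeA n).Φ := mem_typeA.2 (by
    simp [sub_dotProduct, dotProduct_sub, evE_dot, psE_evE, show n ≠ 0 by omega, show 0 ≠ n by omega])
  have h2 : ∀ j, (Chev.typeA n).weyl.rc (evE (n + 1) 0 - evE (n + 1) n) j = 1 := fun j => by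
    have := j.2
    change psE _ j _ / 1 = 1
    simp only [map_sub, psE_evE]
    split_ifs <;> omega
  obtain ⟨j, hj⟩ : ∃ j, j ∉ (symA n).orb i := by
    by_contra! h
    have h3 := fun j => (symA_orb i).le (h j)
    simp only [Set.mem_insert_iff, Set.mem_singleton_iff, Fin.ext_iff] at h3
    have := h3 ⟨0, by omega⟩
    have := h3 ⟨1, by omega⟩
    have := h3 ⟨2, by omega⟩
    simp only at *
    omega
  exact of_opp (fun j => ⟨j.rev, by simp [symA_orb], w0_A j⟩) ⟨h1, fun j => by simp [h2]⟩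
    (fun h => by simpa [h2] using h.2 i fun h' => h' ((symA n).self_mem_orb i))
    fun h => by simpa [h2] using h.2 j hj

end Cfsg.Lib.CKS
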