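import Cfsg.Agent.CKS.OX

/-!
# Doubly transitive actions of groups of Lie type: long root groups of orthogonal groups
-/

set_option autoImplicit false
set_option quotPrecheck false

namespace Cfsg.Lib.CKS

open MulAction Cfsg.Lib.Chev Cfsg.Lib.Class Subgroup Matrix Module

namespace OX

open Orth QuadraticMap OMax MD
variable {F V : Type} [Field F] [Fintype F] [AddCommGroup V] [Module F V] [FiniteDimensional F V]
  {Q : QuadraticForm F V} {x y : V}
local notation "qq" => Fintype.card F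
local notation "GG" => commutator (O Q)

omit [Fintype F] in
theorem mem_line_of_eq {a b : V} (h : Ln Q x y) (h' : Ln Q a b) {c d : F} (hc : c ≠ 0)
    (e : eich Q a (c • b) = eich Q x (d • y)) : a ∈ spanL F [x, y] ∧ b ∈ spanL F [x, y] := by
  have key : ∀ v, (c * polar Q v b) • a - (c * polar Q v a) • b ∈ spanL F [x, y] := fun v => by
    have h1 := ln_apply h' c v
    rw [e, ln_apply h] at h1
    exact mem_spanL_pair.2 ⟨d * polar Q v y, -(d * polar Q v x), by
      linear_combination (norm := module) h1⟩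
  constructor
  · obtain ⟨v, h1, h2⟩ := exists_orthQ_eq h.nd h'.ind c⁻¹
    have := key v
    rwa [pc h2, pc (h1 a (by simp)), mul_inv_cancel₀ hc, mul_zero, zero_smul, one_smul,
      sub_zero] at this
  · obtain ⟨v, h1, h2⟩ := exists_orthQ_eq h.nd (ln_swap h').ind (-c⁻¹)
    have := key v
    rwa [pc h2, pc (h1 b (by simp)), mul_neg, mul_inv_cancel₀ hc, mul_zero, zero_smul, neg_smul,
      one_smul, zero_sub, neg_neg] at this

theorem mem_normalizer_of (h : Ln Q x y) {g : GG} (h1 : g.1.1 x ∈ spanL F [x, y])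
    (h2 : g.1.1 y ∈ spanL F [x, y]) : g ∈ normalizer (oZ Q x y : Set GG) := by
  refine Subgroup.mem_normalizer_fintype fun n hn => ?_
  obtain ⟨c, hc⟩ := (mem_oZ h).1 hn
  obtain ⟨d, hd⟩ := eich_of_mem h h1 (Submodule.smul_mem _ c h2)
  refine (mem_oZ h).2 ⟨d, ?_⟩
  rw [← hd, ← map_smul, ← conj_eich, ← hc]
  rfl

omit [Fintype F] in
theorem line_of_conj (h : Ln Q x y) {g z : GG} (hz : z ∈ oZ Q x y) (h1 : z ≠ 1)
    (h2 : g * z * g⁻¹ ∈ oZ Q x y) : g.1.1 x ∈ spanL F [x, y] ∧ g.1.1 y ∈ spanL F [x, y] := by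
  obtain ⟨c, hc⟩ := (mem_oZ h).1 hz
  obtain ⟨d, hd⟩ := (mem_oZ h).1 h2
  have hc0 : c ≠ 0 := by
    rintro rfl
    exact h1 (Subtype.ext (by simpa using hc))
  refine mem_line_of_eq h (ln_map h g.1) hc0 (d := d) ?_
  rw [← hd, ← map_smul, ← conj_eich, ← hc]
  rfl

theorem mem_normalizer_iff_line (h : Ln Q x y) {g : GG} :
    g ∈ normalizer (oZ Q x y : Set GG) ↔ g.1.1 x ∈ spanL F [x, y] ∧ g.1.1 y ∈ spanL F [x, y] := by
  refine ⟨fun hg => ?_, fun hg => mem_normalizer_of h hg.1 hg.2⟩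
  let z : GG := ⟨eich Q x ((1 : F) • y), eich_mem_commutator h.nd h.nexc _ _⟩
  have hz : z ∈ oZ Q x y := (mem_oZ h).2 ⟨1, rfl⟩
  refine line_of_conj h hz (fun e => h.ind ?_) ((Subgroup.mem_normalizer_iff.1 hg z).1 hz)
  have := (eich_eq_one_iff h.toPt (ln_xcy h 1)).1 (congrArg Subtype.val e)
  rwa [one_smul] at this

theorem ncard_line (h : Ln Q x y) : (spanL F [x, y] : Set V).ncard = qq ^ 2 := by
  change Nat.card (spanL F [x, y]) = _
  rw [card_sub, finrank_line h]

theorem ol_top (h : Pt Q x) : ol (⊤ : Subgroup GG) x = sing Q - 1 := by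
  rw [← card_ne_zero_sing, ol, ← Nat.card_coe_set_eq]
  congr 1
  refine congrArg Subtype (funext fun b => propext ⟨?_, ?_⟩)
  · rintro ⟨g, -, rfl⟩
    exact ⟨fun e => h.ne (g.1.1.injective (e.trans (map_zero _).symm)),
      (O_map g.1 x).trans h.sing⟩
  · rintro ⟨h1, h2⟩
    obtain ⟨g, hg, e⟩ := exists_Om_one h.nd (by have := h.dim; omega) h.ne h1
      (h2.trans h.sing.symm)
    exact ⟨⟨g, hg⟩, trivial, e⟩

theorem ol_stab (h : Ln Q x y) : ol (stabilizer GG x) y = (Cls Q x 0).ncard := by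
  unfold ol
  congr 1
  ext b
  constructor
  · rintro ⟨g, hg, rfl⟩
    have h1 := ln_map h g.1
    have h2 : g.1.1 x = x := hg
    rw [h2] at h1
    exact ⟨h1.xy, h1.ind, 1, one_ne_zero, by rw [mul_zero]; exact h1.sy⟩
  · rintro ⟨h1, h2, μ, -, h3⟩
    obtain ⟨g, hg, e1, e2⟩ := exists_Om_pair h.nd h.dim h.ne h.ind h.ne h2 rfl
      (by rw [h3, mul_zero, h.sy]) (h1.trans h.xy.symm)
    exact ⟨⟨g, hg⟩, e1, e2⟩

theorem ol_norm (h : Ln Q x y) : ol (normalizer (oZ Q x y : Set GG)) x = qq ^ 2 - 1 := by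
  have : Finite V := Module.finite_of_finite F
  have h1 : {b : V | ∃ g ∈ normalizer (oZ Q x y : Set GG), g • x = b} =
      (spanL F [x, y] : Set V) \ {0} := by
    ext b
    constructor
    · rintro ⟨g, hg, rfl⟩
      exact ⟨((mem_normalizer_iff_line h).1 hg).1, (ln_map h g.1).ne⟩
    · rintro ⟨h2, h3⟩
      obtain ⟨w, h4, h5⟩ : ∃ w ∈ spanL F [x, y], w ∉ spanL F [b] := by
        by_contra! hc
        have := Submodule.finrank_mono (show spanL F [x, y] ≤ spanL F [b] from hc)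
        rw [finrank_line h, finrank_spanL_singleton h3] at this
        omega
      obtain ⟨g, hg, e1, e2⟩ := exists_Om_pair h.nd h.dim h.ne h.ind h3 h5
        ((ln_sing h h2).trans h.sing.symm) ((ln_sing h h4).trans h.sy.symm)
        ((polar_eq_zero_of_mem_spanL (l := [x, y]) (by simpa using ln_orth h h4) h2).trans
          h.xy.symm)
      exact ⟨⟨g, hg⟩, mem_normalizer_of h (e1.symm ▸ h2) (e2.symm ▸ h4), e1⟩
  rw [ol, h1, Set.ncard_sdiff_singleton_of_mem (Submodule.zero_mem _), ncard_line h]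

theorem ol_norm_stab (h : Ln Q x y) :
    ol (normalizer (oZ Q x y : Set GG) ⊓ stabilizer GG x) y = qq ^ 2 - qq := by
  have : Finite V := Module.finite_of_finite F
  have h1 : {b : V | ∃ g ∈ normalizer (oZ Q x y : Set GG) ⊓ stabilizer GG x, g • y = b} =
      (spanL F [x, y] : Set V) \ (spanL F [x] : Set V) := by
    ext b
    constructor
    · rintro ⟨g, ⟨hg, hg'⟩, rfl⟩
      have h1 := ln_map h g.1
      have h2 : g.1.1 x = x := hg'
      rw [h2] at h1
      exact ⟨((mem_normalizer_iff_line h).1 hg).2, h1.ind⟩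
    · rintro ⟨h2, h3⟩
      obtain ⟨g, hg, e1, e2⟩ := exists_Om_pair h.nd h.dim h.ne h.ind h.ne h3 rfl
        ((ln_sing h h2).trans h.sy.symm) ((ln_orth h h2).1.trans h.xy.symm)
      exact ⟨⟨g, hg⟩, ⟨mem_normalizer_of h (e1.symm ▸ left_mem_spanL_pair x y) (e2.symm ▸ h2), e1⟩,
        e2⟩
  rw [ol, h1, Set.ncard_sdiff (spanL_mono (by simp) : spanL F [x] ≤ spanL F [x, y]), ncard_line h,
    ncard_spanL_singleton h.ne]

end OX

section orth
open Orth QuadraticMap
variable {F V : Type} [Field F] [Fintype F] [AddCommGroup V] [Module F V] [FiniteDimensional F V]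
  {Q : QuadraticForm F V} (p : ℕ) [Fact p.Prime] [CharP F p] {x y : V}
local notation "qq" => Fintype.card F
local notation "GG" => commutator (O Q)

theorem o_rt0 (h : Ln Q x y) : ∃ m, RT0 p qq m (normalizer (oZ Q x y : Set GG)) (oZ Q x y) ∧
    m * ((qq ^ 2 - 1) * (qq ^ 2 - qq)) = (sing Q - 1) * (MD.Cls Q x 0).ncard := by
  refine ⟨_, ⟨OX.pg_of_card (F := F) p (k := 1) (by rw [OX.card_oZ h, pow_one]), OX.card_oZ h,
    Fintype.one_lt_card, rfl, fun g z hz h1 h2 => ?_, rfl, fun z hz hc => ?_⟩, ?_⟩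
  · exact (OX.mem_normalizer_iff_line h).2 (OX.line_of_conj h hz h1 h2)
  · by_contra h1
    obtain ⟨w, h2, -, h3⟩ := MD.exists_sing_orth_notMem h.nd [] [x, y] (by
      have := h.dim; simp; omega)
    obtain ⟨g, hg, e⟩ := MD.exists_Om_one h.nd (by have := h.dim; omega) h.ne
      (x' := w) (fun e => h3 (e ▸ Submodule.zero_mem _)) (h2.trans h.sing.symm)
    have h4 := (OX.line_of_conj h (g := ⟨g, hg⟩) hz h1 (by
      rw [Subgroup.mem_center_iff.1 hc, mul_inv_cancel_right]; exact hz)).1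
    exact h3 (e ▸ h4)
  · have h1 := ol_eq (⊤ : Subgroup GG) x
    have h2 := ol_eq (stabilizer GG x) y
    have h3 := ol_eq (normalizer (oZ Q x y : Set GG)) x
    have h4 := ol_eq (normalizer (oZ Q x y : Set GG) ⊓ stabilizer GG x) y
    have h5 : normalizer (oZ Q x y : Set GG) ⊓ stabilizer GG x ⊓ stabilizer GG y =
        stabilizer GG x ⊓ stabilizer GG y := by
      rw [inf_assoc, inf_eq_right]
      rintro g ⟨e1, e2⟩
      have e3 : g.1.1 x = x := e1
      have e4 : g.1.1 y = y := e2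
      exact OX.mem_normalizer_of h (e3.symm ▸ MD.left_mem_spanL_pair x y)
        (e4.symm ▸ MD.right_mem_spanL_pair x y)
    have h6 := (normalizer (oZ Q x y : Set GG)).index_mul_card
    rw [OX.ol_top h.toPt, top_inf_eq, Subgroup.card_top] at h1
    rw [OX.ol_stab h] at h2
    rw [OX.ol_norm h] at h3
    rw [OX.ol_norm_stab h, h5] at h4
    refine Nat.eq_of_mul_eq_mul_right
      (Nat.card_pos (α := ↥(stabilizer GG x ⊓ stabilizer GG y))) ?_
    rw [mul_assoc, mul_assoc, h4, h3, h6, mul_assoc, h2, h1]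

end orth

end Cfsg.Lib.CKS
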