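import Cfsg.Agent.CKS.O1

/-!
# Doubly transitive actions of groups of Lie type: lines of long root groups of orthogonal groups
-/

set_option autoImplicit false
set_option quotPrecheck false

namespace Cfsg.Lib.CKS

open MulAction Cfsg.Lib.Chev Cfsg.Lib.Class Subgroup Matrix Module

namespace OX

open Orth QuadraticMap OMax MD
variable {F V : Type} [Field F] [Fintype F] [AddCommGroup V] [Module F V] [FiniteDimensional F V]
  {Q : QuadraticForm F V} {x y : V}
local notation "qq" => Fintype.card F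
local notation "GG" => commutator (O Q)

theorem exists_cj {x' y' : V} (h : Ln Q x y) (h' : Ln Q x' y') :
    ∃ g : GG, cj g (oZ Q x y) = oZ Q x' y' := by
  obtain ⟨g, hg, e1, e2⟩ := exists_Om_pair h.nd h.dim h.ne h.ind h'.ne h'.ind
    (h'.sing.trans h.sing.symm) (h'.sy.trans h.sy.symm) (h'.xy.trans h.xy.symm)
  exact ⟨⟨g, hg⟩, by rw [cj_oZ h, e1, e2]⟩

omit [Fintype F] [FiniteDimensional F V] in
theorem indep3 {z : V} (h : Ln Q x y) (hz : z ∉ spanL F [x, y]) {a b : F}
    (e : a • y + b • z ∈ spanL F [x]) : a = 0 ∧ b = 0 := by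
  obtain ⟨c, hc⟩ := mem_spanL_singleton.1 e
  have hb : b = 0 := by
    by_contra hb
    refine hz (mem_spanL_pair.2 ⟨b⁻¹ * c, -(b⁻¹ * a), ?_⟩)
    have : z = b⁻¹ • (b • z) := by rw [smul_smul, inv_mul_cancel₀ hb, one_smul]
    rw [this]
    linear_combination (norm := module) b⁻¹ • hc
  subst hb
  have := (ln_indep h (a := c) (b := -a) (by rw [hc]; simp)).2
  exact ⟨neg_eq_zero.1 this, rfl⟩

theorem p_dvd_sing (p : ℕ) [Fact p.Prime] [CharP F p] (h : Pt Q x) : p ∣ sing Q := by
  obtain ⟨f, hf, hxf⟩ := exists_partner h.nd h.ne h.sing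
  have h1 := finrank_orth_hyp h.nd h.sing hxf
  have h2 : p ∣ Nat.card F := by
    obtain ⟨n, -, hn⟩ := FiniteField.card F p
    rw [Nat.card_eq_fintype_card, hn]
    exact dvd_pow_self p n.ne_zero
  rw [sing_hyp h.sing hf hxf]
  refine dvd_add (h2.mul_right _) (Dvd.dvd.mul_left (h2.trans (dvd_pow_self _ ?_)) _)
  have := h.dim
  omega

end OX

section orth
open Orth QuadraticMap
variable {F V : Type} [Field F] [Fintype F] [AddCommGroup V] [Module F V] [FiniteDimensional F V]
  {Q : QuadraticForm F V} (p : ℕ) [Fact p.Prime] [CharP F p] {x y : V}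
local notation "qq" => Fintype.card F
local notation "GG" => commutator (O Q)

theorem o_line (h : Ln Q x y) : ∃ A, Line A (oZ Q x y) := by
  obtain ⟨z, h1, h2, h3⟩ := MD.exists_sing_orth_notMem h.nd [x, y] [x, y] (by
    have := h.dim; simp; omega)
  have hxz := h2 x (by simp)
  have hyz := h2 y (by simp)
  have hW : ∀ w ∈ spanL F [y, z], polar Q x w = 0 := fun w hw => by
    obtain ⟨a, b, rfl⟩ := mem_spanL_pair.1 hw
    qsimp; rw [h.xy, hxz]; ring
  have hL : ∀ a b : F, (a ≠ 0 ∨ b ≠ 0) → Ln Q x (a • y + b • z) := fun a b hab =>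
    { toPt := h.toPt
      sy := by qsimp; rw [h.sy, h1, hyz]; ring
      xy := hW _ (mem_spanL_pair.2 ⟨a, b, rfl⟩)
      ind := fun e => by
        have := OX.indep3 h h3 e
        tauto }
  refine ⟨(OX.EW h.toPt (spanL F [y, z]) hW).subgroupOf GG, ?_, ?_⟩
  · have h4 := OX.card_EW' h.toPt (spanL F [y, z]) hW
    have h5 : spanL F [y, z] ⊓ spanL F [x] = ⊥ := by
      rw [eq_bot_iff]
      rintro w ⟨h6, h7⟩
      obtain ⟨a, b, rfl⟩ := mem_spanL_pair.1 h6
      obtain ⟨rfl, rfl⟩ := OX.indep3 h h3 h7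
      simp
    have h6 : finrank F (spanL F [y, z]) = 2 := by
      refine MD.finrank_spanL_pair (fun e => h3 (e ▸ Submodule.zero_mem _)) fun e => ?_
      obtain ⟨c, hc⟩ := mem_spanL_singleton.1 e
      have := (OX.indep3 h h3 (a := -1) (b := c) (by rw [hc]; simp)).1
      simp at this
    rw [h5, OX.card_sub (spanL F [y, z]), h6] at h4
    rw [OX.card_oZ h]
    simpa using h4
  · let a : Option F → F := fun o => o.elim 0 fun _ => 1
    let b : Option F → F := fun o => o.elim 1 id
    have hab : ∀ o, a o ≠ 0 ∨ b o ≠ 0 := by rintro (_ | c) <;> simp [a, b]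
    choose g hg using fun o => OX.exists_cj h (hL (a o) (b o) (hab o))
    let e : Fin (Nat.card (oZ Q x y) + 1) ≃ Option F :=
      (Finite.equivFinOfCardEq (by rw [OX.card_oZ h]; simp)).symm
    refine ⟨fun i => g (e i), fun i => ?_, fun i j hij => ?_⟩
    · rw [hg]
      intro k hk
      obtain ⟨c, hc⟩ := (OX.mem_oZ (hL _ _ (hab _))).1 hk
      exact ⟨_, Submodule.smul_mem _ c (mem_spanL_pair.2 ⟨_, _, rfl⟩), hc⟩
    · rw [hg, hg, eq_bot_iff]
      rintro k ⟨hk, hk'⟩
      obtain ⟨c, hc⟩ := (OX.mem_oZ (hL _ _ (hab _))).1 hk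
      obtain ⟨d, hd⟩ := (OX.mem_oZ (hL _ _ (hab _))).1 hk'
      have h4 := (OX.eich_eq_iff h.toPt (OX.ln_xcy (hL _ _ (hab _)) c)
        (OX.ln_xcy (hL _ _ (hab _)) d)).1 (hc.symm.trans hd)
      obtain ⟨h5, h6⟩ := OX.indep3 h h3 (a := c * a (e i) - d * a (e j))
        (b := c * b (e i) - d * b (e j)) (by convert h4 using 1; module)
      have h7 : e i ≠ e j := fun h => hij (e.injective h)
      have h8 : c = 0 := by
        generalize e i = s at h5 h6 h7
        generalize e j = t at h5 h6 h7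
        rcases s with _ | s <;> rcases t with _ | t
        · exact absurd rfl h7
        · simp only [a, b, Option.elim, id] at h5 h6
          linear_combination h6 - t * h5
        · simp only [a, b, Option.elim, id] at h5 h6
          linear_combination h5
        · simp only [a, b, Option.elim, id] at h5 h6
          have h9 : s - t ≠ 0 := sub_ne_zero.2 fun h => h7 (by rw [h])
          exact (mul_eq_zero.1 (show c * (s - t) = 0 by
            linear_combination h6 - t * h5)).resolve_right h9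
      rw [Subgroup.mem_bot]
      exact Subtype.ext (by simpa [h8] using hc)

theorem o_Cl {x' y' : V} (h : Ln Q x y) (h' : Ln Q x' y') : Cl (oZ Q x y) = Cl (oZ Q x' y') := by
  obtain ⟨g, hg⟩ := OX.exists_cj h h'
  rw [← hg, OX.Cl_cj]

theorem o_A (h : MD.Pt Q x) :
    Nat.card (oA Q x) = qq ^ (finrank F V - 2) ∧ ¬ p ∣ (oT Q x).index := by
  constructor
  · have hW : ∀ w ∈ orth Q (spanL F [x]), polar Q x w = 0 := fun w hw => MD.orth_val ⟨w, hw⟩
    have h1 : oA Q x = (OX.EW h _ hW).subgroupOf GG := by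
      unfold oA
      congr 1
      refine le_antisymm ((Subgroup.closure_le _).2 ?_) ?_
      · rintro _ ⟨w, rfl⟩
        by_cases hw : polar Q x w = 0
        · exact ⟨w, MD.mem_orth_spanL.2 (by simpa using hw), rfl⟩
        · rw [eich_of_not fun e => hw e.2]
          exact one_mem _
      · rintro _ ⟨w, -, rfl⟩
        exact Subgroup.subset_closure ⟨w, rfl⟩
    have h2 := OX.card_EW' h _ hW
    have h3 : spanL F [x] ≤ orth Q (spanL F [x]) :=
      spanL_le.2 (by simpa using MD.mem_orth_spanL.2 (by simp [h.sing]))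
    rw [inf_eq_right.2 h3, OX.card_sub, OX.card_sub, MD.finrank_spanL_singleton h.ne, ← h1] at h2
    have h4 := h.finrank_orth
    have h5 := h.dim
    rw [show finrank F (orth Q (spanL F [x])) = finrank F V - 2 + 1 by omega, pow_add] at h2
    exact Nat.eq_of_mul_eq_mul_right (pow_pos Fintype.card_pos 1) h2
  · have h1 := ol_eq (⊤ : Subgroup GG) x
    have h2 : oT Q x = stabilizer GG x := rfl
    rw [OX.ol_top h, top_inf_eq, Subgroup.card_top, ← (stabilizer GG x).index_mul_card] at h1
    rw [h2, ← Nat.eq_of_mul_eq_mul_right Nat.card_pos h1]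
    intro e
    have h3 := Nat.dvd_sub (OX.p_dvd_sing p h) e
    rw [Nat.sub_sub_self one_le_sing] at h3
    exact (Fact.out : p.Prime).one_lt.ne' (Nat.dvd_one.1 h3)

end orth

end Cfsg.Lib.CKS
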