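import Cfsg.Agent.CKS.OX

/-!
# Doubly transitive actions of groups of Lie type: the radical of a line stabiliser
-/

set_option autoImplicit false
set_option quotPrecheck false

namespace Cfsg.Lib.CKS

open MulAction Cfsg.Lib.Chev Cfsg.Lib.Class Subgroup Matrix Module

namespace OX

open Orth QuadraticMap OMax MD
variable {F V : Type} [Field F] [AddCommGroup V] [Module F V] {Q : QuadraticForm F V} {x y : V}
local notation "GG" => commutator (O Q)

theorem orth_x {u : V} (hu : u ∈ orth Q (spanL F [x, y])) : polar Q x u = 0 :=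
  mem_orth_spanL.1 hu x (by simp)

theorem orth_y {u : V} (hu : u ∈ orth Q (spanL F [x, y])) : polar Q y u = 0 :=
  mem_orth_spanL.1 hu y (by simp)

theorem mem_orth_of {u : V} (h1 : polar Q x u = 0) (h2 : polar Q y u = 0) :
    u ∈ orth Q (spanL F [x, y]) := mem_orth_spanL.2 (by simp [h1, h2])

theorem line_le (h : Ln Q x y) : spanL F [x, y] ≤ orth Q (spanL F [x, y]) := fun _ hu =>
  mem_orth_of (ln_orth h hu).1 (ln_orth h hu).2

theorem cy_mem (h : Ln Q x y) (c : F) : c • y ∈ orth Q (spanL F [x, y]) :=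
  line_le h (Submodule.smul_mem _ c (right_mem_spanL_pair x y))

theorem eich_yx (h : Ln Q x y) {u v : V} (hu : u ∈ orth Q (spanL F [x, y]))
    (hv : v ∈ orth Q (spanL F [x, y])) :
    eich Q y v * eich Q x u = eich Q x (u + polar Q u v • y) * eich Q y v := by
  rw [← mul_inv_eq_iff_eq_mul, conj_eich, eich_apply_of_orth_orth h.xy (orth_x hv),
    eich_apply_of_orth h.sy (orth_y hv) (pc (orth_y hu))]

theorem ee_mul (h : Ln Q x y) {u v u' v' : V} (hu : u ∈ orth Q (spanL F [x, y]))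
    (hv : v ∈ orth Q (spanL F [x, y])) (hu' : u' ∈ orth Q (spanL F [x, y]))
    (hv' : v' ∈ orth Q (spanL F [x, y])) :
    eich Q x u * eich Q y v * (eich Q x u' * eich Q y v') =
      eich Q x (u + u' + polar Q u' v • y) * eich Q y (v + v') := by
  rw [add_assoc, eich_add h.sing (orth_x hu) (orth_x (add_mem hu' (cy_mem h _))),
    eich_add h.sy (orth_y hv) (orth_y hv'), mul_assoc, mul_assoc, ← mul_assoc (eich Q y v),
    eich_yx h hu' hv, mul_assoc]

theorem ee_comm (h : Ln Q x y) {u v u' v' : V} (hu : u ∈ orth Q (spanL F [x, y]))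
    (hv : v ∈ orth Q (spanL F [x, y])) (hu' : u' ∈ orth Q (spanL F [x, y]))
    (hv' : v' ∈ orth Q (spanL F [x, y])) {a b : O Q} (ha : a = eich Q x u * eich Q y v)
    (hb : b = eich Q x u' * eich Q y v') :
    a * b * a⁻¹ * b⁻¹ = eich Q x ((polar Q u' v - polar Q u v') • y) := by
  have : a * b = eich Q x ((polar Q u' v - polar Q u v') • y) * (b * a) := by
    rw [ha, hb, ee_mul h hu hv hu' hv', ee_mul h hu' hv' hu hv, ← mul_assoc,
      ← eich_add h.sing (ln_xcy h _) (orth_x (add_mem (add_mem hu' hu) (cy_mem h _))),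
      add_comm v' v]
    congr 2
    module
  rw [this]
  group

/-- The products of two Eichler transformations. -/
def ET (h : Ln Q x y) : Subgroup (O Q) where
  carrier := {g | ∃ u ∈ orth Q (spanL F [x, y]), ∃ v ∈ orth Q (spanL F [x, y]),
    g = eich Q x u * eich Q y v}
  one_mem' := ⟨0, zero_mem _, 0, zero_mem _, by simp⟩
  mul_mem' := by
    rintro _ _ ⟨u, hu, v, hv, rfl⟩ ⟨u', hu', v', hv', rfl⟩
    exact ⟨_, add_mem (add_mem hu hu') (cy_mem h _), _, add_mem hv hv', ee_mul h hu hv hu' hv'⟩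
  inv_mem' := by
    rintro _ ⟨u, hu, v, hv, rfl⟩
    exact ⟨_, add_mem (neg_mem hu) (cy_mem h _), _, neg_mem hv, by
      rw [_root_.mul_inv_rev, ← eich_neg, ← eich_neg, eich_yx h (neg_mem hu) (neg_mem hv)]⟩

theorem ET_eq_1' : type_of% @ET.eq_1 := @ET.eq_1

theorem oQ_eq (h : Ln Q x y) : oQ Q x y = (ET h).subgroupOf GG := by
  unfold oQ
  congr 1
  refine le_antisymm ((Subgroup.closure_le _).2 ?_) ?_
  · rintro _ ⟨u, h1, h2, rfl | rfl⟩
    · exact ⟨u, mem_orth_of h1 h2, 0, zero_mem _, by simp⟩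
    · exact ⟨0, zero_mem _, u, mem_orth_of h1 h2, by simp⟩
  · rintro _ ⟨u, hu, v, hv, rfl⟩
    exact mul_mem (Subgroup.subset_closure ⟨u, orth_x hu, orth_y hu, .inl rfl⟩)
      (Subgroup.subset_closure ⟨v, orth_x hv, orth_y hv, .inr rfl⟩)

theorem mem_oQ (h : Ln Q x y) {g : GG} : g ∈ oQ Q x y ↔
    ∃ u ∈ orth Q (spanL F [x, y]), ∃ v ∈ orth Q (spanL F [x, y]),
      g.1 = eich Q x u * eich Q y v := by
  rw [oQ_eq h]; rfl

variable [Fintype F] [FiniteDimensional F V]
local notation "qq" => Fintype.card F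

omit [Fintype F] in
theorem finrank_orth_line (h : Ln Q x y) :
    finrank F (orth Q (spanL F [x, y])) + 2 = finrank F V := by
  rw [← finrank_line h, finrank_orth h.nd]

theorem card_EW_line (h : Ln Q x y) {a : V} (ha : Pt Q a) (ha' : a ∈ spanL F [x, y])
    (hW : ∀ w ∈ orth Q (spanL F [x, y]), polar Q a w = 0) :
    Nat.card ((EW ha _ hW).subgroupOf GG) = qq ^ (finrank F V - 3) := by
  have h1 := card_EW' ha _ hW
  have h2 : spanL F [a] ≤ orth Q (spanL F [x, y]) := spanL_le.2 (by simpa using line_le h ha')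
  have h3 := finrank_orth_line h
  have h4 := h.dim
  rw [inf_eq_right.2 h2, card_sub, card_sub, finrank_spanL_singleton ha.ne,
    show finrank F (orth Q (spanL F [x, y])) = finrank F V - 3 + 1 by omega, pow_add] at h1
  exact Nat.eq_of_mul_eq_mul_right (pow_pos Fintype.card_pos 1) h1

theorem card_oQ (h : Ln Q x y) : Nat.card (oQ Q x y) = qq ^ (2 * (finrank F V - 4) + 1) := by
  have hx : ∀ w ∈ orth Q (spanL F [x, y]), polar Q x w = 0 := fun _ => orth_x
  have hy : ∀ w ∈ orth Q (spanL F [x, y]), polar Q y w = 0 := fun _ => orth_y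
  have h1 := card_of_prod (T := oQ Q x y) (Y := (EW h.toPt _ hx).subgroupOf GG)
    (X := (EW (ln_swap h).toPt _ hy).subgroupOf GG)
    (by
      rintro g ⟨v, hv, e⟩
      exact (mem_oQ h).2 ⟨0, zero_mem _, v, hv, by simpa using e⟩)
    (by
      rintro g ⟨u, hu, e⟩
      exact (mem_oQ h).2 ⟨u, hu, 0, zero_mem _, by simpa using e⟩)
    (fun t ht => by
      obtain ⟨u, hu, v, hv, e⟩ := (mem_oQ h).1 ht
      exact ⟨⟨_, eich_mem_commutator h.nd h.nexc x u⟩, ⟨u, hu, rfl⟩,
        ⟨_, eich_mem_commutator h.nd h.nexc y v⟩, ⟨v, hv, rfl⟩, Subtype.ext e⟩)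
  have h2 : (EW h.toPt _ hx).subgroupOf GG ⊓ (EW (ln_swap h).toPt _ hy).subgroupOf GG =
      oZ Q x y := by
    ext g
    rw [mem_oZ h]
    constructor
    · rintro ⟨⟨u, hu, e1⟩, v, hv, e2⟩
      obtain ⟨f, h3, h4⟩ := exists_orthQ_eq h.nd (ln_swap h).ind 1
      have h5 := eich_apply h.sing (orth_x hu) f
      rw [← e1, e2, eich_apply_of_orth h.sy (orth_y hv) (pc (h3 y (by simp))), pc h4] at h5
      obtain ⟨d, hd⟩ := eich_of_mem h (left_mem_spanL_pair x y) (b := u)
        (mem_spanL_pair.2 ⟨polar Q f u - Q u * 1, -polar Q f v, by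
          linear_combination (norm := module) (-1 : F) • h5⟩)
      exact ⟨d, e1.trans hd⟩
    · rintro ⟨c, e⟩
      refine ⟨⟨_, cy_mem h c, e⟩, (-c) • x,
        line_le h (Submodule.smul_mem _ _ (left_mem_spanL_pair x y)), e.trans ?_⟩
      rw [MD.eich_swap_smul h.sing h.sy h.xy, neg_neg]
  rw [h2, card_oZ h, card_EW_line h h.toPt (left_mem_spanL_pair x y),
    card_EW_line h (ln_swap h).toPt (right_mem_spanL_pair x y), ← pow_add] at h1
  have h4 := h.dim
  rw [show finrank F V - 3 + (finrank F V - 3) = 2 * (finrank F V - 4) + 1 + 1 by omega,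
    pow_succ] at h1
  exact Nat.eq_of_mul_eq_mul_right Fintype.card_pos h1

end OX

section orth
open Orth QuadraticMap
variable {F V : Type} [Field F] [Fintype F] [AddCommGroup V] [Module F V] [FiniteDimensional F V]
  {Q : QuadraticForm F V} (p : ℕ) [Fact p.Prime] [CharP F p] {x y : V}
local notation "qq" => Fintype.card F
local notation "GG" => commutator (O Q)

theorem o_heis (h : Ln Q x y) :
    Heis (oQ Q x y) (oZ Q x y) (qq ^ (finrank F V - 4)) ∧ IsPGroup p (oQ Q x y) := by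
  refine ⟨⟨fun z hz => ?_, fun z hz a ha => ?_, fun a ha b hb => ?_, fun a ha ha' z hz => ?_, ?_⟩,
    OX.pg_of_card (F := F) p (OX.card_oQ h)⟩
  · obtain ⟨c, hc⟩ := (OX.mem_oZ h).1 hz
    exact (OX.mem_oQ h).2 ⟨_, OX.cy_mem h c, 0, zero_mem _, by simpa using hc⟩
  · obtain ⟨c, hc⟩ := (OX.mem_oZ h).1 hz
    obtain ⟨u, hu, v, hv, e⟩ := (OX.mem_oQ h).1 ha
    have := OX.ee_comm h (OX.cy_mem h c) (zero_mem _) hu hv (a := z.1) (by simpa using hc) e
    rw [polar_zero_right, polar_smul_left', OX.orth_y hv, mul_zero, sub_zero, zero_smul,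
      eich_zero, mul_inv_eq_one, mul_inv_eq_iff_eq_mul] at this
    exact Subtype.ext this
  · obtain ⟨u, hu, v, hv, e⟩ := (OX.mem_oQ h).1 ha
    obtain ⟨u', hu', v', hv', e'⟩ := (OX.mem_oQ h).1 hb
    exact (OX.mem_oZ h).2 ⟨_, OX.ee_comm h hu hv hu' hv' e e'⟩
  · obtain ⟨u, hu, v, hv, e⟩ := (OX.mem_oQ h).1 ha
    obtain ⟨c, hc⟩ := (OX.mem_oZ h).1 hz
    by_cases h1 : v ∈ spanL F [x, y]
    · by_cases h2 : u ∈ spanL F [x, y]
      · obtain ⟨d, hd⟩ := OX.eich_of_mem h (MD.left_mem_spanL_pair x y) h2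
        obtain ⟨d', hd'⟩ := OX.eich_of_mem h (MD.right_mem_spanL_pair x y) h1
        refine absurd ((OX.mem_oZ h).2 ⟨d + d', ?_⟩) ha'
        rw [e, hd, hd', add_smul, eich_add h.sing (OX.ln_xcy h d) (OX.ln_xcy h d')]
      · obtain ⟨w, h3, h4⟩ := MD.exists_orthQ_eq h.nd h2 (-c)
        have hw := MD.mem_orth_spanL.2 h3
        refine ⟨⟨_, eich_mem_commutator h.nd h.nexc y w⟩,
          (OX.mem_oQ h).2 ⟨0, zero_mem _, w, hw, by simp⟩, Subtype.ext ?_⟩
        have := OX.ee_comm h hu hv (zero_mem _) hw (b := eich Q y w) e (by simp)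
        rw [polar_zero_left, h4, zero_sub, neg_neg, ← hc] at this
        exact this
    · obtain ⟨w, h3, h4⟩ := MD.exists_orthQ_eq h.nd h1 c
      have hw := MD.mem_orth_spanL.2 h3
      refine ⟨⟨_, eich_mem_commutator h.nd h.nexc x w⟩,
        (OX.mem_oQ h).2 ⟨w, hw, 0, zero_mem _, by simp⟩, Subtype.ext ?_⟩
      have := OX.ee_comm h hu hv hw (zero_mem _) (b := eich Q x w) e (by simp)
      rw [polar_zero_right, OMax.pc h4, sub_zero, ← hc] at this
      exact this
  · rw [OX.card_oQ h, OX.card_oZ h, ← pow_mul, pow_succ, mul_comm 2]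

end orth

end Cfsg.Lib.CKS
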