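import Cfsg.Agent.CKS.Def4
import Cfsg.Agent.CKS.Cnt
import Cfsg.Agent.U4F.CW
import Cfsg.Agent.Known.QuadNormal

/-!
# Odd-dimensional orthogonal groups: the unipotent radical of a point acts semiregularly
-/

set_option autoImplicit false
set_option quotPrecheck false

namespace Cfsg.Lib.CKS

open MulAction Cfsg.Lib.Chev Cfsg.Lib.Class Subgroup Matrix Module

section orth
open Orth QuadraticMap
variable {F V : Type} [Field F] [Fintype F] [AddCommGroup V] [Module F V] [FiniteDimensional F V]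
  {Q : QuadraticForm F V} (p : ℕ) [Fact p.Prime] [CharP F p] {x y : V}
local notation "qq" => Fintype.card F
local notation "GG" => commutator (O Q)

namespace OB1

theorem two_ne {l : ℕ} (hQ : (polarBilin Q).Nondegenerate) (hl : finrank F V = 2 * l + 1) :
    (2 : F) ≠ 0 := by
  intro h2
  obtain ⟨c, g, -, hg⟩ := Known.exists_equiv_odd_sim hQ hl
  have h0 : g (Pi.single (Sum.inl ()) 1) = 0 := by
    refine hQ.1 _ fun v => ?_
    obtain ⟨u, rfl⟩ := g.surjective v
    change polar Q _ _ = 0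
    rw [polar, ← map_add, hg, hg, hg]
    simp only [quadFormOdd, Pi.add_apply, Pi.single_eq_same, ne_eq, reduceCtorEq,
      not_false_eq_true, Pi.single_eq_of_ne, zero_add, mul_zero, Finset.sum_const_zero]
    linear_combination c * u (Sum.inl ()) * h2
  have := congrFun (g.map_eq_zero_iff.1 h0) (Sum.inl ())
  simp at this

theorem card_sqrt (h2 : (2 : F) ≠ 0) {d : F} (hd : d ≠ 0) :
    Nat.card {z : F // z ^ 2 - d = 0} = 0 ∨ Nat.card {z : F // z ^ 2 - d = 0} = 2 := by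
  by_cases h : ∃ z : F, z ^ 2 - d = 0
  · obtain ⟨z, hz⟩ := h
    right
    have hz0 : z ≠ -z := fun e => hd (by
      have : z = 0 := by
        have : 2 * z = 0 := by linear_combination e
        exact (mul_eq_zero.1 this).resolve_left h2
      rw [this] at hz
      linear_combination -hz)
    refine Eq.trans ?_ (Set.ncard_pair hz0)
    rw [← Nat.card_coe_set_eq]
    refine Nat.card_congr (Equiv.subtypeEquivRight fun w => ?_)
    simp only [Set.mem_insert_iff, Set.mem_singleton_iff]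
    rw [← sq_eq_sq_iff_eq_or_eq_neg]
    exact ⟨fun e => by linear_combination e - hz, fun e => by linear_combination e + hz⟩
  · left
    have : IsEmpty {z : F // z ^ 2 - d = 0} := ⟨fun z => h ⟨z.1, z.2⟩⟩
    exact Nat.card_of_isEmpty

theorem cnt {k : ℕ} (hl : finrank F V = 2 * (k + 1) + 1) (h : MD.Pt Q x) {d : F} (hd : d ≠ 0) :
    ∃ m : ℕ, (m + 1 = qq ^ k ∨ m = qq ^ k + 1) ∧ MD.cntP Q x d = qq ^ (k + 1) * m := by
  obtain ⟨c, g, hc, hg⟩ := Known.exists_equiv_odd_sim h.nd hl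
  have h1 : MD.cntQ Q d = MD.cntQ (quadOdd (k + 1) F) (d / c) :=
    (Nat.card_congr (g.toEquiv.subtypeEquiv fun v => by
      rw [quadOdd_apply, LinearEquiv.coe_toEquiv, hg, eq_div_iff hc, mul_comm])).symm
  have h2 := MD.cntQ_eq h.nd h.ne h.sing d
  rw [h1, MD.cntQ_quadOdd, hl, show 2 * (k + 1) + 1 - 2 = 2 * k + 1 by omega] at h2
  have h4 : 1 ≤ qq ^ (k + 1) := Nat.one_le_pow _ _ Fintype.card_pos
  have h4' : 1 ≤ qq ^ k := Nat.one_le_pow _ _ Fintype.card_pos
  have h5 : 1 ≤ qq := Fintype.card_pos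
  rcases card_sqrt (two_ne h.nd hl) (div_ne_zero hd hc) with e | e <;> rw [e] at h2
  · refine ⟨qq ^ k - 1, .inl (by omega), ?_⟩
    zify [h4, h5, h4'] at h2 ⊢
    linear_combination -h2
  · refine ⟨qq ^ k + 1, .inr rfl, ?_⟩
    zify [h4, h5, h4'] at h2 ⊢
    linear_combination -h2

omit [FiniteDimensional F V] in
theorem split {f : V} (hxf : polar Q f x = 1) (S : Set V) (hS : ∀ w ∈ S, ∀ t : F, w + t • x ∈ S) :
    S.ncard = qq * (S ∩ {w | polar Q f w = 0}).ncard := by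
  rw [← Nat.card_coe_set_eq, ← Nat.card_coe_set_eq, ← Nat.card_eq_fintype_card, ← Nat.card_prod]
  refine Nat.card_congr ⟨fun w => (polar Q f w, ⟨w + (-polar Q f w) • x, hS _ w.2 _, ?_⟩),
    fun a => ⟨a.2 + a.1 • x, hS _ a.2.2.1 _⟩, fun w => ?_, fun a => ?_⟩
  · change polar Q f _ = 0
    qsimp
    rw [hxf]; ring
  · ext; simp
  · have h0 : polar Q f a.2 = 0 := a.2.2.2
    have h1 : polar Q f (a.2 + a.1 • x) = a.1 := by
      qsimp
      rw [hxf, h0]; ring
    refine Prod.ext h1 (Subtype.ext ?_)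
    simp only [h1]
    simp

/-- The Eichler transformation as an element of the derived group. -/
noncomputable def ee (h : MD.Pt Q x) (w : V) : GG := ⟨eich Q x w, eich_mem_commutator h.nd h.nexc x w⟩

theorem ee_eq_1' : type_of% @ee.eq_1 := @ee.eq_1

omit [Fintype F] in
theorem conj_ee (h : MD.Pt Q x) {g : GG} (hg : g.1.1 x = x) (w : V) :
    g * ee h w * g⁻¹ = ee h (g.1.1 w) := by
  refine Subtype.ext ?_
  change g.1 * eich Q x w * g.1⁻¹ = eich Q x _
  rw [conj_eich, hg]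

omit [Fintype F] in
theorem mem_oA (h : MD.Pt Q x) {g : GG} (hg : g ∈ oA Q x) : ∃ w, polar Q x w = 0 ∧ g = ee h w := by
  have : ∀ a ∈ closure (Set.range (eich Q x)), ∃ w, polar Q x w = 0 ∧ a = eich Q x w := by
    intro a ha
    induction ha using closure_induction with
    | mem a ha =>
      obtain ⟨w, rfl⟩ := ha
      by_cases hw : polar Q x w = 0
      · exact ⟨w, hw, rfl⟩
      · exact ⟨0, by simp, by rw [eich_of_not (fun e => hw e.2), eich_zero]⟩
    | one => exact ⟨0, by simp, by simp⟩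
    | mul a b _ _ ha hb =>
      obtain ⟨u, hu, rfl⟩ := ha
      obtain ⟨v, hv, rfl⟩ := hb
      exact ⟨u + v, by rw [polar_add_right, hu, hv, add_zero], (eich_add h.sing hu hv).symm⟩
    | inv a _ ha =>
      obtain ⟨u, hu, rfl⟩ := ha
      exact ⟨-u, by rw [polar_neg_right, hu, neg_zero], (eich_neg x u).symm⟩
  obtain ⟨w, hw, e⟩ := this g.1 hg
  exact ⟨w, hw, Subtype.ext e⟩

omit [Fintype F] in
theorem ee_ne (h : MD.Pt Q x) {w : V} (hw : polar Q x w = 0) (hn : w ∉ spanL F [x]) :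
    ee h w ≠ 1 := by
  intro e
  obtain ⟨f, -, hf⟩ := exists_partner h.nd h.ne h.sing
  have h1 : (eich Q x w).1 f = f := by
    have : eich Q x w = 1 := congrArg Subtype.val e
    rw [this]; rfl
  rw [eich_apply h.sing hw, polar_comm Q f x, hf] at h1
  refine hn (mem_spanL_singleton.2 ⟨polar Q f w - Q w * 1, ?_⟩)
  linear_combination (norm := module) h1

omit [Fintype F] [FiniteDimensional F V] in
theorem not_span (hx : Q x = 0) {w : V} (hw : Q w ≠ 0) : w ∉ spanL F [x] := fun h => by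
  obtain ⟨t, rfl⟩ := mem_spanL_singleton.1 h
  exact hw (by rw [Q_smul, hx, mul_zero])

variable {Ω : Type*} [MulAction (_root_.commutator (O Q)) Ω]

/-- The vectors whose transformation fixes `ω`, in a fixed complement. -/
noncomputable def fixA (h : MD.Pt Q x) (f : V) (ω : Ω) : AddSubgroup V where
  carrier := {w | (polar Q x w = 0 ∧ ee h w • ω = ω) ∧ polar Q f w = 0}
  zero_mem' := by
    refine ⟨⟨by simp, ?_⟩, by simp⟩
    have : ee h 0 = 1 := Subtype.ext (eich_zero x)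
    rw [this, one_smul]
  add_mem' {a b} ha hb := by
    refine ⟨⟨by rw [polar_add_right, ha.1.1, hb.1.1, add_zero], ?_⟩,
      by rw [polar_add_right, ha.2, hb.2, add_zero]⟩
    have : ee h (a + b) = ee h a * ee h b := Subtype.ext (eich_add h.sing ha.1.1 hb.1.1)
    rw [this, mul_smul, hb.1.2, ha.1.2]
  neg_mem' {a} ha := by
    refine ⟨⟨by rw [polar_neg_right, ha.1.1, neg_zero], ?_⟩, by rw [polar_neg_right, ha.2, neg_zero]⟩
    have : ee h (-a) = (ee h a)⁻¹ := Subtype.ext (eich_neg x a)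
    rw [this, inv_smul_eq_iff, ha.1.2]

theorem fixA_eq_1' : type_of% @fixA.eq_1 := @fixA.eq_1

theorem no_sing (h : Ln Q x y) (hd : ∀ g ∈ Cl (oZ Q x y), Der Ω g) {w : V} (hw : polar Q x w = 0)
    (hn : w ∉ spanL F [x]) (h0 : Q w = 0) : Der Ω (ee h.toPt w) := by
  obtain ⟨g, hg, h1, h2⟩ := MD.exists_Om_pair h.nd h.dim h.ne hn h.ne h.ind rfl (h.sy.trans h0.symm)
    (h.xy.trans hw.symm)
  refine hd _ ⟨ee_ne h.toPt hw hn, ⟨g, hg⟩, ?_⟩
  rw [conj_ee h.toPt h1]
  exact subset_closure ⟨1, by rw [one_smul]; exact congrArg (eich Q x) h2⟩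

theorem card_fixA (h : Ln Q x y) (h2 : (2 : F) ≠ 0) (hd : ∀ g ∈ Cl (oZ Q x y), Der Ω g) {f : V}
    (hf : polar Q f x = 1) (ω : Ω) : Nat.card (fixA h.toPt f ω) ≤ qq ^ 2 := by
  have : Finite V := Module.finite_of_finite F
  obtain ⟨r, hr⟩ := CharP.exists F
  have : Fact r.Prime := ⟨(FiniteField.card F r).choose_spec.1⟩
  by_contra hc
  obtain ⟨a, ha, e⟩ := U4F.cw (p := r) (A := fixA h.toPt f ω) (B := F)
    (fun a => Subtype.ext (by
      rw [AddSubgroupClass.coe_nsmul, ← Nat.cast_smul_eq_nsmul F, CharP.cast_eq_zero, zero_smul]; rfl))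
    (fun b => by rw [nsmul_eq_mul, CharP.cast_eq_zero, zero_mul])
    (AddMonoidHom.mk' (fun a => AddMonoidHom.mk' (fun b => polar Q (a : V) b)
      fun _ _ => polar_add_right _ _ _ _) fun _ _ => AddMonoidHom.ext fun _ => polar_add_left _ _ _ _)
    0 (by rw [Nat.card_eq_fintype_card]; omega)
  have e' : polar Q (a : V) a = 0 := (add_zero _).symm.trans e
  rw [polar_self'] at e'
  refine no_sing h hd a.2.1.1 (fun hs => ?_) ((mul_eq_zero.1 e').resolve_left h2) ω a.2.1.2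
  obtain ⟨t, ht⟩ := mem_spanL_singleton.1 hs
  have h3 : polar Q f a = 0 := a.2.2
  rw [← ht, polar_smul_right', hf, mul_one] at h3
  exact ha (Subtype.ext (by rw [← ht, h3, zero_smul]; rfl))

omit [Fintype F] in
theorem const (h : MD.Pt Q x) (ht : Tr (oT Q x) Ω) (d : F) (ω ω' : Ω) :
    {w | (polar Q x w = 0 ∧ Q w = d) ∧ ee h w • ω' = ω'}.ncard =
      {w | (polar Q x w = 0 ∧ Q w = d) ∧ ee h w • ω = ω}.ncard := by
  obtain ⟨g, hg, rfl⟩ := ht ω ω'
  have hg' : g.1.1 x = x := hg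
  rw [← Set.ncard_image_of_injective {w | (polar Q x w = 0 ∧ Q w = d) ∧ ee h w • ω = ω}
    g.1.1.injective]
  congr 1
  ext w
  obtain ⟨u, rfl⟩ := g.1.1.surjective w
  rw [g.1.1.injective.mem_set_image]
  simp only [Set.mem_ofPred_eq]
  rw [← conj_ee h hg', mul_smul, mul_smul, inv_smul_smul, smul_left_cancel_iff, O_map]
  have : polar Q x (g.1.1 u) = polar Q x u := by
    rw [← O_polar g.1 x u, hg']
  rw [this]

theorem count [Finite Ω] (h : MD.Pt Q x) (ht : Tr (oT Q x) Ω) {d : F} (hd : d ≠ 0) (ω : Ω) :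
    MD.cntP Q x d ∣
      {w | (polar Q x w = 0 ∧ Q w = d) ∧ ee h w • ω = ω}.ncard * Nat.card Ω := by
  have : Finite V := Module.finite_of_finite F
  have := Fintype.ofFinite V
  have := Fintype.ofFinite Ω
  have h1 := Cnt.dbl fun (a : Ω) (w : V) => (polar Q x w = 0 ∧ Q w = d) ∧ ee h w • a = a
  rw [Finset.sum_congr rfl fun a _ => const h ht d ω a, Finset.sum_const, Finset.card_univ,
    smul_eq_mul, ← Nat.card_eq_fintype_card] at h1
  rw [mul_comm, h1]
  by_cases hw : ∃ w, polar Q x w = 0 ∧ Q w = d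
  · obtain ⟨w, hw⟩ := hw
    rw [Cnt.sum_ind {w | polar Q x w = 0 ∧ Q w = d} _ (fx Ω (ee h w))]
    · exact dvd_mul_left _ _
    · intro u hu
      obtain ⟨g, hg, h2, h3⟩ := MD.exists_Om_pair h.nd h.dim h.ne
        (not_span h.sing (hw.2 ▸ hd)) h.ne (not_span h.sing (hu.2 ▸ hd)) rfl (hu.2.trans hw.2.symm)
        (hu.1.trans hw.1.symm)
      rw [← fx_conj _ (⟨g, hg⟩ : GG), conj_ee h h2, fx]
      congr 1
      ext a
      simp only [Set.mem_ofPred_eq, h3]
      exact and_iff_right hu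
    · intro u hu
      rw [Set.ncard_eq_zero (Set.toFinite _)]
      exact Set.eq_empty_of_forall_notMem fun a ha => hu ha.1
  · rw [Finset.sum_eq_zero fun u _ => ?_]
    · exact dvd_zero _
    · rw [Set.ncard_eq_zero (Set.toFinite _)]
      exact Set.eq_empty_of_forall_notMem fun a ha => hw ⟨u, ha.1⟩

end OB1

open OB1 in
theorem o_der {l : ℕ} (hl : finrank F V = 2 * l + 1) (h : Ln Q x y) {Ω : Type*} [MulAction GG Ω]
    [Finite Ω] (hn : Nat.card Ω = qq ^ (2 * l)) (ht : Tr (oT Q x) Ω)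
    (hd : ∀ g ∈ Cl (oZ Q x y), Der Ω g) : ∀ g ∈ oA Q x, g ≠ 1 → Der Ω g := by
  intro g hg hg1 ω hω
  have : Finite V := Module.finite_of_finite F
  have h2 := two_ne h.nd hl
  obtain ⟨w, hw, rfl⟩ := mem_oA h.toPt hg
  have hwx : w ∉ spanL F [x] := fun e => hg1 (by
    obtain ⟨t, rfl⟩ := mem_spanL_singleton.1 e
    exact Subtype.ext (eich_smul_self x t))
  have hQ : Q w ≠ 0 := fun e => no_sing h hd hw hwx e ω hω
  obtain ⟨k, rfl⟩ : ∃ k, l = k + 1 := ⟨l - 1, by have := h.dim; omega⟩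
  have hk : 2 ≤ k := by have := h.dim; omega
  obtain ⟨f, -, hf⟩ := exists_partner h.nd h.ne h.sing
  rw [polar_comm] at hf
  obtain ⟨m, hm, hc⟩ := cnt hl h.toPt hQ
  have h3 := count h.toPt ht hQ ω
  have hS : ∀ u ∈ {u | (polar Q x u = 0 ∧ Q u = Q w) ∧ ee h.toPt u • ω = ω}, ∀ t : F,
      u + t • x ∈ {u | (polar Q x u = 0 ∧ Q u = Q w) ∧ ee h.toPt u • ω = ω} := by
    rintro u ⟨⟨h4, h5⟩, h6⟩ t
    refine ⟨⟨?_, ?_⟩, ?_⟩
    · qsimp
      rw [h4, h.sing]; ring
    · qsimp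
      rw [polar_comm Q u x, h4, h.sing, h5]; ring
    · have : ee h.toPt (u + t • x) = ee h.toPt u := Subtype.ext (eich_add_smul_self h.sing h4 t)
      rw [this, h6]
  rw [split hf _ hS, hc, hn] at h3
  set T := {u | (polar Q x u = 0 ∧ Q u = Q w) ∧ ee h.toPt u • ω = ω} ∩ {u | polar Q f u = 0} with hT
  have hq : 2 ≤ qq := Fintype.one_lt_card
  have hco : m.Coprime qq := by
    obtain ⟨j, rfl⟩ : ∃ j, k = j + 1 := ⟨k - 1, by omega⟩
    rcases hm with e | e
    · have : (m + 1).Coprime m := by simp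
      rw [e] at this
      exact (Nat.Coprime.coprime_dvd_left (dvd_pow_self _ (by omega)) this).symm
    · rw [e, pow_succ, Nat.coprime_comm, Nat.coprime_mul_right_add_right]
      simp
  have h4 : m ∣ T.ncard := by
    have h5 : m ∣ qq * T.ncard * qq ^ (2 * (k + 1)) := (dvd_mul_left _ _).trans h3
    exact hco.dvd_of_dvd_mul_left ((hco.pow_right _).dvd_of_dvd_mul_right h5)
  have hne : T.Nonempty := ⟨w + (-polar Q f w) • x, hS w ⟨⟨hw, rfl⟩, hω⟩ _, by
    change polar Q f _ = 0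
    qsimp
    rw [hf]; ring⟩
  have h5 := Nat.le_of_dvd ((Set.ncard_pos (Set.toFinite _)).2 hne) h4
  have h6 := card_fixA h h2 hd hf ω
  have h7 : T ⊆ (fixA h.toPt f ω : Set V) \ {0} := by
    rintro u ⟨⟨⟨a1, a2⟩, a3⟩, a4⟩
    refine ⟨⟨⟨a1, a3⟩, a4⟩, fun e => hQ ?_⟩
    rw [← a2, Set.mem_singleton_iff.1 e, map_zero]
  have h8 : ((fixA h.toPt f ω : Set V) \ {0}).ncard + 1 = Nat.card (fixA h.toPt f ω) :=
    Set.ncard_sdiff_singleton_add_one (zero_mem _) (Set.toFinite _)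
  have h9 : qq ^ 2 ≤ qq ^ k := Nat.pow_le_pow_right (by omega) hk
  have h10 : T = (fixA h.toPt f ω : Set V) \ {0} :=
    Set.eq_of_subset_of_ncard_le h7 (by omega) (Set.toFinite _)
  have h11 : ∀ u ∈ fixA h.toPt f ω, u ≠ 0 → Q u = Q w := fun u hu h0 => by
    have : u ∈ T := h10 ▸ ⟨hu, h0⟩
    exact this.1.1.2
  obtain ⟨u, hu⟩ := hne
  have h12 : ¬ T ⊆ {u, -u} := fun e => by
    have := (Set.ncard_le_ncard e (Set.toFinite _)).trans (Set.ncard_insert_le u {-u})
    rw [Set.ncard_singleton] at this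
    have : 4 ≤ qq ^ 2 := Nat.pow_le_pow_left hq 2
    omega
  obtain ⟨v, hv, hv'⟩ := Set.not_subset.1 h12
  simp only [Set.mem_insert_iff, Set.mem_singleton_iff, not_or] at hv'
  have hu' := (h7 hu).1
  have hv'' := (h7 hv).1
  have e1 := h11 _ (add_mem hu' hv'') fun e => hv'.2 (by linear_combination (norm := module) e)
  have e2 := h11 _ (sub_mem hu' hv'') fun e => hv'.1 (by linear_combination (norm := module) -e)
  rw [Q_add, hu.1.1.2, hv.1.1.2] at e1
  rw [Q_sub, hu.1.1.2, hv.1.1.2] at e2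
  exact mul_ne_zero h2 hQ (by linear_combination e1 + e2)

end orth

end Cfsg.Lib.CKS
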