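import Cfsg.Agent.CKS.OGenX

/-!
# Orthogonal groups: the non simple positive root subgroups lie in the derived subgroup of `U`
-/

set_option autoImplicit false
set_option quotPrecheck false
set_option linter.unusedSectionVars false

namespace Cfsg.Lib.CKS

open MulAction Cfsg.Lib.Chev Cfsg.Lib.Class Subgroup Matrix Module

section oframe
open Orth QuadraticMap
variable {F : Type} [Field F] [Fintype F] {I : Type} [Fintype I] [DecidableEq I]
  {Q : QuadraticForm F (I → F)} {m : ℕ} {P : OFrame m Q}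

namespace OG

local notation "𝐞" i => (Pi.single i (1 : F) : I → F)

variable {E : Euclid (Fin m) (Fin m)} {i j k : I} {a b c : Fin m} {δ : ℤ}

theorem via (hE : P.Fits E) (hS : Sg E) (hi : P.wt i = Pi.single a 1) (hk : P.wt k = Pi.single c 1)
    (hac : a < c) {v : I → F} (h1 : polar Q (𝐞 i) v = 0) (h2 : polar Q (𝐞 k) v = 0)
    (h3 : ∀ l, P.wt l = Pi.single c (-1) → polar Q (𝐞 l) v = 0)
    (hv : eich Q (𝐞 k) v ∈ hE.gr.rgd.U) :
    eich Q (𝐞 i) (Q v • (𝐞 k) + v) ∈ ⁅hE.gr.rgd.U, hE.gr.rgd.U⁆ := by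
  obtain ⟨l, hl⟩ := exists_ix P c (.inr rfl)
  have h4 := commutator_mem_commutator hv (long_U hE hS hi hl (.inr rfl) hac (-1))
  rw [comm_eich (sing_ix hk (.inl rfl)) (sing_ix hi (.inl rfl)) (orth_ix hk (.inl rfl) hi hac.ne')
    (by rw [polar_smul_right', orth_ix hi (.inl rfl) hl hac.ne, mul_zero]) h2 h1,
    polar_smul_left', polar_smul_left', h3 l hl, hyp_ix hl (.inr rfl) (by rw [hk, neg_neg])] at h4
  convert h4 using 2
  module

theorem long_via (hE : P.Fits E) (hS : Sg E) (hi : P.wt i = Pi.single a 1)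
    (hj : P.wt j = Pi.single b δ) (hδ : δ = 1 ∨ δ = -1) (hac : a < c) (hab : a ≠ b) (hcb : c ≠ b)
    (h : δ = -1 → c < b) (t : F) :
    eich Q (𝐞 i) (t • 𝐞 j) ∈ ⁅hE.gr.rgd.U, hE.gr.rgd.U⁆ := by
  obtain ⟨k, hk⟩ := exists_ix P c (.inl rfl)
  have := via hE hS hi hk hac (v := t • 𝐞 j)
    (by rw [polar_smul_right', orth_ix hi (.inl rfl) hj hab, mul_zero])
    (by rw [polar_smul_right', orth_ix hk (.inl rfl) hj hcb, mul_zero])
    (fun l hl => by rw [polar_smul_right', orth_ix hl (.inr rfl) hj hcb, mul_zero])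
    (by
      rcases hδ with rfl | rfl
      · exact long_U' hE hS hk hj hcb t
      · exact long_U hE hS hk hj (.inr rfl) (h rfl) t)
  rwa [Q_smul, sing_ix hj hδ, mul_zero, zero_smul, zero_add] at this

theorem long_an (hE : P.Fits E) (hS : Sg E) (hi : P.wt i = Pi.single a 1)
    (hj : P.wt j = Pi.single b 1) (hab : a ≠ b) {w w' : I → F} (hw : ∀ c, w c ≠ 0 → P.wt c = 0)
    (hw' : ∀ c, w' c ≠ 0 → P.wt c = 0) (h : polar Q w w' ≠ 0) (t : F) :
    eich Q (𝐞 i) (t • 𝐞 j) ∈ ⁅hE.gr.rgd.U, hE.gr.rgd.U⁆ := by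
  have hw'' : ∀ c, ((t / polar Q w w') • w') c ≠ 0 → P.wt c = 0 := fun c e =>
    hw' c (right_ne_zero_of_mul e)
  have h4 := commutator_mem_commutator (short_U hE hS hj hw'') (short_U hE hS hi hw)
  rw [comm_eich (sing_ix hj (.inl rfl)) (sing_ix hi (.inl rfl)) (orth_ix hj (.inl rfl) hi hab.symm)
    (orth_an hi (.inl rfl) hw) (orth_an hj (.inl rfl) hw'') (orth_an hi (.inl rfl) hw''),
    polar_comm Q w (𝐞 j), orth_an hj (.inl rfl) hw, polar_smul_right', div_mul_cancel₀ _ h] at h4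
  simpa using h4

theorem exists_an (h : (2 : F) ≠ 0 ∨ ∃ a b, a ≠ b ∧ P.wt a = 0 ∧ P.wt b = 0) (h0 : ∃ c, P.wt c = 0) :
    ∃ w w' : I → F, (∀ c, w c ≠ 0 → P.wt c = 0) ∧ (∀ c, w' c ≠ 0 → P.wt c = 0) ∧
      polar Q w w' ≠ 0 := by
  by_cases h2 : (2 : F) = 0
  · obtain ⟨a, b, hab, ha, hb⟩ := h.resolve_left (not_not.2 h2)
    refine ⟨(1 : F) • 𝐞 a, (1 : F) • 𝐞 b, an_single ha 1, an_single hb 1, fun e => ?_⟩
    rw [one_smul, one_smul] at e
    have hc : ringChar F = 2 := CharP.ringChar_of_prime_eq_zero Nat.prime_two (by simpa using h2)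
    obtain ⟨s, hs⟩ := FiniteField.isSquare_of_char_two hc (Q (𝐞 a))
    obtain ⟨t, ht⟩ := FiniteField.isSquare_of_char_two hc (Q (𝐞 b))
    have := congrFun (P.aniso (t • (𝐞 a) + s • 𝐞 b) (fun c hc => by
      have h1 : c ≠ a := fun e => hc (e ▸ ha)
      have h1 : c ≠ b := fun e => hc (e ▸ hb)
      simp [*]) (by
      qsimp
      rw [e, hs, ht]
      linear_combination s ^ 2 * t ^ 2 * h2)) a
    simp only [Pi.add_apply, Pi.smul_apply, Pi.single_eq_same, smul_eq_mul, mul_one, ne_eq, hab,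
      not_false_eq_true, Pi.single_eq_of_ne, mul_zero, add_zero, Pi.zero_apply] at this
    exact Q_an hb (by rw [ht, this, mul_zero])
  · obtain ⟨c, hc⟩ := h0
    refine ⟨(1 : F) • 𝐞 c, (1 : F) • 𝐞 c, an_single hc 1, an_single hc 1, ?_⟩
    rw [one_smul, polar_self']
    exact mul_ne_zero h2 (Q_an hc)

theorem gen_of (hE : P.Fits E)
    (h : spanX hE.gr.X {r | E.weyl.Pos r ∧ ∀ i, r ≠ E.α i} ≤ ⁅hE.gr.rgd.U, hE.gr.rgd.U⁆) :
    Gen hE.gr.faithful.idTwist := by
  have h1 : hE.gr.rgd.U ≤ hE.gr.rgd.U ⊓ hE.gr.faithful.idTwist.F :=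
    le_inf le_rfl fun g hg => ⟨hE.gr.rgd.U_le_G0 hg, rfl⟩
  refine inf_le_left.trans (le_trans ?_ (h.trans (commutator_mono h1 h1)))
  refine spanX_le_iff.2 fun r hr => le_spanX hE.gr.X ⟨hr.1, fun i e => hr.2 i ?_⟩
  rw [e]
  exact E.weyl.inJ_simple_iff.2 (E.weyl.idSym.self_mem_orb i)

theorem ev_succ (h : a.val + 1 = b.val) :
    evE m a - evE m (a + 1) = Pi.single a 1 + Pi.single b (-1) := by
  rw [h, evE_val, evE_val, Pi.single_neg, sub_eq_add_neg]

end OG

open OG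

theorem o_gen_B (hE : P.Fits (typeB m)) (h : (2 : F) ≠ 0 ∨ ∃ a b, a ≠ b ∧ P.wt a = 0 ∧ P.wt b = 0) :
    Gen hE.gr.faithful.idTwist := by
  have key : ∀ (i j : I) (a b : Fin m), P.wt i = Pi.single a 1 → P.wt j = Pi.single b 1 → a ≠ b →
      ∀ t : F, eich Q (Pi.single i 1) (t • Pi.single j 1) ∈ ⁅hE.gr.rgd.U, hE.gr.rgd.U⁆ := by
    intro i j a b hi hj hab t
    obtain ⟨w, w', h1, h2, h3⟩ := exists_an h
      ((hE.one (Pi.single a 1) (by simp)).1 (mem_typeB.2 (.inl (by simp))))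
    exact long_an hE sgB hi hj hab h1 h2 h3 t
  refine gen_of hE (span_le hE sgB (fun r hr => hr.1) ?_ ?_)
  · rintro i j a b δ hi hj (rfl | rfl) hab hr t
    · exact key i j a b hi hj hab.ne t
    · have h1 : a.val + 1 ≠ b.val := fun e => hr.2 a (by rw [typeB_α, ev_succ e])
      have h2 : a.val < b.val := hab
      exact long_via hE sgB hi hj (.inr rfl) (c := ⟨a + 1, by omega⟩) (Nat.lt_succ_self _) hab.ne
        (fun e => h1 (congrArg Fin.val e)) (fun _ => show a.val + 1 < b.val by omega) t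
  · intro i a w hi hr hw
    have h1 : a.val + 1 < m := by
      by_contra e
      exact hr.2 a (by rw [typeB_α, evE_of_le (not_lt.1 e), sub_zero, evE_val])
    obtain ⟨k, hk⟩ := exists_ix P (⟨a + 1, h1⟩ : Fin m) (.inl rfl)
    have hak : a < ⟨a + 1, h1⟩ := Nat.lt_succ_self _
    have h2 := via hE sgB hi hk hak (orth_an hi (.inl rfl) hw) (orth_an hk (.inl rfl) hw)
      (fun l hl => orth_an hl (.inr rfl) hw) (short_U hE sgB hk hw)
    rw [eich_add (sing_ix hi (.inl rfl))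
      (by rw [polar_smul_right', orth_ix hi (.inl rfl) hk hak.ne, mul_zero])
      (orth_an hi (.inl rfl) hw)] at h2
    exact (mul_mem_cancel_left (key i k a _ hi hk hak.ne _)).1 h2

theorem o_gen_D (hm : 2 ≤ m) (hE : P.Fits (typeD m hm)) : Gen hE.gr.faithful.idTwist := by
  refine gen_of hE (span_le hE (sgD hm) (fun r hr => hr.1) ?_ ?_)
  · intro i j a b δ hi hj hδ hab hr t
    have h2 : a.val < b.val := hab
    have h3 := b.2
    by_cases h1 : a.val + 1 = b.val
    · rcases hδ with rfl | rfl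
      · have h4 : b.val + 1 ≠ m := fun e => hr.2 b (by
          rw [typeD_α, if_pos e, show b.val - 1 = a.val by omega, evE_val, evE_val])
        exact long_via hE (sgD hm) hi hj (.inl rfl) (c := ⟨b + 1, by omega⟩)
          (show a.val < b.val + 1 by omega) hab.ne
          (fun e => by have := congrArg Fin.val e; simp at this) (fun e => by omega) t
      · exact absurd (by rw [typeD_α, if_neg (by omega), ev_succ h1]) (hr.2 a)
    · exact long_via hE (sgD hm) hi hj hδ (c := ⟨a + 1, by omega⟩) (Nat.lt_succ_self _) hab.ne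
        (fun e => h1 (congrArg Fin.val e)) (fun _ => show a.val + 1 < b.val by omega) t
  · intro i a w hi hr hw
    have := (mem_typeD (hm := hm)).1 hr.1.1
    simp at this

end oframe

end Cfsg.Lib.CKS
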