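import Cfsg.Agent.CKS.Def4

/-!
# Orthogonal frames: the positive root subgroups
-/

set_option autoImplicit false
set_option quotPrecheck false
set_option linter.unusedSectionVars false

namespace Cfsg.Lib.CKS.OG

open Cfsg.Lib.Chev Cfsg.Lib.Class Subgroup Matrix Module Orth QuadraticMap
open scoped commutatorElement

section gen
variable {F V : Type*} [Field F] [AddCommGroup V] [Module F V] {Q : QuadraticForm F V}

theorem comm_eich {x y u v : V} (hx : Q x = 0) (hy : Q y = 0) (hxy : polar Q x y = 0)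
    (hu : polar Q y u = 0) (hv : polar Q x v = 0) (hv' : polar Q y v = 0) :
    ⁅eich Q x v, eich Q y u⁆ =
      eich Q y ((polar Q u v - Q v * polar Q u x) • x - polar Q u x • v) := by
  have h1 : polar Q y ((polar Q u v - Q v * polar Q u x) • x - polar Q u x • v) = 0 := by
    qsimp
    rw [polar_comm Q y x, hxy, hv']; ring
  rw [commutatorElement_def, conj_eich, eich_apply_of_orth_orth (by rwa [polar_comm]) hv',
    eich_apply hx hv, mul_inv_eq_iff_eq_mul, ← eich_add hy h1 hu]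
  congr 1
  abel

end gen

variable {m : ℕ}

/-- The sign convention of the positive roots. -/
structure Sg (E : Euclid (Fin m) (Fin m)) : Prop where
  two : ∀ a b : Fin m, a < b → ∀ δ : ℤ, δ = 1 ∨ δ = -1 → 0 ≤ E.c (Pi.single a 1 + Pi.single b δ)
  one : ∀ a : Fin m, Pi.single a 1 ∈ E.Φ → 0 ≤ E.c (Pi.single a 1)

theorem sgB : Sg (typeB m) where
  two a b h δ hδ i := by
    change 0 ≤ psE m i _
    rw [map_add, psE_single, psE_single]
    have : a.val < b.val := h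
    split_ifs <;> omega
  one a _ i := by
    change 0 ≤ psE m i _
    rw [psE_single]
    split_ifs <;> omega

theorem sgD (hm : 2 ≤ m) : Sg (typeD m hm) where
  two a b h δ hδ i := by
    change 0 ≤ (if i.val + 1 = m then psE m i else
      if i.val + 2 = m then (2 : ℤ) • psE m i - psE m (i + 1) else (2 : ℤ) • psE m i) _
    have : a.val < b.val := h
    have := b.2
    split_ifs <;>
    simp only [LinearMap.sub_apply, LinearMap.smul_apply, map_add, psE_single, smul_eq_mul] <;>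
    split_ifs <;> omega
  one a h := by
    rw [mem_typeD] at h
    simp at h

variable {F : Type} [Field F] {I : Type} [Fintype I] [DecidableEq I]
  {Q : QuadraticForm F (I → F)} {P : OFrame m Q} {E : Euclid (Fin m) (Fin m)}

theorem cases_pos (hE : P.Fits E) (hS : Sg E) {r : Fin m → ℤ} (hr : E.weyl.Pos r) :
    (∃ a, r = Pi.single a 1) ∨
      ∃ a b δ, a < b ∧ (δ = 1 ∨ δ = -1) ∧ r = Pi.single a 1 + Pi.single b δ := by
  have h0 := (E.pos_iff hr.1).1 hr
  have hn : ¬ 0 ≤ E.c (-r) := fun h => (E.intg r hr.1).1 (E.inj r (E.mem_E0 r hr.1)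
    (le_antisymm (by rwa [map_neg, neg_nonneg] at h) h0))
  have key : ∀ a b ε δ, a < b → (ε = 1 ∨ ε = -1) → (δ = 1 ∨ δ = -1) →
      r = Pi.single a ε + Pi.single b δ →
      ∃ a b δ, a < b ∧ (δ = 1 ∨ δ = -1) ∧ r = Pi.single a 1 + Pi.single b δ := by
    rintro a b ε δ h (rfl | rfl) hδ e
    · exact ⟨a, b, δ, h, hδ, e⟩
    · refine absurd ?_ hn
      rw [e, neg_add, ← Pi.single_neg, ← Pi.single_neg, neg_neg]
      exact hS.two a b h _ (by omega)
  rcases hE.norm r hr.1 with h | h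
  · obtain ⟨a, ε, rfl | rfl, e⟩ := exists_of_norm_one h
    · exact .inl ⟨a, e⟩
    · have e' : -r = Pi.single a 1 := by rw [e, ← Pi.single_neg, neg_neg]
      exact absurd (e' ▸ hS.one a (e' ▸ E.neg_mem hr.1)) hn
  · obtain ⟨a, b, ε, δ, hab, hε, hδ, e⟩ := exists_of_norm_two h
    rcases lt_or_gt_of_ne hab with h | h
    · exact .inr (key a b ε δ h hε hδ e)
    · exact .inr (key b a δ ε h hδ hε (e.trans (add_comm _ _)))

local notation "𝐞" i => (Pi.single i (1 : F) : I → F)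

variable (P) in
theorem exists_ix (a : Fin m) {δ : ℤ} (h : δ = 1 ∨ δ = -1) : ∃ i, P.wt i = Pi.single a δ :=
  P.surj _ (by rcases h with rfl | rfl <;> simp)

variable {i j : I} {a b : Fin m} {ε δ : ℤ}

theorem wt_ne (hi : P.wt i = Pi.single a ε) (h : ε = 1 ∨ ε = -1) : P.wt i ≠ 0 := fun e => by
  have := congrFun (hi.symm.trans e) a
  simp at this
  omega

theorem sing_ix (hi : P.wt i = Pi.single a ε) (h : ε = 1 ∨ ε = -1) : Q (𝐞 i) = 0 :=
  P.sing i (wt_ne hi h)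

theorem orth_ix (hi : P.wt i = Pi.single a ε) (h : ε = 1 ∨ ε = -1) (hj : P.wt j = Pi.single b δ)
    (hab : a ≠ b) : polar Q (𝐞 i) (𝐞 j) = 0 := by
  by_contra e
  have := congrFun (P.add_eq_zero_of_polar e) a
  simp [hi, hj, hab] at this
  omega

theorem hyp_ix (hi : P.wt i = Pi.single a ε) (h : ε = 1 ∨ ε = -1) (hj : P.wt j = Pi.single a (-ε)) :
    polar Q (𝐞 i) (𝐞 j) = 1 :=
  OFrame.polar_bar (wt_ne hi h) (by rw [hi, hj, Pi.single_neg, add_neg_cancel])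

theorem orth_an (hi : P.wt i = Pi.single a ε) (h : ε = 1 ∨ ε = -1) {w : I → F}
    (hw : ∀ c, w c ≠ 0 → P.wt c = 0) : polar Q (𝐞 i) w = 0 := by
  obtain ⟨k, hk⟩ := P.exists_bar (wt_ne hi h)
  rw [P.polar_eq i k (wt_ne hi h) hk]
  by_contra e
  exact OFrame.ne_zero' (wt_ne hi h) hk (hw k e)

theorem an_single {c : I} (hc : P.wt c = 0) (t : F) : ∀ k, (t • 𝐞 c) k ≠ 0 → P.wt k = 0 := by
  intro k hk
  by_cases e : k = c
  · rwa [e]
  · simp [e] at hk

theorem Q_an {c : I} (hc : P.wt c = 0) : Q (𝐞 c) ≠ 0 := fun e => by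
  have := congrFun (P.aniso _ (fun a ha => by
    by_contra h
    exact ha (an_single hc 1 a (by rwa [one_smul]))) e) c
  simp at this

theorem mem_long (hE : P.Fits E) (hi : P.wt i = Pi.single a ε) (h : ε = 1 ∨ ε = -1)
    (hj : P.wt j = Pi.single b δ) (h' : δ = 1 ∨ δ = -1) (hab : a ≠ b) {g : O Q} :
    g ∈ hE.gr.X (Pi.single a ε + Pi.single b δ) ↔ ∃ t : F, eich Q (𝐞 i) (t • 𝐞 j) = g := by
  obtain ⟨k, hk⟩ := P.exists_bar (wt_ne hi h)
  rw [← OFrame.mem_ray_long (wt_ne hi h) hk (wt_ne hj h') (by simp [hi, hj, hab]), hi, hj]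
  rfl

theorem mem_short (hE : P.Fits E) (hi : P.wt i = Pi.single a ε) (h : ε = 1 ∨ ε = -1) {g : O Q} :
    g ∈ hE.gr.X (Pi.single a ε) ↔
      ∃ w : I → F, (∀ c, w c ≠ 0 → P.wt c = 0) ∧ eich Q (𝐞 i) w = g := by
  obtain ⟨k, hk⟩ := P.exists_bar (wt_ne hi h)
  rw [← OFrame.mem_ray_iff (wt_ne hi h) hk (dotProduct_zero _), hi, add_zero]
  rfl

theorem long_U (hE : P.Fits E) (hS : Sg E) (hi : P.wt i = Pi.single a 1)
    (hj : P.wt j = Pi.single b δ) (h' : δ = 1 ∨ δ = -1) (hab : a < b) (t : F) :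
    eich Q (𝐞 i) (t • 𝐞 j) ∈ hE.gr.rgd.U :=
  mem_spanX hE.gr.X (T := {r | E.weyl.Pos r})
    ((E.pos_iff (hE.two _ (norm_single_add hab.ne (.inl rfl) h'))).2 (hS.two a b hab δ h'))
    ((mem_long hE hi (.inl rfl) hj h' hab.ne).2 ⟨t, rfl⟩)

theorem long_U' (hE : P.Fits E) (hS : Sg E) (hi : P.wt i = Pi.single a 1)
    (hj : P.wt j = Pi.single b 1) (hab : a ≠ b) (t : F) :
    eich Q (𝐞 i) (t • 𝐞 j) ∈ hE.gr.rgd.U := by
  rcases lt_or_gt_of_ne hab with h | h
  · exact long_U hE hS hi hj (.inl rfl) h t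
  · rw [eich_swap_smul (sing_ix hj (.inl rfl)) (sing_ix hi (.inl rfl))
      (orth_ix hj (.inl rfl) hi hab.symm)]
    exact long_U hE hS hj hi (.inl rfl) h _

theorem short_U (hE : P.Fits E) (hS : Sg E) (hi : P.wt i = Pi.single a 1) {w : I → F}
    (hw : ∀ c, w c ≠ 0 → P.wt c = 0) : eich Q (𝐞 i) w ∈ hE.gr.rgd.U := by
  by_cases h0 : w = 0
  · rw [h0, eich_zero]; exact one_mem _
  obtain ⟨c, hc⟩ := Function.ne_iff.1 h0
  have h1 : Pi.single a 1 ∈ E.Φ := (hE.one _ (by simp)).2 ⟨c, hw c hc⟩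
  exact mem_spanX hE.gr.X (T := {r | E.weyl.Pos r}) ((E.pos_iff h1).2 (hS.one a h1))
    ((mem_short hE hi (.inl rfl)).2 ⟨w, hw, rfl⟩)

theorem span_le (hE : P.Fits E) (hS : Sg E) {T : Set (Fin m → ℤ)} (hT : ∀ r ∈ T, E.weyl.Pos r)
    {K : Subgroup (O Q)}
    (h1 : ∀ (i j : I) (a b : Fin m) (δ : ℤ), P.wt i = Pi.single a 1 → P.wt j = Pi.single b δ →
      δ = 1 ∨ δ = -1 → a < b → Pi.single a 1 + Pi.single b δ ∈ T →
      ∀ t : F, eich Q (𝐞 i) (t • 𝐞 j) ∈ K)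
    (h2 : ∀ (i : I) (a : Fin m) (w : I → F), P.wt i = Pi.single a 1 → Pi.single a 1 ∈ T →
      (∀ c, w c ≠ 0 → P.wt c = 0) → eich Q (𝐞 i) w ∈ K) : spanX hE.gr.X T ≤ K := by
  refine spanX_le_iff.2 fun r hr g hg => ?_
  rcases cases_pos hE hS (hT r hr) with ⟨a, rfl⟩ | ⟨a, b, δ, hab, hδ, rfl⟩
  · obtain ⟨i, hi⟩ := exists_ix P a (.inl rfl)
    obtain ⟨w, hw, rfl⟩ := (mem_short hE hi (.inl rfl)).1 hg
    exact h2 i a w hi hr hw
  · obtain ⟨i, hi⟩ := exists_ix P a (.inl rfl)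
    obtain ⟨j, hj⟩ := exists_ix P b hδ
    obtain ⟨t, rfl⟩ := (mem_long hE hi (.inl rfl) hj hδ hab.ne).1 hg
    exact h1 i j a b δ hi hj hδ hab hr t

end Cfsg.Lib.CKS.OG
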