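import Cfsg.Agent.CKS.OGenX

/-!
# Orthogonal groups: the highest root subgroup and the Levi complement of a point stabiliser
-/

set_option autoImplicit false
set_option quotPrecheck false
set_option linter.unusedSectionVars false

namespace Cfsg.Lib.CKS

open MulAction Cfsg.Lib.Chev Cfsg.Lib.Class Subgroup Matrix Module

namespace OL

theorem heis_of {G F : Type*} [Group G] [Field F] [Fintype F] (p : ℕ) [Fact p.Prime] [CharP F p]
    (φ : F → F → F → G) {κ : F} (hκ : κ ≠ 0)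
    (hm : ∀ s t u s' t' u', φ s t u * φ s' t' u' = φ (s + s') (t + t' + κ * s' * u) (u + u'))
    (hi : ∀ s t u s' t' u', φ s t u = φ s' t' u' → s = s' ∧ t = t' ∧ u = u') :
    ∃ Q Z : Subgroup G, Heis Q Z (Fintype.card F) ∧ IsPGroup p Q ∧
      (∀ g ∈ Q, ∃ s t u, g = φ s t u) ∧ ∀ t, φ 0 t 0 ∈ Z := by
  have h0 : φ 0 0 0 = 1 := by
    have := hm 0 0 0 0 0 0
    simpa using this
  have hv : ∀ s t u, (φ s t u)⁻¹ = φ (-s) (-t + κ * s * u) (-u) := fun s t u => by
    rw [inv_eq_iff_mul_eq_one, hm, ← h0]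
    congr 1 <;> ring
  have hc : ∀ s t u s' t' u', φ s t u * φ s' t' u' * (φ s t u)⁻¹ * (φ s' t' u')⁻¹ =
      φ 0 (κ * (s' * u - s * u')) 0 := fun s t u s' t' u' => by
    rw [hv, hv, hm, hm, hm]
    congr 1 <;> ring
  let Q : Subgroup G :=
    { carrier := {g | ∃ s t u, g = φ s t u}
      one_mem' := ⟨0, 0, 0, h0.symm⟩
      mul_mem' := by
        rintro _ _ ⟨s, t, u, rfl⟩ ⟨s', t', u', rfl⟩
        exact ⟨_, _, _, hm ..⟩
      inv_mem' := by
        rintro _ ⟨s, t, u, rfl⟩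
        exact ⟨_, _, _, hv ..⟩ }
  let Z : Subgroup G :=
    { carrier := {g | ∃ t, g = φ 0 t 0}
      one_mem' := ⟨0, h0.symm⟩
      mul_mem' := by
        rintro _ _ ⟨t, rfl⟩ ⟨t', rfl⟩
        exact ⟨t + t', by rw [hm]; congr 1 <;> ring⟩
      inv_mem' := by
        rintro _ ⟨t, rfl⟩
        exact ⟨-t, by rw [hv]; congr 1 <;> ring⟩ }
  have cQ : Nat.card Q = Fintype.card F ^ 3 := by
    rw [← Nat.card_congr (Equiv.ofBijective (fun a : F × F × F => (⟨φ a.1 a.2.1 a.2.2, _, _, _, rfl⟩ : Q))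
      ⟨fun a b e => ?_, fun ⟨_, s, t, u, e⟩ => ⟨(s, t, u), Subtype.ext e.symm⟩⟩)]
    · simp [pow_succ, mul_assoc]
    · obtain ⟨h1, h2, h3⟩ := hi _ _ _ _ _ _ (congrArg Subtype.val e)
      exact Prod.ext h1 (Prod.ext h2 h3)
  have cZ : Nat.card Z = Fintype.card F := by
    rw [← Nat.card_congr (Equiv.ofBijective (fun a : F => (⟨φ 0 a 0, _, rfl⟩ : Z))
      ⟨fun a b e => (hi _ _ _ _ _ _ (congrArg Subtype.val e)).2.1,
        fun ⟨_, t, e⟩ => ⟨t, Subtype.ext e.symm⟩⟩), Nat.card_eq_fintype_card]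
  refine ⟨Q, Z, ⟨?_, ?_, ?_, ?_, by rw [cQ, cZ, pow_succ]⟩, ?_, fun g hg => hg, fun t => ⟨t, rfl⟩⟩
  · rintro _ ⟨t, rfl⟩
    exact ⟨_, _, _, rfl⟩
  · rintro _ ⟨t, rfl⟩ _ ⟨s', t', u', rfl⟩
    rw [hm, hm]
    congr 1 <;> ring
  · rintro _ ⟨s, t, u, rfl⟩ _ ⟨s', t', u', rfl⟩
    exact ⟨_, hc ..⟩
  · rintro _ ⟨s, t, u, rfl⟩ hn _ ⟨z, rfl⟩
    by_cases hs : s = 0
    · have hu : u ≠ 0 := fun hu => hn ⟨t, by rw [hs, hu]⟩
      refine ⟨_, ⟨z / (κ * u), 0, 0, rfl⟩, ?_⟩
      rw [hc]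
      congr 1
      field_simp
      ring
    · refine ⟨_, ⟨0, 0, -z / (κ * s), rfl⟩, ?_⟩
      rw [hc]
      congr 1
      field_simp
      ring
  · obtain ⟨n, -, hn⟩ := FiniteField.card F p
    exact IsPGroup.of_card (by rw [cQ, hn, ← pow_mul])

section gen
open Orth QuadraticMap
variable {F V : Type} [Field F] [AddCommGroup V] [Module F V] {Q : QuadraticForm F V}

theorem yx {x y u v : V} (hy : Q y = 0) (hxy : polar Q x y = 0) (hu : polar Q u y = 0)
    (hv : polar Q x v = 0) (hv' : polar Q y v = 0) :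
    eich Q y v * eich Q x u = eich Q x (u + polar Q u v • y) * eich Q y v := by
  rw [← mul_inv_eq_iff_eq_mul, conj_eich, eich_apply_of_orth_orth hxy hv,
    eich_apply_of_orth hy hv' hu]

theorem norm_oA {x : V} {g : commutator (O Q)} (hg : g.1.1 x = x) :
    g ∈ normalizer (oA Q x : Set (commutator (O Q))) := by
  have key : ∀ g : O Q, g.1 x = x → ∀ a ∈ closure (Set.range (eich Q x)),
      g * a * g⁻¹ ∈ closure (Set.range (eich Q x)) := fun g hg a ha => by
    have : closure (Set.range (eich Q x)) ≤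
        (closure (Set.range (eich Q x))).comap (MulAut.conj g).toMonoidHom := by
      rw [closure_le]
      rintro _ ⟨w, rfl⟩
      exact subset_closure ⟨g.1 w, by simp [conj_eich, hg]⟩
    exact this ha
  refine mem_normalizer_iff.2 fun a => ⟨fun h => key g.1 hg a.1 h, fun h => ?_⟩
  have := key g.1⁻¹ (O_inv_apply_of_eq hg) _ h
  change a.1 ∈ closure (Set.range (eich Q x))
  simpa [mul_assoc] using this

variable {x : V} {M : Subgroup (O Q)}
  (hM : ∀ k w, polar Q x k = 0 → polar Q x w = 0 → ∀ g ∈ M, eich Q k w * g * (eich Q k w)⁻¹ ∈ M)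
include hM

theorem move1 (h2 : (2 : F) ≠ 0) {y z z' w : V} (hy : Q y = 0) (hz' : Q z' = 0)
    (h3 : polar Q y z = 0) (h4 : polar Q y z' = 0) (h5 : polar Q z z' = 1) (h6 : polar Q x z' = 0)
    (h7 : polar Q x w = 0) (h8 : polar Q y w = 0) (h9 : polar Q z w = 0) (h10 : polar Q z' w = 0)
    (h : eich Q y z ∈ M) : eich Q y w ∈ M := by
  have key : ∀ c : F, eich Q y (z - (c ^ 2 * Q w) • z' - c • w) ∈ M := fun c => by
    have := hM z' (c • w) h6 (by rw [polar_smul_right', h7, mul_zero]) _ h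
    rw [conj_eich, eich_apply_of_orth_orth h4 (by rw [polar_smul_right', h8, mul_zero]),
      eich_apply hz' (by rw [polar_smul_right', h10, mul_zero]), polar_smul_right', h9, h5,
      Q_smul] at this
    convert this using 2
    module
  have ho : ∀ c : F, polar Q y (z - (c ^ 2 * Q w) • z' - c • w) = 0 := fun c => by
    qsimp
    rw [h3, h4, h8]; ring
  have := MD.eich_sub_mem hy (ho _) (ho _) (key (-2⁻¹)) (key 2⁻¹)
  convert this using 2
  match_scalars
  · field_simp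
    ring
  · ring
  · ring

theorem move2 {y k w w' : V} (hy : Q y = 0) (hk : Q k = 0) (h3 : polar Q y k = 0)
    (h4 : polar Q y w = 0) (h5 : polar Q y w' = 0) (h6 : polar Q w k = 0) (h7 : polar Q k w' = 0)
    (h8 : polar Q x k = 0) (h9 : polar Q x w' = 0) (h : eich Q y w ∈ M) :
    eich Q y (polar Q w w' • k) ∈ M := by
  have := hM k w' h8 h9 _ h
  rw [conj_eich, eich_apply_of_orth_orth h3 h5, eich_apply_of_orth hk h7 h6,
    eich_add hy h4 (by rw [polar_smul_right', h3, mul_zero])] at this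
  exact (mul_mem_cancel_left h).1 this

end gen

end OL

section oframe
open Orth QuadraticMap
variable {F : Type} [Field F] [Fintype F] {I : Type} [Fintype I] [DecidableEq I]
  {Q : QuadraticForm F (I → F)} {m : ℕ} {P : OFrame m Q}

namespace OL

open OG

local notation "𝐞" i => (Pi.single i (1 : F) : I → F)

variable {E : Euclid (Fin m) (Fin m)}

theorem B_le (hE : P.Fits E) (hS : Sg E) (n : ℕ) :
    hE.gr.rgd.B ≤ parS P.wt (oMat Q) (geS (psE m n)) := by
  refine sup_le (hE.gr.spanX_le_parS fun r hr => ?_) (parS_mono bot_le)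
  rw [mem_geS]
  rcases cases_pos hE hS hr with ⟨a, rfl⟩ | ⟨a, b, δ, hab, hδ, rfl⟩
  · rw [psE_single]
    split_ifs <;> omega
  · rw [map_add, psE_single, psE_single]
    have : a.val < b.val := hab
    split_ifs <;> omega

theorem tri (hE : P.Fits E) (hS : Sg E) {g : O Q} (hg : g ∈ hE.gr.rgd.B) {i : I} {a : Fin m}
    (hi : P.wt i = Pi.single a 1) {c : I} (hc : g.1 (𝐞 i) c ≠ 0) :
    ∃ b ≤ a, P.wt c = Pi.single b 1 := by
  have h := mem_parS.1 (B_le hE hS a hg) c i hc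
  rw [SetLike.mem_coe, mem_geS, map_sub, hi, psE_single, if_pos le_rfl] at h
  have h0 : P.wt c ≠ 0 := fun e => by
    rw [e, map_zero] at h
    omega
  obtain ⟨b, ε, hε, e⟩ := exists_of_norm_one (P.norm c h0)
  rw [e, psE_single] at h
  split_ifs at h with h1
  · exact ⟨b, h1, by rw [e, show ε = 1 by omega]⟩
  · omega

theorem link (hE : P.Fits E) (hS : Sg E) (hm : 2 ≤ m) : ∃ x y, x ≠ 0 ∧ Q x = 0 ∧ Q y = 0 ∧
    polar Q x y = 0 ∧ y ∉ spanL F [x] ∧ ∀ g ∈ hE.gr.rgd.B, ∀ c : F, ∃ d : F,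
      g * eich Q x (c • y) * g⁻¹ = eich Q x (d • y) := by
  obtain ⟨i, hi⟩ := exists_ix P (⟨0, by omega⟩ : Fin m) (.inl rfl)
  obtain ⟨j, hj⟩ := exists_ix P (⟨1, by omega⟩ : Fin m) (.inl rfl)
  have hne : (⟨0, by omega⟩ : Fin m) ≠ ⟨1, by omega⟩ := by simp
  have hx := sing_ix hi (.inl rfl)
  have hxy := orth_ix hi (.inl rfl) hj hne
  have hij : i ≠ j := fun e => by
    have := congrFun (hi.symm.trans (e ▸ hj)) ⟨0, by omega⟩
    simp [hne] at this
  refine ⟨𝐞 i, 𝐞 j, by simp, hx, sing_ix hj (.inl rfl), hxy, fun h => ?_, fun g hg c => ?_⟩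
  · obtain ⟨t, ht⟩ := mem_spanL_singleton.1 h
    have := congrFun ht j
    simp [hij.symm] at this
  have h1 : g.1 (𝐞 i) = g.1 (𝐞 i) i • 𝐞 i := by
    funext k
    by_cases e : k = i
    · simp [e]
    · rw [Pi.smul_apply, Pi.single_eq_of_ne e, smul_zero]
      by_contra h
      obtain ⟨b, hb, h2⟩ := tri hE hS hg hi h
      have : b = ⟨0, by omega⟩ := Fin.ext (Nat.le_zero.1 hb)
      exact e (P.inj k i (wt_ne h2 (.inl rfl)) (by rw [h2, hi, this]))
  have h2 : g.1 (𝐞 j) = g.1 (𝐞 j) j • (𝐞 j) + g.1 (𝐞 j) i • 𝐞 i := by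
    funext k
    by_cases e : k = i
    · simp [e, hij]
    by_cases e' : k = j
    · simp [e', hij.symm]
    rw [Pi.add_apply, Pi.smul_apply, Pi.smul_apply, Pi.single_eq_of_ne e, Pi.single_eq_of_ne e',
      smul_zero, smul_zero, add_zero]
    by_contra h
    obtain ⟨b, hb, h2⟩ := tri hE hS hg hj h
    have hb' : b.val ≤ 1 := hb
    rcases Nat.le_one_iff_eq_zero_or_eq_one.1 hb' with h3 | h3
    · have : b = ⟨0, by omega⟩ := Fin.ext h3
      exact e (P.inj k i (wt_ne h2 (.inl rfl)) (by rw [h2, hi, this]))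
    · have : b = ⟨1, by omega⟩ := Fin.ext h3
      exact e' (P.inj k j (wt_ne h2 (.inl rfl)) (by rw [h2, hj, this]))
  rw [conj_eich, map_smul, h1, h2]
  generalize g.1 (𝐞 i) i = s
  generalize g.1 (𝐞 j) j = t
  generalize g.1 (𝐞 j) i = u
  refine ⟨s * c * t, ?_⟩
  rw [eich_smul_left hx (by qsimp; rw [hx, hxy]; ring),
    ← eich_add_smul_self hx (w := (s * c * t) • 𝐞 j) (by qsimp; rw [hxy]; ring) (s * c * u)]
  congr 1
  module

end OL

open OG OL

theorem o_link_B (hE : P.Fits (typeB m)) (hm : 2 ≤ m) : ∃ x y, x ≠ 0 ∧ Q x = 0 ∧ Q y = 0 ∧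
    polar Q x y = 0 ∧ y ∉ spanL F [x] ∧ ∀ g ∈ hE.gr.rgd.B, ∀ c : F, ∃ d : F,
      g * eich Q x (c • y) * g⁻¹ = eich Q x (d • y) := link hE sgB hm

theorem o_link_D (hm : 2 ≤ m) (h3 : 3 ≤ m) (hE : P.Fits (typeD m hm)) : ∃ x y, x ≠ 0 ∧ Q x = 0 ∧
    Q y = 0 ∧ polar Q x y = 0 ∧ y ∉ spanL F [x] ∧ ∀ g ∈ hE.gr.rgd.B, ∀ c : F, ∃ d : F,
      g * eich Q x (c • y) * g⁻¹ = eich Q x (d • y) := link hE (sgD hm) (by omega)

theorem o_blk (hE : P.Fits (typeB m)) (hm : 3 ≤ m) (h2 : (2 : F) ≠ 0) (p : ℕ) [Fact p.Prime]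
    [CharP F p] (hC : commutator (O Q) = EG Q) : ∃ x, x ≠ 0 ∧ Q x = 0 ∧
      Blk p (Fintype.card F) (oA Q x) (normalizer (oA Q x : Set (commutator (O Q))))
        (hE.gr.rgd.U.subgroupOf (commutator (O Q))) := by
  let a0 : Fin m := ⟨0, by omega⟩
  let a1 : Fin m := ⟨1, by omega⟩
  let a2 : Fin m := ⟨2, by omega⟩
  have n01 : a0 ≠ a1 := by simp [a0, a1]
  have n02 : a0 ≠ a2 := by simp [a0, a2]
  have n12 : a1 ≠ a2 := by simp [a1, a2]
  obtain ⟨i0, h0⟩ := exists_ix P a0 (.inl rfl)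
  obtain ⟨i1, h1⟩ := exists_ix P a1 (.inl rfl)
  obtain ⟨i2, h2'⟩ := exists_ix P a2 (.inl rfl)
  obtain ⟨j1, k1⟩ := exists_ix P a1 (.inr rfl)
  obtain ⟨j2, k2⟩ := exists_ix P a2 (.inr rfl)
  obtain ⟨c, hc⟩ := (hE.one (Pi.single a0 1) (by simp)).1 (mem_typeB.2 (.inl (by simp)))
  have hc1 := an_single (F := F) hc 1
  rw [one_smul] at hc1
  have hκ : 2 * Q (Pi.single c 1) ≠ 0 := mul_ne_zero h2 (Q_an hc)
  have hE' : ∀ a b, eich Q a b ∈ commutator (O Q) := fun a b => hC ▸ eich_mem_EG a b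
  have s0 := sing_ix h0 (.inl rfl)
  have s1 := sing_ix h1 (.inl rfl)
  have s2 := sing_ix h2' (.inl rfl)
  have o01 := orth_ix h0 (.inl rfl) h1 n01
  have o02 := orth_ix h0 (.inl rfl) h2' n02
  have o12 := orth_ix h1 (.inl rfl) h2' n12
  have o0c := orth_an h0 (.inl rfl) hc1
  have o1c := orth_an h1 (.inl rfl) hc1
  have o2c := orth_an h2' (.inl rfl) hc1
  have hw : ∀ s t : F, polar Q (Pi.single i1 1) (s • Pi.single c 1 + t • Pi.single i2 1) = 0 :=
    fun s t => by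
      qsimp
      rw [o1c, o12]; ring
  have hu : ∀ s : F, polar Q (Pi.single i2 1) (s • Pi.single c 1) = 0 := fun s => by
    rw [polar_smul_right', o2c, mul_zero]
  obtain ⟨Q', Z, hH, hp, hQ, hZ⟩ := heis_of p (fun s t u : F =>
      (⟨eich Q (Pi.single i1 1) (s • Pi.single c 1 + t • Pi.single i2 1) *
        eich Q (Pi.single i2 1) (u • Pi.single c 1), mul_mem (hE' _ _) (hE' _ _)⟩ :
          commutator (O Q))) hκ
    (fun s t u s' t' u' => Subtype.ext (by
      simp only [coe_mul]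
      have e : polar Q (s' • Pi.single c 1 + t' • Pi.single i2 1) (u • Pi.single c 1) =
          2 * Q (Pi.single c 1) * s' * u := by
        qsimp
        rw [o2c]; ring
      rw [mul_assoc, ← mul_assoc (eich Q (Pi.single i2 1) _), yx s2 o12
        (by qsimp; rw [polar_comm, o2c, s2]; ring) (by rw [polar_smul_right', o1c, mul_zero]) (hu u),
        e, mul_assoc, ← eich_add s2 (hu _) (hu _), ← mul_assoc, ← eich_add s1 (hw _ _)
          (by rw [polar_add_right, hw, polar_smul_right', o12]; ring)]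
      congr 2 <;> module))
    (fun s t u s' t' u' e => by
      have e : eich Q (Pi.single i1 1) (s • Pi.single c 1 + t • Pi.single i2 1) *
          eich Q (Pi.single i2 1) (u • Pi.single c 1) =
          eich Q (Pi.single i1 1) (s' • Pi.single c 1 + t' • Pi.single i2 1) *
          eich Q (Pi.single i2 1) (u' • Pi.single c 1) := congrArg Subtype.val e
      have ne : ∀ {i : I} {a : Fin m} {ε : ℤ}, P.wt i = Pi.single a ε → ε = 1 ∨ ε = -1 → c ≠ i :=
        fun h h' e => wt_ne h h' (e ▸ hc)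
      have ne' : ∀ {i j : I} {a b : Fin m} {ε δ : ℤ}, P.wt i = Pi.single a ε → ε = 1 ∨ ε = -1 →
          P.wt j = Pi.single b δ → a ≠ b → i ≠ j := fun {i j a b ε δ} h h' hj hab e => by
        have := congrFun (h.symm.trans (e ▸ hj)) a
        simp [hab] at this
        omega
      have f1 : ∀ u : F, (eich Q (Pi.single i2 1) (u • Pi.single c 1)).1 (Pi.single j1 1) =
          Pi.single j1 1 := fun u => eich_apply_of_orth_orth (orth_ix k1 (.inr rfl) h2' n12)
        (orth_an k1 (.inr rfl) (an_single hc u))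
      have e1 := congrArg (fun g : O Q => g.1 (Pi.single j1 1)) e
      simp only [O_mul_apply, f1, eich_apply s1 (hw _ _),
        hyp_ix k1 (.inr rfl) (by rw [h1, neg_neg] : P.wt i1 = Pi.single a1 (- -1))] at e1
      have e2 := congrFun e1 c
      have e3 := congrFun e1 i2
      simp [ne k1 (.inr rfl), ne h1 (.inl rfl), ne h2' (.inl rfl), (ne h2' (.inl rfl)).symm,
        ne' h2' (.inl rfl) k1 n12.symm, ne' h2' (.inl rfl) h1 n12.symm] at e2 e3
      subst e2 e3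
      have e4 := congrArg (fun g : O Q => g.1 (Pi.single j2 1) c) (mul_left_cancel e)
      simp only [eich_apply s2 (hu _),
        hyp_ix k2 (.inr rfl) (by rw [h2', neg_neg] : P.wt i2 = Pi.single a2 (- -1))] at e4
      simp [ne k2 (.inr rfl), ne h2' (.inl rfl)] at e4
      exact ⟨rfl, rfl, e4⟩)
  refine ⟨Pi.single i0 1, by simp, s0, Q', Z, hH, hp, fun g hg => ?_, fun M hA hZM hN => ?_⟩
  · obtain ⟨s, t, u, rfl⟩ := hQ g hg
    refine norm_oA ?_
    rw [O_mul_apply, eich_apply_of_orth_orth o02 (by rw [polar_smul_right', o0c, mul_zero]),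
      eich_apply_of_orth_orth o01 (by qsimp; rw [o0c, o02]; ring)]
  have hM : ∀ k w, polar Q (Pi.single i0 1) k = 0 → polar Q (Pi.single i0 1) w = 0 →
      ∀ g ∈ M.map (commutator (O Q)).subtype,
        eich Q k w * g * (eich Q k w)⁻¹ ∈ M.map (commutator (O Q)).subtype := by
    rintro k w hk hw _ ⟨g, hg, rfl⟩
    exact ⟨_, (mem_normalizer_iff.1 (hN (norm_oA (g := ⟨_, hE' k w⟩)
      (eich_apply_of_orth_orth hk hw))) g).1 hg, rfl⟩
  have hA' : ∀ w, eich Q (Pi.single i0 1) w ∈ M.map (commutator (O Q)).subtype := fun w =>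
    ⟨⟨_, hE' _ _⟩, hA (subset_closure ⟨w, rfl⟩), rfl⟩
  have m1 : ∀ (i j : I) (a b : Fin m), P.wt i = Pi.single a 1 → P.wt j = Pi.single b 1 → a ≠ b →
      a0 ≠ b → eich Q (Pi.single i 1) (Pi.single j 1) ∈ M.map (commutator (O Q)).subtype →
      ∀ w, (∀ c, w c ≠ 0 → P.wt c = 0) →
        eich Q (Pi.single i 1) w ∈ M.map (commutator (O Q)).subtype := by
    intro i j a b hi hj hab hb h w hw
    obtain ⟨k, hk⟩ := exists_ix P b (.inr rfl)
    exact move1 hM h2 (sing_ix hi (.inl rfl)) (sing_ix hk (.inr rfl)) (orth_ix hi (.inl rfl) hj hab)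
      (orth_ix hi (.inl rfl) hk hab) (hyp_ix hj (.inl rfl) hk) (orth_ix h0 (.inl rfl) hk hb)
      (orth_an h0 (.inl rfl) hw) (orth_an hi (.inl rfl) hw) (orth_an hj (.inl rfl) hw)
      (orth_an hk (.inr rfl) hw) h
  have m2 : ∀ (i j : I) (a b : Fin m) (δ : ℤ), P.wt i = Pi.single a 1 → P.wt j = Pi.single b δ →
      δ = 1 ∨ δ = -1 → a ≠ b → a0 ≠ b →
      eich Q (Pi.single i 1) (Pi.single c 1) ∈ M.map (commutator (O Q)).subtype →
      ∀ t : F, eich Q (Pi.single i 1) (t • Pi.single j 1) ∈ M.map (commutator (O Q)).subtype := by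
    intro i j a b δ hi hj hδ hab hb h t
    have hw := an_single hc (t / (2 * Q (Pi.single c 1)))
    have := move2 hM (sing_ix hi (.inl rfl)) (sing_ix hj hδ) (orth_ix hi (.inl rfl) hj hab)
      (orth_an hi (.inl rfl) hc1) (orth_an hi (.inl rfl) hw)
      (by rw [polar_comm]; exact orth_an hj hδ hc1) (orth_an hj hδ hw)
      (orth_ix h0 (.inl rfl) hj hb) (orth_an h0 (.inl rfl) hw) h
    rwa [polar_smul_right', polar_self', div_mul_cancel₀ _ hκ] at this
  have t1 := m1 i1 i2 a1 a2 h1 h2' n12 n02 ⟨_, hZM (hZ 1), by simp⟩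
  have sh : ∀ (i : I) (a : Fin m), P.wt i = Pi.single a 1 → ∀ w, (∀ c, w c ≠ 0 → P.wt c = 0) →
      eich Q (Pi.single i 1) w ∈ M.map (commutator (O Q)).subtype := by
    intro i a hi
    by_cases e0 : a0 = a
    · obtain rfl : i = i0 := P.inj i i0 (wt_ne hi (.inl rfl)) (by rw [hi, h0, e0])
      exact fun w _ => hA' w
    by_cases e1 : a1 = a
    · obtain rfl : i = i1 := P.inj i i1 (wt_ne hi (.inl rfl)) (by rw [hi, h1, e1])
      exact t1
    refine m1 i i1 a a1 hi h1 (Ne.symm e1) n01 ?_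
    rw [eich_swap s1 (sing_ix hi (.inl rfl)) (orth_ix h1 (.inl rfl) hi e1), ← neg_one_smul F]
    exact m2 i1 i a1 a 1 h1 hi (.inl rfl) e1 e0 (t1 _ hc1) _
  have hU : hE.gr.rgd.U ≤ M.map (commutator (O Q)).subtype := by
    refine span_le hE sgB (fun r hr => hr) (fun i j a b δ hi hj hδ hab _ => ?_)
      fun i a w hi _ => sh i a hi w
    refine m2 i j a b δ hi hj hδ hab.ne (fun e => ?_) (sh i a hi _ hc1)
    have : a.val < b.val := hab
    rw [← e] at this
    exact absurd this (Nat.not_lt_zero _)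
  intro g hg
  obtain ⟨g', h3, h4⟩ := hU hg
  rwa [← Subtype.ext h4]

end oframe

end Cfsg.Lib.CKS
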