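import Cfsg.Agent.CKS.Def4

/-!
# A lower bound for the degree of the orthogonal groups of plus type
-/

set_option autoImplicit false

namespace Cfsg.Lib.CKS

open MulAction Cfsg.Lib.Chev Cfsg.Lib.Class Subgroup Matrix Module
open Orth QuadraticMap

variable {F : Type} [Field F] [Fintype F]

namespace OMinAux

open MD

theorem num {k : ℕ} (hk : 3 ≤ k) {x} (hx0 : x ≠ 0) (hx : quadPlus (k + 1) F x = 0) :
    Num (quadPlus (k + 1) F) x ((Fintype.card F ^ k) ^ 2 + 1) := by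
  have h3 : finrank F (Fin (k + 1) ⊕ Fin (k + 1) → F) = 2 * k + 2 := by simp; omega
  obtain ⟨h0, h1⟩ := cntP_quadPlus k hx0 hx
  have hq := Fintype.one_lt_card (α := F)
  obtain ⟨r, hr⟩ : ∃ r, Fintype.card F = r + 1 := ⟨Fintype.card F - 1, by omega⟩
  have hK : Fintype.card F ^ (finrank F (Fin (k + 1) ⊕ Fin (k + 1) → F) - 2) =
      (Fintype.card F ^ k) ^ 2 := by
    rw [h3, ← pow_mul]; congr 1; omega
  have hY : (r + 1) ^ 3 ≤ Fintype.card F ^ k := hr ▸ Nat.pow_le_pow_right (by omega) hk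
  have h8 : 2 ^ 3 ≤ (r + 1) ^ 3 := Nat.pow_le_pow_left (by omega) 3
  have hr' : r + 1 ≤ (r + 1) ^ 3 := Nat.le_self_pow (by omega) _
  have h64 : 3 ≤ r → 4 ^ 3 ≤ (r + 1) ^ 3 := fun h => Nat.pow_le_pow_left (by omega) 3
  generalize (r + 1) ^ 3 = c at *
  generalize Fintype.card F ^ k = Y at *
  obtain ⟨Z, rfl⟩ : ∃ Z, Y = Z + 1 := ⟨Y - 1, by omega⟩
  refine Num.of hx0 hx (A := Z * (Z + 1)) hr hK (fun d hd => by have := h1 d hd; nlinarith)
    (by rw [h0]; nlinarith) (.inr (by nlinarith)) (by nlinarith) (fun h => ?_)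
    (fun _ => ⟨by nlinarith, by rw [h0]; nlinarith⟩) (fun _ => by omega)
  have h5 : 63 ≤ Z := by have := h64 h; omega
  have h6 := Nat.mul_le_mul_left (r * Z) h5
  have h7 := Nat.mul_le_mul_left r h5
  nlinarith

end OMinAux

open MD OMinAux in
theorem o_min_plus {k : ℕ} (hk : 3 ≤ k) {Ω : Type*} [MulAction (commutator (O (quadPlus (k + 1) F))) Ω]
    [Finite Ω] [IsPretransitive (commutator (O (quadPlus (k + 1) F))) Ω] [Nontrivial Ω] :
    Fintype.card F ^ (2 * k) < Nat.card Ω := by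
  have hn : finrank F (Fin (k + 1) ⊕ Fin (k + 1) → F) = 2 * k + 2 := by simp; omega
  have hq := Fintype.one_lt_card (α := F)
  have h0 := fun x (h1 : x ≠ 0) (h2 : quadPlus (k + 1) F x = 0) =>
    (ncard_Cls_zero h1 h2).trans (cntP_quadPlus k h1 h2).1
  have hY : Fintype.card F ≤ Fintype.card F ^ k := Nat.le_self_pow (by omega) _
  rw [pow_mul']
  refine le_card_orth (quadPlus_nondegenerate (k + 1)) (by omega)
    (fun x h1 h2 => num hk h1 h2) fun x c ω h1 h2 => ?_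
  by_cases h3 : k = 3
  swap
  · refine (num hk c.ne c.sing).h3.trans (c.le_of_TW_ten (by omega) ⟨h1, h2⟩ ?_)
    have h4 := h0 x c.ne c.sing
    have h5 := Nat.mul_le_mul_right (Fintype.card F ^ k) (show 1 ≤ Fintype.card F - 1 by omega)
    rw [hn, Nat.add_sub_cancel, pow_mul']
    omega
  subst h3
  refine le_trans ?_ ((c.le_of_TW_eight hn ⟨h1, h2⟩ (h0 x c.ne c.sing)).trans (Set.ncard_le_card _))
  have h5 : 0 < Fintype.card F ^ 3 := by positivity
  nlinarith [Nat.zero_le (Fintype.card F ^ 4), Nat.zero_le (Fintype.card F ^ 5)]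

end Cfsg.Lib.CKS
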