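import Cfsg.Agent.CKS.Def4

/-!
# Doubly transitive actions of groups of Lie type: groups of Eichler transformations
-/

set_option autoImplicit false
set_option quotPrecheck false

namespace Cfsg.Lib.CKS.OX

open MulAction Cfsg.Lib.Chev Cfsg.Lib.Class Subgroup Matrix Module

section grp
variable {G : Type*} [Group G]

theorem card_of_prod [Finite G] {T X Y : Subgroup G} (hX : X ≤ T) (hY : Y ≤ T)
    (h : ∀ t ∈ T, ∃ b ∈ Y, ∃ a ∈ X, t = b * a) :
    Nat.card T * Nat.card ↥(Y ⊓ X) = Nat.card Y * Nat.card X := by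
  have h1 := ol_eq T ((1 : G) : G ⧸ X)
  have h2 := ol_eq Y ((1 : G) : G ⧸ X)
  rw [MulAction.stabilizer_quotient] at h1 h2
  rw [inf_eq_right.2 hX] at h1
  have h3 : ol T ((1 : G) : G ⧸ X) = ol Y ((1 : G) : G ⧸ X) := by
    unfold ol
    congr 1
    ext c
    constructor
    · rintro ⟨t, ht, rfl⟩
      obtain ⟨b, hb, a, ha, rfl⟩ := h t ht
      refine ⟨b, hb, ?_⟩
      have : a • ((1 : G) : G ⧸ X) = ((1 : G) : G ⧸ X) := by
        rw [← mem_stabilizer_iff, MulAction.stabilizer_quotient]; exact ha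
      rw [mul_smul, this]
    · rintro ⟨t, ht, rfl⟩
      exact ⟨t, hY ht, rfl⟩
  rw [← h1, ← h2, h3]
  ring

theorem Cl_cj (g : G) (Z : Subgroup G) : Cl (cj g Z) = Cl Z := by
  ext a
  constructor
  · rintro ⟨h1, k, hk⟩
    exact ⟨h1, g⁻¹ * k, by simpa [mul_assoc] using mem_cj.1 hk⟩
  · rintro ⟨h1, k, hk⟩
    exact ⟨h1, g * k, mem_cj.2 (by simpa [mul_assoc] using hk)⟩

end grp

open Orth QuadraticMap OMax MD
variable {F V : Type} [Field F] [AddCommGroup V] [Module F V] {Q : QuadraticForm F V} {x y : V}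
local notation "GG" => commutator (O Q)

theorem ln_yne (h : Ln Q x y) : y ≠ 0 := fun e => h.ind (e ▸ Submodule.zero_mem _)

theorem ln_indep (h : Ln Q x y) {a b : F} (e : a • x + b • y = 0) : a = 0 ∧ b = 0 :=
  LinearIndependent.pair_iff.1 (linearIndependent_pair_of h.ne h.ind) a b e

theorem ln_swap (h : Ln Q x y) : Ln Q y x where
  nd := h.nd
  dim := h.dim
  ne := ln_yne h
  sing := h.sy
  sy := h.sing
  xy := pc h.xy
  ind := fun e => by
    obtain ⟨c, hc⟩ := mem_spanL_singleton.1 e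
    have := (ln_indep h (a := -1) (b := c) (by rw [hc]; simp)).1
    simp at this

theorem ln_map (h : Ln Q x y) (g : O Q) : Ln Q (g.1 x) (g.1 y) where
  nd := h.nd
  dim := h.dim
  ne := fun e => h.ne (g.1.injective (by rw [e, map_zero]))
  sing := by rw [O_map, h.sing]
  sy := by rw [O_map, h.sy]
  xy := by rw [O_polar, h.xy]
  ind := fun e => by
    obtain ⟨c, hc⟩ := mem_spanL_singleton.1 e
    exact h.ind (mem_spanL_singleton.2 ⟨c, g.1.injective (by rw [map_smul, hc])⟩)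

theorem ln_xcy (h : Ln Q x y) (c : F) : polar Q x (c • y) = 0 := by
  rw [polar_smul_right', h.xy, mul_zero]

theorem ln_apply (h : Ln Q x y) (c : F) (v : V) :
    (eich Q x (c • y)).1 v = v + (c * polar Q v y) • x - (c * polar Q v x) • y := by
  rw [eich_apply h.sing (ln_xcy h c)]
  qsimp
  rw [h.sy]
  module

theorem ln_orth (h : Ln Q x y) {u : V} (hu : u ∈ spanL F [x, y]) :
    polar Q x u = 0 ∧ polar Q y u = 0 := by
  obtain ⟨a, b, rfl⟩ := mem_spanL_pair.1 hu
  constructor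
  · qsimp; rw [h.sing, h.xy]; ring
  · qsimp; rw [h.sy, pc h.xy]; ring

theorem ln_sing (h : Ln Q x y) {u : V} (hu : u ∈ spanL F [x, y]) : Q u = 0 :=
  Q_eq_zero_of_mem_pair h.sing h.sy h.xy hu

/-- A long root element only depends on the line. -/
theorem eich_of_mem (h : Ln Q x y) {a b : V} (ha : a ∈ spanL F [x, y]) (hb : b ∈ spanL F [x, y]) :
    ∃ d : F, eich Q a b = eich Q x (d • y) := by
  have h1 := ln_sing h ha
  have h2 := ln_sing h hb
  have h3 : polar Q a b = 0 :=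
    polar_eq_zero_of_mem_spanL (l := [x, y]) (by simpa using ln_orth h hb) ha
  obtain ⟨r, s, rfl⟩ := mem_spanL_pair.1 ha
  obtain ⟨t, u, rfl⟩ := mem_spanL_pair.1 hb
  refine ⟨r * u - s * t, O_ext fun v => ?_⟩
  rw [ln_apply h, eich_apply h1 h3, h2]
  qsimp
  module

theorem eich_eq_one_iff (h : Pt Q x) {w : V} (hw : polar Q x w = 0) :
    eich Q x w = 1 ↔ w ∈ spanL F [x] := by
  constructor
  · intro e
    obtain ⟨f, hf⟩ := exists_polar_eq_one h.nd h.ne
    have h1 := eich_apply h.sing hw f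
    rw [e, pc hf, O_one_apply, one_smul] at h1
    refine mem_spanL_singleton.2 ⟨polar Q f w - Q w * 1, ?_⟩
    linear_combination (norm := module) (-1 : F) • h1
  · intro e
    obtain ⟨c, rfl⟩ := mem_spanL_singleton.1 e
    exact eich_smul_self x c

theorem eich_eq_iff (h : Pt Q x) {w w' : V} (hw : polar Q x w = 0) (hw' : polar Q x w' = 0) :
    eich Q x w = eich Q x w' ↔ w - w' ∈ spanL F [x] := by
  rw [← eich_eq_one_iff h (by rw [polar_sub_right, hw, hw', sub_zero]), sub_eq_add_neg,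
    eich_add h.sing hw (by rw [polar_neg_right, hw', neg_zero]), eich_neg, mul_inv_eq_one]

/-- The Eichler transformations with centre `x` and direction in `W`. -/
def EW (h : Pt Q x) (W : Submodule F V) (hW : ∀ w ∈ W, polar Q x w = 0) : Subgroup (O Q) where
  carrier := {g | ∃ w ∈ W, g = eich Q x w}
  one_mem' := ⟨0, W.zero_mem, (eich_zero x).symm⟩
  mul_mem' := by
    rintro _ _ ⟨a, ha, rfl⟩ ⟨b, hb, rfl⟩
    exact ⟨a + b, W.add_mem ha hb, (eich_add h.sing (hW a ha) (hW b hb)).symm⟩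
  inv_mem' := by
    rintro _ ⟨a, ha, rfl⟩
    exact ⟨-a, W.neg_mem ha, (eich_neg x a).symm⟩

theorem EW_eq_1' : type_of% @EW.eq_1 := @EW.eq_1

theorem mem_EW {h : Pt Q x} {W : Submodule F V} {hW : ∀ w ∈ W, polar Q x w = 0} {g : O Q} :
    g ∈ EW h W hW ↔ ∃ w ∈ W, g = eich Q x w := Iff.rfl

theorem card_EW (h : Pt Q x) (W : Submodule F V) (hW : ∀ w ∈ W, polar Q x w = 0) :
    Nat.card (EW h W hW) * Nat.card ↥(W ⊓ spanL F [x]) = Nat.card W := by
  let φ : Multiplicative W →* O Q :=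
    MonoidHom.mk' (fun w => eich Q x (w.toAdd : V))
      fun a b => eich_add h.sing (hW _ a.toAdd.2) (hW _ b.toAdd.2)
  have h1 : φ.range = EW h W hW := by
    ext g
    constructor
    · rintro ⟨w, rfl⟩
      exact ⟨_, w.toAdd.2, rfl⟩
    · rintro ⟨w, hw, rfl⟩
      exact ⟨Multiplicative.ofAdd ⟨w, hw⟩, rfl⟩
  have h2 : Nat.card φ.ker = Nat.card ↥(W ⊓ spanL F [x]) :=
    Nat.card_congr
      { toFun := fun w => ⟨(w.1.toAdd : V), w.1.toAdd.2,
          (eich_eq_one_iff h (hW _ w.1.toAdd.2)).1 w.2⟩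
        invFun := fun w => ⟨Multiplicative.ofAdd ⟨w.1, w.2.1⟩,
          (eich_eq_one_iff h (hW _ w.2.1)).2 w.2.2⟩
        left_inv := fun _ => rfl
        right_inv := fun _ => rfl }
  rw [← h1, ← h2, ← Subgroup.index_ker, Subgroup.index_mul_card]
  rfl

variable [FiniteDimensional F V]

theorem EW_le (h : Pt Q x) (W : Submodule F V) (hW : ∀ w ∈ W, polar Q x w = 0) :
    EW h W hW ≤ commutator (O Q) := by
  rintro _ ⟨w, -, rfl⟩
  exact eich_mem_commutator h.nd h.nexc x w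

theorem card_EW' (h : Pt Q x) (W : Submodule F V) (hW : ∀ w ∈ W, polar Q x w = 0) :
    Nat.card ((EW h W hW).subgroupOf GG) * Nat.card ↥(W ⊓ spanL F [x]) = Nat.card W := by
  rw [← card_EW h W hW, Nat.card_congr (Subgroup.subgroupOfEquivOfLe (EW_le h W hW)).toEquiv]

omit [FiniteDimensional F V] in
theorem hWy (h : Ln Q x y) : ∀ w ∈ spanL F [y], polar Q x w = 0 := fun w hw => by
  obtain ⟨c, rfl⟩ := mem_spanL_singleton.1 hw
  exact ln_xcy h c

omit [FiniteDimensional F V] in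
theorem oZ_eq (h : Ln Q x y) : oZ Q x y = (EW h.toPt (spanL F [y]) (hWy h)).subgroupOf GG := by
  unfold oZ
  congr 1
  rw [← Subgroup.closure_eq (EW h.toPt (spanL F [y]) (hWy h))]
  congr 1
  ext g
  constructor
  · rintro ⟨c, rfl⟩
    exact ⟨_, mem_spanL_singleton.2 ⟨c, rfl⟩, rfl⟩
  · rintro ⟨w, hw, rfl⟩
    obtain ⟨c, rfl⟩ := mem_spanL_singleton.1 hw
    exact ⟨c, rfl⟩

omit [FiniteDimensional F V] in
theorem mem_oZ (h : Ln Q x y) {g : GG} : g ∈ oZ Q x y ↔ ∃ c : F, g.1 = eich Q x (c • y) := by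
  rw [oZ_eq h, Subgroup.mem_subgroupOf, mem_EW]
  constructor
  · rintro ⟨w, hw, e⟩
    obtain ⟨c, rfl⟩ := mem_spanL_singleton.1 hw
    exact ⟨c, e⟩
  · rintro ⟨c, e⟩
    exact ⟨_, mem_spanL_singleton.2 ⟨c, rfl⟩, e⟩

omit [FiniteDimensional F V] in
theorem cj_oZ (h : Ln Q x y) (g : GG) : cj g (oZ Q x y) = oZ Q (g.1.1 x) (g.1.1 y) := by
  ext a
  rw [mem_cj, mem_oZ h, mem_oZ (ln_map h g.1)]
  refine exists_congr fun c => ?_
  rw [← map_smul, ← conj_eich]
  constructor
  · intro e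
    rw [← e]
    simp [mul_assoc]
  · intro e
    simp [e, mul_assoc]

theorem card_sub [Fintype F] (W : Submodule F V) :
    Nat.card W = Fintype.card F ^ finrank F W := by
  rw [Module.natCard_eq_pow_finrank (K := F), Nat.card_eq_fintype_card]

theorem card_oZ [Fintype F] (h : Ln Q x y) : Nat.card (oZ Q x y) = Fintype.card F := by
  have h1 := card_EW' h.toPt (spanL F [y]) (hWy h)
  have h2 : spanL F [y] ⊓ spanL F [x] = ⊥ := by
    rw [eq_bot_iff]
    rintro w ⟨h3, h4⟩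
    obtain ⟨c, rfl⟩ := mem_spanL_singleton.1 h3
    obtain ⟨d, hd⟩ := mem_spanL_singleton.1 h4
    have := (ln_indep h (a := d) (b := -c) (by rw [hd]; simp)).2
    simp [neg_eq_zero.1 this]
  rw [h2, card_sub (spanL F [y]), finrank_spanL_singleton (ln_yne h), pow_one] at h1
  rw [oZ_eq h]
  simpa using h1

theorem finrank_line (h : Ln Q x y) : finrank F (spanL F [x, y]) = 2 :=
  finrank_spanL_pair (ln_yne h) (ln_swap h).ind

theorem pg_of_card [Fintype F] (p : ℕ) [Fact p.Prime] [CharP F p] {G : Type*} [Group G] {k : ℕ}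
    (h : Nat.card G = Fintype.card F ^ k) : IsPGroup p G := by
  obtain ⟨n, -, hn⟩ := FiniteField.card F p
  exact IsPGroup.of_card (n := n * k) (by rw [h, hn, pow_mul])

end Cfsg.Lib.CKS.OX
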