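import Cfsg.Agent.CKS.Defs

/-!
# Orbit lengths, fixed points, blocks
-/

set_option autoImplicit false

namespace Cfsg.Lib.CKS

open MulAction

variable {G Ω : Type*} [Group G] [MulAction G Ω] [Finite G] [Finite Ω]

namespace Orb

omit [Finite G] [Finite Ω] in
theorem set_eq (H : Subgroup G) (a : Ω) : {b : Ω | ∃ g ∈ H, g • a = b} = orbit H a :=
  Set.ext fun _ => ⟨fun ⟨g, hg, e⟩ => ⟨⟨g, hg⟩, e⟩, fun ⟨g, e⟩ => ⟨g, g.2, e⟩⟩

omit [Finite G] in
theorem dvd_ncard {E : Subgroup G} {e : ℕ} (h : ∀ a : Ω, e ∣ ol E a) (n : ℕ) :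
    ∀ S : Set Ω, S.ncard = n → (∀ x ∈ E, ∀ a ∈ S, x • a ∈ S) → e ∣ n := by
  induction n using Nat.strong_induction_on with | _ n ih => ?_
  rintro S rfl hS
  rcases S.eq_empty_or_nonempty with rfl | ⟨a, ha⟩
  · simp
  have sub : {b : Ω | ∃ g ∈ E, g • a = b} ⊆ S := by
    rintro _ ⟨g, hg, rfl⟩
    exact hS g hg a ha
  rw [← Set.ncard_sdiff_add_ncard_of_subset sub]
  refine dvd_add (ih _ (Set.ncard_lt_ncard (Set.sdiff_ssubset_left_iff.2
    ⟨a, ha, 1, one_mem _, one_smul _ _⟩)) _ rfl ?_) (h a)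
  rintro x hx b ⟨hb, nb⟩
  exact ⟨hS x hx b hb, fun ⟨g, hg, k⟩ => nb ⟨x⁻¹ * g, mul_mem (inv_mem hx) hg, by
    rw [mul_smul, k, inv_smul_smul]⟩⟩

omit [Finite G] in
theorem ol_pos (H : Subgroup G) (a : Ω) : 0 < ol H a :=
  (Set.ncard_pos (Set.toFinite _)).2 ⟨a, 1, one_mem _, one_smul _ _⟩

omit [Finite Ω] in
theorem ol_dvd (H : Subgroup G) (a : Ω) : ol H a ∣ Nat.card H := Dvd.intro _ (ol_eq H a)

omit [Finite G] in
theorem ol_mono {H K : Subgroup G} (h : H ≤ K) (a : Ω) : ol H a ≤ ol K a :=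
  Set.ncard_le_ncard fun _ ⟨g, hg, e⟩ => ⟨g, h hg, e⟩

omit [Finite G] [Finite Ω] in
theorem ol_tr {H : Subgroup G} (h : Tr H Ω) (a : Ω) : ol H a = Nat.card Ω := by
  rw [ol, Set.eq_univ_of_forall (s := {b : Ω | ∃ g ∈ H, g • a = b}) (h a), Set.ncard_univ]

omit [Finite G] in
theorem tr_of_ol {H : Subgroup G} (h : ∀ a : Ω, Nat.card Ω ≤ ol H a) : Tr H Ω := fun a b =>
  (Set.eq_of_subset_of_ncard_le (Set.subset_univ {b : Ω | ∃ g ∈ H, g • a = b})
    (by rw [Set.ncard_univ]; exact h a)).ge (Set.mem_univ b)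

omit [Finite Ω] in
theorem ol_pow {E : Subgroup G} {r : ℕ} [Fact r.Prime] (hp : IsPGroup r E) (a : Ω) :
    ∃ i, ol E a = r ^ i := by
  obtain ⟨k, hk⟩ := IsPGroup.iff_card.1 hp
  obtain ⟨i, -, e⟩ := (Nat.dvd_prime_pow Fact.out).1 (hk ▸ ol_dvd E a)
  exact ⟨i, e⟩

theorem pow_dvd_of_le {r i j : ℕ} [Fact r.Prime] (h : r ^ i ≤ r ^ j) : r ^ i ∣ r ^ j :=
  pow_dvd_pow r ((Nat.pow_le_pow_iff_right (Fact.out : r.Prime).one_lt).1 h)

end Orb

open Orb

omit [Finite G] in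
theorem dvd_card_of_ol {E : Subgroup G} {e : ℕ} (h : ∀ a : Ω, e ∣ ol E a) : e ∣ Nat.card Ω :=
  dvd_ncard h _ Set.univ (Set.ncard_univ _) fun _ _ _ _ => trivial

omit [Finite G] in
theorem dvd_fx {E : Subgroup G} {e : ℕ} (h : ∀ a : Ω, e ∣ ol E a) {g : G}
    (hc : ∀ x ∈ E, x * g = g * x) : e ∣ fx Ω g :=
  dvd_ncard h _ _ rfl fun x hx a (ha : g • a = a) => show g • x • a = x • a by
    rw [← mul_smul, ← hc x hx, mul_smul, ha]

omit [Finite Ω] in
theorem ol_of_der {E : Subgroup G} (h : ∀ x ∈ E, x ≠ 1 → Der Ω x) (a : Ω) :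
    ol E a = Nat.card E := by
  rw [← ol_eq E a, (eq_bot_iff.2 fun x hx => by_contra fun n => h x hx.1 n a hx.2 :
    E ⊓ stabilizer G a = ⊥), Subgroup.card_bot, mul_one]

theorem ol_dvd_of_le {E E' : Subgroup G} {r : ℕ} [Fact r.Prime] (hp : IsPGroup r E') (h : E ≤ E')
    (a : Ω) : ol E a ∣ ol E' a := by
  obtain ⟨i, e⟩ := ol_pow (hp.to_le h) a
  obtain ⟨j, e'⟩ := ol_pow hp a
  have := ol_mono h a
  rw [e, e'] at this ⊢
  exact pow_dvd_of_le this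

omit [Finite G] [Finite Ω] in
theorem ol_cj (E : Subgroup G) (g : G) (a : Ω) : ol (cj g E) (g • a) = ol E a := by
  rw [ol, ol, ← Set.ncard_image_of_injective {b : Ω | ∃ x ∈ E, x • a = b} (MulAction.injective g)]
  congr 1
  ext b
  constructor
  · rintro ⟨x, hx, rfl⟩
    exact ⟨_, ⟨_, mem_cj.1 hx, rfl⟩, by simp [mul_smul]⟩
  · rintro ⟨_, ⟨x, hx, rfl⟩, rfl⟩
    exact ⟨g * x * g⁻¹, mem_cj.2 (by simpa [mul_assoc] using hx), by simp [mul_smul]⟩

omit [Finite G] [Finite Ω] in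
theorem ol_const {Z P : Subgroup G} (hP : P ≤ Subgroup.normalizer (Z : Set G)) (ht : Tr P Ω)
    (a b : Ω) : ol Z a = ol Z b := by
  obtain ⟨g, hg, rfl⟩ := ht a b
  rw [← ol_cj Z g a, show cj g Z = Z from Subgroup.ext fun x =>
    mem_cj.trans (Subgroup.mem_normalizer_iff''.1 (hP hg) x).symm]

omit [Finite G] [Finite Ω] in
theorem ol_eq_one_iff {Z : Subgroup G} {a : Ω} : ol Z a = 1 ↔ ∀ z ∈ Z, z • a = a := by
  rw [ol, Set.ncard_eq_one]
  refine ⟨fun ⟨b, e⟩ z hz => (e.le ⟨z, hz, rfl⟩ : z • a = b).trans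
    (e.le ⟨1, one_mem _, one_smul _ _⟩ : a = b).symm, fun h => ⟨a, Set.ext fun b => ⟨?_, ?_⟩⟩⟩
  · rintro ⟨z, hz, rfl⟩
    exact h z hz
  · rintro rfl
    exact ⟨1, one_mem _, one_smul _ _⟩

omit [Finite G] in
theorem fx_modEq {l : ℕ} [Fact l.Prime] {g : G} {k : ℕ} (hg : g ^ l ^ k = 1) :
    fx Ω g ≡ Nat.card Ω [MOD l] := by
  have hp : IsPGroup l (Subgroup.zpowers g) := fun ⟨_, j, rfl⟩ =>
    ⟨k, Subtype.ext (by
      show (g ^ j) ^ l ^ k = 1
      rw [← zpow_natCast, ← zpow_mul, mul_comm, zpow_mul, zpow_natCast, hg, one_zpow])⟩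
  have := (hp.card_modEq_card_fixedPoints Ω).symm
  rwa [Nat.card_coe_set_eq, show fixedPoints (Subgroup.zpowers g) Ω = {a : Ω | g • a = a} from
    Set.ext fun a => ⟨fun h => h ⟨g, Subgroup.mem_zpowers g⟩, fun h x =>
      Subgroup.zpowers_le.2 (show g ∈ stabilizer G a from h) x.2⟩] at this

omit [Finite G] in
theorem fx_pos {l : ℕ} [Fact l.Prime] {g : G} {k : ℕ} (hg : g ^ l ^ k = 1)
    (hn : ¬ l ∣ Nat.card Ω) : 0 < fx Ω g :=
  Nat.pos_of_ne_zero fun e => hn ((Nat.modEq_zero_iff_dvd).1 (e ▸ fx_modEq hg).symm)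

omit [Finite G] [Finite Ω] in
theorem fx_conj (g x : G) : fx Ω (x * g * x⁻¹) = fx Ω g := by
  rw [fx, fx, ← Set.ncard_image_of_injective {a : Ω | g • a = a} (MulAction.injective x)]
  congr 1
  ext b
  refine ⟨fun h => ⟨x⁻¹ • b, ?_, smul_inv_smul x b⟩, ?_⟩
  · rw [Set.mem_ofPred_eq, mul_smul, mul_smul] at h
    exact eq_inv_smul_iff.2 h
  · rintro ⟨a, ha : g • a = a, rfl⟩
    simp [mul_smul, ha]

omit [Finite Ω] in
theorem Tr.dvd {H : Subgroup G} [Nonempty Ω] (h : Tr H Ω) : Nat.card Ω ∣ Nat.card H :=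
  ol_tr h (Classical.arbitrary Ω) ▸ ol_dvd H _

theorem Two.dvd (h : Two G Ω) : Nat.card Ω * (Nat.card Ω - 1) ∣ Nat.card G := by
  have := h.nt
  have := h.pre
  obtain ⟨a, b, ab⟩ := exists_pair_ne Ω
  have h1 := ol_eq (⊤ : Subgroup G) a
  rw [ol_tr (H := ⊤) (fun c d => (exists_smul_eq G c d).imp fun _ e => ⟨trivial, e⟩), top_inf_eq,
    Subgroup.card_top] at h1
  have h2 : ol (stabilizer G a) b = Nat.card Ω - 1 := by
    rw [ol, ← Set.ncard_univ, ← Set.ncard_sdiff_singleton_of_mem (Set.mem_univ a)]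
    congr 1
    ext c
    refine ⟨?_, fun hc => h.tr a b a c ab (Ne.symm hc.2)⟩
    rintro ⟨g, hg : g • a = a, rfl⟩
    exact ⟨trivial, fun e : g • b = a => ab (MulAction.injective g (hg.trans e.symm))⟩
  rw [← h1, ← h2]
  exact Nat.mul_dvd_mul_left _ (ol_dvd _ _)

theorem Tr.sylow {r k : ℕ} [Fact r.Prime] {U H : Subgroup G} (h : Tr H Ω) (hl : U ≤ H)
    (hi : ¬ r ∣ U.relIndex H) (hn : Nat.card Ω = r ^ k) : Tr U Ω := tr_of_ol fun a => by
  have h1 := ol_eq H a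
  have h2 := ol_eq U a
  have h3 : Nat.card U * U.relIndex H = Nat.card H := by
    rw [← Nat.card_congr (Subgroup.subgroupOfEquivOfLe hl).toEquiv]
    exact Subgroup.card_mul_index _
  obtain ⟨c, hc⟩ := Subgroup.card_dvd_of_le (inf_le_inf_right (stabilizer G a) hl)
  rw [ol_tr h, hc, ← h3, ← h2, hn] at h1
  have h4 : r ^ k * c = ol U a * U.relIndex H := Nat.eq_of_mul_eq_mul_left
    (Nat.card_pos (α := ↥(U ⊓ stabilizer G a))) (by linear_combination h1)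
  rw [hn]
  exact Nat.le_of_dvd (ol_pos U a) ((Nat.Coprime.pow_left k
    ((Nat.Prime.coprime_iff_not_dvd Fact.out).2 hi)).dvd_of_dvd_mul_right (Dvd.intro _ h4))

omit [Finite G] in
theorem blocks [Nonempty Ω] {A L : Subgroup G} (hN : L ≤ Subgroup.normalizer (A : Set G)) {a b : ℕ}
    (hA : ∀ x : Ω, ol A x = a) (hn : Nat.card Ω = a * b) (hb : 1 < b)
    (hL : ∀ M : Subgroup G, M ≤ L → M.relIndex L ≤ b → L ≤ M) : ¬ Tr (A ⊔ L) Ω := fun ht => by
  obtain ⟨x⟩ := ‹Nonempty Ω›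
  have a0 : 0 < a := hA x ▸ ol_pos A x
  have cq : Nat.card (orbitRel.Quotient A Ω) = b := by
    have := Fintype.ofFinite (orbitRel.Quotient A Ω)
    rw [Nat.card_congr (selfEquivSigmaOrbits A Ω), Nat.card_sigma, Finset.sum_congr rfl fun c _ =>
      (by rw [Nat.card_coe_set_eq, ← set_eq]; exact hA _ : _ = a), Finset.sum_const, smul_eq_mul,
      mul_comm, Finset.card_univ, ← Nat.card_eq_fintype_card] at hn
    exact Nat.eq_of_mul_eq_mul_left a0 hn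
  let M : Subgroup G :=
    { carrier := {g | g ∈ Subgroup.normalizer (A : Set G) ∧ ∃ u ∈ A, u • x = g • x}
      one_mem' := ⟨one_mem _, 1, one_mem _, rfl⟩
      mul_mem' := by
        rintro g g' ⟨n, u, hu, e⟩ ⟨n', u', hu', e'⟩
        exact ⟨mul_mem n n', g * u' * g⁻¹ * u, mul_mem ((Subgroup.mem_normalizer_iff.1 n _).1 hu') hu,
          by simp [mul_smul, e, e']⟩
      inv_mem' := by
        rintro g ⟨n, u, hu, e⟩
        exact ⟨inv_mem n, g⁻¹ * u⁻¹ * g, (Subgroup.mem_normalizer_iff''.1 n _).1 (inv_mem hu),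
          by simp [mul_smul, ← e]⟩ }
  have LM : L ≤ L ⊓ M := hL _ inf_le_left (by
    rw [← cq]
    refine Nat.card_le_card_of_injective (fun c : L ⧸ (L ⊓ M).subgroupOf L =>
      (Quotient.mk'' ((c.out : G) • x) : orbitRel.Quotient A Ω)) fun c d e => ?_
    obtain ⟨u, e⟩ := (orbitRel_apply.1 (Quotient.exact' e.symm))
    rw [← c.out_eq', ← d.out_eq', QuotientGroup.eq]
    have m := mul_mem (inv_mem c.out.2) d.out.2
    exact ⟨m, hN m, (c.out : G)⁻¹ * u * c.out, (Subgroup.mem_normalizer_iff''.1 (hN c.out.2) _).1 u.2,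
      by
        show _ = ((c.out : G)⁻¹ * d.out) • x
        rw [mul_smul, mul_smul, mul_smul]; exact congrArg _ e⟩)
  have : A ⊔ L ≤ M := sup_le (fun u hu => ⟨Subgroup.le_normalizer hu, u, hu, rfl⟩)
    fun g hg => (LM hg).2
  have k : Nat.card Ω ≤ ol A x := by
    rw [← ol_tr ht x]
    refine Set.ncard_le_ncard ?_
    rintro _ ⟨g, hg, rfl⟩
    exact (this hg).2
  rw [hn, hA] at k
  nlinarith

omit [Finite G] in
theorem ol_ne_one_of_normalClosure (h : Two G Ω) {Z : Subgroup G}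
    (hZ : Subgroup.normalClosure (Z : Set G) = ⊤) {q : ℕ} (hq : ∀ a : Ω, ol Z a = q) : 1 < q := by
  obtain ⟨g, a, ha⟩ := h.moves
  refine lt_of_le_of_ne (hq a ▸ ol_pos Z a) fun e => ha ?_
  have : Subgroup.normalClosure (Z : Set G) ≤ (toPermHom G Ω).ker :=
    Subgroup.normalClosure_le_normal fun z hz =>
      Equiv.ext fun b => ol_eq_one_iff.1 ((hq b).trans e.symm) z hz
  exact DFunLike.congr_fun (show toPermHom G Ω g = 1 from this (hZ ▸ Subgroup.mem_top g)) a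

end Cfsg.Lib.CKS
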