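import Cfsg.Agent.CKS.LRi
import Cfsg.Agent.CKS.IdxG
import Cfsg.Agent.Class.PGL2Sub

/-!
# Elements of order prime to the characteristic in the group of the highest root
-/

set_option autoImplicit false
set_option quotPrecheck false

namespace Cfsg.Lib.CKS

open MulAction Cfsg.Lib.Chev Cfsg.Lie Subgroup Core

namespace OrdUAux

theorem sl2_pow {F : Type*} [Field F] {p : ℕ} (hp : p = 2 ∨ p = 3) {a b : F} (h : a * b = -p) :
    (sl2U a * sl2V b) ^ p ^ 2 = 1 := by
  rcases hp with rfl | rfl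
  · have : (sl2U a * sl2V b) ^ 2 = -1 := by
      apply sl2_ext <;> simp only [sq, sl2_mul_apply] <;> simp [sl2U, sl2V] at h ⊢
      · linear_combination (a * b + 1) * h
      · linear_combination a * h
      · linear_combination b * h
      · linear_combination h
    rw [sq, pow_mul, this]; simp
  · have : (sl2U a * sl2V b) ^ 3 = 1 := by
      apply sl2_ext <;> simp only [pow_succ, pow_zero, one_mul, sl2_mul_apply] <;>
        simp [sl2U, sl2V] at h ⊢
      · linear_combination (a * b * (a * b + 2)) * h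
      · linear_combination (a * (a * b + 1)) * h
      · linear_combination (b * (a * b + 1)) * h
      · linear_combination (a * b) * h
    rw [sq, pow_mul, this]; simp

theorem pow_eq {F : Type*} [Field F] (b : F) (n : ℕ) : ∃ a c : F,
    ∀ M : Matrix (Fin 2) (Fin 2) F, M * M = b • M - 1 → M ^ n = a • M + c • 1 := by
  induction n with
  | zero => exact ⟨0, 1, fun M _ => by simp⟩
  | succ n ih =>
    obtain ⟨a, c, h⟩ := ih
    refine ⟨a * b + c, -a, fun M hM => ?_⟩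
    rw [pow_succ, h M hM, add_mul, smul_mul_assoc, smul_mul_assoc, hM, one_mul]
    module

theorem cayley {F : Type*} [Field F] (g : Matrix.SpecialLinearGroup (Fin 2) F) :
    (g : Matrix (Fin 2) (Fin 2) F) * g = (g 0 0 + g 1 1) • (g : Matrix (Fin 2) (Fin 2) F) - 1 := by
  have h := g.det_coe
  rw [Matrix.det_fin_two] at h
  ext i j
  fin_cases i <;> fin_cases j <;> simp [Matrix.mul_apply, Fin.sum_univ_two]
  · linear_combination -h
  · ring
  · ring
  · linear_combination -h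

theorem ord_of {F : Type} [Field F] {D : ChevalleyDatum} (C : Cert D) (R : RootData D)
    {S : R.weyl.Sym} {j : Fin D.rank} {w : R.weyl.W} (hL : S.LongRoot j w)
    {K : Subgroup (GL D.Idx F)} {l k : ℕ} {s t : F} (hs : s ≠ 0) (ht : t ≠ 0)
    (h1 : xGL D F (w • R.weyl.simple j) s ∈ K)
    (h2 : xGL D F (D.neg (w • R.weyl.simple j)) t ∈ K) (e : (sl2U s * sl2V t) ^ l ^ k = 1) :
    Ord l (Zl (C.Y F R) K j) (Zm (C.Y F R) K j) := by
  have hθ := R.weyl_mem.1 (R.weyl.smul_mem w (R.weyl.simple_mem j))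
  have S := C.stRelN F R
  have ne : ∀ r < D.nroots, ∀ t : F, t ≠ 0 → xGL D F r t ≠ 1 := fun r hr t ht h =>
    ht (C.xGL_injective R hr (h.trans (S.zero hr).symm))
  refine ⟨⟨_, h1⟩, ?_, fun h => ne _ hθ s hs (congrArg Subtype.val h), ⟨_, h2⟩, ?_,
    fun h => ne _ (R.neg_lt hθ) t ht (congrArg Subtype.val h), k, Subtype.ext ?_⟩
  · rw [Zl, mem_subgroupOf, RGD.Twist.lev_two hL]
    exact subset_closure ⟨s, rfl⟩
  · rw [Zm, mem_subgroupOf, RGD.Twist.lev_neg_two hL]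
    exact subset_closure ⟨t, rfl⟩
  · have := congrArg (S.sl2Hom R hθ) e
    rwa [map_pow, map_mul, map_one, S.sl2Hom_U, S.sl2Hom_V] at this

end OrdUAux

open OrdUAux

variable (F : Type) [Field F] [Finite F]

local notation "Y6" => certE6.Y F rootE6
local notation "qq" => Nat.card F

set_option linter.unusedSectionVars false in
theorem sl2_ord (p : ℕ) [Fact p.Prime] [CharP F p] : ∃ l : ℕ, l.Prime ∧ l ≠ p ∧ ∃ b : ℤ, (b : F) ≠ 0 ∧
    ∀ s t : F, s * t = b → sl2U s * sl2V t ≠ 1 ∧ (sl2U s * sl2V t) ^ l ^ 2 = 1 := by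
  obtain ⟨l, hl, hp⟩ : ∃ l : ℕ, (l = 2 ∨ l = 3) ∧ l ≠ p := by
    by_cases h : p = 2
    exacts [⟨3, .inr rfl, by omega⟩, ⟨2, .inl rfl, fun e => h e.symm⟩]
  have h0 : l.Prime := by rcases hl with rfl | rfl <;> norm_num
  have hb : ((-(l : ℤ) : ℤ) : F) ≠ 0 := by
    rw [Int.cast_neg, Int.cast_natCast, neg_ne_zero, Ne, CharP.cast_eq_zero_iff F p,
      Nat.prime_dvd_prime_iff_eq Fact.out h0]
    exact fun e => hp e.symm
  refine ⟨l, h0, hp, -l, hb, fun s t e => ⟨fun h => hb ?_, sl2_pow hl (by simpa using e)⟩⟩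
  have := congrArg (fun g : Matrix.SpecialLinearGroup (Fin 2) F => g 0 1) h
  simp only [sl2_mul_apply] at this
  rw [← e, show s = 0 by simpa [sl2U, sl2V] using this, zero_mul]

theorem sl2_ord_even [CharP F 2] : ∃ l : ℕ, l.Prime ∧ l ∣ qq + 1 ∧ ∃ b : F, b ≠ 0 ∧
    (sl2U 1 * sl2V b) ^ l = 1 := by
  have hq : 1 < qq := Finite.one_lt_card
  obtain ⟨l, hl, hd⟩ := Nat.exists_prime_and_dvd (n := qq + 1) (by omega)
  have : Fact l.Prime := ⟨hl⟩
  obtain ⟨g, hg⟩ := exists_prime_orderOf_dvd_card' (G := Matrix.SpecialLinearGroup (Fin 2) F) l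
    (by rw [Class.card_SL2]; exact hd.mul_left _)
  have h2 : (2 : F) = 0 := CharTwo.two_eq_zero
  have l2 : l ≠ 2 := by
    rintro rfl
    have := Fintype.ofFinite F
    obtain ⟨n, -, hn⟩ := FiniteField.card F 2
    rw [Nat.card_eq_fintype_card, hn] at hd
    have := (Nat.dvd_add_right (dvd_pow_self 2 n.ne_zero)).1 hd
    omega
  have hb : g 0 0 + g 1 1 ≠ 0 := fun e => by
    have h1 := cayley g
    rw [e, zero_smul, zero_sub] at h1
    have h3 : g ^ 2 = 1 := Subtype.ext (by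
      rw [sq, Matrix.SpecialLinearGroup.coe_mul, h1]
      ext i j
      simp [CharTwo.neg_eq])
    exact l2 ((Nat.prime_dvd_prime_iff_eq hl Nat.prime_two).1 (hg ▸ orderOf_dvd_of_pow_eq_one h3))
  obtain ⟨a, c, h⟩ := pow_eq (g 0 0 + g 1 1) l
  have h1 := h _ (cayley g)
  rw [← Matrix.SpecialLinearGroup.coe_pow, ← hg, pow_orderOf_eq_one,
    Matrix.SpecialLinearGroup.coe_one] at h1
  have e0 := congrFun (congrFun h1 0) 0
  have e1 := congrFun (congrFun h1 1) 1
  simp only [Matrix.one_apply_eq, Matrix.add_apply, Matrix.smul_apply, smul_eq_mul, mul_one]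
    at e0 e1
  have ha : a = 0 := (mul_eq_zero.1 (show a * (g 0 0 + g 1 1) = 0 by
    linear_combination -e0 - e1 + (1 - c) * h2)).resolve_right hb
  have hc : c = 1 := by rw [ha] at e0; linear_combination -e0
  refine ⟨l, hl, hd, _, hb, Subtype.ext ?_⟩
  obtain ⟨u, hu⟩ : ∃ u : Matrix.SpecialLinearGroup (Fin 2) F, u = sl2U 1 * sl2V (g 0 0 + g 1 1) :=
    ⟨_, rfl⟩
  have h4 := cayley u
  have h5 : u 0 0 + u 1 1 = g 0 0 + g 1 1 := by
    rw [hu, sl2_mul_apply, sl2_mul_apply]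
    simp [sl2U, sl2V]
    linear_combination h2
  rw [h5] at h4
  rw [← hu]
  rw [Matrix.SpecialLinearGroup.coe_pow, h _ h4, ha, hc]
  simp

theorem ord_chev (p : ℕ) [Fact p.Prime] [CharP F p] {D : ChevalleyDatum} (C : Cert D) (R : RootData D)
    {j : Fin D.rank} {w : R.weyl.W} (hL : R.weyl.idSym.LongRoot j w) : ∃ l : ℕ, l.Prime ∧ l ≠ p ∧
      Ord l (Zl (C.Y F R) (D.group F) j) (Zm (C.Y F R) (D.group F) j) := by
  obtain ⟨l, h0, h1, b, hb, h⟩ := sl2_ord F p
  exact ⟨l, h0, h1, ord_of C R hL one_ne_zero hb (xGL_mem_group _ _) (xGL_mem_group _ _)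
    (h 1 b (one_mul _)).2⟩

theorem ord_chev_even [CharP F 2] {D : ChevalleyDatum} (C : Cert D) (R : RootData D)
    {j : Fin D.rank} {w : R.weyl.W} (hL : R.weyl.idSym.LongRoot j w) : ∃ l : ℕ, l.Prime ∧
      ¬ l ∣ Nat.card ((C.Y F R).B.subgroupOf (D.group F)) ∧
      Ord l (Zl (C.Y F R) (D.group F) j) (Zm (C.Y F R) (D.group F) j) := by
  obtain ⟨l, h0, h1, b, hb, h⟩ := sl2_ord_even F
  refine ⟨l, h0, fun hd => ?_, ord_of C R hL (k := 1) one_ne_zero hb (xGL_mem_group _ _)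
    (xGL_mem_group _ _) (by rwa [pow_one])⟩
  have hq : 1 < qq := Finite.one_lt_card
  have n1 : ¬ l ∣ qq := fun e => h0.one_lt.ne' (Nat.dvd_one.1 ((Nat.dvd_add_right e).1 h1))
  rw [IdxG.card_subgroupOf, C.group_eq_Y R, inf_eq_left.2 (C.Y F R).B_le_G0,
    (C.faithful F R).card_B, C.card_U R, h0.dvd_mul] at hd
  rcases hd with hd | hd
  · exact n1 (h0.dvd_of_dvd_pow hd)
  · have h2 := h0.dvd_of_dvd_pow ((C.card_ker_mul_card_hSub (F := F) R) ▸ Dvd.dvd.mul_left hd _)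
    rw [Nat.card_units] at h2
    have h3 : l ∣ 2 := by
      have := (Nat.dvd_sub h1 h2)
      rwa [show qq + 1 - (qq - 1) = 2 by omega] at this
    have := Fintype.ofFinite F
    obtain ⟨n, -, hn⟩ := FiniteField.card F 2
    rw [Nat.card_eq_fintype_card, hn] at n1
    exact n1 (h3.trans (dvd_pow_self 2 n.ne_zero))

theorem ord_twE6 (p : ℕ) [Fact p.Prime] [CharP F p] (f : F →+* F) (hf : ∀ t, f (f t) = t) :
    ∃ l : ℕ, l.Prime ∧ l ≠ p ∧
      Ord l (Zl Y6 (twE6 f hf).G1 (1 : Fin 6)) (Zm Y6 (twE6 f hf).G1 (1 : Fin 6)) := by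
  obtain ⟨l, h0, h1, b, hb, h⟩ := sl2_ord F p
  obtain ⟨w, hL⟩ := longR_twE6 f
  have e := (hL.two 71 (rootE6.weyl_mem.2 (by decide))).1 (by decide +kernel)
  refine ⟨l, h0, h1, ord_of Core.certE6 rootE6 hL.toLongRoot one_ne_zero hb ?_ ?_
    (h 1 b (one_mul _)).2⟩
  · exact e ▸ x_mem_twE6 f hf (r := 71) (by decide +kernel) (map_one f)
  · exact e ▸ x_mem_twE6 f hf (r := chevE6.neg 71) (by decide +kernel) (map_intCast f b)

end Cfsg.Lib.CKS
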