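import Cfsg.Agent.CKS.Act

/-!
# Doubly transitive actions of groups of rank one: general lemmas
-/

set_option autoImplicit false

namespace Cfsg.Lib.CKS.R1

open MulAction

variable {G Ω : Type*} [Group G] [MulAction G Ω] [Finite G] [Finite Ω]

omit [Finite G] in
theorem stab2 (h : Two G Ω) :
    ∃ L : Subgroup G, Nat.card L * (Nat.card Ω * (Nat.card Ω - 1)) = Nat.card G := by
  have := h.nt
  obtain ⟨a, b, hab⟩ := exists_pair_ne Ω
  have e := Set.ncard_pair hab
  refine ⟨fixingSubgroup G {a, b}, ?_⟩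
  rw [← (fixingSubgroup G {a, b}).card_mul_index,
    IsMultiplyPretransitive.index_of_fixingSubgroup_eq _ (e ▸ h.mult), e,
    mul_comm (Nat.choose _ _), ← Nat.descFactorial_eq_factorial_mul_choose, Nat.descFactorial_succ,
    Nat.descFactorial_one, mul_comm (Nat.card Ω)]

omit [Finite G] in
theorem dvd2 (h : Two G Ω) : Nat.card Ω * (Nat.card Ω - 1) ∣ Nat.card G :=
  (stab2 h).elim fun _ e => Dvd.intro_left _ e

omit [Finite Ω] in
theorem tr_dvd (h : Two G Ω) {H : Subgroup G} (ht : Tr H Ω) : Nat.card Ω ∣ Nat.card H := by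
  have := h.nt
  have e := ol_eq H (Classical.arbitrary Ω)
  rw [ol, Set.eq_univ_of_forall (s := {b | ∃ g ∈ H, g • Classical.arbitrary Ω = b}) (ht _),
    Set.ncard_univ] at e
  exact Dvd.intro _ e

theorem dich (h : Two G Ω) {X : Type*} [MulAction G X] [Finite X] (hX : Two G X) (x : X) :
    Nat.card Ω = Nat.card X ∨ Nat.card Ω ∣ Nat.card (stabilizer G x) :=
  (em (Tr (stabilizer G x) Ω)).symm.imp (twoAct h hX) (tr_dvd h)

theorem minDeg (h : Two G Ω) (h3 : 3 ≤ Nat.card Ω) {d : ℕ}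
    (hd : ∀ (k : ℕ) (ρ : Representation ℂ G (Fin k → ℂ)), ρ.IsIrreducible → 2 ≤ k → d ≤ k) :
    d + 1 ≤ Nat.card Ω := by
  obtain ⟨k, ρ, h1, h2⟩ := h.irr
  have e := congrFun h2 1
  rw [Representation.char_one, Module.finrank_fin_fun, fixedBy_one_eq_univ, Nat.card_coe_set_eq,
    Set.ncard_univ, eq_sub_iff_add_eq] at e
  have e' : k + 1 = Nat.card Ω := by exact_mod_cast e
  have := hd k ρ h1 (by omega)
  omega

omit [Finite G] [Finite Ω] in
theorem inj [IsSimpleGroup G] (h : Two G Ω) : Function.Injective (toPermHom G Ω) := by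
  rw [← MonoidHom.ker_eq_bot_iff]
  refine (toPermHom G Ω).normal_ker.eq_bot_or_eq_top.resolve_right fun e => ?_
  obtain ⟨g, a, ha⟩ := h.moves
  exact ha (congrArg (· a) (MonoidHom.mem_ker.1 (e.ge (Subgroup.mem_top g))))

omit [Finite G] in
theorem dvd_fact [IsSimpleGroup G] (h : Two G Ω) : Nat.card G ∣ (Nat.card Ω).factorial := by
  rw [← Nat.card_perm]
  exact Subgroup.card_dvd_of_injective _ (inj h)

omit [Finite G] in
theorem three_le (hp : commutator G = ⊤) (h : Two G Ω) : 3 ≤ Nat.card Ω := by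
  by_contra hn
  have h2 : Nat.card (Equiv.Perm Ω) = 2 := by
    have := Finite.one_lt_card_iff_nontrivial.2 h.nt
    rw [Nat.card_perm, show Nat.card Ω = 2 by omega]; rfl
  have := Fact.mk Nat.prime_two
  have := isCyclic_of_prime_card h2
  let := IsCyclic.commGroup (α := Equiv.Perm Ω)
  obtain ⟨g, a, ha⟩ := h.moves
  exact ha (congrArg (· a) (MonoidHom.mem_ker.1
    (Abelianization.commutator_subset_ker (toPermHom G Ω) (hp.ge (Subgroup.mem_top g)))))

omit [Finite G] in
theorem quot (hp : commutator G = ⊤) (h : Two G Ω) :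
    ∃ _ : MulAction (G ⧸ Subgroup.center G) Ω, Two (G ⧸ Subgroup.center G) Ω := by
  have hk : Subgroup.center G ≤ (toPermHom G Ω).ker := fun z hz => Equiv.ext fun a => by
    by_contra hn
    have : Fintype Ω := Fintype.ofFinite Ω
    obtain ⟨c, h1, h2⟩ : ∃ c, c ≠ a ∧ c ≠ z • a := by
      obtain ⟨x, y, w, h1, h2, h3⟩ := Fintype.two_lt_card_iff.1
        (Nat.card_eq_fintype_card (α := Ω) ▸ three_le hp h)
      by_contra hc
      have k : ∀ c, c = a ∨ c = z • a := fun c => by_contra fun e => hc ⟨c, not_or.1 e⟩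
      rcases k x with e | e <;> rcases k y with e' | e' <;> rcases k w with e'' | e'' <;>
        simp_all
    obtain ⟨g, h3, h4⟩ := h.tr a (z • a) a c (Ne.symm hn) h1.symm
    exact h2 (by rw [← h4, ← mul_smul, Subgroup.mem_center_iff.1 hz, mul_smul, h3])
  let := MulAction.compHom Ω (QuotientGroup.lift _ (toPermHom G Ω) hk)
  refine ⟨this, h.nt, fun a b c d h1 h2 => ?_⟩
  obtain ⟨g, h3⟩ := h.tr a b c d h1 h2
  exact ⟨g, h3⟩

theorem arith {n Q h p k : ℕ} (hp : p.Prime) (hQ : Q = p ^ k) (h1 : n ∣ Q * h)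
    (h2 : n * (n - 1) ∣ Q * h * (Q + 1)) (h0 : 0 < h) (hn : h < n) :
    ∃ y, 0 < y ∧ h * (Q + n) = n * (n - 1) * y := by
  have h3 : p ∣ n := by
    by_contra h3
    exact (Nat.le_of_dvd h0 ((hQ ▸ ((Nat.Prime.coprime_iff_not_dvd hp).2 h3).symm.pow_right k :
      n.Coprime Q).dvd_of_dvd_mul_left h1)).not_gt hn
  obtain ⟨m, rfl⟩ : ∃ m, n = m + 1 := ⟨n - 1, by omega⟩
  rw [Nat.add_sub_cancel] at h2 ⊢
  have h4 : m.Coprime Q := hQ ▸ (Nat.Coprime.coprime_dvd_right h3 (by simp)).pow_right k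
  have h5 : m ∣ h * (Q + 1) := h4.dvd_of_dvd_mul_left (mul_assoc Q _ _ ▸ (Dvd.intro_left _ rfl).trans h2)
  obtain ⟨y, hy⟩ : (m + 1) * m ∣ h * (Q + (m + 1)) := Nat.Coprime.mul_dvd_of_dvd_of_dvd (by simp)
    (by rw [mul_add, mul_comm h]; exact dvd_add h1 (Dvd.intro_left _ rfl))
    (by rw [add_comm m, ← add_assoc, mul_add]; exact dvd_add h5 (Dvd.intro_left _ rfl))
  refine ⟨y, Nat.pos_of_ne_zero ?_, hy⟩
  rintro rfl
  exact (Nat.mul_pos h0 (by omega)).ne' hy

theorem not_nine [IsSimpleGroup G] (h : Two G Ω) (hG : Nat.card G = 360) : Nat.card Ω ≠ 9 := by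
  intro h9
  have := h.nt
  have := h.pre
  have := Fact.mk Nat.prime_five
  obtain ⟨a⟩ : Nonempty Ω := inferInstance
  have hK : Nat.card (stabilizer G a) = 40 := by
    have := (stabilizer G a).card_mul_index
    rw [index_stabilizer_of_transitive, h9, hG] at this
    omega
  obtain ⟨P⟩ : Nonempty (Sylow 5 (stabilizer G a)) := inferInstance
  have h1 : Nat.card P = 5 := by
    rw [P.card_eq_multiplicity, hK, show 40 = 5 * 8 from rfl, Nat.factorization_mul (by decide)
      (by decide), Nat.prime_five.factorization]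
    simp [Nat.factorization_eq_zero_of_not_dvd (show ¬ 5 ∣ 8 by decide)]
  have h2 : Nat.card (Sylow 5 (stabilizer G a)) = 1 := by
    have h3 := P.card_dvd_index
    have h4 := card_sylow_modEq_one 5 (stabilizer G a)
    have h5 := P.card_mul_index
    rw [h1, hK] at h5
    rw [show P.index = 8 by omega] at h3
    have := Nat.le_of_dvd (by decide) h3
    generalize Nat.card (Sylow 5 (stabilizer G a)) = s at *
    interval_cases s <;> simp_all [Nat.ModEq]
  have := (Nat.card_eq_one_iff_unique.1 h2).1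
  have hN := P.normal_of_subsingleton
  have h3 := P.isPGroup'.card_modEq_card_fixedPoints Ω
  by_cases hb : ∃ b, b ≠ a ∧ b ∈ fixedPoints P Ω
  · obtain ⟨b, b1, b2⟩ := hb
    have : Subsingleton P := subsingleton_iff_forall_eq 1 |>.2 fun x => Subtype.ext (Subtype.ext
      (inj h (Equiv.ext fun c => ?_)))
    · exact absurd (h1.symm.trans (Nat.card_of_subsingleton 1)) (by decide)
    by_cases hc : c = a
    · exact hc ▸ x.1.2.trans (one_smul _ _).symm
    obtain ⟨g, g1, rfl⟩ := h.tr a b a c b1.symm (Ne.symm hc)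
    have := b2 ⟨_, hN.conj_mem' _ x.2 ⟨g, g1⟩⟩
    change (g⁻¹ * x * g) • b = b at this
    rw [mul_smul, mul_smul, inv_smul_eq_iff] at this
    exact this.trans (one_smul _ _).symm
  · rw [h9, show fixedPoints P Ω = {a} from Set.eq_singleton_iff_unique_mem.2
      ⟨fun x => x.1.2, fun b h => by_contra fun e => hb ⟨b, e, h⟩⟩, Nat.card_unique] at h3
    exact absurd h3 (by decide)

end Cfsg.Lib.CKS.R1
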