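import Cfsg.Agent.CKS.R1a
import Cfsg.Agent.S0252
import Cfsg.Agent.S0253
import Cfsg.Agent.S0255
import Cfsg.Agent.S0806
import Cfsg.Agent.Class.SLGen

/-!
# Doubly transitive actions of `PSL₂(q)`
-/

set_option autoImplicit false

namespace Cfsg.Lib.CKS

open MulAction Matrix

namespace R1

theorem arith_l2 {q n y d h : ℕ} (hd : d * h + 1 = q) (h0 : 0 < d) (hy : 0 < y) (hn : q + 1 ≤ n)
    (e : h * (q + n) = n * (n - 1) * y) : d = 1 ∧ n * n + q = q * n + q * q := by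
  obtain ⟨n, rfl⟩ : ∃ k, n = k + 1 := ⟨n - 1, by omega⟩
  rw [Nat.add_sub_cancel] at e
  have e1 : d * h * (q + (n + 1)) = (n + 1) * n * (y * d) := by rw [mul_assoc, e]; ring
  generalize d * h = s at e1 hd
  subst hd
  have : y * d = 1 := by
    by_contra h1
    have h2 : 2 ≤ y * d := by have := Nat.mul_pos hy h0; omega
    have : (n + 1) * n * 2 ≤ s * (s + 1 + (n + 1)) := by rw [e1]; gcongr
    nlinarith
  rw [this] at e1
  exact ⟨Nat.eq_one_of_mul_eq_one_left this, by linarith⟩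

theorem arith_two {j n : ℕ} (e : n * n + 2 ^ (j + 2) = 2 ^ (j + 2) * n + 2 ^ (j + 2) * 2 ^ (j + 2)) :
    j = 0 ∧ n = 6 := by
  rcases j with _ | j
  · refine ⟨rfl, ?_⟩
    norm_num at e
    have : n ≤ 7 := by nlinarith
    interval_cases n <;> omega
  exfalso
  have h1 : (n - 4 * 2 ^ j : ℤ) ^ 2 = 2 ^ 2 * ((2 * 2 ^ j) * (10 * 2 ^ j - 1)) := by
    zify at e; linear_combination e
  have hw : (0 : ℤ) < 2 ^ j := by positivity
  generalize (2 : ℤ) ^ j = w at h1 hw
  obtain ⟨k, hk⟩ := (Int.pow_dvd_pow_iff two_ne_zero).1 (Dvd.intro _ h1.symm)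
  rw [hk, mul_pow] at h1
  have h2 := (mul_left_cancel₀ (by norm_num) h1).symm
  have hc : IsCoprime (2 * w) (10 * w - 1) := ⟨5, -1, by ring⟩
  obtain ⟨a, ha⟩ := Int.sq_of_isCoprime hc h2
  obtain ⟨b, hb⟩ := Int.sq_of_isCoprime hc.symm ((mul_comm _ _).trans h2)
  have h3 : ∀ w a b : ZMod 4, (2 * w = a ^ 2 ∨ 2 * w = -a ^ 2) → 10 * w - 1 ≠ b ^ 2 := by decide
  refine h3 w a b (ha.imp (fun e => ?_) fun e => ?_) ?_
  · exact_mod_cast congrArg (Int.cast : ℤ → ZMod 4) e
  · exact_mod_cast congrArg (Int.cast : ℤ → ZMod 4) e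
  · exact_mod_cast congrArg (Int.cast : ℤ → ZMod 4) (hb.resolve_right fun e => by nlinarith)

theorem exists_pow_ne {F : Type*} [Field F] [Fintype F] {k : ℕ} (hk : k ≠ 0)
    (h : k + 1 < Fintype.card F) : ∃ a : F, a ≠ 0 ∧ a ^ k ≠ 1 := by
  obtain ⟨a, ha⟩ := exists_pow_ne_one_of_isCyclic (G := Fˣ) hk (by
    rw [Nat.card_units, Nat.card_eq_fintype_card]; omega)
  exact ⟨a, a.ne_zero, fun e => ha (Units.ext (by simpa using e))⟩

theorem small : ∀ n < 56, (n ∣ 5 * 2 → n * (n - 1) ∣ 60 → 60 ∣ n.factorial → n = 5) ∧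
    (n ∣ 7 * 3 → n * (n - 1) ∣ 168 → 168 ∣ n.factorial → n = 7) ∧
    (n ∣ 9 * 4 → n * (n - 1) ∣ 360 → 360 ∣ n.factorial → n = 6 ∨ n = 9) ∧
    (n ∣ 11 * 5 → n * (n - 1) ∣ 660 → 660 ∣ n.factorial → n = 11) := by
  simp only [forall_and, imp_and]
  refine ⟨?_, ?_, ?_, ?_⟩ <;> decide +kernel

theorem psl2' {F : Type} [Field F] [Fintype F] (hF : 4 ≤ Fintype.card F) {Ω : Type*} [Finite Ω]
    [MulAction (ProjectiveSpecialLinearGroup (Fin 2) F) Ω]
    (h : Two (ProjectiveSpecialLinearGroup (Fin 2) F) Ω) :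
    Concl (ProjectiveSpecialLinearGroup (Fin 2) F) (Nat.card Ω) := by
  have hs := ProjectiveSpecialLinearGroup.rank_two_simple (F := F)
    (by rwa [Nat.card_eq_fintype_card])
  have hc : Nat.card (Projectivization F (Fin 2 → F)) = Fintype.card F + 1 := by
    rw [Projectivization.card_of_finrank_two F (Fin 2 → F) (by simp), Nat.card_eq_fintype_card]
  have : Finite (Projectivization F (Fin 2 → F)) := Nat.finite_of_card_ne_zero (by omega)
  have : Nontrivial (Projectivization F (Fin 2 → F)) :=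
    Finite.one_lt_card_iff_nontrivial.1 (by omega)
  have hX : Two (ProjectiveSpecialLinearGroup (Fin 2) F) (Projectivization F (Fin 2 → F)) :=
    ⟨this, fun a b c d h1 h2 => by
      obtain ⟨g, hg⟩ := (Two.of_mult (G := SpecialLinearGroup (Fin 2) F) inferInstance).tr
        a b c d h1 h2
      exact ⟨g, hg⟩⟩
  obtain ⟨x⟩ : Nonempty (Projectivization F (Fin 2 → F)) := inferInstance
  rcases dich h hX x with e | e
  · exact .inr (.inl ⟨F, _, _, hF, ⟨.refl _⟩, e.trans hc⟩)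
  have := hX.pre
  have := h.pre
  have := h.nt
  have h1 := (stabilizer (ProjectiveSpecialLinearGroup (Fin 2) F) x).card_mul_index
  rw [index_stabilizer_of_transitive, hc] at h1
  have h2 := Cfsg.Agent.S0243.result (F := F) rfl 2 le_rfl
  obtain ⟨k, hk⟩ := Nat.gcd_dvd_right 2 (Fintype.card F - 1)
  have hd := Nat.gcd_pos_of_pos_left (Fintype.card F - 1) two_pos
  have h3 : Nat.card (stabilizer (ProjectiveSpecialLinearGroup (Fin 2) F) x) =
      Fintype.card F * k := by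
    rw [← h1, Fin.prod_univ_two] at h2
    generalize Nat.gcd 2 (Fintype.card F - 1) = d at *
    obtain ⟨s, hs⟩ : ∃ s, Fintype.card F = s + 1 := ⟨Fintype.card F - 1, by omega⟩
    rw [hs] at h2 hk hF ⊢
    simp only [Nat.add_sub_cancel, Fin.val_zero, Fin.val_one, pow_zero, pow_one] at h2 hk
    rw [show (s + 1) ^ 2 - 1 = s * (s + 2) from Nat.sub_eq_of_eq_add (by ring),
      show (s + 1) ^ 2 - (s + 1) = s * (s + 1) from Nat.sub_eq_of_eq_add (by ring)] at h2
    refine Nat.eq_of_mul_eq_mul_left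
      (Nat.mul_pos (Nat.mul_pos hd (show 0 < s by omega)) (show 0 < s + 2 by omega)) ?_
    calc _ = s * (s + 2) * (s * (s + 1)) := by rw [← h2]; ring
      _ = _ := by nth_rw 3 [hk]; ring
  rw [h3] at e h1
  have h4 := dvd2 h
  have h5 := dvd_fact h
  have h6 := fun h => small (Nat.card Ω) ((Nat.le_of_dvd (Nat.card_pos.trans_eq h3) e).trans_lt h)
  have := Fact.mk Nat.prime_five
  let := Fintype.ofFinite (GaloisField 2 2)
  have c4 : Fintype.card (GaloisField 2 2) = 4 := by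
    rw [← Nat.card_eq_fintype_card, GaloisField.card 2 2 two_ne_zero]; rfl
  by_cases hq : Fintype.card F ∈ ({2, 3, 5, 7, 9, 11} : Finset ℕ)
  · simp only [Finset.mem_insert, Finset.mem_singleton] at hq
    rcases hq with hq | hq | hq | hq | hq | hq
    · omega
    · omega
    all_goals
      rw [← h1] at h4 h5
      rw [hq] at hk e h4 h5 h6 h1
      norm_num at hk
    · obtain rfl : k = 2 := by omega
      exact .inr (.inl ⟨_, _, _, c4.ge, ⟨(Cfsg.Agent.S0253.result hq).some.trans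
        (Cfsg.Agent.S0252.result c4).some.symm⟩, by rw [c4, (h6 (by decide)).1 e h4 h5]⟩)
    · obtain rfl : k = 3 := by omega
      exact .inl ⟨ZMod 2, _, _, 3, le_rfl, Cfsg.Agent.S0255.result hq (ZMod.card 2), by
        rw [(h6 (by decide)).2.1 e h4 h5, ZMod.card]; rfl⟩
    · obtain rfl : k = 4 := by omega
      exact .inr (.inr (.inr (.inr (.inr (.inl ⟨F, _, _, hq, ⟨.refl _⟩,
        ((h6 (by decide)).2.2.1 e h4 h5).resolve_right (not_nine h h1.symm)⟩)))))
    · obtain rfl : k = 5 := by omega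
      exact .inr (.inr (.inr (.inr (.inr (.inr (.inl ⟨F, _, _, hq, ⟨.refl _⟩,
        (h6 (by decide)).2.2.2 e h4 h5⟩))))))
  obtain ⟨a⟩ : Nonempty Ω := inferInstance
  have h7 := (Cfsg.Agent.S0806.result rfl hq).1 (stabilizer _ a) fun e => by
    obtain ⟨b, hb⟩ := exists_ne a
    obtain ⟨g, rfl⟩ := exists_smul_eq (ProjectiveSpecialLinearGroup (Fin 2) F) a b
    exact hb (e.ge (Subgroup.mem_top g))
  rw [index_stabilizer_of_transitive] at h7
  obtain ⟨p, -, f, hp, hf⟩ := FiniteField.card' F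
  have hk0 : 0 < k := Nat.pos_of_ne_zero fun e => by rw [e] at hk; omega
  obtain ⟨y, h8, h9⟩ := arith hp hf e (h1 ▸ h4) hk0 (by nlinarith [Nat.sub_le (Fintype.card F) 1])
  obtain ⟨a1, a2⟩ := arith_l2 (by omega) hd h8 h7 h9
  obtain rfl : p = 2 := by
    have : 2 ∣ p ^ (f : ℕ) := by
      have := Nat.coprime_two_left.1 a1
      rw [← hf, ← even_iff_two_dvd, ← Nat.sub_add_cancel (show 1 ≤ Fintype.card F by omega)]
      exact this.add_one
    exact ((Nat.prime_dvd_prime_iff_eq Nat.prime_two hp).1 (Nat.prime_two.dvd_of_dvd_pow this)).symm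
  obtain ⟨j, hj⟩ : ∃ j, (f : ℕ) = j + 2 := ⟨f - 2, by
    have := (Nat.pow_le_pow_iff_right (a := 2) (n := 2) one_lt_two).1 (hF.trans_eq hf)
    omega⟩
  rw [hj] at hf
  obtain ⟨rfl, a3⟩ := arith_two (hf ▸ a2)
  exact .inr (.inl ⟨ZMod 5, _, _, by simp, ⟨(Cfsg.Agent.S0252.result hf).some.trans
    (Cfsg.Agent.S0253.result (ZMod.card 5)).some.symm⟩, by rw [a3, ZMod.card]⟩)

end R1

open R1

theorem psl2 {F : Type} [Field F] [Fintype F] (hF : 4 ≤ Fintype.card F) {Ω : Type*} [Finite Ω]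
    [MulAction (SpecialLinearGroup (Fin 2) F) Ω] (h : Two (SpecialLinearGroup (Fin 2) F) Ω) :
    Concl (ProjectiveSpecialLinearGroup (Fin 2) F) (Nat.card Ω) := by
  obtain ⟨a, ha, h2⟩ := exists_pow_ne (F := F) two_ne_zero (by omega)
  obtain ⟨_, h'⟩ := quot (SL2.commutator_eq_top ha h2) h
  exact psl2' hF h'

theorem l32 {F : Type} [Field F] [Fintype F] (hF : Fintype.card F = 2) {Ω : Type*} [Finite Ω]
    [MulAction (SpecialLinearGroup (Fin 3) F) Ω] (h : Two (SpecialLinearGroup (Fin 3) F) Ω) :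
    Concl (ProjectiveSpecialLinearGroup (Fin 3) F) (Nat.card Ω) := by
  obtain ⟨_, h'⟩ := quot (Class.SL_commutator_eq_top (by simp)) h
  have := Fact.mk (show Nat.Prime 7 by decide)
  obtain ⟨e⟩ := Cfsg.Agent.S0255.result (ZMod.card 7) hF
  let := MulAction.compHom Ω e.toMonoidHom
  exact (psl2' (by simp) (h'.comp e.toMonoidHom e.surjective)).of_equiv e.symm

end Cfsg.Lib.CKS
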