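import Cfsg.Agent.CKS.R1d
import Cfsg.Agent.S0242

/-!
# `SL₃(q)` has a transitive action of degree `q³` only for `q = 2`
-/

set_option autoImplicit false

namespace Cfsg.Lib.CKS

open MulAction Matrix

namespace R1

section ring

variable {R : Type*} [CommRing R]

/-- Upper unitriangular matrices. -/
def un (x y z : R) : SpecialLinearGroup (Fin 3) R :=
  ⟨!![1, x, z; 0, 1, y; 0, 0, 1], by simp [det_fin_three]⟩

/-- Diagonal matrices. -/
def dg (a b c : R) (h : a * b * c = 1) : SpecialLinearGroup (Fin 3) R :=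
  ⟨!![a, 0, 0; 0, b, 0; 0, 0, c], by simp [det_fin_three, h]⟩

/-- A transposition. -/
def ww (R : Type*) [CommRing R] : SpecialLinearGroup (Fin 3) R :=
  ⟨!![0, 1, 0; 1, 0, 0; 0, 0, -1], by simp [det_fin_three]⟩

/-- A cyclic permutation. -/
def sg (R : Type*) [CommRing R] : SpecialLinearGroup (Fin 3) R :=
  ⟨!![0, 0, 1; 1, 0, 0; 0, 1, 0], by simp [det_fin_three]⟩

/-- A Hadamard matrix. -/
def cc (e : R) (h : 2 * e = -1) : SpecialLinearGroup (Fin 3) R :=
  ⟨!![1, 1, 0; 1, -1, 0; 0, 0, e], by simp [det_fin_three]; linear_combination -h⟩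

theorem un_eq_1' : type_of% @un.eq_1 := @un.eq_1
theorem dg_eq_1' : type_of% @dg.eq_1 := @dg.eq_1
theorem ww_eq_1' : type_of% @ww.eq_1 := @ww.eq_1
theorem sg_eq_1' : type_of% @sg.eq_1 := @sg.eq_1
theorem cc_eq_1' : type_of% @cc.eq_1 := @cc.eq_1

theorem un_coe (x y z : R) : (un x y z).1 = !![1, x, z; 0, 1, y; 0, 0, 1] := rfl
theorem dg_coe (a b c : R) (h : a * b * c = 1) : (dg a b c h).1 = !![a, 0, 0; 0, b, 0; 0, 0, c] := rfl
theorem ww_coe : (ww R).1 = !![0, 1, 0; 1, 0, 0; 0, 0, -1] := rfl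
theorem sg_coe : (sg R).1 = !![0, 0, 1; 1, 0, 0; 0, 1, 0] := rfl
theorem cc_coe (e : R) (h : 2 * e = -1) : (cc e h).1 = !![1, 1, 0; 1, -1, 0; 0, 0, e] := rfl

theorem un_mul (x y z x' y' z' : R) :
    un x y z * un x' y' z' = un (x + x') (y + y') (z + z' + x * y') :=
  Subtype.ext (by simp [un_coe, dg_coe, ww_coe, sg_coe, cc_coe, one_fin_three, pow_succ, add_comm, add_left_comm, add_assoc])

theorem un_zero : un (0 : R) 0 0 = 1 :=
  Subtype.ext (by simp [un_coe, dg_coe, ww_coe, sg_coe, cc_coe, one_fin_three, pow_succ])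

theorem un_inj {x y z x' y' z' : R} (h : un x y z = un x' y' z') : x = x' ∧ y = y' ∧ z = z' :=
  ⟨congrArg (·.1 0 1) h, congrArg (·.1 1 2) h, congrArg (·.1 0 2) h⟩

theorem un_pow (x y z : R) (n : ℕ) : ∃ s, un x y z ^ n = un (n * x) (n * y) (n * z + s * (x * y)) := by
  induction n with
  | zero => exact ⟨0, by simp [un_zero]⟩
  | succ n ih =>
    obtain ⟨s, hs⟩ := ih
    exact ⟨s + n, by rw [pow_succ, hs, un_mul]; push_cast; congr 1 <;> ring⟩

theorem un_pow_char (p : ℕ) [CharP R p] (x y z : R) : un x y z ^ p ^ 2 = 1 := by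
  obtain ⟨s, h1⟩ := un_pow x y z p
  obtain ⟨t, h2⟩ := un_pow 0 0 (s * (x * y)) p
  rw [sq, pow_mul, h1]
  simpa [un_zero] using h2

theorem dg_mul {a b c a' b' c' : R} (h : a * b * c = 1) (h' : a' * b' * c' = 1) :
    dg a b c h * dg a' b' c' h' = dg (a * a') (b * b') (c * c') (by
      linear_combination a' * b' * c' * h + h') :=
  Subtype.ext (by simp [un_coe, dg_coe, ww_coe, sg_coe, cc_coe, one_fin_three, pow_succ])

theorem dg_one : dg (1 : R) 1 1 (by simp) = 1 :=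
  Subtype.ext (by simp [un_coe, dg_coe, ww_coe, sg_coe, cc_coe, one_fin_three, pow_succ])

theorem dg_pow {a b c : R} (h : a * b * c = 1) (n : ℕ) :
    dg a b c h ^ n = dg (a ^ n) (b ^ n) (c ^ n) (by rw [← mul_pow, ← mul_pow, h, one_pow]) := by
  induction n with
  | zero => simp [dg_one]
  | succ n ih => simp only [pow_succ, ih, dg_mul]

theorem dg_un {a b c : R} (h : a * b * c = 1) (x y z : R) :
    dg a b c h * un x y z = un (a * a * c * x) (b * b * a * y) (a * a * b * z) * dg a b c h := by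
  refine Subtype.ext ?_
  simp [un_coe, dg_coe, ww_coe, sg_coe, cc_coe, one_fin_three, pow_succ]
  exact ⟨⟨by linear_combination -a * x * h, by linear_combination -a * z * h⟩,
    by linear_combination -b * y * h⟩

/-- The diagonal matrices of exponent `l`. -/
def EE (R : Type*) [CommRing R] (l : ℕ) : Subgroup (SpecialLinearGroup (Fin 3) R) where
  carrier := {g | ∃ a b c h, a ^ l = 1 ∧ b ^ l = 1 ∧ c ^ l = 1 ∧ g = dg a b c h}
  mul_mem' := by
    rintro _ _ ⟨a, b, c, h, h1, h2, h3, rfl⟩ ⟨a', b', c', h', h1', h2', h3', rfl⟩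
    exact ⟨_, _, _, _, by simp [mul_pow, *], by simp [mul_pow, *], by simp [mul_pow, *], dg_mul h h'⟩
  one_mem' := ⟨1, 1, 1, by simp, by simp, by simp, by simp, dg_one.symm⟩
  inv_mem' := by
    rintro _ ⟨a, b, c, h, h1, h2, h3, rfl⟩
    refine ⟨b * c, a * c, a * b, by linear_combination (a * b * c + 1) * h, by simp [mul_pow, *],
      by simp [mul_pow, *], by simp [mul_pow, *], inv_eq_of_mul_eq_one_right ?_⟩
    rw [dg_mul, ← dg_one]
    congr 1 <;> linear_combination h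

theorem EE_eq_1' : type_of% @EE.eq_1 := @EE.eq_1

theorem isPGroup_EE (l : ℕ) : IsPGroup l (EE R l) := by
  rintro ⟨_, a, b, c, h, h1, h2, h3, rfl⟩
  refine ⟨1, Subtype.ext ?_⟩
  simp [dg_pow, h1, h2, h3, dg_one]

theorem word5 : ((cc (2 : ZMod 5) rfl ^ 3 * sg _ * cc 2 rfl * sg _ ^ 2) ^ 2) ^ 5 ^ 1 = 1 ∧
    (cc (2 : ZMod 5) rfl ^ 3 * sg _ * cc 2 rfl * sg _ ^ 2) ^ 2 ≠ 1 := by
  decide +kernel

end ring

variable {F : Type*} [Field F] [Fintype F] {Ω : Type*} [MulAction (SpecialLinearGroup (Fin 3) F) Ω]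
  {p : ℕ} [Fact p.Prime] [CharP F p] (hn : Nat.card Ω = Fintype.card F ^ 3)
  (hK : ∀ (g : SpecialLinearGroup (Fin 3) F) (a : Ω) (k : ℕ), g • a = a → g ^ p ^ k = 1 → g = 1)

include hK in
theorem un_smul_inj {a : Ω} {x y z x' y' z' : F} (h : un x y z • a = un x' y' z' • a) :
    x = x' ∧ y = y' ∧ z = z' := by
  have e : un x y z = un x' y' z' * un (x - x') (y - y') (z - z' - x' * (y - y')) := by
    rw [un_mul]; congr 1 <;> ring
  rw [e, mul_smul, smul_left_cancel_iff] at h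
  rw [hK _ a 2 h (un_pow_char p _ _ _), mul_one] at e
  exact un_inj e

include hn hK in
theorem un_surj (a b : Ω) : ∃ x y z : F, un x y z • a = b := by
  have : Finite Ω := Nat.finite_of_card_ne_zero (by rw [hn]; simp)
  obtain ⟨v, hv⟩ := ((Nat.bijective_iff_injective_and_card
    fun v : F × F × F => un v.1 v.2.1 v.2.2 • a).2 ⟨fun v w e => by
      obtain ⟨h1, h2, h3⟩ := un_smul_inj hK e
      exact Prod.ext h1 (Prod.ext h2 h3), by simp [hn, pow_succ, mul_assoc]⟩).2 b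
  exact ⟨_, _, _, hv⟩

include hK in
theorem fix_un {a : Ω} {x y z d e f : F} {h : d * e * f = 1} (h1 : dg d e f h • a = a)
    (h2 : dg d e f h • un x y z • a = un x y z • a) :
    (d ≠ e → x = 0) ∧ (e ≠ f → y = 0) ∧ (d ≠ f → z = 0) := by
  rw [← mul_smul, dg_un, mul_smul, h1] at h2
  obtain ⟨a1, a2, a3⟩ := un_smul_inj hK h2
  refine ⟨fun k => (mul_eq_zero.1 ?_).resolve_left (sub_ne_zero.2 k),
    fun k => (mul_eq_zero.1 ?_).resolve_left (sub_ne_zero.2 k),
    fun k => (mul_eq_zero.1 ?_).resolve_left (sub_ne_zero.2 k)⟩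
  exacts [by linear_combination e * a1 - d * x * h, by linear_combination f * a2 - e * y * h,
    by linear_combination f * a3 - d * z * h]

include hn in
theorem exists_fix {l : ℕ} [Fact l.Prime] (hl : l ∣ Fintype.card F - 1) :
    ∃ a : Ω, ∀ g ∈ EE F l, g • a = a := by
  have : Finite Ω := Nat.finite_of_card_ne_zero (by rw [hn]; simp)
  obtain ⟨a, ha⟩ := (isPGroup_EE (R := F) l).nonempty_fixed_point_of_prime_not_dvd_card Ω fun h => by
    have h1 := (Fact.out : l.Prime).dvd_of_dvd_pow (hn ▸ h)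
    have := (Nat.dvd_sub_iff_right (Nat.sub_le _ _) h1).2 hl
    rw [Nat.sub_sub_self Fintype.card_pos] at this
    exact (Fact.out : l.Prime).not_dvd_one this
  exact ⟨a, fun g hg => ha ⟨g, hg⟩⟩

include hn hK in
theorem l3_even (h2 : p = 2) : Fintype.card F = 2 := by
  subst h2
  by_contra hq
  have h1 := Fintype.one_lt_card (α := F)
  obtain ⟨l, hl, h3⟩ := Nat.exists_prime_and_dvd (n := Fintype.card F - 1) (by omega)
  have := Fact.mk hl
  obtain ⟨u, hu⟩ := exists_prime_orderOf_dvd_card' (G := Fˣ) l (by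
    rwa [Nat.card_units, Nat.card_eq_fintype_card])
  have u1 : (u : F) ≠ 1 := fun e => hl.one_lt.ne' (by rw [← hu, orderOf_eq_one_iff]; exact Units.ext e)
  have u2 : (u : F) ^ l = 1 := by rw [← Units.val_pow_eq_pow_val, ← hu, pow_orderOf_eq_one]; rfl
  have u3 : (u : F)⁻¹ ^ l = 1 := by rw [inv_pow, u2, inv_one]
  obtain ⟨a, ha⟩ := exists_fix hn h3
  obtain ⟨x, y, z, e⟩ := un_surj hn hK a (ww F • a)
  have k1 : dg (u : F) u⁻¹ 1 (by simp) * ww F = ww F * dg (u : F)⁻¹ u 1 (by simp) :=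
  Subtype.ext (by simp [un_coe, dg_coe, ww_coe, sg_coe, cc_coe, one_fin_three, pow_succ])
  obtain ⟨a1, a2, a3⟩ := fix_un hK (ha _ ⟨u, (u : F)⁻¹, 1, by simp, u2, u3, one_pow _, rfl⟩) (by
    rw [e, ← mul_smul, k1, mul_smul, ha _ ⟨_, _, _, _, u3, u2, one_pow _, rfl⟩])
  rw [a1 fun e => u1 (by
    have : ((u : F) - 1) ^ 2 = 0 := by
      rw [sub_pow_char, sq, one_pow, sub_eq_zero]; nth_rw 2 [e]; simp
    exact sub_eq_zero.1 (pow_eq_zero_iff two_ne_zero |>.1 this)), a2 (by simpa using u1), a3 u1,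
    un_zero, one_smul] at e
  exact zero_ne_one (congrArg (·.1 0 0) (hK _ a 1 e.symm (Subtype.ext (by simp [un_coe, dg_coe, ww_coe, sg_coe, cc_coe, one_fin_three, pow_succ]))))

include hn hK in
theorem l3_odd (h2 : p ≠ 2) : False := by
  have hp : p.Prime := Fact.out
  have c : ∀ r : ℕ, r.Prime → p ≠ r → (r : F) ≠ 0 := fun r hr h e =>
    h ((Nat.prime_dvd_prime_iff_eq hp hr).1 ((CharP.cast_eq_zero_iff F p r).1 e))
  have c2 : (2 : F) ≠ 0 := c 2 Nat.prime_two h2
  have n1 : (-1 : F) ≠ 1 := fun e => c2 (by linear_combination -e)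
  obtain ⟨a, ha⟩ := exists_fix hn (l := 2) (by
    have := FiniteField.odd_card_of_char_ne_two (F := F) (ringChar.eq F p ▸ h2)
    omega)
  have e1 := ha _ ⟨-1, -1, 1, by simp, by simp, by simp, by simp, rfl⟩
  have e2 := ha _ ⟨1, -1, -1, by simp, by simp, by simp, by simp, rfl⟩
  have e3 := ha _ ⟨-1, 1, -1, by simp, by simp, by simp, by simp, rfl⟩
  have key : ∀ g k k' : SpecialLinearGroup (Fin 3) F, k • a = a → k' • a = a →
      dg (-1) (-1) 1 (by simp) * g = g * k → dg 1 (-1) (-1) (by simp) * g = g * k' →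
      g ∈ stabilizer _ a := fun g k k' h1 h2 h3 h4 => by
    obtain ⟨x, y, z, e⟩ := un_surj hn hK a (g • a)
    obtain ⟨-, a2, a3⟩ := fix_un hK e1 (by rw [e, ← mul_smul, h3, mul_smul, h1])
    obtain ⟨a1, -, -⟩ := fix_un hK e2 (by rw [e, ← mul_smul, h4, mul_smul, h2])
    rw [a1 n1.symm, a2 n1, a3 n1, un_zero, one_smul] at e
    exact e.symm
  have hd : ∀ (x y z : F) h, dg x y z h ∈ stabilizer _ a := fun x y z h => key _ _ _ e1 e2 (Subtype.ext (by simp [un_coe, dg_coe, ww_coe, sg_coe, cc_coe, one_fin_three, pow_succ])) (Subtype.ext (by simp [un_coe, dg_coe, ww_coe, sg_coe, cc_coe, one_fin_three, pow_succ]))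
  have hw : ww F ∈ stabilizer _ a := key _ _ _ e1 e3 (Subtype.ext (by simp [un_coe, dg_coe, ww_coe, sg_coe, cc_coe, one_fin_three, pow_succ])) (Subtype.ext (by simp [un_coe, dg_coe, ww_coe, sg_coe, cc_coe, one_fin_three, pow_succ]))
  have hs : sg F ∈ stabilizer _ a := key _ _ _ e3 e1 (Subtype.ext (by simp [un_coe, dg_coe, ww_coe, sg_coe, cc_coe, one_fin_three, pow_succ])) (Subtype.ext (by simp [un_coe, dg_coe, ww_coe, sg_coe, cc_coe, one_fin_three, pow_succ]))
  have hc : ∀ (e : F) h, cc e h ∈ stabilizer _ a := fun e h => key _ _ _ e1 hw (Subtype.ext (by simp [un_coe, dg_coe, ww_coe, sg_coe, cc_coe, one_fin_three, pow_succ])) (Subtype.ext (by simp [un_coe, dg_coe, ww_coe, sg_coe, cc_coe, one_fin_three, pow_succ]))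
  by_cases h3 : p = 3
  · subst h3
    exact zero_ne_one (congrArg (·.1 0 0) (hK _ a 1 hs (Subtype.ext (by simp [un_coe, dg_coe, ww_coe, sg_coe, cc_coe, one_fin_three, pow_succ]))))
  by_cases h5 : p = 5
  · subst h5
    let φ := SpecialLinearGroup.map (n := Fin 3) (ZMod.castHom dvd_rfl F)
    have f1 : φ (sg _) = sg F := by ext i j; fin_cases i <;> fin_cases j <;> simp [φ, sg_coe]
    have f2 : φ (cc 2 rfl) = cc 2 (by
        have := CharP.cast_eq_zero F 5
        linear_combination this) := by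
      ext i j; fin_cases i <;> fin_cases j <;> simp [φ, cc_coe, map_ofNat]
    have hφ : Function.Injective φ := fun A B e => Subtype.ext
      (Matrix.map_injective (ZMod.castHom dvd_rfl F).injective (congrArg Subtype.val e))
    refine word5.2 (hφ ((hK (φ _) a 1 ?_ (by rw [← map_pow, word5.1, map_one])).trans (map_one φ).symm))
    simp only [map_pow, map_mul, f1, f2]
    exact pow_mem (mul_mem (mul_mem (mul_mem (pow_mem (hc _ _) 3) hs) (hc _ _)) (pow_mem hs 2)) 2
  have c3 : (3 : F) ≠ 0 := c 3 Nat.prime_three h3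
  have c5 : (5 : F) ≠ 0 := c 5 Nat.prime_five h5
  have q2 : (2 : F) * -2⁻¹ = -1 := by field_simp
  have e : cc _ q2 * dg 3 (-1) (-3⁻¹) (by field_simp) * cc _ q2 * dg 1 (-2) (-2⁻¹) (by field_simp) *
      cc _ q2 = un (5 * 2⁻¹ ^ 2) 0 0 * dg (-(2 * 3)) (2 ^ 3) (-(3⁻¹ * 2⁻¹ ^ 4)) (by field_simp) := by
    refine Subtype.ext ?_
    simp [un_coe, dg_coe, ww_coe, sg_coe, cc_coe, one_fin_three, pow_succ]
    refine ⟨⟨?_, ?_⟩, ⟨?_, ?_⟩, ?_⟩ <;> field_simp <;> ring
  have h6 := (mul_mem_cancel_right (hd _ _ _ _)).1 (e ▸ mul_mem (mul_mem (mul_mem (mul_mem (hc _ q2)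
    (hd _ _ _ _)) (hc _ q2)) (hd _ _ _ _)) (hc _ q2))
  simpa [c5, c2] using (un_inj ((hK _ a 2 h6 (un_pow_char p _ _ _)).trans un_zero.symm)).1

end R1

open R1

theorem l3_card {F : Type*} [Field F] [Fintype F] {Ω : Type*}
    [MulAction (SpecialLinearGroup (Fin 3) F) Ω] [IsPretransitive (SpecialLinearGroup (Fin 3) F) Ω]
    (hn : Nat.card Ω = Fintype.card F ^ 3) : Fintype.card F = 2 := by
  obtain ⟨p, _, f, hp, hf⟩ := FiniteField.card' F
  have := Fact.mk hp
  have hK : ∀ (g : SpecialLinearGroup (Fin 3) F) (a : Ω) (k : ℕ), g • a = a → g ^ p ^ k = 1 →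
      g = 1 := fun g a k h1 h2 => by
    have h3 := (stabilizer (SpecialLinearGroup (Fin 3) F) a).card_mul_index
    have h4 := Cfsg.Agent.S0242.result (F := F) rfl 3 (by decide)
    have h5 : p ∣ Fintype.card F := hf ▸ dvd_pow_self p f.ne_zero
    have h6 := Fintype.one_lt_card (α := F)
    rw [index_stabilizer_of_transitive, hn] at h3
    rw [← h3, Fin.prod_univ_three] at h4
    generalize Fintype.card F = q at *
    have h7 : Nat.card (stabilizer (SpecialLinearGroup (Fin 3) F) a) = (q ^ 3 - 1) * (q ^ 2 - 1) := by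
      refine Nat.eq_of_mul_eq_mul_left (show 0 < (q - 1) * q ^ 3 from Nat.mul_pos (by omega) (by positivity)) ?_
      rw [mul_assoc, mul_comm (q ^ 3), h4]
      simp only [Fin.val_zero, Fin.val_one, Fin.val_two, pow_zero, pow_one]
      rw [show q ^ 3 - q = q * (q ^ 2 - 1) by rw [Nat.mul_sub_one]; ring_nf,
        show q ^ 3 - q ^ 2 = q ^ 2 * (q - 1) by rw [Nat.mul_sub_one]; ring_nf]
      ring
    have h8 : ∀ j, j ≠ 0 → p.Coprime (q ^ j - 1) := fun j hj =>
      Nat.Coprime.coprime_dvd_left (h5.trans (dvd_pow_self q hj))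
        ((Nat.coprime_self_sub_right (Nat.one_le_pow _ _ (by omega))).2 (by simp))
    refine orderOf_eq_one_iff.1 (Nat.eq_one_of_dvd_coprimes
      (((h8 3 (by decide)).mul_right (h8 2 (by decide))).pow_left k)
      (orderOf_dvd_of_pow_eq_one h2) (h7 ▸ Subgroup.orderOf_dvd_natCard _ h1))
  by_cases h2 : p = 2
  exacts [l3_even hn hK h2, (l3_odd hn hK h2).elim]

theorem l3 {F : Type} [Field F] [Fintype F] {Ω : Type*} [Finite Ω]
    [MulAction (SpecialLinearGroup (Fin 3) F) Ω] (h : Two (SpecialLinearGroup (Fin 3) F) Ω)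
    (hn : Nat.card Ω = Fintype.card F ^ 3) :
    Concl (ProjectiveSpecialLinearGroup (Fin 3) F) (Nat.card Ω) :=
  have := h.pre
  l32 (l3_card hn) h

end Cfsg.Lib.CKS
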