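import Cfsg.Agent.CKS.Def4
import Cfsg.Agent.CKS.Cnt
import Cfsg.Agent.Class.TvConj

/-!
# Doubly transitive actions of groups of Lie type: the transvection group in `SL_d`
-/

set_option autoImplicit false
set_option quotPrecheck false
set_option maxHeartbeats 400000

namespace Cfsg.Lib.CKS

open MulAction Cfsg.Lib.Chev Cfsg.Lib.Class Subgroup Matrix Module

namespace SL1

section gen
variable {ι : Type} [Fintype ι] [DecidableEq ι] {F : Type} [Field F]

theorem slE_tvS {a b : ι} (h : a ≠ b) (t : F) :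
    slE a b t = tvS (Pi.single a 1) (Pi.single b t) := by
  refine Subtype.ext ?_
  rw [coe_slE h, tvS_coe (by simp [h])]
  congr 1
  ext x y
  simp only [single_apply, vecMulVec_apply, Pi.single_apply]
  by_cases h1 : a = x <;> by_cases h2 : b = y <;> simp [h1, h2, eq_comm (a := x), eq_comm (a := y)]

omit [Fintype ι] [DecidableEq ι] in
theorem vv_eq {v f v' f' : ι → F} (hv : v ≠ 0) (hf : f ≠ 0)
    (e : vecMulVec v f = vecMulVec v' f') : ∃ c : F, c ≠ 0 ∧ v = c • v' ∧ f = c⁻¹ • f' := by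
  obtain ⟨j, hj⟩ := Function.ne_iff.1 hf
  obtain ⟨i, hi⟩ := Function.ne_iff.1 hv
  have E : ∀ x y, v x * f y = v' x * f' y := fun x y => by
    simpa [vecMulVec_apply] using congrFun (congrFun e x) y
  simp only [Pi.zero_apply] at hi hj
  have h1 : v' i * f' j ≠ 0 := E i j ▸ mul_ne_zero hi hj
  have h2 := left_ne_zero_of_mul h1
  have h3 := right_ne_zero_of_mul h1
  refine ⟨f' j / f j, div_ne_zero h3 hj, funext fun x => ?_, funext fun y => ?_⟩
  · simp only [Pi.smul_apply, smul_eq_mul]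
    field_simp
    linear_combination E x j
  · simp only [Pi.smul_apply, smul_eq_mul]
    field_simp
    refine mul_left_cancel₀ h2 ?_
    linear_combination f j * E i y - f y * E i j

theorem tvS_vv {v f v' f' : ι → F} (h : f ⬝ᵥ v = 0) (h' : f' ⬝ᵥ v' = 0)
    (e : tvS v f = tvS v' f') : vecMulVec v f = vecMulVec v' f' := by
  have := congrArg Subtype.val e
  rwa [tvS_coe h, tvS_coe h', add_right_inj] at this

theorem tvS_inj {v f f' : ι → F} (hv : v ≠ 0) (h : f ⬝ᵥ v = 0) (h' : f' ⬝ᵥ v = 0)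
    (e : tvS v f = tvS v f') : f = f' := by
  obtain ⟨i, hi⟩ := Function.ne_iff.1 hv
  funext y
  have := congrFun (congrFun (tvS_vv h h' e) i) y
  simp only [vecMulVec_apply] at this
  exact mul_left_cancel₀ hi this

theorem ex_sub {M : Type} [AddCommGroup M] {v : ι → F} (hv : v ≠ 0) (L : M →+ (ι → F))
    (hL : Function.Injective L) (h : ∀ m, L m ⬝ᵥ v = 0) :
    ∃ A : Subgroup (SpecialLinearGroup ι F), (∀ g, g ∈ A ↔ ∃ m, tvS v (L m) = g) ∧
      Nat.card A = Nat.card M := by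
  let φ : Multiplicative M →* SpecialLinearGroup ι F :=
    MonoidHom.mk' (fun m => tvS v (L m.toAdd)) fun a b => by
      rw [toAdd_mul, map_add, tvS_add_right (h _) (h _)]
  have hφ : Function.Injective φ := fun a b e =>
    Multiplicative.toAdd.injective (hL (tvS_inj hv (h _) (h _) e))
  refine ⟨φ.range, fun g => ⟨fun ⟨m, e⟩ => ⟨_, e⟩, fun ⟨m, e⟩ => ⟨Multiplicative.ofAdd m, e⟩⟩, ?_⟩
  exact (Nat.card_congr (MonoidHom.ofInjective hφ).toEquiv).symm

theorem card_ker [Fintype F] {v : ι → F} (hv : v ≠ 0) :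
    Nat.card {f : ι → F // f ⬝ᵥ v = 0} = Fintype.card F ^ (Fintype.card ι - 1) := by
  let L : (ι → F) →ₗ[F] F := (dotProductBilin F F).flip v
  have hL : LinearMap.range L = ⊤ := by
    obtain ⟨f, hf⟩ := exists_dot_eq_one hv
    refine eq_top_iff.2 fun c _ => ⟨c • f, ?_⟩
    simp [L, hf]
  have h1 := L.finrank_range_add_finrank_ker
  rw [hL, finrank_top, finrank_self, Module.finrank_fintype_fun_eq_card] at h1
  have h2 := Module.natCard_eq_pow_finrank (K := F) (V := LinearMap.ker L)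
  rw [Nat.card_eq_fintype_card (α := F), show finrank F (LinearMap.ker L) = Fintype.card ι - 1 by
    omega] at h2
  rw [← h2]
  exact Nat.card_congr (Equiv.subtypeEquivRight fun f => by simp [L])

theorem card_ne {α : Type*} [Finite α] (a : α) : Nat.card {b : α // b ≠ a} = Nat.card α - 1 := by
  rw [← Cnt.ncard_ne a]; rfl

theorem card_pairs [Fintype F] :
    Nat.card {x : (ι → F) × (ι → F) // x.1 ≠ 0 ∧ x.2 ≠ 0 ∧ x.2 ⬝ᵥ x.1 = 0} =
      (Fintype.card F ^ Fintype.card ι - 1) * (Fintype.card F ^ (Fintype.card ι - 1) - 1) := by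
  classical
  let e : {x : (ι → F) × (ι → F) // x.1 ≠ 0 ∧ x.2 ≠ 0 ∧ x.2 ⬝ᵥ x.1 = 0} ≃
      Σ v : {v : ι → F // v ≠ 0}, {f : {f : ι → F // f ⬝ᵥ v.1 = 0} // f ≠ ⟨0, by simp⟩} :=
    { toFun := fun x => ⟨⟨x.1.1, x.2.1⟩, ⟨x.1.2, x.2.2.2⟩, fun e => x.2.2.1 (congrArg Subtype.val e)⟩
      invFun := fun y => ⟨(y.1.1, y.2.1.1), y.1.2, fun e => y.2.2 (Subtype.ext e), y.2.1.2⟩
      left_inv := fun _ => rfl
      right_inv := fun _ => rfl }
  rw [Nat.card_congr e, Nat.card_sigma]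
  rw [Finset.sum_congr rfl fun v _ => (card_ne _).trans (by rw [card_ker v.2])]
  rw [Finset.sum_const, smul_eq_mul, Finset.card_univ, ← Nat.card_eq_fintype_card, card_ne,
    Nat.card_eq_fintype_card, Fintype.card_fun]

theorem card_tv [Fintype F] :
    Nat.card {g : SpecialLinearGroup ι F // ∃ v f, v ≠ 0 ∧ f ≠ 0 ∧ f ⬝ᵥ v = 0 ∧ tvS v f = g} *
      (Fintype.card F - 1) =
      (Fintype.card F ^ Fintype.card ι - 1) * (Fintype.card F ^ (Fintype.card ι - 1) - 1) := by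
  rw [← card_pairs, ← Nat.card_eq_fintype_card (α := F), ← card_ne (0 : F), ← Nat.card_prod]
  have H : ∀ g : {g : SpecialLinearGroup ι F // ∃ v f, v ≠ 0 ∧ f ≠ 0 ∧ f ⬝ᵥ v = 0 ∧ tvS v f = g},
      ∃ v f : ι → F, v ≠ 0 ∧ f ≠ 0 ∧ f ⬝ᵥ v = 0 ∧ tvS v f = g.1 := fun g => g.2
  choose v f hv hf h0 he using H
  have key : ∀ g (c : F), c ≠ 0 → tvS (c • v g) (c⁻¹ • f g) = g := fun g c hc => by
    rw [tvS_smul_left c (by simp [h0]), smul_smul, mul_inv_cancel₀ hc, one_smul, he]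
  refine Nat.card_congr (Equiv.ofBijective (fun y => ⟨(y.2.1 • v y.1, y.2.1⁻¹ • f y.1),
    smul_ne_zero y.2.2 (hv _), smul_ne_zero (inv_ne_zero y.2.2) (hf _), by simp [h0]⟩) ⟨?_, ?_⟩)
  · rintro ⟨g, c, hc⟩ ⟨g', c', hc'⟩ e
    have e1 : c • v g = c' • v g' := congrArg (fun x => x.1.1) e
    have e2 : c⁻¹ • f g = c'⁻¹ • f g' := congrArg (fun x => x.1.2) e
    obtain rfl : g = g' := Subtype.ext (by rw [← key g c hc, e1, e2, key g' c' hc'])
    obtain rfl : c = c' := smul_left_injective F (hv g) e1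
    rfl
  · rintro ⟨⟨w, φ⟩, h1, h2, h3⟩
    obtain ⟨c, hc, e1, e2⟩ := vv_eq h1 h2 (tvS_vv h3 (h0 ⟨tvS w φ, w, φ, h1, h2, h3, rfl⟩)
      (he ⟨tvS w φ, w, φ, h1, h2, h3, rfl⟩).symm)
    exact ⟨(⟨tvS w φ, w, φ, h1, h2, h3, rfl⟩, ⟨c, hc⟩), Subtype.ext (Prod.ext e1.symm e2.symm)⟩

end gen

section root
variable {n : ℕ} {F : Type} [Field F]

theorem pos_iff {a b : Fin (n + 1)} (h : a ≠ b) :
    (Chev.typeA n).weyl.Pos (Pi.single a 1 - Pi.single b 1) ↔ a < b := by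
  rw [(Chev.typeA n).pos_iff (mem_typeA'.2 ⟨a, b, h, rfl⟩)]
  have E : ∀ i : Fin n, (Chev.typeA n).c (Pi.single a 1 - Pi.single b 1) i =
      (if a.val ≤ i then 1 else 0) - (if b.val ≤ i then 1 else 0) := fun i => by
    rw [← psE_single, ← psE_single, ← map_sub]; rfl
  constructor
  · intro h1
    by_contra h2
    have h3 : b.val < a.val := by have := Fin.val_ne_of_ne h; have := Fin.lt_def.not.1 h2; omega
    have : (0 : ℤ) ≤ _ := (E _).le.trans' (h1 ⟨b, by have := a.2; omega⟩)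
    rw [if_neg (by simp only; omega), if_pos le_rfl] at this
    omega
  · intro h1 i
    have := Fin.lt_def.1 h1
    refine (E i).ge.trans' (?_ : (0 : ℤ) ≤ _)
    split_ifs <;> omega

theorem slE_mem_U {a b : Fin (n + 1)} (h : a < b) (t : F) : slE a b t ∈ (slGr n F).rgd.U :=
  (slGr n F).rgd.X_le_U ((pos_iff h.ne).2 h) ((mem_slGr_X h.ne).2 ⟨t, rfl⟩)

theorem U_le {K : Subgroup (SpecialLinearGroup (Fin (n + 1)) F)}
    (h : ∀ a b : Fin (n + 1), a < b → ∀ t, slE a b t ∈ K) : (slGr n F).rgd.U ≤ K :=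
  spanX_le_iff.2 fun r hr g hg => by
    obtain ⟨a, b, hab, rfl⟩ := mem_typeA'.1 hr.1
    obtain ⟨t, rfl⟩ := (mem_slGr_X hab).1 hg
    exact h a b ((pos_iff hab).1 hr) t

end root

variable {k : ℕ} {F : Type} [Field F]
local notation "GG" => SpecialLinearGroup (Fin (k + 3)) F
local notation "LL" => Fin.last (k + 2)

theorem ne0L : (0 : Fin (k + 3)) ≠ LL := (Fin.last_pos).ne

theorem mem_Z {g : GG} : g ∈ slZ k F ↔ ∃ t, slE 0 LL t = g := mem_slGr_X ne0L

theorem Z_le_U : slZ k F ≤ (slGr (k + 2) F).rgd.U := fun g hg => by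
  obtain ⟨t, rfl⟩ := mem_Z.1 hg
  exact slE_mem_U Fin.last_pos t

theorem e_ne {a : Fin (k + 3)} : (Pi.single a 1 : Fin (k + 3) → F) ≠ 0 := by simp

theorem conj_Z (g : GG) (t : F) : g * slE 0 LL t * g⁻¹ =
    tvS (g.1 *ᵥ Pi.single 0 1) (t • (Pi.single LL 1 ᵥ* (g⁻¹ : GG).1)) := by
  rw [slE_tvS ne0L, conj_tvS g (by simp), ← smul_vecMul, ← Pi.single_smul, smul_eq_mul,
    mul_one]

theorem dot_conj (g : GG) :
    (Pi.single LL 1 ᵥ* (g⁻¹ : GG).1) ⬝ᵥ (g.1 *ᵥ Pi.single 0 1) = 0 := by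
  have : (g⁻¹ : GG).1 * g.1 = 1 := congrArg Subtype.val (inv_mul_cancel g)
  rw [← dotProduct_mulVec, mulVec_mulVec, this]
  simp

theorem ti [Finite F] : TI (slZ k F) := by
  intro g x hx h1 hg
  obtain ⟨t, rfl⟩ := mem_Z.1 hx
  obtain ⟨s, hs⟩ := mem_Z.1 hg
  have ht : t ≠ 0 := fun e => h1 ((slE_eq_one_iff ne0L).2 e)
  refine Subgroup.mem_normalizer_fintype fun y hy => ?_
  obtain ⟨u, rfl⟩ := mem_Z.1 hy
  refine mem_Z.2 ⟨u / t * s, Subtype.ext ?_⟩
  rw [conj_Z, slE_tvS ne0L] at hs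
  have := tvS_vv (by simp) (by rw [smul_dotProduct, dot_conj, smul_zero]) hs
  rw [conj_Z, slE_tvS ne0L, tvS_coe (by simp),
    tvS_coe (by rw [smul_dotProduct, dot_conj, smul_zero]), ← smul_eq_mul, Pi.single_smul,
    vecMulVec_smul, this, ← vecMulVec_smul, smul_smul, div_mul_cancel₀ _ ht]

theorem card_Z [Fintype F] : Nat.card (slZ k F) = Fintype.card F := by
  rw [← Nat.card_eq_fintype_card]
  refine (Nat.card_congr (Equiv.ofBijective (fun t : F => (⟨slE 0 LL t, mem_Z.2 ⟨t, rfl⟩⟩ :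
    slZ k F)) ⟨fun s t e => ?_, fun ⟨g, hg⟩ => ?_⟩)).symm
  · have := congrFun (congrFun (congrArg (fun x => x.1.1) e) 0) LL
    simpa [coe_slE ne0L] using this
  · obtain ⟨t, rfl⟩ := mem_Z.1 hg
    exact ⟨t, rfl⟩

theorem mem_Cl {g : GG} : g ∈ Cl (slZ k F) ↔ ∃ v f, v ≠ 0 ∧ f ≠ 0 ∧ f ⬝ᵥ v = 0 ∧ tvS v f = g := by
  constructor
  · rintro ⟨h1, x, hx⟩
    obtain ⟨t, ht⟩ := mem_Z.1 hx
    have e : g = x⁻¹ * slE 0 LL t * x⁻¹⁻¹ := by rw [ht]; group
    rw [conj_Z] at e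
    have h0 : (t • (Pi.single LL 1 ᵥ* (x⁻¹⁻¹ : GG).1)) ⬝ᵥ ((x⁻¹ : GG).1 *ᵥ Pi.single 0 1) = 0 := by
      rw [smul_dotProduct, dot_conj, smul_zero]
    have h2 := (tvS_eq_one_iff h0).not.1 (e ▸ h1)
    exact ⟨_, _, fun e => h2 (Or.inl e), fun e => h2 (Or.inr e), h0, e.symm⟩
  · rintro ⟨v, f, hv, hf, h0, rfl⟩
    obtain ⟨x, -, -, e⟩ := exists_conj_tvS (by simp) hv hf (e_ne (a := 0)) (e_ne (a := LL)) h0
      (by simp)
    exact ⟨fun e => by simpa [hv, hf] using (tvS_eq_one_iff h0).1 e, x,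
      mem_Z.2 ⟨1, by rw [e, slE_tvS ne0L]⟩⟩

theorem line [Fintype F] : ∃ A, Line A (slZ k F) := by
  have n01 : (0 : Fin (k + 3)) ≠ 1 := zero_ne_one
  have n1L : (1 : Fin (k + 3)) ≠ LL := fun e => by simpa using congrArg Fin.val e
  let L : F × F →+ (Fin (k + 3) → F) :=
    AddMonoidHom.mk' (fun x => Pi.single LL x.1 + Pi.single 1 x.2) fun a b => by
      simp only [Prod.fst_add, Prod.snd_add, Pi.single_add]; abel
  have hL : ∀ x : F × F, L x = Pi.single LL x.1 + Pi.single 1 x.2 := fun _ => rfl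
  have hinj : Function.Injective L := fun x y e => by
    have h1 := congrFun e LL
    have h2 := congrFun e 1
    simp only [hL, Pi.add_apply, Pi.single_eq_same, Pi.single_eq_of_ne n1L,
      Pi.single_eq_of_ne n1L.symm, add_zero, zero_add] at h1 h2
    exact Prod.ext h1 h2
  have h0 : ∀ x, L x ⬝ᵥ Pi.single 0 1 = 0 := fun x => by simp [hL]
  obtain ⟨A, hA, hc⟩ := ex_sub (e_ne (a := 0)) L hinj h0
  let d : Option F → F × F := fun o => o.elim (0, 1) fun c => (1, c)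
  have hd : ∀ o, L (d o) ≠ 0 := fun o e => by
    have := hinj (e.trans (map_zero L).symm)
    cases o <;> simp [d] at this
  have hs : ∀ (t : F) x, t • L x = L (t • x) := fun t x => by
    simp only [hL, smul_add, ← Pi.single_smul, Prod.smul_fst, Prod.smul_snd]
  have H : ∀ o, ∃ g : GG, ∀ t, g * slE 0 LL t * g⁻¹ = tvS (Pi.single 0 1) (L (t • d o)) := by
    intro o
    obtain ⟨g, e1, e2, -⟩ := exists_conj_tvS (by simp) (e_ne (a := 0)) (e_ne (a := LL))
      (e_ne (a := 0)) (hd o) (by simp) (h0 _)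
    exact ⟨g, fun t => by rw [conj_Z, e1, e2, hs]⟩
  choose g hg using H
  have hm : ∀ o x, x ∈ cj (g o) (slZ k F) → ∃ t : F, tvS (Pi.single 0 1) (L (t • d o)) = x := by
    rintro o _ ⟨y, hy, rfl⟩
    obtain ⟨t, rfl⟩ := mem_Z.1 hy
    exact ⟨t, (hg o t).symm⟩
  let e : Fin (Nat.card (slZ k F) + 1) ≃ Option F :=
    Fintype.equivOfCardEq (by rw [card_Z]; simp)
  refine ⟨A, by rw [hc, card_Z, Nat.card_prod, Nat.card_eq_fintype_card, sq],
    fun i => g (e i), fun i x hx => ?_, fun i j hij => eq_bot_iff.2 fun x hx => ?_⟩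
  · obtain ⟨t, rfl⟩ := hm _ x hx
    exact (hA _).2 ⟨_, rfl⟩
  · obtain ⟨t, rfl⟩ := hm _ x hx.1
    obtain ⟨s, hs⟩ := hm _ _ hx.2
    have h1 := hinj (tvS_inj e_ne (h0 _) (h0 _) hs)
    have h2 : e i ≠ e j := e.injective.ne hij
    have h3 : t = 0 := by
      by_contra h4
      revert h1 h2
      rcases e i with _ | a <;> rcases e j with _ | b <;>
        simp only [d, Option.elim, Prod.smul_mk, smul_eq_mul, mul_one, mul_zero, Prod.mk.injEq]
      · exact fun _ h => h rfl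
      · rintro ⟨rfl, h⟩ _
        exact h4 (by simpa using h.symm)
      · exact fun h _ => h4 h.1.symm
      · rintro ⟨rfl, h⟩ h'
        exact h' (congrArg some (mul_left_cancel₀ h4 h).symm)
    simp [h3]

theorem nc : ∀ z ∈ slZ k F, z ∈ center GG → z = 1 := by
  intro z hz hc
  obtain ⟨t, rfl⟩ := mem_Z.1 hz
  have n01 : (0 : Fin (k + 3)) ≠ 1 := zero_ne_one
  have n1L : (1 : Fin (k + 3)) ≠ LL := fun e => by simpa using congrArg Fin.val e
  have h1 := stA_slE.comm 0 LL 1 ne0L n1L.symm n01 t (1 : F)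
  rw [← mem_center_iff.1 hc, mul_assoc, mul_one, right_eq_mul, slE_eq_one_iff n01] at h1
  exact (slE_eq_one_iff ne0L).2 h1

end SL1

section sl
variable (k : ℕ) (F : Type) [Field F] [Fintype F] (p : ℕ) [Fact p.Prime] [CharP F p]
local notation "qq" => Fintype.card F
local notation "GG" => SpecialLinearGroup (Fin (k + 3)) F
local notation "YY" => (slGr (k + 2) F).rgd

theorem sl_rt : ∃ m, RT p qq m (normalizer (slZ k F : Set GG)) (slZ k F) ∧
    m * (qq - 1) * (qq - 1) = (qq ^ (k + 3) - 1) * (qq ^ (k + 2) - 1) := by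
  refine ⟨_, ⟨⟨((slGr (k + 2) F).isPGroup_U p).to_le SL1.Z_le_U, SL1.card_Z, Fintype.one_lt_card,
    rfl, SL1.ti, rfl, SL1.nc⟩, SL1.line⟩, ?_⟩
  have h1 := card_Cl (SL1.ti (k := k) (F := F))
  have h2 := SL1.card_tv (ι := Fin (k + 3)) (F := F)
  rw [SL1.card_Z] at h1
  rw [Fintype.card_fin] at h2
  rw [← h1, ← Nat.card_coe_set_eq, Nat.card_congr (Equiv.subtypeEquivRight fun g => SL1.mem_Cl), h2]
  rfl

omit [Fintype F] in
theorem sl_B_le : (YY).B ≤ normalizer (slZ k F : Set GG) := by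
  refine sup_le (SL1.U_le fun a b h t => centralizer_le_normalizer _ ?_)
    ((YY).H_le_normalizer_X (mem_typeA'.2 ⟨_, _, SL1.ne0L, rfl⟩))
  refine mem_centralizer_iff.2 fun z hz => ?_
  obtain ⟨s, rfl⟩ := SL1.mem_Z.1 hz
  refine stA_slE.commute _ _ _ _ SL1.ne0L h.ne ?_ ?_ s t
  · exact (lt_of_lt_of_le h (Fin.le_last b)).ne'
  · exact (lt_of_le_of_lt (Fin.zero_le a) h).ne

end sl

end Cfsg.Lib.CKS
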