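import Cfsg.Agent.CKS.SL1

/-!
# Doubly transitive actions of groups of Lie type: the point stabiliser in `SL_d`
-/

set_option autoImplicit false
set_option quotPrecheck false
set_option maxHeartbeats 400000

namespace Cfsg.Lib.CKS

open MulAction Cfsg.Lib.Chev Cfsg.Lib.Class Subgroup Matrix Module
open scoped LinearAlgebra.Projectivization

namespace SL2

section gr
variable {ι κ : Type} [Fintype ι] [DecidableEq ι] [Fintype κ] [DecidableEq κ] {E : Euclid ι κ}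
  {I F G : Type*} [Fintype I] [DecidableEq I] [Field F] [Group G] (Γ : Graded E I F G)

theorem conj_unS {φ : (κ → ℤ) →ₗ[ℤ] ℤ} {g a : G} (hg : g ∈ parS Γ.wt Γ.ρ (geS φ))
    (ha : a ∈ unS Γ.wt Γ.ρ (gtS φ 0)) : g * a * g⁻¹ ∈ unS Γ.wt Γ.ρ (gtS φ 0) := by
  have : Γ.ρ (g * a * g⁻¹) - 1 = Γ.ρ g * (Γ.ρ a - 1) * Γ.ρ g⁻¹ := by
    rw [mul_sub, sub_mul, mul_one, ← map_mul Γ.ρ g g⁻¹, mul_inv_cancel, map_one, map_mul, map_mul]
  rw [mem_unS, this]
  refine Sup.mul (D := gtS φ 0) (Sup.mul hg ha fun x hx y hy => ?_) (inv_mem hg : g⁻¹ ∈ parS _ _ _)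
    fun x hx y hy => ?_
  · have h1 := mem_geS.1 hx
    have h2 := mem_gtS.1 hy
    exact mem_gtS.2 (by rw [map_add]; omega)
  · have h1 := mem_gtS.1 hx
    have h2 := mem_geS.1 hy
    exact mem_gtS.2 (by rw [map_add]; omega)

theorem P_le_parS (J : Set ι) : Γ.rgd.P J ≤ parS Γ.wt Γ.ρ (geS (E.ht J)) := by
  rw [RGD.P_eq]
  refine sup_le (parS_mono bot_le) (Γ.spanX_le_parS ?_)
  rintro r (h | h)
  · rw [mem_geS, E.ht_apply J h.1]
    exact mul_nonneg E.N_pos.le (E.weyl.stHt_nonneg J h.2)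
  · rw [mem_geS, E.ht_apply J h.1, (E.weyl.stHt_eq_zero_iff J h.1).2 h, mul_zero]

theorem P_eq_parS (hG : Γ.rgd.G0 = ⊤) (J : Set ι) :
    Γ.rgd.P J = parS Γ.wt Γ.ρ (geS (E.ht J)) := by
  refine le_antisymm (P_le_parS Γ J) fun g hg => ?_
  obtain ⟨w, hw⟩ := RGD.mem_G0_iff.1 (hG.ge (mem_top g))
  refine RGD.mem_P_iff.2 ⟨w, E.weyl.mem_WJ_iff.2 fun r hr => ?_, hw⟩
  obtain ⟨b, hb, m, hm, b', hb', e⟩ := hw
  have hB := (Γ.rgd.B_le_P J).trans (P_le_parS Γ J)
  have h1 : m ∈ parS Γ.wt Γ.ρ (geS (E.ht J)) := by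
    rw [show m = b⁻¹ * g * b'⁻¹ by rw [e]; group]
    exact mul_mem (mul_mem (inv_mem (hB hb)) hg) (inv_mem (hB hb'))
  obtain ⟨h2, h3⟩ := E.weyl.mem_invs.1 hr
  by_contra h4
  obtain ⟨a, ha, h5⟩ := Γ.faithful.exists_ne_one h2.1
  have h6 : a ∈ Γ.rgd.UJ J :=
    mem_spanX (T := {r | E.weyl.Pos r ∧ ¬ E.weyl.InJ J r}) _ (And.intro h2 h4) ha
  rw [Γ.UJ_eq] at h6
  have h7 := conj_unS Γ h1 h6
  rw [← Γ.UJ_eq] at h7
  have h8 := Γ.faithful.eq_one_of_mem_U_of_mem_V (Γ.rgd.UJ_le_U J h7)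
    (Γ.rgd.X_le_V (E.weyl.smul_mem w h2.1) h3 (hm.conj_X h2.1 ha))
  exact h5 (conj_eq_one_iff.1 h8)

end gr

section heis
variable {G F : Type*} [Group G] [Field F] {H : F → F → F → G}

theorem heis (hm : ∀ s t u s' t' u', H s t u * H s' t' u' = H (s + s') (t + t') (u + u' + s * t'))
    (hi : ∀ s t u s' t' u', H s t u = H s' t' u' → s = s' ∧ t = t' ∧ u = u') :
    ∃ Q Z : Subgroup G, (∀ g, g ∈ Q ↔ ∃ s t u, H s t u = g) ∧ (∀ g, g ∈ Z ↔ ∃ u, H 0 0 u = g) ∧
      Heis Q Z (Nat.card F) := by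
  have h1 : H 0 0 0 = 1 := by simpa using hm 0 0 0 0 0 0
  have h2 : ∀ s t u, (H s t u)⁻¹ = H (-s) (-t) (s * t - u) := fun s t u =>
    inv_eq_of_mul_eq_one_right (by rw [hm, ← h1]; congr 1 <;> ring)
  have h3 : ∀ s t u s' t' u', H s t u * H s' t' u' * (H s t u)⁻¹ * (H s' t' u')⁻¹ =
      H 0 0 (s * t' - s' * t) := fun s t u s' t' u' => by
    simp only [h2, hm]; congr 1 <;> ring
  let Q : Subgroup G :=
    { carrier := {g | ∃ s t u, H s t u = g}
      one_mem' := ⟨_, _, _, h1⟩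
      mul_mem' := by rintro _ _ ⟨s, t, u, rfl⟩ ⟨s', t', u', rfl⟩; exact ⟨_, _, _, (hm ..).symm⟩
      inv_mem' := by rintro _ ⟨s, t, u, rfl⟩; exact ⟨_, _, _, (h2 ..).symm⟩ }
  let Z : Subgroup G :=
    { carrier := {g | ∃ u, H 0 0 u = g}
      one_mem' := ⟨_, h1⟩
      mul_mem' := by rintro _ _ ⟨u, rfl⟩ ⟨u', rfl⟩; exact ⟨u + u', by simp [hm]⟩
      inv_mem' := by rintro _ ⟨u, rfl⟩; exact ⟨-u, by simp [h2]⟩ }
  have cZ : Nat.card Z = Nat.card F :=
    (Nat.card_congr (Equiv.ofBijective (fun u : F => (⟨H 0 0 u, u, rfl⟩ : Z))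
      ⟨fun u u' e => (hi _ _ _ _ _ _ (congrArg Subtype.val e)).2.2,
        fun ⟨_, u, e⟩ => ⟨u, Subtype.ext e⟩⟩)).symm
  have cQ : Nat.card Q = Nat.card (F × F × F) :=
    (Nat.card_congr (Equiv.ofBijective
      (fun x : F × F × F => (⟨H x.1 x.2.1 x.2.2, _, _, _, rfl⟩ : Q))
      ⟨fun x y e => by
        obtain ⟨a, b, c⟩ := hi _ _ _ _ _ _ (congrArg Subtype.val e)
        exact Prod.ext a (Prod.ext b c),
        fun ⟨_, s, t, u, e⟩ => ⟨(s, t, u), Subtype.ext e⟩⟩)).symm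
  refine ⟨Q, Z, fun _ => Iff.rfl, fun _ => Iff.rfl, ?_, ?_, ?_, ?_, ?_⟩
  · rintro _ ⟨u, rfl⟩
    exact ⟨_, _, _, rfl⟩
  · rintro _ ⟨u, rfl⟩ _ ⟨s', t', u', rfl⟩
    rw [hm, hm]; congr 1 <;> ring
  · rintro _ ⟨s, t, u, rfl⟩ _ ⟨s', t', u', rfl⟩
    exact ⟨_, (h3 ..).symm⟩
  · rintro _ ⟨s, t, u, rfl⟩ hx _ ⟨c, rfl⟩
    by_cases hs : s = 0
    · have ht : t ≠ 0 := by rintro rfl; exact hx ⟨u, by rw [hs]⟩
      exact ⟨H (-c / t) 0 0, ⟨_, _, _, rfl⟩, by rw [h3]; congr 1; field_simp; ring⟩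
    · exact ⟨H 0 (c / s) 0, ⟨_, _, _, rfl⟩, by rw [h3]; congr 1; field_simp; ring⟩
  · rw [cQ, cZ, Nat.card_prod, Nat.card_prod]; ring

end heis

section mat
variable {ι : Type} [Fintype ι] [DecidableEq ι] {F : Type} [Field F] {a b c : ι}

theorem coe_H (hab : a ≠ b) (hbc : b ≠ c) (hac : a ≠ c) (s t u : F) :
    (slE b c t * slE a b s * slE a c u).1 = 1 + single a b s + single b c t + single a c u := by
  change (slE b c t).1 * (slE a b s).1 * (slE a c u).1 = _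
  simp only [coe_slE hab, coe_slE hbc, coe_slE hac, mul_add, add_mul, mul_one, one_mul,
    single_mul_single_of_ne _ _ _ _ hac.symm, single_mul_single_of_ne _ _ _ _ hab.symm, add_zero]
  abel

theorem H_mul (hab : a ≠ b) (hbc : b ≠ c) (hac : a ≠ c) (s t u s' t' u' : F) :
    slE b c t * slE a b s * slE a c u * (slE b c t' * slE a b s' * slE a c u') =
      slE b c (t + t') * slE a b (s + s') * slE a c (u + u' + s * t') := by
  refine Subtype.ext ?_
  change (slE b c t * slE a b s * slE a c u).1 * (slE b c t' * slE a b s' * slE a c u').1 = _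
  simp only [coe_H hab hbc hac, mul_add, add_mul, mul_one, one_mul, single_mul_single_same,
    single_mul_single_of_ne _ _ _ _ hac.symm, single_mul_single_of_ne _ _ _ _ hab.symm,
    single_mul_single_of_ne _ _ _ _ hbc.symm, add_zero, single_add]
  abel

theorem H_inj (hab : a ≠ b) (hbc : b ≠ c) (hac : a ≠ c) (s t u s' t' u' : F)
    (e : slE b c t * slE a b s * slE a c u = slE b c t' * slE a b s' * slE a c u') :
    s = s' ∧ t = t' ∧ u = u' := by
  have := congrArg Subtype.val e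
  rw [coe_H hab hbc hac, coe_H hab hbc hac] at this
  have h1 := congrFun (congrFun this a) b
  have h2 := congrFun (congrFun this b) c
  have h3 := congrFun (congrFun this a) c
  simp [hab, hbc, hac, hab.symm, hbc.symm] at h1 h2 h3
  exact ⟨h1, h2, h3⟩

end mat

theorem two_quot {G Ω : Type*} [Group G] [MulAction G Ω] (h : Two G Ω) (x : Ω) :
    Two G (G ⧸ stabilizer G x) := by
  have hi := injective_ofQuotientStabilizer G x
  refine ⟨?_, fun a b c d h1 h2 => ?_⟩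
  · have := h.nt
    have := h.pre
    obtain ⟨y, hy⟩ := exists_ne x
    obtain ⟨g, rfl⟩ := exists_smul_eq G x y
    exact ⟨(g : G ⧸ stabilizer G x), ((1 : G) : G ⧸ stabilizer G x), fun e =>
      hy (by simpa using congrArg (ofQuotientStabilizer G x) e)⟩
  · obtain ⟨g, e1, e2⟩ := h.tr _ _ _ _ (hi.ne h1) (hi.ne h2)
    exact ⟨g, hi (by rw [ofQuotientStabilizer_smul, e1]), hi (by rw [ofQuotientStabilizer_smul, e2])⟩

variable {k : ℕ} {F : Type} [Field F]
local notation "GG" => SpecialLinearGroup (Fin (k + 3)) F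

theorem ht0 (a b : Fin (k + 3)) : (Chev.typeA (k + 2)).ht {0}ᶜ (Pi.single a 1 - Pi.single b 1) =
    (if a = 0 then 1 else 0) - (if b = 0 then 1 else 0) := by
  rw [Euclid.ht, LinearMap.comp_apply, WeylData.stHt_apply,
    Finset.sum_eq_single 0 (fun i hi h => absurd (by simpa using hi) h) (by simp)]
  change psE (k + 3) 0 _ = _
  simp [psE_single]

theorem mem_P {g : GG} : g ∈ slP k F ↔ ∀ a, a ≠ 0 → g.1 a 0 = 0 := by
  rw [slP, P_eq_parS _ slGr_G0, mem_parS]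
  constructor
  · intro h a ha
    by_contra e
    have := mem_geS.1 (h a 0 e)
    rw [slGr_wt, slGr_wt, ht0, if_neg ha, if_pos rfl] at this
    omega
  · intro h a b e
    refine mem_geS.2 ?_
    rw [slGr_wt, slGr_wt, ht0]
    by_cases hb : b = 0
    · subst hb
      rw [if_pos (by_contra fun ha => e (h a ha)), if_pos rfl, sub_self]
    · rw [if_neg hb]; split_ifs <;> omega

theorem mem_A {g : GG} : g ∈ slA k F ↔ ∃ f : Fin (k + 2) → F,
    tvS (Pi.single 0 1) (Fin.cons 0 f) = g := by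
  rw [slA, Graded.UJ_eq, mem_unS]
  have h0 : ∀ f : Fin (k + 2) → F, (Fin.cons 0 f : Fin (k + 3) → F) ⬝ᵥ Pi.single 0 1 = 0 :=
    fun f => by simp
  constructor
  · intro h
    have H : ∀ a b, (g.1 - 1) a b ≠ 0 → a = 0 ∧ b ≠ 0 := fun a b e => by
      have := mem_gtS.1 (h a b e)
      rw [slGr_wt, slGr_wt, ht0] at this
      by_cases h1 : a = 0 <;> by_cases h2 : b = 0 <;> simp [h1, h2] at this ⊢
    refine ⟨fun j => g.1 0 j.succ, Subtype.ext ?_⟩
    rw [tvS_coe (h0 _), eq_comm, ← sub_eq_iff_eq_add']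
    ext a b
    by_cases ha : a = 0
    · subst ha
      cases b using Fin.cases with
      | zero => simpa [vecMulVec_apply] using not_not.1 fun e => (H 0 0 e).2 rfl
      | succ j => simp [vecMulVec_apply, (Fin.succ_ne_zero j).symm]
    · simpa [vecMulVec_apply, ha] using not_not.1 fun e => ha (H a b e).1
  · rintro ⟨f, rfl⟩ a b e
    rw [slGr_ρ, tvS_coe (h0 _), add_sub_cancel_left, vecMulVec_apply] at e
    have h1 : a = 0 := by_contra fun h => left_ne_zero_of_mul e (by simp [h])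
    have h2 : b ≠ 0 := by rintro rfl; exact right_ne_zero_of_mul e rfl
    refine mem_gtS.2 ?_
    rw [slGr_wt, slGr_wt, ht0, if_pos h1, if_neg h2]
    simp

theorem slE_mem_P {a b : Fin (k + 3)} (h : a ≠ b) (hb : b ≠ 0) (t : F) : slE a b t ∈ slP k F :=
  mem_P.2 fun x hx => by simp [coe_slE h, hx, hb]

theorem slE_mem_A {b : Fin (k + 3)} (hb : b ≠ 0) (t : F) : slE 0 b t ∈ slA k F := by
  obtain ⟨j, rfl⟩ := Fin.exists_succ_eq.2 hb
  refine mem_A.2 ⟨Pi.single j t, ?_⟩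
  rw [SL1.slE_tvS hb.symm]
  congr 1
  funext x
  cases x using Fin.cases <;> simp [Pi.single_apply]

theorem P_eq : slP k F = stabilizer GG (Projectivization.mk F (Pi.single 0 1 : Fin (k + 3) → F)
    SL1.e_ne) := by
  ext g
  rw [mem_P, mem_stabilizer_iff, Projectivization.smul_mk, Projectivization.mk_eq_mk_iff']
  have e : g • (Pi.single 0 1 : Fin (k + 3) → F) = fun a => g.1 a 0 := by
    change g.1 *ᵥ _ = _
    funext a; simp
  rw [e]
  constructor
  · intro h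
    refine ⟨g.1 0 0, funext fun a => ?_⟩
    by_cases ha : a = 0 <;> simp [ha, h]
  · rintro ⟨c, hc⟩ a ha
    simpa [ha] using (congrFun hc a).symm

end SL2

section sl
variable (k : ℕ) (F : Type) [Field F] [Fintype F] (p : ℕ) [Fact p.Prime] [CharP F p]
local notation "qq" => Fintype.card F
local notation "GG" => SpecialLinearGroup (Fin (k + 3)) F
local notation "YY" => (slGr (k + 2) F).rgd

theorem sl_A : Nat.card (slA k F) = qq ^ (k + 2) ∧ (∀ x ∈ slA k F, x ≠ 1 → x ∈ Cl (slZ k F)) ∧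
    slA k F ≤ (YY).U ∧ slA k F ≤ slP k F ∧ slP k F ≤ normalizer (slA k F : Set GG) := by
  refine ⟨?_, fun x hx h1 => ?_, (YY).UJ_le_U _, (YY).UJ_le_P _, (YY).P_le_normalizer_UJ _⟩
  · let L : (Fin (k + 2) → F) →+ (Fin (k + 3) → F) :=
      AddMonoidHom.mk' (fun f => Fin.cons 0 f) fun a b => by
        funext x; cases x using Fin.cases <;> simp
    obtain ⟨A, hA, hc⟩ := SL1.ex_sub (SL1.e_ne (a := 0)) L
      (fun f g e => funext fun j => congrFun e j.succ) fun f => by simp [L]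
    rw [show slA k F = A from Subgroup.ext fun g => SL2.mem_A.trans (hA g).symm, hc,
      Nat.card_eq_fintype_card, Fintype.card_fun, Fintype.card_fin]
  · obtain ⟨f, rfl⟩ := SL2.mem_A.1 hx
    exact SL1.mem_Cl.2 ⟨_, _, SL1.e_ne, fun e => h1 (by rw [e, tvS_zero_right]), by simp, rfl⟩

theorem sl_P : Two GG (GG ⧸ slP k F) ∧ (slP k F).index * (qq - 1) = qq ^ (k + 3) - 1 := by
  have h : Two GG (ℙ F (Fin (k + 3) → F)) := by
    have : Nontrivial (ℙ F (Fin (k + 3) → F)) := ⟨Projectivization.mk F (Pi.single 0 1) SL1.e_ne,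
      Projectivization.mk F (Pi.single 1 1) SL1.e_ne, fun e => by
        obtain ⟨c, hc⟩ := (Projectivization.mk_eq_mk_iff' _ _ _ _ _).1 e
        simpa using congrFun hc 0⟩
    exact Two.of_mult inferInstance
  have := h.pre
  rw [SL2.P_eq]
  refine ⟨SL2.two_quot h _, ?_⟩
  rw [index_stabilizer_of_transitive, ← Nat.card_eq_fintype_card (α := F),
    ← Projectivization.card F (Fin (k + 3) → F), Nat.card_fun, Nat.card_eq_fintype_card (α := Fin _),
    Fintype.card_fin]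

omit [Fintype F] in
theorem sl_gen : Gen (slGr (k + 2) F).faithful.idTwist := by
  refine inf_le_left.trans (spanX_le_iff.2 fun r hr g hg => ?_)
  obtain ⟨a, b, hab, rfl⟩ := mem_typeA'.1 hr.1.1
  obtain ⟨t, rfl⟩ := (mem_slGr_X hab).1 hg
  have h1 := Fin.lt_def.1 ((SL1.pos_iff hab).1 hr.1)
  have hb := b.2
  have h2 : a.val + 1 ≠ b.val := fun e => hr.2 ⟨a, by omega⟩ (by
    have : (Pi.single a 1 - Pi.single b 1 : Fin (k + 3) → ℤ) =
        (Chev.typeA (k + 2)).weyl.simple ⟨a, by omega⟩ := by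
      rw [Euclid.weyl_simple, typeA_α']
      congr 2
      exact Fin.ext e.symm
    rw [this]
    exact (WeylData.inJ_simple_iff _).2 (WeylData.Sym.self_mem_orb _ _))
  let c : Fin (k + 3) := ⟨a + 1, by omega⟩
  have hac : a < c := Fin.lt_def.2 (Nat.lt_succ_self _)
  have hcb : c < b := Fin.lt_def.2 (by simp only [c]; omega)
  have hU : ∀ x y : Fin (k + 3), x < y → ∀ s : F, slE x y s ∈ (YY).U ⊓
      (slGr (k + 2) F).faithful.idTwist.F := fun x y h s =>
    ⟨SL1.slE_mem_U h s, slGr_G0.ge (mem_top _), rfl⟩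
  have := commutator_mem_commutator (hU a c hac t) (hU c b hcb 1)
  rwa [commutatorElement_def, stA_slE.comm a c b hac.ne hcb.ne hab, mul_one, mul_inv_cancel_right,
    mul_inv_cancel_right] at this

theorem sl_blk (hk : 1 ≤ k) : Blk p qq (slA k F) (slP k F) (YY).U := by
  let a : Fin (k + 3) := ⟨1, by omega⟩
  let b : Fin (k + 3) := ⟨2, by omega⟩
  let c : Fin (k + 3) := ⟨3, by omega⟩
  have hab : a < b := Fin.lt_def.2 (by simp [a, b])
  have hbc : b < c := Fin.lt_def.2 (by simp [b, c])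
  have hac := hab.trans hbc
  have ha : a ≠ 0 := fun e => by simpa [a] using congrArg Fin.val e
  obtain ⟨Q, Z, hQ, hZ, h⟩ := SL2.heis (H := fun s t u : F => slE b c t * slE a b s * slE a c u)
    (SL2.H_mul hab.ne hbc.ne hac.ne) (SL2.H_inj hab.ne hbc.ne hac.ne)
  have hQU : Q ≤ (YY).U := fun g hg => by
    obtain ⟨s, t, u, rfl⟩ := (hQ g).1 hg
    exact mul_mem (mul_mem (SL1.slE_mem_U hbc t) (SL1.slE_mem_U hab s)) (SL1.slE_mem_U hac u)
  refine ⟨Q, Z, Nat.card_eq_fintype_card (α := F) ▸ h, ((slGr (k + 2) F).isPGroup_U p).to_le hQU,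
    hQU.trans ((YY).U_le_B.trans ((YY).B_le_P _)), fun M hA hZM hP => SL1.U_le fun x y hxy t => ?_⟩
  have hy : y ≠ 0 := (lt_of_le_of_lt (Fin.zero_le x) hxy).ne'
  by_cases hx : x = 0
  · exact hA (hx ▸ SL2.slE_mem_A hy t)
  have hN : ∀ g ∈ slP k F, ∀ m ∈ M, g * m * g⁻¹ ∈ M := fun g hg m hm =>
    (mem_normalizer_iff.1 (hP hg) m).1 hm
  have h1 : ∀ u : F, slE a c u ∈ M := fun u => hZM ((hZ _).2 ⟨u, by
    simp [stA_slE.zero hbc.ne, stA_slE.zero hab.ne]⟩)
  have hay : a ≠ y := fun e => by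
    have e1 : 1 = y.val := congrArg Fin.val e
    have := Fin.lt_def.1 hxy
    exact hx (Fin.ext (show x.val = 0 by omega))
  have h2 : slE a y t ∈ M := by
    by_cases e : c = y
    · exact e ▸ h1 t
    have h3 := mul_mem (h1 t) (hN _ (SL2.slE_mem_P e hy (1 : F)) _ (inv_mem (h1 t)))
    rwa [← mul_assoc, ← mul_assoc, stA_slE.comm a c y hac.ne e hay, mul_one, mul_inv_cancel_right,
      mul_inv_cancel_right] at h3
  by_cases e : x = a
  · exact e ▸ h2
  have h3 := mul_mem (hN _ (SL2.slE_mem_P e ha (1 : F)) _ h2) (inv_mem h2)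
  rwa [stA_slE.comm x a y e hay hxy.ne, one_mul, mul_inv_cancel_right, mul_inv_cancel_right] at h3

end sl

end Cfsg.Lib.CKS
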