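import Cfsg.Agent.CKS.SUX

/-!
# Doubly transitive actions: the transvection group of `SU`
-/

set_option autoImplicit false
set_option quotPrecheck false

namespace Cfsg.Lib.CKS

open MulAction Cfsg.Lib.Chev Cfsg.Lib.Class Subgroup Matrix Module

section su
variable (k : ℕ) {F : Type} [Field F] [Fintype F] {q : ℕ} (hF : Fintype.card F = q ^ 2)
  (p : ℕ) [Fact p.Prime] [CharP F p]
local notation "TT" => suTw (k + 2) (frobq_ne_id hF) (frobq_frobq hF)
local notation "KK" => (TT).G1
local notation "ZZ" => (slZ k F).subgroupOf KK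
local notation "PP" => (slP k F).subgroupOf KK

theorem su_rt0 (hk : 1 ≤ k) : ∃ m, RT0 p q m PP ZZ ∧
    m * (q ^ 2 - 1) + 1 = Form.normCount (k + 3) F q 0 := by
  obtain ⟨e, he, -⟩ := SUx.exists_equiv hF (n := k + 2) (by omega)
  obtain ⟨h1, h2⟩ := SUx.rt0_Zs (herm_antiForm hF) hF p (SUx.iso_single hF SUx.rev_ne)
    (by simp) (Module.finrank_fin_fun F (n := k + 3)) (by omega)
  rw [SUx.Z_eq he, SUx.P_eq he]
  exact ⟨_, SUx.rt0_comap e h1, h2⟩

end su

end Cfsg.Lib.CKS
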