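import Cfsg.Agent.CKS.SUX

/-!
# Doubly transitive actions: the Heisenberg radical in `SU`
-/

set_option autoImplicit false
set_option quotPrecheck false

namespace Cfsg.Lib.CKS

open MulAction Cfsg.Lib.Chev Cfsg.Lib.Class Subgroup Matrix Module

section su
variable (k : ℕ) {F : Type} [Field F] [Fintype F] {q : ℕ} (hF : Fintype.card F = q ^ 2)
local notation "TT" => suTw (k + 2) (frobq_ne_id hF) (frobq_frobq hF)
local notation "KK" => (TT).G1
local notation "ZZ" => (slZ k F).subgroupOf KK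
local notation "QQ" => ((slGr (k + 2) F).rgd.UJ {0, Fin.last (k + 1)}ᶜ).subgroupOf KK

theorem su_heis (hk : 1 ≤ k) : Heis QQ ZZ (q ^ (k + 1)) := by
  obtain ⟨e, he, he'⟩ := SUx.exists_equiv hF (n := k + 2) (by omega)
  rw [SUx.Z_eq he, SUx.Q_eq he']
  exact SUx.heis_comap e (SUx.heis_Qs _ hF _ (by simp) (Module.finrank_fin_fun F))

end su

end Cfsg.Lib.CKS
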