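import Cfsg.Agent.CKS.SL1

/-!
# The derived group of the Sylow subgroup of `SU`
-/

set_option autoImplicit false
set_option quotPrecheck false

namespace Cfsg.Lib.CKS

open Cfsg.Lib.Chev Cfsg.Lib.Class Subgroup Matrix
open scoped commutatorElement

namespace SU3

section ht
variable {d : ℕ} {F : Type} [Field F] {M N : Matrix (Fin d) (Fin d) F} {c i j : ℕ}

/-- All entries of height less than `c` vanish. -/
def Ht (c : ℕ) (M : Matrix (Fin d) (Fin d) F) : Prop :=
  ∀ a b : Fin d, b.val < a.val + c → M a b = 0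

/-- The rows before `r` vanish. -/
def Rw (r : ℕ) (M : Matrix (Fin d) (Fin d) F) : Prop := ∀ a b : Fin d, a.val < r → M a b = 0

theorem Ht_eq_1' : type_of% @Ht.eq_1 := @Ht.eq_1
theorem Rw_eq_1' : type_of% @Rw.eq_1 := @Rw.eq_1

theorem Ht.mono (h : Ht c M) (e : i ≤ c) : Ht i M := fun a b hb => h a b (by omega)

theorem Ht.add (h : Ht c M) (h' : Ht c N) : Ht c (M + N) := fun a b hb => by
  rw [Matrix.add_apply, h a b hb, h' a b hb, add_zero]

theorem Ht.sub (h : Ht c M) (h' : Ht c N) : Ht c (M - N) := fun a b hb => by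
  rw [Matrix.sub_apply, h a b hb, h' a b hb, sub_zero]

theorem Ht.mul (h : Ht i M) (h' : Ht j N) : Ht (i + j) (M * N) := fun a b hb => by
  rw [mul_apply]
  refine Finset.sum_eq_zero fun m _ => ?_
  by_cases e : m.val < a.val + i
  · rw [h a m e, zero_mul]
  · rw [h' m b (by omega), mul_zero]

theorem Ht.entry (h : Ht i M) (h' : Ht j N) {a m b : Fin d} (e : m.val = a.val + i)
    (e' : b.val = a.val + i + j) : (M * N) a b = M a m * N m b := by
  rw [mul_apply]
  refine Finset.sum_eq_single m (fun x _ hx => ?_) (by simp)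
  have := Fin.val_ne_of_ne hx
  by_cases e : x.val < a.val + i
  · rw [h a x e, zero_mul]
  · rw [h' x b (by omega), mul_zero]

theorem mul_sub (M N : Matrix (Fin d) (Fin d) F) :
    M * N - 1 = (M - 1) * (N - 1) + ((M - 1) + (N - 1)) := by noncomm_ring

theorem Ht.gmul (h : Ht c (M - 1)) (h' : Ht c (N - 1)) : Ht c (M * N - 1) := by
  rw [mul_sub]; exact ((h.mul h').mono (by omega)).add (h.add h')

theorem Ht.lead (h : Ht c (M - 1)) (h' : Ht c (N - 1)) (hc : 1 ≤ c) {a b : Fin d}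
    (e : b.val = a.val + c) : (M * N - 1) a b = (M - 1) a b + (N - 1) a b := by
  rw [mul_sub, Matrix.add_apply, (h.mul h') a b (by omega), zero_add, Matrix.add_apply]

theorem Ht.adj (φ : F →+* F) (h : Ht c M) : Ht c (adjM φ M) := fun a b hb => by
  rw [adjM_apply, h _ _ (by have := a.2; have := b.2; simp only [Fin.val_rev]; omega), map_zero]

theorem Rw.mul {r : ℕ} (h : Rw r M) (N : Matrix (Fin d) (Fin d) F) : Rw r (M * N) :=
  fun a b ha => by simp only [mul_apply, h a _ ha, zero_mul, Finset.sum_const_zero]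

theorem Rw.add {r : ℕ} (h : Rw r M) (h' : Rw r N) : Rw r (M + N) := fun a b hb => by
  rw [Matrix.add_apply, h a b hb, h' a b hb, add_zero]

theorem Rw.sub {r : ℕ} (h : Rw r M) (h' : Rw r N) : Rw r (M - N) := fun a b hb => by
  rw [Matrix.sub_apply, h a b hb, h' a b hb, sub_zero]

theorem Rw.gmul {r : ℕ} (h : Rw r (M - 1)) (h' : Rw r (N - 1)) : Rw r (M * N - 1) := by
  rw [mul_sub]; exact (h.mul _).add (h.add h')

theorem Rw.mono {r s : ℕ} (h : Rw r M) (e : s ≤ r) : Rw s M := fun a b hb => h a b (by omega)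

theorem slE_sub {a b : Fin d} (h : a ≠ b) (t : F) : (slE a b t).1 - 1 = single a b t := by
  rw [coe_slE h, add_sub_cancel_left]

theorem ht_slE {a b : Fin d} (h : a ≠ b) (e : a.val + c ≤ b.val) (t : F) :
    Ht c ((slE a b t).1 - 1) := fun x y hy => by
  rw [slE_sub h]
  exact single_apply_of_ne _ _ _ _ _ (by rintro ⟨rfl, rfl⟩; omega)

theorem rw_slE {a b : Fin d} (h : a ≠ b) {r : ℕ} (e : r ≤ a.val) (t : F) :
    Rw r ((slE a b t).1 - 1) := fun x y hy => by
  rw [slE_sub h]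
  exact single_apply_of_ne _ _ _ _ _ (by rintro ⟨rfl, rfl⟩; omega)

variable {φ : F →+* F} {g x y : SpecialLinearGroup (Fin d) F}

theorem coe_inv (hg : suσ φ g = g) : (g⁻¹).1 = adjM φ g.1 := by
  have : suσ φ g⁻¹ = g⁻¹ := by rw [map_inv, hg]
  rw [← this, coe_suσ, inv_inv]

theorem ht_inv (hg : suσ φ g = g) (h : Ht c (g.1 - 1)) : Ht c ((g⁻¹).1 - 1) := by
  rw [coe_inv hg, adjM_sub_one]; exact h.adj φ

theorem lead_inv (hg : suσ φ g = g) (h : Ht c (g.1 - 1)) (hc : 1 ≤ c) {a b : Fin d}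
    (e : b.val = a.val + c) : ((g⁻¹).1 - 1) a b = -(g.1 - 1) a b := by
  have h1 := (ht_inv hg h).lead h hc e
  have h2 : (g⁻¹).1 * g.1 = 1 := congrArg Subtype.val (inv_mul_cancel g)
  rw [h2, sub_self, Matrix.zero_apply] at h1
  linear_combination -h1

theorem lead_rev (h2 : ∀ a, φ (φ a) = a) (hg : suσ φ g = g) (h : Ht c (g.1 - 1)) (hc : 1 ≤ c)
    {a b : Fin d} (e : b.val = a.val + c) : (g.1 - 1) b.rev a.rev = -φ ((g.1 - 1) a b) := by
  have h1 := lead_inv hg h hc e
  rw [coe_inv hg, adjM_sub_one, adjM_apply] at h1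
  rw [← map_neg, ← h1, h2]

theorem comm_sub (x y : SpecialLinearGroup (Fin d) F) : (⁅x, y⁆).1 - 1 =
    ((x.1 - 1) * (y.1 - 1) - (y.1 - 1) * (x.1 - 1)) * ((x⁻¹).1 * (y⁻¹).1) := by
  have h1 : x.1 * (x⁻¹).1 = 1 := congrArg Subtype.val (mul_inv_cancel x)
  have h2 : y.1 * (y⁻¹).1 = 1 := congrArg Subtype.val (mul_inv_cancel y)
  have h3 : (x.1 - 1) * (y.1 - 1) - (y.1 - 1) * (x.1 - 1) = x.1 * y.1 - y.1 * x.1 := by
    noncomm_ring
  have h4 : (⁅x, y⁆).1 = x.1 * y.1 * (x⁻¹).1 * (y⁻¹).1 := rfl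
  rw [h3, h4, sub_mul, mul_assoc y.1, ← mul_assoc x.1 (x⁻¹).1, h1, one_mul, h2, mul_assoc (_ * _)]

theorem comm_lead (hx : suσ φ x = x) (hy : suσ φ y = y) (h : Ht i (x.1 - 1))
    (h' : Ht j (y.1 - 1)) (hi : 1 ≤ i) (hj : 1 ≤ j) : Ht (i + j) ((⁅x, y⁆).1 - 1) ∧
    ∀ a m m' b : Fin d, m.val = a.val + i → m'.val = a.val + j → b.val = a.val + i + j →
      ((⁅x, y⁆).1 - 1) a b = (x.1 - 1) a m * (y.1 - 1) m b - (y.1 - 1) a m' * (x.1 - 1) m' b := by
  have h1 : Ht (i + j) ((x.1 - 1) * (y.1 - 1) - (y.1 - 1) * (x.1 - 1)) :=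
    (h.mul h').sub ((h'.mul h).mono (by omega))
  have h2 : Ht 1 ((x⁻¹).1 * (y⁻¹).1 - 1) := ((ht_inv hx h).mono hi).gmul ((ht_inv hy h').mono hj)
  have h3 := h1.mul h2
  rw [comm_sub, ← sub_add_cancel ((x⁻¹).1 * (y⁻¹).1) 1, mul_add, mul_one]
  refine ⟨(h3.mono (by omega)).add h1, fun a m m' b e1 e2 e3 => ?_⟩
  rw [Matrix.add_apply, h3 a b (by omega), zero_add, Matrix.sub_apply, h.entry h' e1 e3,
    h'.entry h e2 (by omega)]

theorem comm_rw {r : ℕ} (h : Rw r (x.1 - 1)) (h' : Rw r (y.1 - 1)) : Rw r ((⁅x, y⁆).1 - 1) := by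
  rw [comm_sub]; exact ((h.mul _).sub (h'.mul _)).mul _

theorem exists_el (h1 : φ ≠ RingHom.id F) (h2 : ∀ a, φ (φ a) = a) {a b : Fin d} (hc : 1 ≤ c)
    (e : b.val = a.val + c) (hb : a.val + b.val < d) {t : F} (ht : b = a.rev → t + φ t = 0) :
    ∃ x : SpecialLinearGroup (Fin d) F, suσ φ x = x ∧ Ht c (x.1 - 1) ∧ Rw a.val (x.1 - 1) ∧
      (x.1 - 1) a b = t := by
  have hab : a ≠ b := Fin.ne_of_val_ne (by omega)
  by_cases e0 : b = a.rev
  · refine ⟨slE a b t, ?_, ht_slE hab e.ge t, rw_slE hab le_rfl t, by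
      rw [slE_sub hab, single_apply_same]⟩
    rw [suσ_slE φ hab, show -φ t = t by linear_combination -ht e0, ← e0, e0, Fin.rev_rev]
  have ra : a.rev.val = d - (a.val + 1) := Fin.val_rev a
  have rb : b.rev.val = d - (b.val + 1) := Fin.val_rev b
  have e1 : b.val ≠ a.rev.val := Fin.val_ne_of_ne e0
  have haa : a ≠ a.rev := Fin.ne_of_val_ne (by omega)
  have hba : b.rev ≠ a.rev := Fin.ne_of_val_ne (by omega)
  obtain ⟨u, hu⟩ : ∃ u : F, suσ φ (slE a b t * slE b.rev a.rev (-φ t) * slE a a.rev u) =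
      slE a b t * slE b.rev a.rev (-φ t) * slE a a.rev u := by
    simp only [map_mul, suσ_slE φ hab, suσ_slE φ hba, suσ_slE φ haa, Fin.rev_rev, map_neg, h2,
      neg_neg]
    by_cases e2 : b = b.rev
    · obtain ⟨u, hu⟩ := Form.exists_trace_eq h1 h2 (n := t * φ t) (by rw [map_mul, h2, mul_comm])
      refine ⟨u, ?_⟩
      rw [← e2, stA_slE.comm a b a.rev hab e0 haa,
        (stA_slE.commute a a.rev b a.rev haa e0 (Ne.symm e0) haa _ _).eq, mul_assoc _ _ (slE a b t),
        (stA_slE.commute a a.rev a b haa hab haa.symm hab _ _).eq, ← mul_assoc,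
        mul_assoc _ _ (slE a a.rev u), stA_slE.add _ _ haa]
      congr 2
      linear_combination -hu
    · refine ⟨0, ?_⟩
      rw [map_zero, neg_zero, (stA_slE.commute a b b.rev a.rev hab hba e2 haa _ _).eq]
  have k1 := ht_slE (c := c) hab e.ge t
  have k2 := ht_slE (c := c) hba (by omega) (-φ t)
  have k3 := ht_slE (c := c) haa (by omega) u
  refine ⟨_, hu, (k1.gmul k2).gmul k3, ((rw_slE hab le_rfl t).gmul
    (rw_slE hba (by omega) _)).gmul (rw_slE haa le_rfl u), ?_⟩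
  refine ((k1.gmul k2).lead k3 hc e).trans ?_
  rw [k1.lead k2 hc e, slE_sub hab, slE_sub hba, slE_sub haa, single_apply_same,
    single_apply_of_ne _ _ _ _ _ fun h => e0 h.2.symm,
    single_apply_of_ne _ _ _ _ _ fun h => e0 h.2.symm, add_zero, add_zero]

theorem exists_cm (h1 : φ ≠ RingHom.id F) (h2 : ∀ a, φ (φ a) = a) {a b : Fin d} (hc : 1 ≤ c)
    (e : b.val = a.val + (1 + c)) (hb : a.val + b.val < d) {t : F}
    (ht : b = a.rev → t + φ t = 0) :
    ∃ x y : SpecialLinearGroup (Fin d) F, suσ φ x = x ∧ suσ φ y = y ∧ Ht 1 (x.1 - 1) ∧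
      Ht 1 (y.1 - 1) ∧ Ht (1 + c) ((⁅x, y⁆).1 - 1) ∧ Rw a.val ((⁅x, y⁆).1 - 1) ∧
      ((⁅x, y⁆).1 - 1) a b = t := by
  have ra : a.rev.val = d - (a.val + 1) := Fin.val_rev a
  let m : Fin d := ⟨a.val + 1, by omega⟩
  let m' : Fin d := ⟨a.val + c, by omega⟩
  have em : m.val = a.val + 1 := rfl
  have em' : m'.val = a.val + c := rfl
  have hm : m ≠ a.rev := Fin.ne_of_val_ne (by omega)
  by_cases e0 : b = a.rev
  · obtain ⟨u, hu⟩ := Form.exists_trace_eq h1 h2 (n := 1) (map_one φ)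
    have e1 := congrArg Fin.val e0
    obtain ⟨x, x1, x2, x3, x4⟩ := exists_el h1 h2 le_rfl em (by omega) (t := -(u * t))
      fun h => (hm h).elim
    obtain ⟨y, y1, y2, y3, y4⟩ := exists_el h1 h2 hc em' (by omega) (t := 1)
      fun h => absurd (congrArg Fin.val h) (by omega)
    obtain ⟨k1, k2⟩ := comm_lead x1 y1 x2 y2 le_rfl hc
    refine ⟨x, y, x1, y1, x2, y2.mono hc, k1, comm_rw x3 y3, ?_⟩
    have r1 : m'.rev = m := Fin.ext (by rw [Fin.val_rev]; omega)
    have r2 : m.rev = m' := by rw [← r1, Fin.rev_rev]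
    have l1 := lead_rev h2 x1 x2 le_rfl em
    have l2 := lead_rev h2 y1 y2 hc em'
    rw [r2, ← e0, x4] at l1
    rw [r1, ← e0, y4] at l2
    rw [k2 a m m' b em em' (by omega), l1, l2, x4, y4]
    simp only [map_neg, map_mul, map_one]
    linear_combination t * hu - φ u * ht e0
  · obtain ⟨δ, d0, d1⟩ := Form.exists_trace_zero h1 h2
    have e1 : b.val ≠ a.rev.val := Fin.val_ne_of_ne e0
    obtain ⟨x, x1, x2, x3, x4⟩ := exists_el h1 h2 le_rfl em (by omega) (t := t * δ⁻¹)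
      fun h => (hm h).elim
    obtain ⟨y, y1, y2, y3, y4⟩ := exists_el (a := m) (b := b) h1 h2 hc (by omega) (by omega)
      (t := δ) fun _ => by linear_combination d1
    obtain ⟨k1, k2⟩ := comm_lead x1 y1 x2 y2 le_rfl hc
    refine ⟨x, y, x1, y1, x2, y2.mono hc, k1, comm_rw x3 (y3.mono (by omega)), ?_⟩
    rw [k2 a m m' b em em' (by omega), x4, y4, y3 a m' (by omega), zero_mul, sub_zero,
      inv_mul_cancel_right₀ d0]

theorem key (h1 : φ ≠ RingHom.id F) (h2 : ∀ a, φ (φ a) = a)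
    {Y : Subgroup (SpecialLinearGroup (Fin d) F)}
    (hY : ∀ g, suσ φ g = g → Ht 1 (g.1 - 1) → g ∈ Y) :
    ∀ (n c : ℕ), d ≤ c + n → 1 ≤ c → ∀ g : SpecialLinearGroup (Fin d) F, suσ φ g = g →
      Ht (1 + c) (g.1 - 1) → g ∈ ⁅Y, Y⁆ := by
  intro n
  induction n with
  | zero =>
    intro c hd _ g _ hg
    have : g = 1 := Subtype.ext (sub_eq_zero.1 (Matrix.ext fun a b => hg a b (by omega)))
    exact this ▸ one_mem _
  | succ n ih =>
    intro c hd hc
    have H : ∀ (l r : ℕ), d ≤ r + l → ∀ g : SpecialLinearGroup (Fin d) F, suσ φ g = g →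
        Ht (1 + c) (g.1 - 1) → (∀ a b : Fin d, a.val < r → b.val = a.val + (1 + c) →
          (g.1 - 1) a b = 0) → g ∈ ⁅Y, Y⁆ := by
      intro l
      induction l with
      | zero =>
        intro r hr g g1 g2 g3
        refine ih (c + 1) (by omega) (by omega) g g1 fun a b hb => ?_
        by_cases e : b.val = a.val + (1 + c)
        · exact g3 a b (by omega) e
        · exact g2 a b (by omega)
      | succ l ih' =>
        intro r hr g g1 g2 g3
        by_cases hz : ∀ a b : Fin d, a.val = r → b.val = a.val + (1 + c) → (g.1 - 1) a b = 0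
        · refine ih' (r + 1) (by omega) g g1 g2 fun a b ha hb => ?_
          by_cases e : a.val = r
          · exact hz a b e hb
          · exact g3 a b (by omega) hb
        push Not at hz
        obtain ⟨a, b, ha, hb, hz⟩ := hz
        have l1 := lead_rev h2 g1 g2 (by omega) hb
        have ra : a.rev.val = d - (a.val + 1) := Fin.val_rev a
        have rb : b.rev.val = d - (b.val + 1) := Fin.val_rev b
        have hd' : a.val + b.val < d := by
          by_contra hlt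
          rw [g3 _ _ (by omega) (by omega), eq_comm, neg_eq_zero, map_eq_zero] at l1
          exact hz l1
        obtain ⟨x, y, x1, y1, x2, y2, k1, k2, k3⟩ := exists_cm h1 h2 hc hb hd'
          (t := (g.1 - 1) a b) fun h => by
            rw [← h, h, Fin.rev_rev, ← h] at l1
            linear_combination l1
        have z1 : suσ φ ⁅x, y⁆ = ⁅x, y⁆ := by rw [map_commutatorElement, x1, y1]
        have hm := commutator_mem_commutator (hY x x1 x2) (hY y y1 y2)
        rw [← mul_mem_cancel_right (inv_mem hm)]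
        refine ih' (r + 1) (by omega) _ (by rw [map_mul, map_inv, g1, z1])
          (g2.gmul (ht_inv z1 k1)) fun a' b' ha' hb' => ?_
        refine (g2.lead (ht_inv z1 k1) (by omega) hb').trans ?_
        rw [lead_inv z1 k1 (by omega) hb']
        by_cases e : a'.val = r
        · obtain rfl : a' = a := Fin.ext (by omega)
          obtain rfl : b' = b := Fin.ext (by omega)
          rw [k3, add_neg_cancel]
        · rw [g3 a' b' (by omega) hb', k2 a' b' (by omega), neg_zero, add_zero]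
    exact fun g g1 g2 => H d 0 (by omega) g g1 g2 fun a b h => absurd h (by omega)

end ht

variable {n : ℕ} {F : Type} [Field F]

/-- The height functional. -/
noncomputable def ψ (n : ℕ) : (Fin (n + 1) → ℤ) →ₗ[ℤ] ℤ :=
  ∑ a : Fin (n + 1), (-(a.val : ℤ)) • LinearMap.proj a

theorem ψ_eq_1' : type_of% @ψ.eq_1 := @ψ.eq_1

theorem ψ_single (a : Fin (n + 1)) : ψ n (Pi.single a 1) = -(a.val : ℤ) := by
  simp [ψ, Pi.single_apply]

theorem mem_iff (c : ℕ) {g : SpecialLinearGroup (Fin (n + 1)) F} :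
    g ∈ unS (slGr n F).wt (slGr n F).ρ (gtS (ψ n) c) ↔ Ht (c + 1) (g.1 - 1) := by
  rw [mem_unS]
  refine forall₂_congr fun a b => ?_
  rw [slGr_wt, slGr_wt, SetLike.mem_coe, mem_gtS, map_sub, ψ_single, ψ_single, slGr_ρ,
    not_imp_comm, iff_eq_eq]
  congr 1
  exact propext ⟨fun _ => by omega, fun _ => by omega⟩

theorem mem_U {g : SpecialLinearGroup (Fin (n + 1)) F} (h : Ht 1 (g.1 - 1)) :
    g ∈ (slGr n F).rgd.U := by
  have := (slGr n F).mem_spanX (ψ := ψ n) (fun d hd => by simpa using mem_gtS.1 hd)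
    ((mem_iff 0).2 h)
  refine spanX_le_iff.2 (fun r hr => ?_) this
  obtain ⟨a, b, hab, rfl⟩ := mem_typeA'.1 hr.1
  have h3 := mem_gtS.1 hr.2
  rw [map_sub, ψ_single, ψ_single] at h3
  exact (slGr n F).rgd.X_le_U ((SL1.pos_iff hab).2 (Fin.lt_def.2 (by omega)))

theorem gen {φ : F →+* F} (h1 : φ ≠ RingHom.id F) (h2 : ∀ a, φ (φ a) = a) :
    Gen (suTw n h1 h2) := by
  intro g hg
  refine key h1 h2 (fun x hx hx' => mem_inf.2
    ⟨mem_U hx', (mem_suTw_F h1 h2).2 ((suσ_eq_iff φ).1 hx)⟩)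
    (n + 1) 1 (by omega) le_rfl g ((suσ_eq_iff φ).2 ((mem_suTw_F h1 h2).1 hg.2)) ?_
  refine (mem_iff 1).1 ((slGr n F).spanX_le_unS (fun r hr => ?_) hg.1)
  obtain ⟨a, b, hab, rfl⟩ := mem_typeA'.1 hr.1.1
  have h3 := Fin.lt_def.1 ((SL1.pos_iff hab).1 hr.1)
  rw [mem_gtS, map_sub, ψ_single, ψ_single]
  by_contra h4
  let i : Fin n := ⟨a.val, by have := b.2; omega⟩
  refine hr.2 i ?_
  have : (Pi.single a 1 - Pi.single b 1 : Fin (n + 1) → ℤ) = (Chev.typeA n).weyl.simple i := by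
    change _ = (Chev.typeA n).α i
    rw [typeA_α', show i.castSucc = a from rfl,
      show i.succ = b from Fin.ext (by simp only [i, Fin.val_succ]; omega)]
  rw [this]
  exact (Chev.typeA n).weyl.inJ_simple_iff.2 ((symA n).self_mem_orb i)

end SU3

section su
variable (k : ℕ) {F : Type} [Field F] [Fintype F] {q : ℕ} (hF : Fintype.card F = q ^ 2)
local notation "TT" => suTw (k + 2) (frobq_ne_id hF) (frobq_frobq hF)

set_option linter.unusedVariables false in
theorem su_gen (hk : 1 ≤ k) : Gen TT := SU3.gen _ _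

end su

end Cfsg.Lib.CKS
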