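import Cfsg.Agent.CKS.Def4

/-!
# Doubly transitive actions: the transvection group of a Hermitian space
-/

set_option autoImplicit false

namespace Cfsg.Lib.CKS.SUx

open MulAction Cfsg.Lib.Chev Cfsg.Lib.Class Subgroup Module Form MD

section tr
variable {G H : Type*} [Group G] [Group H] (e : G ≃* H)

theorem card_comap (Z : Subgroup H) : Nat.card (Z.comap e.toMonoidHom) = Nat.card Z :=
  Nat.card_congr (e.toEquiv.subtypeEquiv fun _ => Iff.rfl)

theorem rt0_comap {r q m : ℕ} {P Z : Subgroup H} (h : RT0 r q m P Z) :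
    RT0 r q m (P.comap e.toMonoidHom) (Z.comap e.toMonoidHom) := by
  have hn : normalizer (Z.comap e.toMonoidHom : Set G) = P.comap e.toMonoidHom := by
    rw [← h.nz]
    ext g
    simp only [mem_normalizer_iff, mem_comap, e.surjective.forall, map_mul, map_inv,
      MulEquiv.coe_toMonoidHom]
  refine ⟨h.pg.comap_of_injective _ e.injective, (card_comap e Z).trans h.card, h.one_lt, hn,
    fun g x hx h1 h2 => ?_, (index_comap_of_surjective _ e.surjective).trans h.idx,
    fun z hz hc => e.injective ?_⟩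
  · rw [hn, mem_comap, ← h.nz]
    exact h.ti _ _ hx (fun e' => h1 (e.injective (by rw [map_one]; exact e'))) (by simpa using h2)
  · rw [map_one]
    refine h.nc _ hz (mem_center_iff.2 fun y => ?_)
    obtain ⟨y, rfl⟩ := e.surjective y
    rw [← map_mul, ← map_mul, mem_center_iff.1 hc]

theorem heis_comap {a : ℕ} {Q Z : Subgroup H} (h : Heis Q Z a) :
    Heis (Q.comap e.toMonoidHom) (Z.comap e.toMonoidHom) a := by
  refine ⟨comap_mono h.le, fun z hz x hx => e.injective ?_, fun x hx y hy => ?_,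
    fun x hx hx' z hz => ?_, by rw [card_comap, card_comap, h.card]⟩
  · rw [map_mul, map_mul]
    exact h.cen _ hz _ hx
  · simpa using h.com _ hx _ hy
  · obtain ⟨y, hy, h1⟩ := h.full _ hx hx' _ hz
    obtain ⟨y, rfl⟩ := e.surjective y
    exact ⟨y, hy, e.injective (by simpa using h1)⟩

end tr

variable {F V : Type*} [Field F] [AddCommGroup V] [Module F V] {σ : F →+* F}
  {B : V →ₛₗ[σ] V →ₗ[F] F} [FiniteDimensional F V] (h : Herm B)

/-- The transvections with centre `x`. -/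
def Zs (x : V) : Subgroup (sIsom B) where
  carrier := {g | ∃ b, b + σ b = 0 ∧ g = ue h x 0 b}
  one_mem' := ⟨0, by simp, (ue_zero h x).symm⟩
  mul_mem' := by
    rintro _ _ ⟨b, hb, rfl⟩ ⟨c, hc, rfl⟩
    exact ⟨b + c, (trZ σ).add_mem hb hc, (ue_zero_add h x hb hc).symm⟩
  inv_mem' := by
    rintro _ ⟨b, hb, rfl⟩
    refine ⟨-b, (trZ σ).neg_mem hb, inv_eq_of_mul_eq_one_right ?_⟩
    rw [← ue_zero_add h x hb ((trZ σ).neg_mem hb), add_neg_cancel, ue_zero]

/-- The Eichler elements with centre `x`. -/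
def Qs {x : V} (hx : B x x = 0) : Subgroup (sIsom B) where
  carrier := {g | ∃ w b, UOk B x w b ∧ g = ue h x w b}
  one_mem' := ⟨0, 0, UOk.zero hx (by simp), (ue_zero h x).symm⟩
  mul_mem' := by
    rintro _ _ ⟨w, b, hb, rfl⟩ ⟨w', c, hc, rfl⟩
    exact ⟨_, _, hb.add h hc, ue_mul h hb hc⟩
  inv_mem' := by
    rintro _ ⟨w, b, hb, rfl⟩
    exact ⟨_, _, hb.neg h, ue_inv h hb⟩

variable (B) in
/-- The stabiliser of the line through `x`. -/
def Ps (x : V) : Subgroup (sIsom B) where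
  carrier := {g | ∃ l : F, l ≠ 0 ∧ g.1.1 x = l • x}
  one_mem' := ⟨1, one_ne_zero, (one_smul _ _).symm⟩
  mul_mem' := by
    rintro g g' ⟨l, hl, e⟩ ⟨l', hl', e'⟩
    exact ⟨l' * l, mul_ne_zero hl' hl, by rw [s_mul, e', map_smul, e, smul_smul]⟩
  inv_mem' := by
    rintro g ⟨l, hl, e⟩
    exact ⟨l⁻¹, inv_ne_zero hl, s_inv_of_smul hl e⟩

theorem Zs_eq_1' : type_of% @Zs.eq_1 := @Zs.eq_1
theorem Qs_eq_1' : type_of% @Qs.eq_1 := @Qs.eq_1
theorem Ps_eq_1' : type_of% @Ps.eq_1 := @Ps.eq_1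

variable {x y w w' : V} {b b' : F}

theorem mem_Zs {g : sIsom B} : g ∈ Zs h x ↔ ∃ b, b + σ b = 0 ∧ g = ue h x 0 b := Iff.rfl

theorem mem_Qs (hx : B x x = 0) {g : sIsom B} :
    g ∈ Qs h hx ↔ ∃ w b, UOk B x w b ∧ g = ue h x w b := Iff.rfl

omit [FiniteDimensional F V] in
theorem mem_Ps {g : sIsom B} : g ∈ Ps B x ↔ ∃ l : F, l ≠ 0 ∧ g.1.1 x = l • x := Iff.rfl

theorem ue_comm (H : UOk B x w b) (H' : UOk B x w' b') :
    ue h x w b * ue h x w' b' * (ue h x w b)⁻¹ * (ue h x w' b')⁻¹ =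
      ue h x 0 (B w w' - B w' w) := by
  have K : UOk B x 0 (B w w' - B w' w) := UOk.zero H.hx (by rw [map_sub, h.conj, h.conj]; ring)
  rw [mul_inv_eq_iff_eq_mul, mul_inv_eq_iff_eq_mul, mul_assoc, ue_mul h H H', ue_mul h H' H,
    ue_mul h K (H'.add h H), zero_add, add_comm w' w]
  congr 1
  simp only [map_zero, LinearMap.zero_apply]
  ring

omit [FiniteDimensional F V] in
theorem sub_theta {z : F} (hz : z + σ z = 0) : theta h * z - σ (theta h * z) = z := by
  rw [map_mul, trZ_neg hz]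
  linear_combination z * theta_spec h

variable [Fintype F] {q : ℕ} (hF : Fintype.card F = q ^ 2)
include hF

theorem card_Zs (hx : B x x = 0) (hx0 : x ≠ 0) : Nat.card (Zs h x) = q := by
  obtain ⟨y, -, hy⟩ := exists_orthU_eq h (l := []) (x := x) (by simpa [spanL] using hx0) 1
  rw [← card_trZ hF h]
  symm
  refine Nat.card_eq_of_bijective (fun b => ⟨ue h x 0 b.1, b.1, b.2, rfl⟩) ⟨fun b c e => ?_, ?_⟩
  · have := congrArg (fun g : Zs h x => g.1.1.1 y) e
    simp only [ue_zero_apply h hx b.2, ue_zero_apply h hx c.2, hy, mul_one, sub_right_inj] at this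
    exact Subtype.ext (smul_left_injective F hx0 this)
  · rintro ⟨_, b, hb, rfl⟩
    exact ⟨⟨b, hb⟩, rfl⟩

theorem card_Qs (hx : B x x = 0) (hx0 : x ≠ 0) {n : ℕ} (hn : finrank F V = n + 2) :
    Nat.card (Qs h hx) = (q ^ n) ^ 2 * q := by
  have : Finite V := Module.finite_of_finite F
  obtain ⟨y, -, hy, hxy⟩ := exists_partnerU h (l := []) hx (by simpa [spanL] using hx0) (by simp)
  have hyx : B y x = 1 := by rw [hconj h hxy, map_one]
  let f : V →ₗ[F] F × F := (B x).prod (B y)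
  have h1 : LinearMap.range f = ⊤ := LinearMap.range_eq_top.2 fun c =>
    ⟨c.1 • y + c.2 • x, by simp [f, hx, hy, hxy, hyx]⟩
  have h2 := f.finrank_range_add_finrank_ker
  rw [h1, finrank_top, hn, Module.finrank_prod, Module.finrank_self] at h2
  have h3 : Nat.card (LinearMap.ker f) = (q ^ n) ^ 2 := by
    rw [Module.natCard_eq_pow_finrank (K := F), Nat.card_eq_fintype_card, hF,
      show finrank F (LinearMap.ker f) = n by omega, ← pow_mul, ← pow_mul, mul_comm]
  have h4 : ∀ w : LinearMap.ker f, B x w = 0 ∧ B y w = 0 := fun w => by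
    have := w.2
    rw [LinearMap.mem_ker] at this
    exact ⟨congrArg Prod.fst this, congrArg Prod.snd this⟩
  have h5 : ∀ (w : LinearMap.ker f) (c : trZ σ), UOk B x w (theta h * B w w + c) := fun w c =>
    ⟨hx, (h4 w).1, by
      have := (UOk.theta h hx (h4 w).1).hb
      have := c.2
      rw [mem_trZ] at this
      rw [map_add]
      linear_combination ‹_ + σ (_ * _) = _› + this⟩
  rw [← h3, ← card_trZ hF h, ← Nat.card_prod]
  symm
  refine Nat.card_eq_of_bijective (fun c => ⟨ue h x c.1 _, _, _, h5 c.1 c.2, rfl⟩)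
    ⟨fun c d e => ?_, ?_⟩
  · have e1 := congrArg (fun g : Qs h hx => g.1.1.1 y) e
    simp only [ue_apply h (h5 _ _), hxy, h.comm (h4 _).2, one_smul, mul_one, zero_add] at e1
    have e2 := congrArg (B y) e1
    simp only [map_sub, map_add, map_smul, (h4 _).2, hyx, smul_eq_mul, mul_one, sub_right_inj] at e2
    rw [e2, sub_left_inj, add_right_inj] at e1
    rw [e1, add_right_inj] at e2
    exact Prod.ext (Subtype.ext e1) (Subtype.ext e2)
  · rintro ⟨_, w, b, hb, rfl⟩
    have K := hb.add_smul h (-B y w)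
    refine ⟨⟨⟨w + -B y w • x, LinearMap.mem_ker.2 (Prod.ext K.hw (by simp [f, hyx]))⟩,
      ⟨b + -B y w - σ (-B y w) - theta h * B (w + -B y w • x) (w + -B y w • x), ?_⟩⟩,
      Subtype.ext ?_⟩
    · rw [mem_trZ, map_sub]
      linear_combination K.hb - (UOk.theta h hx K.hw).hb
    · simp only [add_sub_cancel]
      exact ue_add_smul h hb _

theorem heis_Qs (hx : B x x = 0) (hx0 : x ≠ 0) {n : ℕ} (hn : finrank F V = n + 2) :
    Heis (Qs h hx) (Zs h x) (q ^ n) := by
  refine ⟨?_, ?_, ?_, ?_, by rw [card_Qs h hF hx hx0 hn, card_Zs h hF hx hx0]⟩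
  · rintro _ ⟨b, hb, rfl⟩
    exact ⟨0, b, UOk.zero hx hb, rfl⟩
  · rintro _ ⟨b, hb, rfl⟩ _ ⟨w, c, hc, rfl⟩
    have := ue_comm h (UOk.zero hx hb) hc
    simp only [map_zero, LinearMap.zero_apply, sub_zero, ue_zero] at this
    rwa [mul_inv_eq_one, mul_inv_eq_iff_eq_mul] at this
  · rintro _ ⟨w, b, hb, rfl⟩ _ ⟨w', c, hc, rfl⟩
    exact ⟨_, by rw [map_sub, h.conj, h.conj]; ring, ue_comm h hb hc⟩
  · rintro _ ⟨w, b, hb, rfl⟩ hw _ ⟨z, hz, rfl⟩
    have h1 : w ∉ spanL F [x] := fun K => hw (by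
      obtain ⟨t, rfl⟩ := mem_spanL_singleton.1 K
      have K := hb.add_smul h (-t)
      have e := ue_add_smul h hb (-t)
      rw [neg_smul, add_neg_cancel] at K e
      exact ⟨_, by simpa using K.hb, e.symm⟩)
    obtain ⟨v, h2, h3⟩ := exists_orthU_eq h h1 (theta h * z)
    have K := UOk.theta h hx (h2 x (by simp))
    exact ⟨_, ⟨v, _, K, rfl⟩, by rw [ue_comm h hb K, hconj h h3, h3, sub_theta h hz]⟩

theorem rt0_Zs (p : ℕ) [Fact p.Prime] [CharP F p] (hx : B x x = 0) (hx0 : x ≠ 0) {n : ℕ}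
    (hn : finrank F V = n) (h3 : 3 ≤ n) :
    RT0 p q (Ps B x).index (Ps B x) (Zs h x) ∧
      (Ps B x).index * (q ^ 2 - 1) + 1 = normCount n F q 0 := by
  have : Finite V := Module.finite_of_finite F
  have key : ∀ (g : sIsom B), ∀ z ∈ Zs h x, z ≠ 1 → g * z * g⁻¹ ∈ Zs h x → g ∈ Ps B x := by
    rintro g _ ⟨b, hb, rfl⟩ h1 ⟨c, hc, e⟩
    have hb0 : b ≠ 0 := by rintro rfl; exact h1 (ue_zero h x)
    have hg0 : g.1.1 x ≠ 0 := fun K => hx0 (g.1.1.injective (K.trans (map_zero _).symm))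
    obtain ⟨v, -, hv⟩ := exists_orthU_eq h (l := []) (x := g.1.1 x) (by simpa [spanL] using hx0) 1
    rw [ue_conj, map_zero] at e
    have e1 := congrArg (fun g : sIsom B => g.1.1 v) e
    simp only [ue_zero_apply h hx hc, ue_zero_apply h ((s_form g x x).trans hx) hb, hv, mul_one,
      sub_right_inj] at e1
    have e2 : g.1.1 x = (b⁻¹ * (c * B x v)) • x := by
      rw [mul_smul, ← e1, smul_smul, inv_mul_cancel₀ hb0, one_smul]
    exact ⟨_, fun K => hg0 (by rw [e2, K, zero_smul]), e2⟩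
  have hle : Ps B x ≤ normalizer (Zs h x : Set (sIsom B)) := le_normalizer_of_conj_mem (by
    rintro g ⟨l, hl, e⟩ _ ⟨b, hb, rfl⟩
    refine ⟨σ l * l * b, trZ_mul (by rw [map_mul, h.invol, mul_comm]) hb, ?_⟩
    rw [ue_conj, map_zero, e, ue_smul h hl, smul_zero])
  have hq := MD.two_le_of_card_sq hF
  have hc := card_Zs h hF hx hx0
  refine ⟨⟨?_, hc, hq, le_antisymm (fun g hg => ?_) hle, fun g z hz h1 h2 => hle (key g z hz h1 h2),
    rfl, ?_⟩, ?_⟩
  · rintro ⟨_, b, hb, rfl⟩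
    have h1 : ∀ j : ℕ, ue h x 0 b ^ j = ue h x 0 (j • b) := fun j => by
      induction j with
      | zero => rw [pow_zero, zero_smul, ue_zero]
      | succ j ih => rw [pow_succ, ih, succ_nsmul, ue_zero_add h x ((trZ σ).nsmul_mem hb j) hb]
    exact ⟨1, Subtype.ext (by simp [h1, ue_zero])⟩
  · have : Finite (Zs h x) := Nat.finite_of_card_ne_zero (by omega)
    have : Nontrivial (Zs h x) := Finite.one_lt_card_iff_nontrivial.1 (by omega)
    obtain ⟨⟨z, hz⟩, h1⟩ := exists_ne (1 : Zs h x)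
    exact key g z hz (fun K => h1 (Subtype.ext K)) ((mem_normalizer_iff.1 hg z).1 hz)
  · rintro _ ⟨b, hb, rfl⟩ hz
    obtain ⟨a, ha⟩ := (h.mem_center_sIsom_iff (by omega)).1 hz
    have h1 : a = 1 := smul_left_injective F hx0 (by
      simp only [one_smul]
      rw [← ha, ue_fix])
    exact sext fun v => by rw [ha, h1, one_smul, s_one]
  · have h1 : stabilizer (sIsom B) x ≤ Ps B x := fun g hg => ⟨1, one_ne_zero, by
      rw [one_smul]; exact hg⟩
    have h2 : orbit (sIsom B) x = {w | w ≠ 0 ∧ B w w = 0} := by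
      ext w
      constructor
      · rintro ⟨g, rfl⟩
        exact ⟨fun K => hx0 (g.1.1.injective (K.trans (map_zero _).symm)), (s_form g x x).trans hx⟩
      · rintro ⟨h1, h2⟩
        exact exists_SU_one h (by omega) hx0 h1 (h2.trans hx.symm)
    have h4 : (orbit (Ps B x) x).ncard = q ^ 2 - 1 := by
      rw [← hF, ← ncard_ne_zero_field]
      symm
      refine Set.ncard_congr (fun l _ => l • x) (fun l hl => ?_)
        (fun l l' _ _ e => smul_left_injective F hx0 e) ?_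
      · obtain ⟨g, hg⟩ := exists_SU_one h (by omega) hx0 (smul_ne_zero hl.1 hx0)
          (by simp [map_smulₛₗ, hx])
        exact ⟨⟨g, l, hl.1, hg⟩, hg⟩
      · rintro _ ⟨⟨g, l, hl, hg⟩, rfl⟩
        exact ⟨l, ⟨hl, by simp⟩, hg.symm⟩
    have h5 := relIndex_mul_index h1
    rw [index_stabilizer, h2, ncard_ne_zero_norm h hF hn, if_pos rfl,
      show (stabilizer (sIsom B) x).relIndex (Ps B x) = (stabilizer (Ps B x) x).index from rfl,
      index_stabilizer, h4] at h5
    have h6 : 0 < normCount n F q 0 := by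
      rw [← h.card_norm_eq hF hn]
      have : Nonempty {v : V // B v v = 0} := ⟨⟨0, by simp⟩⟩
      exact Nat.card_pos
    rw [mul_comm, h5]
    omega

end Cfsg.Lib.CKS.SUx
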