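import Cfsg.Agent.CKS.SUA
import Cfsg.Agent.Chev.MultSU

/-!
# Doubly transitive actions: coordinates in the unitary groups
-/

set_option autoImplicit false

namespace Cfsg.Lib.CKS.SUx

open MulAction Cfsg.Lib.Chev Cfsg.Lib.Class Subgroup Matrix Module Form MD

section sl
variable {n : ℕ} {F : Type} [Field F]

open Classical in
theorem ht_single (J : Set (Fin n)) (a b : Fin (n + 1)) :
    (Chev.typeA n).ht J (Pi.single a 1 - Pi.single b 1) = ∑ j ∈ Finset.univ.filter (fun j => j ∉ J),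
      ((if a.val ≤ j.val then 1 else 0) - if b.val ≤ j.val then 1 else 0) := by
  rw [Euclid.ht, LinearMap.comp_apply, WeylData.stHt_apply]
  refine Finset.sum_congr rfl fun j _ => ?_
  change psE _ j _ = _
  rw [map_sub, psE_single, psE_single]

theorem ht_pos {J : Set (Fin n)} {a b : Fin (n + 1)} :
    0 < (Chev.typeA n).ht J (Pi.single a 1 - Pi.single b 1) ↔
      ∃ j, j ∉ J ∧ a.val ≤ j.val ∧ j.val < b.val := by
  classical
  rw [ht_single]
  constructor
  · intro h
    by_contra! hc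
    refine absurd h (not_lt.2 (Finset.sum_nonpos fun j hj => ?_))
    have := hc j (Finset.mem_filter.1 hj).2
    split_ifs <;> omega
  · rintro ⟨j, h1, h2, h3⟩
    refine Finset.sum_pos' (fun i _ => ?_) ⟨j, by simpa using h1, ?_⟩ <;> split_ifs <;> omega

theorem mem_UJ {J : Set (Fin n)} {g : SpecialLinearGroup (Fin (n + 1)) F} :
    g ∈ (slGr n F).rgd.UJ J ↔
      ∀ a b, (g.1 - 1) a b ≠ 0 → ∃ j, j ∉ J ∧ a.val ≤ j.val ∧ j.val < b.val := by
  rw [Graded.UJ_eq, mem_unS]
  exact forall₃_congr fun a b _ => ht_pos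

theorem mem_U {g : SpecialLinearGroup (Fin (n + 1)) F} :
    g ∈ (slGr n F).rgd.U ↔ ∀ a b, (g.1 - 1) a b ≠ 0 → a < b := by
  rw [← RGD.UJ_empty, mem_UJ]
  refine forall₃_congr fun a b _ => ⟨fun ⟨j, _, h1, h2⟩ => h1.trans_lt h2, fun h => ?_⟩
  have := b.2
  exact ⟨⟨a, by omega⟩, by simp, le_rfl, h⟩

theorem mem_P0 {k : ℕ} {g : SpecialLinearGroup (Fin (k + 3)) F} :
    g ∈ slP k F ↔ ∀ a, a ≠ 0 → g.1 a 0 = 0 := by
  have hA : ∀ u : SpecialLinearGroup (Fin (k + 3)) F, u ∈ (slGr (k + 2) F).rgd.UJ {0}ᶜ ↔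
      ∀ a b, (u.1 - 1) a b ≠ 0 → a = 0 ∧ b ≠ 0 := fun u => by
    rw [mem_UJ]
    refine forall₃_congr fun a b _ => ?_
    simp [Fin.pos_iff_ne_zero]
  rw [slP, ← (slGr (k + 2) F).faithful.normalizer_UJ_inf, slGr_G0, inf_top_eq]
  constructor
  · intro hg a ha
    have h1 : (0 : Fin (k + 3)) ≠ 1 := by simp
    have h2 := (hA _).1 ((mem_normalizer_iff.1 hg (slE 0 1 1)).1 ((hA _).2 fun a b h => by
      rw [coe_slE h1, add_sub_cancel_left] at h
      by_contra hc
      exact h (single_apply_of_ne _ _ _ _ _ (by rintro ⟨rfl, rfl⟩; simp at hc))))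
    have h3 : ((g * slE 0 1 1 * g⁻¹).1 - 1) * g.1 = g.1 * single 0 1 1 := by
      have : (g * slE 0 1 1 * g⁻¹).1 * g.1 = g.1 * (slE 0 1 1).1 :=
        congrArg Subtype.val (inv_mul_cancel_right (g * slE 0 1 1) g)
      rw [sub_mul, this, coe_slE h1, mul_add, mul_one, one_mul, add_sub_cancel_left]
    have h4 := congrFun (congrFun h3 a) 1
    rw [mul_single_apply_same, mul_one, mul_apply, Finset.sum_eq_zero fun b _ => by
      rw [not_not.1 fun h => ha (h2 a b h).1, zero_mul]] at h4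
    exact h4.symm
  · intro hg
    have key : parS (slGr (k + 2) F).wt (slGr (k + 2) F).ρ (geS ((Chev.typeA (k + 2)).ht {0}ᶜ)) ≤
        normalizer ((slGr (k + 2) F).rgd.UJ {0}ᶜ : Set _) := by
      rw [Graded.UJ_eq]
      refine le_normalizer_of_conj_mem fun g hg a ha => ?_
      have : (slGr (k + 2) F).ρ (g * a * g⁻¹) - 1 =
          (slGr (k + 2) F).ρ g * ((slGr (k + 2) F).ρ a - 1) * (slGr (k + 2) F).ρ g⁻¹ := by
        rw [mul_sub, sub_mul, mul_one, ← map_mul _ g g⁻¹, mul_inv_cancel, map_one, map_mul, map_mul]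
      rw [mem_unS, this]
      refine Sup.mul (D := gtS ((Chev.typeA (k + 2)).ht {0}ᶜ) 0) (Sup.mul hg ha fun x hx y hy => ?_)
        (inv_mem hg : g⁻¹ ∈ parS _ _ _) fun x hx y hy => ?_ <;>
        simp only [SetLike.mem_coe, mem_geS, mem_gtS, map_add] at hx hy ⊢ <;> omega
    refine key fun a b h => ?_
    change 0 ≤ (Chev.typeA (k + 2)).ht {0}ᶜ (Pi.single a 1 - Pi.single b 1)
    rw [ht_single]
    refine Finset.sum_nonneg fun j hj => ?_
    obtain rfl : j = 0 := by simpa using hj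
    have : b = 0 → a = 0 := by
      rintro rfl
      by_contra h1
      exact h (hg a h1)
    simp only [Fin.ext_iff, Fin.val_zero] at this ⊢
    split_ifs <;> omega

end sl

variable {F : Type} [Field F] [Fintype F] {q : ℕ} (hF : Fintype.card F = q ^ 2) {n : ℕ}

/-- The matrix of `g` differs from the identity at the place `(c, d)`. -/
def Mv {hF : Fintype.card F = q ^ 2} (g : sIsom (antiForm hF n)) (c d : Fin n) : Prop :=
  g.1.1 (Pi.single d 1) c ≠ (Pi.single d 1 : Fin n → F) c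

theorem Mv_eq_1' : type_of% @Mv.eq_1 := @Mv.eq_1

theorem form_single (a : Fin n) (v : Fin n → F) : antiForm hF n (Pi.single a 1) v = v a.rev := by
  rw [← antiForm_single hF a.rev v, Fin.rev_rev]

theorem form_single' (a : Fin n) (v : Fin n → F) :
    antiForm hF n v (Pi.single a 1) = frobq hF (v a.rev) := by
  rw [← form_single hF a v, (herm_antiForm hF).conj]

theorem iso_single {a : Fin n} (ha : a ≠ a.rev) :
    antiForm hF n (Pi.single a 1) (Pi.single a 1) = 0 := by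
  rw [form_single, Pi.single_eq_of_ne ha.symm]

variable {hF}

theorem eq_one_of_not_mv {g : sIsom (antiForm hF n)} (h : ∀ c d, ¬ Mv g c d) : g = 1 :=
  sext fun v => by
    have : g.1.1.toLinearMap = LinearMap.id := (Pi.basisFun F (Fin n)).ext fun d => funext fun c => by
      simpa [Mv] using h c d
    exact LinearMap.congr_fun this v

theorem mv_ue {a : Fin n} {w : Fin n → F} {b : F} (K : UOk (antiForm hF n) (Pi.single a 1) w b)
    {c d : Fin n} (h : Mv (ue (herm_antiForm hF) (Pi.single a 1) w b) c d) :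
    (d = a.rev ∧ w c ≠ 0) ∨ (c = a ∧ (d = a.rev ∨ w d.rev ≠ 0)) := by
  by_contra! hc
  refine h ?_
  rw [ue_apply _ K, form_single, form_single']
  by_cases h1 : d = a.rev
  · have h2 : c ≠ a := fun e => (hc.2 e).1 h1
    simp [hc.1 h1, h2]
  · by_cases h2 : c = a
    · simp [Ne.symm h1, (hc.2 h2).2, -frobq_apply]
    · simp [Ne.symm h1, h2]

theorem step {a : Fin n} (ha : a ≠ a.rev) {g : sIsom (antiForm hF n)} (hg : ∀ c, ¬ Mv g c a) :
    ∃ w b, UOk (antiForm hF n) (Pi.single a 1) w b ∧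
      (∀ c, w c ≠ 0 → c ≠ a ∧ c ≠ a.rev ∧ Mv g c a.rev) ∧
      ∀ c d, Mv ((ue (herm_antiForm hF) (Pi.single a 1) w b)⁻¹ * g) c d →
        c ≠ a ∧ d ≠ a.rev ∧ Mv g c d := by
  have h := herm_antiForm hF (k := n)
  obtain ⟨x, hx⟩ : ∃ x : Fin n → F, x = Pi.single a 1 := ⟨_, rfl⟩
  obtain ⟨y, hy⟩ : ∃ y : Fin n → F, y = Pi.single a.rev 1 := ⟨_, rfl⟩
  have ex : ∀ v, antiForm hF n x v = v a.rev := fun v => by rw [hx, form_single]
  have ey : ∀ v, antiForm hF n y v = v a := fun v => by rw [hy, antiForm_single]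
  have xx : antiForm hF n x x = 0 := by rw [hx, iso_single hF ha]
  have yy : antiForm hF n y y = 0 := by rw [ey, hy, Pi.single_eq_of_ne ha]
  have xy : antiForm hF n x y = 1 := by rw [ex, hy, Pi.single_eq_same]
  have yx : antiForm hF n y x = 1 := by rw [ey, hx, Pi.single_eq_same]
  have gx : g.1.1 x = x := by rw [hx]; exact funext fun c => not_not.1 (hg c)
  have h1 : ∀ v, antiForm hF n x (g.1.1 v) = antiForm hF n x v := fun v => by
    rw [← s_form g x v, gx]
  have h2 := (h1 y).trans xy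
  have h3 := (s_form g y y).trans yy
  obtain ⟨t, ht⟩ : ∃ t, antiForm hF n y (g.1.1 y) = t := ⟨_, rfl⟩
  have K : UOk (antiForm hF n) x (g.1.1 y - y - t • x) (-t) := ⟨xx, by hsimp; rw [h2, xy, xx]; ring, by
    hsimp
    rw [h3, hconj h ht, hconj h h2, ht, yy, yx, h2, xy, xx, map_one]
    ring⟩
  have h4 : antiForm hF n y (g.1.1 y - y - t • x) = 0 := by hsimp; rw [ht, yy, yx]; ring
  have h5 : (ue h x (g.1.1 y - y - t • x) (-t)).1.1 y = g.1.1 y := by
    rw [ue_apply h K, xy, h.comm h4]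
    module
  rw [← hx]
  refine ⟨_, _, K, fun c hc => ?_, fun c d hm => ?_⟩
  · have e1 : c ≠ a := by rintro rfl; exact hc ((ey _).symm.trans h4)
    refine ⟨e1, ?_, fun e => hc ?_⟩
    · rintro rfl
      exact hc ((ex _).symm.trans K.hw)
    · rw [← hy] at e
      simp [e, hx, e1]
  · have h6 : ((ue h x (g.1.1 y - y - t • x) (-t))⁻¹ * g).1.1 y = y := by
      rw [s_mul]
      exact (congrArg _ h5.symm).trans (s_inv_apply _ _)
    have e1 : c ≠ a := by
      rintro rfl
      refine hm ((ey _).symm.trans (Eq.trans ?_ (ey _)))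
      exact (congrArg (antiForm hF n · _) h6.symm).trans (s_form _ _ _)
    have e2 : d ≠ a.rev := by
      rintro rfl
      exact hm (by rw [← hy, h6])
    refine ⟨e1, e2, fun e => hm ?_⟩
    rw [s_mul, ue_inv h K, ue_apply_of_orth h (K.neg h) (by
      rw [h1, ex, Pi.single_eq_of_ne e2.symm]), ← e]
    simp [hx, e1]

section link
variable {e : (suTw n (frobq_ne_id hF) (frobq_frobq hF)).F ≃* sIsom (antiForm hF (n + 1))}

theorem mv_iff (he : ∀ g v, (e g).1.1 v = g.1.1 *ᵥ v)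
    (g : (suTw n (frobq_ne_id hF) (frobq_frobq hF)).F) (c d : Fin (n + 1)) :
    Mv (e g) c d ↔ (g.1.1 - 1) c d ≠ 0 := by
  rw [Mv, he, mulVec_single_one, Matrix.sub_apply, sub_ne_zero, one_apply, Pi.single_apply]
  rfl

end link

variable (hF) in
theorem exists_equiv (hn : 3 ≤ n) :
    ∃ e : (suTw n (frobq_ne_id hF) (frobq_frobq hF)).G1 ≃* sIsom (antiForm hF (n + 1)),
      (∀ g v, (e g).1.1 v = g.1.1 *ᵥ v) ∧ ∀ g c d, Mv (e g) c d ↔ (g.1.1 - 1) c d ≠ 0 := by
  obtain ⟨e, he⟩ := exists_suTw_equiv hF (n := n)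
  exact ⟨(MulEquiv.subgroupCongr (le_antisymm (RGD.Twist.G1_le_F _)
    (suTw_F_le hF (by omega)))).trans e, fun g v => he _ v, fun g c d => mv_iff he _ c d⟩

variable {k : ℕ}
  {e : (suTw (k + 2) (frobq_ne_id hF) (frobq_frobq hF)).G1 ≃* sIsom (antiForm hF (k + 3))}

theorem rev_ne : (0 : Fin (k + 3)) ≠ Fin.rev 0 := by simp [Fin.ext_iff]

theorem Z_eq (he : ∀ g v, (e g).1.1 v = g.1.1 *ᵥ v) : (slZ k F).subgroupOf _ =
    (Zs (herm_antiForm hF) (Pi.single 0 1)).comap e.toMonoidHom := by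
  have h := herm_antiForm hF (k := k + 3)
  have h0 : (0 : Fin (k + 3)) ≠ Fin.last (k + 2) := by simp [Fin.ext_iff]
  have key : ∀ (t : F) (v : Fin (k + 3) → F), (slE 0 (Fin.last (k + 2)) t).1 *ᵥ v =
      v - (-t * antiForm hF _ (Pi.single 0 1) v) • Pi.single 0 1 := fun t v => by
    rw [coe_slE h0, add_mulVec, one_mulVec, single_mulVec, form_single, Fin.rev_zero]
    funext c
    by_cases hc : c = 0 <;> simp [hc]
  ext g
  rw [mem_subgroupOf, slZ, mem_slGr_X h0, mem_comap, mem_Zs]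
  constructor
  · rintro ⟨t, ht⟩
    have h1 : ∀ v, (e g).1.1 v = v - (-t * antiForm hF _ (Pi.single 0 1) v) • Pi.single 0 1 :=
      fun v => by rw [he, ← ht, key]
    have h2 : -t + frobq hF (-t) = 0 := by
      have := s_form (e g) (Pi.single (Fin.rev 0) 1) (Pi.single (Fin.rev 0) 1)
      rw [h1] at this
      revert this
      hsimp
      simp only [form_single, Fin.rev_rev, Pi.single_eq_same, Pi.single_eq_of_ne rev_ne,
        Pi.single_eq_of_ne rev_ne.symm, map_one]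
      intro this
      linear_combination -this
    exact ⟨-t, h2, sext fun v => by rw [ue_zero_apply h (iso_single hF rev_ne) h2]; exact h1 v⟩
  · rintro ⟨b, hb, hg⟩
    refine ⟨-b, Subtype.ext (matrix_ext_mulVec fun v => ?_)⟩
    rw [key, ← he, neg_neg, ← ue_zero_apply h (iso_single hF rev_ne) hb, ← hg]
    rfl

theorem P_eq (he : ∀ g v, (e g).1.1 v = g.1.1 *ᵥ v) : (slP k F).subgroupOf _ =
    (Ps (antiForm hF (k + 3)) (Pi.single 0 1)).comap e.toMonoidHom := by
  ext g
  rw [mem_subgroupOf, mem_P0, mem_comap, mem_Ps]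
  change _ ↔ ∃ l, l ≠ 0 ∧ (e g).1.1 _ = _
  have h0 : (e g).1.1 (Pi.single 0 1) ≠ 0 := fun K => by
    simpa using (e g).1.1.injective (K.trans (map_zero _).symm)
  rw [he, mulVec_single_one] at h0 ⊢
  constructor
  · intro h
    have h1 : g.1.1.col 0 = g.1.1 0 0 • Pi.single 0 1 := funext fun c => by
      by_cases hc : c = 0
      · simp [hc]
      · simp [hc, h c hc]
    exact ⟨_, fun K => h0 (by rw [h1, K, zero_smul]), h1⟩
  · rintro ⟨l, -, h⟩ a ha
    simpa [ha] using congrFun h a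

theorem Q_eq (he : ∀ g c d, Mv (e g) c d ↔ (g.1.1 - 1) c d ≠ 0) :
    ((slGr (k + 2) F).rgd.UJ {0, Fin.last (k + 1)}ᶜ).subgroupOf _ =
      (Qs (herm_antiForm hF) (iso_single hF rev_ne)).comap e.toMonoidHom := by
  ext g
  rw [mem_subgroupOf, mem_UJ, mem_comap, mem_Qs]
  simp only [← he, Set.mem_compl_iff, not_not, Set.mem_insert_iff, Set.mem_singleton_iff,
    exists_eq_or_imp, exists_eq_left, Fin.val_zero, Fin.val_last]
  constructor
  · intro h
    obtain ⟨w, b, K, -, h2⟩ := step rev_ne (g := e g) fun c hc => by simpa using h c 0 hc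
    refine ⟨w, b, K, (inv_mul_eq_one.1 (eq_one_of_not_mv fun c d hm => ?_)).symm⟩
    obtain ⟨h3, h4, h5⟩ := h2 c d hm
    have := h c d h5
    have := d.2
    simp only [ne_eq, Fin.ext_iff, Fin.val_zero, Fin.val_rev] at h3 h4
    omega
  · rintro ⟨w, b, K, hg⟩ c d hm
    change e g = _ at hg
    rw [hg] at hm
    have h1 : d ≠ 0 := by
      rintro rfl
      exact hm (by rw [ue_fix])
    have := c.2
    rcases mv_ue K hm with ⟨rfl, h2⟩ | ⟨rfl, -⟩
    · have h3 : c ≠ Fin.rev 0 := by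
        rintro rfl
        exact h2 ((form_single hF _ _).symm.trans K.hw)
      simp only [ne_eq, Fin.ext_iff, Fin.val_zero, Fin.val_rev] at h3 ⊢
      omega
    · exact .inl ⟨le_rfl, Fin.pos_iff_ne_zero.2 h1⟩

end Cfsg.Lib.CKS.SUx
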