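import Cfsg.Agent.CKS.Def4

/-! The symplectic transvection group. -/

set_option autoImplicit false
set_option quotPrecheck false
set_option maxHeartbeats 400000

namespace Cfsg.Lib.CKS

open MulAction Cfsg.Lib.Chev Cfsg.Lib.Class Subgroup Matrix Module

namespace Sp1

open MD

variable {F V : Type} [Field F] [AddCommGroup V] [Module F V]
  {B : LinearMap.BilinForm F V} (hA : B.IsAlt) {x y : V}

theorem mem_spZ {g : SpB B} : g ∈ spZ hA x ↔ ∃ c, g = spT hA x c := by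
  have : spZ hA x = spRoot hA x := le_antisymm
    ((closure_le _).2 (by rintro _ ⟨c, rfl⟩; exact (mem_spRoot hA x _).2 ⟨c, rfl⟩))
    fun g hg => by
      obtain ⟨c, rfl⟩ := (mem_spRoot hA x g).1 hg
      exact subset_closure ⟨c, rfl⟩
  rw [this, mem_spRoot]

theorem spT_mem (c : F) : spT hA x c ∈ spZ hA x := (mem_spZ hA).2 ⟨c, rfl⟩

theorem spT_apply (c : F) (v : V) : (spT hA x c : V ≃ₗ[F] V) v = v + (c * B v x) • x := rfl

theorem smul_of_eq (hB : B.Nondegenerate) (hy : y ≠ 0) {c d : F} (hc : c ≠ 0)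
    (e : spT hA y c = spT hA x d) : ∃ a : F, y = a • x := by
  obtain ⟨u, hu⟩ := exists_alt_eq_one hB hy
  have h1 : B u y = -1 := by rw [← hA.neg_eq, hu]
  have h2 := congrArg (fun g : SpB B => (g : V ≃ₗ[F] V) u) e
  simp only [spT_apply, add_right_inj, h1] at h2
  refine ⟨(c * -1)⁻¹ * (d * B u x), ?_⟩
  rw [mul_smul, ← h2, smul_smul, inv_mul_cancel₀ (by simpa using hc), one_smul]

theorem eq_zero (hB : B.Nondegenerate) (hx : x ≠ 0) {c : F} (e : spT hA x c = 1) : c = 0 := by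
  by_contra hc
  obtain ⟨a, ha⟩ := smul_of_eq hA hB hx hc (e.trans (spT_zero hA (0 : V)).symm)
  exact hx (by rw [ha, smul_zero])

theorem conj_mem {g : SpB B} {a : F} (e : (g : V ≃ₗ[F] V) x = a • x) :
    ∀ z ∈ spZ hA x, g * z * g⁻¹ ∈ spZ hA x := by
  intro z hz
  obtain ⟨c, rfl⟩ := (mem_spZ hA).1 hz
  rw [spT_conj, e, spT_smul]
  exact spT_mem hA _

theorem of_conj (hB : B.Nondegenerate) (hx : x ≠ 0) {g : SpB B} {c : F} (hc : c ≠ 0)
    (e : g * spT hA x c * g⁻¹ ∈ spZ hA x) : ∃ a : F, (g : V ≃ₗ[F] V) x = a • x := by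
  obtain ⟨d, hd⟩ := (mem_spZ hA).1 e
  rw [spT_conj] at hd
  exact smul_of_eq hA hB (by simpa using hx) hc hd

theorem mem_norm (hB : B.Nondegenerate) (hx : x ≠ 0) {g : SpB B} :
    g ∈ normalizer (spZ hA x : Set (SpB B)) ↔ ∃ a : F, (g : V ≃ₗ[F] V) x = a • x := by
  refine ⟨fun h => of_conj hA hB hx one_ne_zero ((mem_normalizer_iff.1 h _).1 (spT_mem hA 1)), ?_⟩
  rintro ⟨a, ha⟩
  have ha0 : a ≠ 0 := by
    rintro rfl
    exact hx (by simpa using ha)
  have h1 : ((g⁻¹ : SpB B) : V ≃ₗ[F] V) x = a⁻¹ • x := by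
    change (g : V ≃ₗ[F] V).symm x = _
    rw [LinearEquiv.symm_apply_eq, map_smul, ha, smul_smul, inv_mul_cancel₀ ha0, one_smul]
  refine mem_normalizer_iff.2 fun z => ⟨conj_mem hA ha z, fun h => ?_⟩
  simpa [mul_assoc] using conj_mem hA h1 _ h

theorem spU_pow {v : V} (h : B v x = 0) (c : F) (n : ℕ) :
    spU hA x v c ^ n = spU hA x ((n : F) • v) (n * c) := by
  induction n with
  | zero => rw [pow_zero, Nat.cast_zero, zero_smul, zero_mul, ← spT_eq, spT_zero]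
  | succ n ih =>
    rw [pow_succ, ih, spU_mul hA (by simp [h]) h, Nat.cast_succ, add_smul, one_smul, add_mul,
      one_mul, map_smul, hA v, smul_zero, add_zero]

theorem spU_inv {v : V} (h : B v x = 0) (c : F) : (spU hA x v c)⁻¹ = spU hA x (-v) (-c) :=
  Subtype.ext (uq_inv hA h c)

/-- The unipotent radical of the stabiliser of the point. -/
def QQ (x : V) : Subgroup (SpB B) where
  carrier := {g | ∃ v c, B v x = 0 ∧ g = spU hA x v c}
  one_mem' := ⟨0, 0, by simp, by rw [← spT_eq, spT_zero]⟩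
  mul_mem' := by
    rintro _ _ ⟨v, c, h, rfl⟩ ⟨v', c', h', rfl⟩
    exact ⟨_, _, by simp [h, h'], spU_mul hA h h' c c'⟩
  inv_mem' := by
    rintro _ ⟨v, c, h, rfl⟩
    exact ⟨_, _, by simp [h], spU_inv hA h c⟩

theorem pg_Q (p : ℕ) [CharP F p] : IsPGroup p (QQ hA x) := by
  rintro ⟨_, v, c, h, rfl⟩
  refine ⟨1, Subtype.ext ?_⟩
  change spU hA x v c ^ p ^ 1 = 1
  rw [pow_one, spU_pow hA h, CharP.cast_eq_zero, zero_smul, zero_mul, ← spT_eq, spT_zero]

theorem pg_Z (p : ℕ) [CharP F p] : IsPGroup p (spZ hA x) :=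
  (pg_Q hA p (x := x)).to_le fun g hg => by
    obtain ⟨c, rfl⟩ := (mem_spZ hA).1 hg
    exact ⟨0, c, by simp, spT_eq hA x c⟩

theorem conj_spU (g : SpB B) (x v : V) (c : F) : g * spU hA x v c * g⁻¹ =
    spU hA ((g : V ≃ₗ[F] V) x) ((g : V ≃ₗ[F] V) v) c := Subtype.ext (uq_conj hA g.2 x v c)

theorem exists_orth [FiniteDimensional F V] (hB : B.Nondegenerate) (h4 : 4 ≤ finrank F V) (x : V) :
    ∃ y, y ∉ spanL F [x] ∧ B x y = 0 := by
  have h1 := finrank_spanL_le (F := F) [x]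
  obtain ⟨y, hy, hy'⟩ := exists_orth_notMem hB (spanL F [x]) (spanL F [x])
    (by simp only [List.length_singleton] at h1; omega)
  exact ⟨y, hy, hy' x (mem_spanL_of_mem (by simp))⟩

theorem prod_apply {b : F} (h : B x y = 1) (v : V) :
    ((spT hA x 1 * spT hA y b : SpB B) : V ≃ₗ[F] V) v =
      v + (B v x - b * B v y) • x + (b * B v y) • y := by
  have h' : B y x = -1 := by rw [← hA.neg_eq, h]
  change (spT hA x 1 : V ≃ₗ[F] V) ((spT hA y b : V ≃ₗ[F] V) v) = _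
  rw [spT_apply, spT_apply, map_add, map_smul, LinearMap.add_apply, LinearMap.smul_apply, h']
  module

theorem prod_pow (h : B x y = 1) : (spT hA x 1 * spT hA y 3) ^ 3 ^ 1 = 1 ∧
    (spT hA x 1 * spT hA y 2) ^ 2 ^ 2 = 1 := by
  have h' : B y x = -1 := by rw [← hA.neg_eq, h]
  constructor
  · refine Subtype.ext (LinearEquiv.ext fun v => ?_)
    rw [show 3 ^ 1 = 1 + 1 + 1 from rfl, pow_succ, pow_succ, pow_one]
    change ((spT hA x 1 * spT hA y 3 : SpB B) : V ≃ₗ[F] V)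
      (((spT hA x 1 * spT hA y 3 : SpB B) : V ≃ₗ[F] V)
        (((spT hA x 1 * spT hA y 3 : SpB B) : V ≃ₗ[F] V) v)) = v
    simp only [prod_apply hA h, map_add, map_smul, LinearMap.add_apply, LinearMap.smul_apply, h,
      h', hA x, hA y, smul_eq_mul]
    module
  · refine Subtype.ext (LinearEquiv.ext fun v => ?_)
    rw [show 2 ^ 2 = 1 + 1 + 1 + 1 from rfl, pow_succ, pow_succ, pow_succ, pow_one]
    change ((spT hA x 1 * spT hA y 2 : SpB B) : V ≃ₗ[F] V)
      (((spT hA x 1 * spT hA y 2 : SpB B) : V ≃ₗ[F] V)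
        (((spT hA x 1 * spT hA y 2 : SpB B) : V ≃ₗ[F] V)
          (((spT hA x 1 * spT hA y 2 : SpB B) : V ≃ₗ[F] V) v))) = v
    simp only [prod_apply hA h, map_add, map_smul, LinearMap.add_apply, LinearMap.smul_apply, h,
      h', hA x, hA y, smul_eq_mul]
    module

end Sp1

section sp
variable {F V : Type} [Field F] [Fintype F] [AddCommGroup V] [Module F V] [FiniteDimensional F V]
  {B : LinearMap.BilinForm F V} (hB : B.Nondegenerate) (hA : B.IsAlt) (p : ℕ) [Fact p.Prime]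
  [CharP F p] {x : V} (hx : x ≠ 0)
local notation "qq" => Fintype.card F
local notation "ZZ" => spZ hA x
local notation "PP" => normalizer (spZ hA x : Set (SpB B))
include hB hx

open Sp1 in
theorem sp_rt0 : ∃ m, RT0 p qq m PP ZZ ∧ m * (qq - 1) + 1 = qq ^ finrank F V := by
  have : Finite V := Module.finite_of_finite F
  refine ⟨(PP).index, ⟨pg_Z hA p, ?_, Fintype.one_lt_card, rfl, ?_, rfl, ?_⟩, ?_⟩
  · rw [← Nat.card_eq_fintype_card]
    refine (Nat.card_eq_of_bijective (fun c : F => (⟨spT hA x c, spT_mem hA c⟩ : ZZ))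
      ⟨fun c d e => ?_, fun z => ?_⟩).symm
    · have e' : spT hA x c = spT hA x d := congrArg Subtype.val e
      exact sub_eq_zero.1 (eq_zero hA hB hx (by
        rw [sub_eq_add_neg, ← spT_mul, ← spT_inv, e', mul_inv_cancel]))
    · obtain ⟨c, hc⟩ := (mem_spZ hA).1 z.2
      exact ⟨c, Subtype.ext hc.symm⟩
  · intro g z hz h1 h2
    obtain ⟨c, rfl⟩ := (mem_spZ hA).1 hz
    exact (mem_norm hA hB hx).2 (of_conj hA hB hx (by rintro rfl; exact h1 (spT_zero hA x)) h2)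
  · intro z hz hc
    obtain ⟨c, rfl⟩ := (mem_spZ hA).1 hz
    rcases (mem_center_SpB_iff hB hA _).1 hc with h | h
    · exact Subtype.ext (LinearEquiv.ext h)
    · have h1 := h x
      rw [spT_apply, hA x, mul_zero, zero_smul, add_zero, eq_neg_iff_add_eq_zero, ← two_smul F,
        smul_eq_zero_iff_left hx] at h1
      refine Subtype.ext (LinearEquiv.ext fun v => (h v).trans ?_)
      change -v = v
      rw [neg_eq_iff_add_eq_zero, ← two_smul F, h1, zero_smul]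
  · have := SpB_isPreprimitive hB hA
    have h1 : PP = stabilizer (SpB B) (Projectivization.mk F x hx) := by
      ext g
      rw [mem_norm hA hB hx, mem_stabilizer_iff, Subgroup.smul_def, Projectivization.smul_mk,
        Projectivization.mk_eq_mk_iff']
      exact exists_congr fun a => eq_comm
    rw [h1, index_stabilizer_of_transitive, ← Nat.card_eq_fintype_card,
      ← Projectivization.card', Module.natCard_eq_pow_finrank (K := F)]

open Sp1 in
omit [Fintype F] in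
theorem Sp1.not_two (h4 : 4 ≤ finrank F V) : ¬ Two (SpB B) (SpB B ⧸ PP) := by
  intro h
  obtain ⟨y, hy, hxy⟩ := exists_orth hB h4 x
  obtain ⟨y', hy'⟩ := exists_alt_eq_one hB hx
  obtain ⟨g₁, hg₁, e₁⟩ := SpB_exists_apply_eq hB hA hx (x' := y)
    (by rintro rfl; exact hy (zero_mem _))
  obtain ⟨g₂, hg₂, e₂⟩ := SpB_exists_apply_eq hB hA hx (x' := y') (by rintro rfl; simp at hy')
  have hne : ∀ g : SpB B, (g : V ≃ₗ[F] V) x ∉ spanL F [x] →
      (QuotientGroup.mk 1 : SpB B ⧸ PP) ≠ QuotientGroup.mk g := by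
    intro g hg e
    rw [QuotientGroup.eq, inv_one, one_mul, mem_norm hA hB hx] at e
    obtain ⟨a, ha⟩ := e
    exact hg (mem_spanL_singleton.2 ⟨a, ha.symm⟩)
  obtain ⟨g, h1, h2⟩ := h.tr _ _ _ _ (hne ⟨g₁, hg₁⟩ (e₁ ▸ hy)) (hne ⟨g₂, hg₂⟩ (by
    change g₂ x ∉ _
    rw [e₂, mem_spanL_singleton]
    rintro ⟨a, rfl⟩
    simp [hA x] at hy'))
  rw [MulAction.Quotient.smul_mk, eq_comm, QuotientGroup.eq, mem_norm hA hB hx] at h1 h2
  obtain ⟨a, ha⟩ := h1
  obtain ⟨b, hb⟩ := h2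
  have ha' : (g : V ≃ₗ[F] V) x = a • x := by simpa using ha
  have hb' : (g : V ≃ₗ[F] V) y = b • y' := by
    rw [← e₁, ← e₂, ← map_smul, ← hb]
    exact (g₂.apply_symm_apply _).symm
  have h3 := mem_SpB.1 g.2 x y
  rw [ha', hb', hxy] at h3
  simp only [map_smul, LinearMap.smul_apply, hy', smul_eq_mul, mul_one, mul_eq_zero] at h3
  rcases h3 with rfl | rfl
  · exact hy (by rw [show y = 0 by simpa using hb']; exact zero_mem _)
  · exact hx (by simpa using ha')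

theorem sp_not_two (h4 : 4 ≤ finrank F V) : ¬ Two (SpB B) (SpB B ⧸ PP) :=
  Sp1.not_two hB hA hx h4

open Sp1 MD in
open scoped commutatorElement in
theorem sp_Y (h4 : 4 ≤ finrank F V) (h3 : 3 ≤ qq) : ∃ Y : Subgroup (SpB B), IsPGroup p Y ∧
    (∀ z ∈ ZZ, ∀ y ∈ Y, z * y = y * z) ∧ ZZ ≤ ⁅Y, Y⁆ := by
  have _ := hx
  obtain ⟨y, hy, hxy⟩ := exists_orth hB h4 x
  have hyx : B y x = 0 := by rw [← hA.neg_eq, hxy, neg_zero]
  obtain ⟨v, hv, hvy⟩ := exists_orth_eq_one hB hy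
  have hvx : B v x = 0 := hv x (by simp)
  have hfix : ∀ t, (spT hA y t : V ≃ₗ[F] V) x = x := fun t => by
    rw [spT_apply, hxy, mul_zero, zero_smul, add_zero]
  have hcj : ∀ z ∈ spZ hA y, ∀ u ∈ QQ hA x, z * u * z⁻¹ ∈ QQ hA x := by
    rintro z hz _ ⟨w, c, hw, rfl⟩
    obtain ⟨t, rfl⟩ := (mem_spZ hA).1 hz
    exact ⟨(spT hA y t : V ≃ₗ[F] V) w, c, by rw [spT_apply]; simp [hw, hyx],
      by rw [conj_spU, hfix]⟩
  refine ⟨QQ hA x ⊔ spZ hA y, IsPGroup.to_sup_of_normal_left' (pg_Q hA p) (pg_Z hA p)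
    fun z hz => mem_normalizer_iff.2 fun u => ⟨hcj z hz u, fun h => ?_⟩, fun z hz u hu => ?_,
    fun z hz => ?_⟩
  · simpa [mul_assoc] using hcj _ (inv_mem hz) _ h
  · obtain ⟨c, rfl⟩ := (mem_spZ hA).1 hz
    have : QQ hA x ⊔ spZ hA y ≤ centralizer {spT hA x c} := by
      refine sup_le ?_ fun u hu => mem_centralizer_singleton_iff.2 ?_
      · rintro _ ⟨w, d, hw, rfl⟩
        refine mem_centralizer_singleton_iff.2 ?_
        rw [spT_eq, spU_mul hA hw (by simp), spU_mul hA (by simp) hw]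
        simp [add_comm]
      · obtain ⟨t, rfl⟩ := (mem_spZ hA).1 hu
        exact Subtype.ext (altTEquiv_commute hA hyx t c)
    exact (mem_centralizer_singleton_iff.1 (this hu)).symm
  · obtain ⟨d, rfl⟩ := (mem_spZ hA).1 hz
    have key : ∀ t u : F, spU hA x ((t * u) • y) (-(t * u ^ 2)) ∈
        ⁅QQ hA x ⊔ spZ hA y, QQ hA x ⊔ spZ hA y⁆ := by
      intro t u
      have h1 : B (u • v) x = 0 := by simp [hvx]
      have := commutator_mem_commutator (mem_sup_right (S := QQ hA x) (spT_mem hA (x := y) t))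
        (mem_sup_left (T := spZ hA y) (show spU hA x (u • v) 0 ∈ QQ hA x from ⟨_, _, h1, rfl⟩))
      rw [commutatorElement_def, conj_spU, hfix, spU_inv hA h1, spT_apply,
        spU_mul hA (by simp [hvx, hyx]) (by simp [hvx])] at this
      convert this using 2
      · simp [hvy]
      · simp [hvy, hA v]; ring
    obtain ⟨c, hc0, hc1⟩ : ∃ c : F, c ≠ 0 ∧ c ≠ 1 := by
      classical
      by_contra hn
      push Not at hn
      have : (Finset.univ : Finset F) ⊆ {0, 1} := fun c _ => by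
        by_cases h : c = 0 <;> simp [h, hn]
      have h5 := (Finset.card_le_card this).trans Finset.card_le_two
      rw [Finset.card_univ] at h5
      omega
    have h1 := mul_mem (key (d / (c - 1)) 1) (inv_mem (key (d / (c - 1) / c) c))
    rw [spU_inv hA (by simp [hyx]), spU_mul hA (by simp [hyx]) (by simp [hyx])] at h1
    rw [spT_eq]
    have := sub_ne_zero.2 hc1
    convert h1 using 2
    · rw [div_mul_cancel₀ _ hc0, mul_one, add_neg_cancel]
    · simp [hA y]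
      field_simp
      ring

open Sp1 in
omit [Fintype F] in
theorem Sp1.ord : ∃ l : ℕ, l.Prime ∧ l ≠ p ∧ ∃ z₁ ∈ Cl ZZ, ∃ z₂ ∈ Cl ZZ, z₁ * z₂ ≠ 1 ∧
    ∃ j : ℕ, (z₁ * z₂) ^ l ^ j = 1 := by
  obtain ⟨y, hy⟩ := exists_alt_eq_one hB hx
  obtain ⟨g, hg, e⟩ := SpB_exists_apply_eq hB hA hx (x' := y) (by rintro rfl; simp at hy)
  have h1 : ∀ c : F, c ≠ 0 → spT hA x c ∈ Cl ZZ := fun c hc =>
    Cl.of_mem (spT_mem hA c) fun e => hc (eq_zero hA hB hx e)
  have h2 : ∀ c : F, c ≠ 0 → spT hA y c ∈ Cl ZZ := fun c hc => by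
    have := Cl.conj (h1 c hc) ⟨g, hg⟩
    rwa [spT_conj, show ((⟨g, hg⟩ : SpB B) : V ≃ₗ[F] V) x = y from e] at this
  have h3 : ∀ b : F, spT hA x 1 * spT hA y b ≠ 1 := fun b e => by
    have := prod_apply hA (b := b) hy y
    rw [e, ← hA.neg_eq, hy, hA y] at this
    exact hx (by simpa using this)
  have h4 : ∀ l : ℕ, l.Prime → l ≠ p → (l : F) ≠ 0 := fun l hl hlp e =>
    hlp ((Nat.prime_dvd_prime_iff_eq Fact.out hl).1 ((CharP.cast_eq_zero_iff F p l).1 e)).symm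
  by_cases hp : 3 = p
  · have hp' : 2 ≠ p := by omega
    exact ⟨2, Nat.prime_two, hp', _, h1 1 one_ne_zero, _,
      h2 2 (by simpa using h4 2 Nat.prime_two hp'), h3 2, 2, (prod_pow hA hy).2⟩
  · exact ⟨3, Nat.prime_three, hp, _, h1 1 one_ne_zero, _,
      h2 3 (by simpa using h4 3 Nat.prime_three hp), h3 3, 1, (prod_pow hA hy).1⟩

theorem sp_ord : ∃ l : ℕ, l.Prime ∧ l ≠ p ∧ ∃ z₁ ∈ Cl ZZ, ∃ z₂ ∈ Cl ZZ, z₁ * z₂ ≠ 1 ∧
    ∃ j : ℕ, (z₁ * z₂) ^ l ^ j = 1 := Sp1.ord hB hA p hx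

end sp

end Cfsg.Lib.CKS
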