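import Cfsg.Agent.CKS.Sp1
import Cfsg.Agent.CKS.Orb
import Cfsg.Agent.CKS.Cnt

/-! Doubly transitive actions of `Sp(2 l, 2)`: a Parseval identity. -/

set_option autoImplicit false
set_option quotPrecheck false
set_option maxHeartbeats 400000

namespace Cfsg.Lib.CKS

open MulAction Cfsg.Lib.Chev Cfsg.Lib.Class Subgroup Matrix Module

namespace Sp2a

theorem arith {n N α β : ℤ} (h1 : 1 < n) (h2 : n < N) (e1 : n + (n - 1) * β + (N - n) * α = N)
    (e2 : n ^ 2 + (n - 1) * β ^ 2 + (N - n) * α ^ 2 = N * n)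
    (e3 : (N - 1) * α = n * (N - 2 * n + 1)) : (2 * n - N) ^ 2 = N := by
  have e4 : (N - 1) * β = (N - n) * (2 * n - N + 1) :=
    mul_left_cancel₀ (show n - 1 ≠ 0 by omega) (by linear_combination (N - 1) * e1 - (N - n) * e3)
  have e5 : (N - n) * ((N - 1) * ((n - 1) * ((2 * n - N) ^ 2 - N))) = 0 := by
    linear_combination (N - 1) ^ 2 * e2 -
      (n - 1) * ((N - 1) * β + (N - n) * (2 * n - N + 1)) * e4 -
      (N - n) * ((N - 1) * α + n * (N - 2 * n + 1)) * e3
  simpa [sub_eq_zero, h2.ne', h1.ne', (h1.trans h2).ne'] using e5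

variable {F : Type} [Field F]

open Classical in
/-- The non-trivial character of the field with two elements. -/
noncomputable def ch (a : F) : ℤ := if a = 0 then 1 else -1

theorem ch_eq_1' : type_of% @ch.eq_1 := @ch.eq_1

theorem cases2 [Fintype F] (h2 : Fintype.card F = 2) (a : F) : a = 0 ∨ a = 1 := by
  classical
  have : ({0, 1} : Finset F) = Finset.univ :=
    Finset.eq_univ_of_card _ (by rw [Finset.card_pair zero_ne_one, h2])
  have h : a ∈ ({0, 1} : Finset F) := this ▸ Finset.mem_univ a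
  simpa using h

theorem ch_sub [Fintype F] (h2 : Fintype.card F = 2) (a b : F) : ch (a - b) = ch a * ch b := by
  rcases cases2 h2 a with rfl | rfl <;> rcases cases2 h2 b with rfl | rfl <;> simp [ch]

variable {V : Type} [AddCommGroup V] [Module F V] {B : LinearMap.BilinForm F V}

open Classical in
theorem orth [Fintype F] [Fintype V] (hB : B.Nondegenerate) (h2 : Fintype.card F = 2) (w : V) :
    ∑ v, ch (B w v) = if w = 0 then (Fintype.card V : ℤ) else 0 := by
  split_ifs with h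
  · simp [h, ch]
  · obtain ⟨u, hu⟩ := exists_alt_eq_one hB h
    have := Equiv.sum_comp (Equiv.subRight u) fun v => ch (B w v)
    simp only [Equiv.subRight_apply, map_sub, ch_sub h2, hu, ← Finset.sum_mul] at this
    rw [show ch (1 : F) = -1 by simp [ch]] at this
    omega

end Sp2a

section sp
variable {F V : Type} [Field F] [Fintype F] [AddCommGroup V] [Module F V] [FiniteDimensional F V]
  {B : LinearMap.BilinForm F V} (hB : B.Nondegenerate) (hA : B.IsAlt) (p : ℕ) [Fact p.Prime]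
  [CharP F p] {x : V} (hx : x ≠ 0)
local notation "qq" => Fintype.card F
include hB

variable {Ω : Type*} [MulAction (SpB B) Ω] [Finite Ω]

open Sp2a Finset in
theorem sp_two_one (h2 : qq = 2) (h : Two (SpB B) Ω)
    (hc : ∀ a b : Ω, a ≠ b → ∃! y : V, spT hA y 1 • a = b) (hn : Nat.card Ω < Nat.card V) :
    (2 * (Nat.card Ω : ℤ) - Nat.card V) ^ 2 = Nat.card V := by
  classical
  have : Finite V := Module.finite_of_finite F
  have := Fintype.ofFinite V
  have := Fintype.ofFinite Ω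
  have := h.nt
  rw [Nat.card_eq_fintype_card, Nat.card_eq_fintype_card] at *
  let σ : Ω → Finset V := fun ω => univ.filter fun y => y = 0 ∨ spT hA y 1 • ω ≠ ω
  have hσ : ∀ ω y, y ∈ σ ω ↔ y = 0 ∨ spT hA y 1 • ω ≠ ω := fun ω y => by simp [σ]
  have h0 : ∀ ω, (0 : V) ∈ σ ω := fun ω => (hσ ω 0).2 (Or.inl rfl)
  have hinj : ∀ ω, ∀ y ∈ σ ω, ∀ y' ∈ σ ω, spT hA y 1 • ω = spT hA y' 1 • ω → y = y' := by
    intro ω y hy y' hy' e
    rcases (hσ ω y).1 hy with rfl | hy
    · rcases (hσ ω y').1 hy' with rfl | hy'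
      · rfl
      · rw [spT_zero_left, one_smul] at e
        exact absurd e.symm hy'
    · exact (hc ω _ hy.symm).unique rfl e.symm
  have hsurj : ∀ ω a : Ω, ∃ y ∈ σ ω, spT hA y 1 • ω = a := by
    intro ω a
    by_cases e : ω = a
    · exact ⟨0, h0 ω, by rw [spT_zero_left, one_smul, e]⟩
    · obtain ⟨y, hy, -⟩ := hc ω a e
      exact ⟨y, (hσ ω y).2 (Or.inr (hy ▸ Ne.symm e)), hy⟩
  have hcard : ∀ ω, #(σ ω) = Fintype.card Ω := fun ω =>
    card_bij (fun y _ => spT hA y 1 • ω) (fun _ _ => mem_univ _)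
      (fun y hy y' hy' => hinj ω y hy y' hy') fun a _ => by
        obtain ⟨y, hy, e⟩ := hsurj ω a
        exact ⟨y, hy, e⟩
  have hact : ∀ (ω : Ω) (g : SpB B), g • ω = ω → ∀ y,
      spT hA ((g : V ≃ₗ[F] V) y) 1 • ω = g • spT hA y 1 • ω := fun ω g hg y => by
    rw [← spT_conj, mul_smul, mul_smul, inv_smul_eq_iff.2 hg.symm]
  have hmap : ∀ (ω : Ω) (g : SpB B), g • ω = ω → ∀ y, (g : V ≃ₗ[F] V) y ∈ σ ω ↔ y ∈ σ ω :=
    fun ω g hg y => by
      rw [hσ, hσ, hact ω g hg, LinearEquiv.map_eq_zero_iff, ne_eq, ne_eq, smul_eq_iff_eq_inv_smul g,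
        inv_smul_eq_iff.2 hg.symm]
  obtain ⟨ω⟩ : Nonempty Ω := inferInstance
  let f : V → ℤ := fun v => ∑ y ∈ σ ω, ch (B y v)
  let X : V → ℕ := fun v => #(univ.filter fun a : Ω => spT hA v 1 • a = a)
  have hX : ∀ v, v ≠ 0 → ∀ v', v' ≠ 0 → X v = X v' := by
    intro v hv v' hv'
    obtain ⟨g, hg, rfl⟩ := SpB_exists_apply_eq hB hA hv hv'
    refine card_bijective _ (MulAction.bijective (⟨g, hg⟩ : SpB B)) fun a => ?_
    simp only [mem_filter, mem_univ, true_and]
    rw [← spT_conj hA ⟨g, hg⟩, mul_smul, mul_smul, inv_smul_smul, smul_left_cancel_iff]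
  obtain ⟨v₀, hv₀⟩ : ∃ v, v ∉ σ ω := by
    by_contra hall
    push Not at hall
    have := hcard ω
    rw [eq_univ_of_forall hall, card_univ] at this
    omega
  have hne : ∀ v, v ∉ σ ω → v ≠ 0 := fun v hv e => hv (e ▸ h0 ω)
  have hα : ∀ v, v ∉ σ ω → f v = 2 * X v₀ - Fintype.card Ω := by
    intro v hv
    have hfix : spT hA v 1 • ω = ω := by
      by_contra e
      exact hv ((hσ ω v).2 (Or.inr e))
    have h3 : #((σ ω).filter fun y => B y v = 0) = X v := by
      refine card_bij (fun y _ => spT hA y 1 • ω) (fun y hy => ?_)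
        (fun y hy y' hy' => hinj ω y (mem_filter.1 hy).1 y' (mem_filter.1 hy').1) fun a ha => ?_
      · refine mem_filter.2 ⟨mem_univ _, ?_⟩
        rw [← hact ω _ hfix, Sp1.spT_apply, (mem_filter.1 hy).2, mul_zero, zero_smul, add_zero]
      · obtain ⟨y, hy, rfl⟩ := hsurj ω a
        refine ⟨y, mem_filter.2 ⟨hy, ?_⟩, rfl⟩
        have := hinj ω _ ((hmap ω _ hfix y).2 hy) y hy
          ((hact ω _ hfix y).trans (mem_filter.1 ha).2)
        rw [Sp1.spT_apply, add_eq_left, one_mul] at this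
        exact (smul_eq_zero_iff_left (hne v hv)).1 this
    have h4 := card_filter_add_card_filter_not (s := σ ω) fun y => B y v = 0
    rw [h3, hcard] at h4
    simp only [f, ch]
    rw [sum_ite, sum_const, sum_const, h3, hX v₀ (hne _ hv₀) v (hne v hv), ← h4]
    simp
    ring
  obtain ⟨v₁, hv₁⟩ : ∃ v, v ∈ (σ ω).erase 0 := card_pos.1 (by
    rw [card_erase_of_mem (h0 ω), hcard]
    have := Fintype.one_lt_card (α := Ω)
    omega)
  have hβ : ∀ v ∈ (σ ω).erase 0, f v = f v₁ := by
    intro v hv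
    have k : ∀ v ∈ (σ ω).erase 0, ω ≠ spT hA v 1 • ω := fun v hv =>
      (((hσ ω v).1 (mem_erase.1 hv).2).resolve_left (mem_erase.1 hv).1).symm
    obtain ⟨g, hg, e⟩ := h.tr _ _ _ _ (k v hv) (k v₁ hv₁)
    have e' : (g : V ≃ₗ[F] V) v = v₁ := hinj ω _ ((hmap ω g hg v).2 (mem_erase.1 hv).2) _
      (mem_erase.1 hv₁).2 ((hact ω g hg v).trans e)
    exact sum_bijective _ (g : V ≃ₗ[F] V).bijective (fun y => (hmap ω g hg y).symm)
      fun y _ => by rw [← e', mem_SpB.1 g.2]
  have hf0 : f 0 = Fintype.card Ω := by simp [f, ch, hcard]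
  have split : ∀ φ : ℤ → ℤ, ∑ v, φ (f v) = φ (Fintype.card Ω) + (Fintype.card Ω - 1) * φ (f v₁) +
      (Fintype.card V - Fintype.card Ω) * φ (2 * X v₀ - Fintype.card Ω) := by
    intro φ
    rw [← sum_add_sum_compl (σ ω), ← add_sum_erase _ _ (h0 ω), hf0,
      sum_congr rfl fun v hv => congrArg φ (hβ v hv),
      sum_congr rfl fun v hv => congrArg φ (hα v (mem_compl.1 hv)), sum_const, sum_const,
      card_erase_of_mem (h0 ω), card_compl, hcard, nsmul_eq_mul, nsmul_eq_mul,
      Nat.cast_sub hn.le, Nat.cast_sub Fintype.card_pos, Nat.cast_one]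
  have e1 : ∑ v, f v = Fintype.card V := by
    simp only [f]
    rw [sum_comm]
    simp [orth hB h2, h0]
  have e2 : ∑ v, f v ^ 2 = Fintype.card V * Fintype.card Ω := by
    simp only [f, sq, sum_mul_sum, ← ch_sub h2, ← LinearMap.sub_apply, ← map_sub]
    rw [sum_comm, sum_congr rfl fun y _ => sum_comm]
    simp only [orth hB h2, sub_eq_zero]
    rw [sum_congr rfl fun y hy => (sum_ite_eq _ y _).trans (if_pos hy), sum_const, hcard,
      nsmul_eq_mul, mul_comm]
  have e3 : (Fintype.card V - 1) * X v₀ = Fintype.card Ω * (Fintype.card V - Fintype.card Ω) := by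
    have h3 : ∑ v ∈ univ.erase (0 : V), X v =
        ∑ a : Ω, #((univ.erase (0 : V)).filter fun v => spT hA v 1 • a = a) := by
      simp only [X, card_filter]
      exact sum_comm
    have h4 : ∀ a : Ω, ((univ.erase (0 : V)).filter fun v => spT hA v 1 • a = a) = (σ a)ᶜ :=
      fun a => by ext v; simp [hσ]
    rw [sum_congr rfl fun v hv => hX v (mem_erase.1 hv).1 v₀ (hne _ hv₀), sum_const,
      card_erase_of_mem (mem_univ _), card_univ] at h3
    simpa only [h4, card_compl, hcard, sum_const, card_univ, smul_eq_mul] using h3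
  zify [hn.le, (Fintype.card_pos (α := V) : 1 ≤ _)] at e3
  refine arith (α := 2 * X v₀ - Fintype.card Ω) (β := f v₁)
    (by exact_mod_cast Fintype.one_lt_card) (by exact_mod_cast hn) ((split id).symm.trans e1)
    ((split fun t => t ^ 2).symm.trans e2) (by linear_combination 2 * e3)

end sp

end Cfsg.Lib.CKS
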