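import Cfsg.Agent.CKS.Def4
import Cfsg.Agent.CKS.Cnt
import Cfsg.Agent.CKS.Orb
import Cfsg.Agent.CKS.Act
import Cfsg.Agent.Class.MinDegSp2

/-!
# Doubly transitive actions of the symplectic group of the field with two elements: counting
-/

set_option autoImplicit false

namespace Cfsg.Lib.CKS

open MulAction Cfsg.Lib.Class Subgroup Module

namespace Sp2b

theorem two {s n f φ : ℤ} (hs : 2 ≤ s) (h2 : 2 ∣ s) (h0 : 0 ≤ f) (hn : s ^ 2 ≤ 2 * n + s)
    (h1 : 2 * (n - 1) + f = s ^ 2 - 1) (h3 : f * n = φ * (s ^ 2 - 1)) : 2 * n = s ^ 2 - s := by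
  obtain ⟨t, rfl⟩ := h2
  have e1 : (2 * t) ^ 2 - 1 ∣ (f - 1) ^ 2 - 1 :=
    ⟨f - 2 * φ, by linear_combination f * h1 - 2 * h3⟩
  have e2 : (2 * t) ^ 2 = 4 * t ^ 2 := by ring
  have e3 : 1 ≤ t ^ 2 := by nlinarith
  rcases (show f = 1 ∨ 3 ≤ f by omega) with rfl | e
  · have := Int.le_of_dvd one_pos (by simpa using e1)
    omega
  · have := Int.le_of_dvd (by nlinarith) e1
    have e4 : 2 * t ≤ f - 1 := by
      by_contra e4
      nlinarith
    omega

theorem fin {n t : ℕ} (ht : 1 ≤ t) (h : (2 * (n : ℤ) - (2 * t) ^ 2) ^ 2 = (2 * t) ^ 2) :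
    n = t * (2 * t + 1) ∨ n = t * (2 * t - 1) := by
  refine (sq_eq_sq_iff_eq_or_eq_neg.1 h).imp (fun e => ?_) fun e => ?_
  · zify
    linarith
  · zify [(by omega : 1 ≤ 2 * t)]
    linarith

variable {F V : Type} [Field F] [Fintype F] [AddCommGroup V] [Module F V] [FiniteDimensional F V]
  {B : LinearMap.BilinForm F V} (hB : B.Nondegenerate) (hA : B.IsAlt)
  {Ω : Type*} [MulAction (SpB B) Ω] [Finite Ω]

include hB

omit [Fintype F] [FiniteDimensional F V] in
theorem inj (h01 : ∀ c : F, c = 0 ∨ c = 1) : Function.Injective fun y => spT hA y 1 := by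
  have k : ∀ y y' : V, spT hA y 1 = spT hA y' 1 → y ≠ 0 → y = y' := fun y y' e hy => by
    obtain ⟨x, hx⟩ := exists_alt_eq_one hB hy
    have h1 : x + (1 * B x y) • y = x + (1 * B x y') • y' :=
      congrArg (fun g : SpB B => (g : V ≃ₗ[F] V) x) e
    have h2 : B x y ≠ 0 := by rw [← hA.neg_eq, hx]; simp
    rw [(h01 _).resolve_left h2] at h1
    rcases h01 (B x y') with h3 | h3 <;> rw [h3] at h1
    · simp [hy] at h1
    · simpa using h1
  intro y y' e
  by_cases hy : y = 0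
  · by_contra h
    exact h (k y' y e.symm fun e' => h (hy.trans e'.symm)).symm
  · exact k y y' e hy

theorem main (h2 : Fintype.card F = 2) (h : Two (SpB B) Ω) {l : ℕ} (hl : finrank F V = 2 * l)
    (h3 : 3 ≤ l) (hone : (∀ a b : Ω, a ≠ b → ∃! y : V, spT hA y 1 • a = b) →
      Nat.card Ω < Nat.card V → (2 * (Nat.card Ω : ℤ) - Nat.card V) ^ 2 = Nat.card V) :
    Nat.card Ω = 2 ^ (l - 1) * (2 ^ l + 1) ∨ Nat.card Ω = 2 ^ (l - 1) * (2 ^ l - 1) := by
  classical
  have : Finite V := Module.finite_of_finite F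
  have : Finite (V ≃ₗ[F] V) := Finite.of_injective _ DFunLike.coe_injective
  have h01 : ∀ c : F, c = 0 ∨ c = 1 := fun c => by
    by_contra e
    push Not at e
    have := Finset.card_le_univ ({0, 1, c} : Finset F)
    rw [Finset.card_eq_three.2 ⟨0, 1, c, zero_ne_one, e.1.symm, e.2.symm, rfl⟩] at this
    omega
  have h11 : (1 + 1 : F) = 0 := (h01 _).resolve_right (by simp)
  have hsq : ∀ y, spT hA y 1 * spT hA y 1 = 1 := fun y => by rw [spT_mul, h11, spT_zero]
  obtain ⟨k, rfl⟩ : ∃ k, l = k + 1 := ⟨l - 1, by omega⟩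
  have hV : Nat.card V = (2 ^ (k + 1)) ^ 2 := by
    rw [Module.natCard_eq_pow_finrank (K := F), Nat.card_eq_fintype_card, h2, hl, ← pow_mul,
      mul_comm]
  have := h.nt
  have := h.pre
  have hge := MD.Sp_two_card_ge (Ω := Ω) hB hA h2 (k := k) (by omega) (by omega)
  have h4 : 4 ≤ 2 ^ k := by
    obtain ⟨j, rfl⟩ : ∃ j, k = j + 2 := ⟨k - 2, by omega⟩
    have := Nat.two_pow_pos j
    rw [pow_add]
    omega
  rw [mul_comm 2 k, pow_mul] at hge
  rw [Nat.add_sub_cancel]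
  rw [pow_succ' 2 k] at hV ⊢
  generalize 2 ^ k = t at hge h4 hV ⊢
  refine fin (by omega) ?_
  have hi := inj hB hA h01
  set D : Set (SpB B) := (fun y => spT hA y 1) '' {y | y ≠ 0} with hDe
  have hD : ∀ g, ∀ d ∈ D, g * d * g⁻¹ ∈ D := by
    rintro g _ ⟨y, hy, rfl⟩
    exact ⟨_, by simpa using hy, (spT_conj hA g y 1).symm⟩
  have hDc : D.ncard = (2 * t) ^ 2 - 1 := by
    rw [hDe, Set.ncard_image_of_injective _ hi, Cnt.ncard_ne, hV]
  obtain ⟨a, b, hab⟩ := exists_pair_ne Ω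
  obtain ⟨c, hc, -⟩ := count1 h hD a
  have hf : ∀ a : Ω, c * (Nat.card Ω - 1) + {d | d ∈ D ∧ d • a = a}.ncard = (2 * t) ^ 2 - 1 :=
    fun a' => by
      obtain ⟨c', h5, h6⟩ := count1 h hD a'
      rw [← hc a b hab, h5 a b hab, h6, hDc]
  have hn := h.two_le
  have hV0 : ∃ x : V, x ≠ 0 := by
    have : Nontrivial V := Finite.one_lt_card_iff_nontrivial.1 (by rw [hV]; nlinarith)
    exact exists_ne 0
  obtain ⟨x, hx⟩ := hV0
  rcases (show c = 0 ∨ c = 1 ∨ c = 2 ∨ 3 ≤ c by omega) with rfl | rfl | rfl | h5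
  · have h5 : stabilizer (SpB B) a = ⊤ := SpB_eq_top_of_spT_mem hB hA _ fun w c => by
      rcases h01 c with rfl | rfl
      · rw [spT_zero]; exact one_mem _
      by_cases hw : w = 0
      · rw [hw, spT_zero_left]; exact one_mem _
      by_contra e
      exact ((Set.ncard_eq_zero (Set.toFinite _)).1 (hc a _ (Ne.symm e))).le
        (show spT hA w 1 ∈ _ from ⟨⟨w, hw, rfl⟩, rfl⟩)
    obtain ⟨g, hg⟩ := exists_smul_eq (SpB B) a b
    exact (hab ((h5.ge (mem_top g) : g • a = a).symm.trans hg)).elim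
  · by_cases h5 : Nat.card Ω < Nat.card V
    · have := hone (fun a b hab => ?_) h5
      · rw [hV] at this
        exact_mod_cast this
      obtain ⟨d, hd⟩ := Set.ncard_eq_one.1 (hc a b hab)
      obtain ⟨⟨y, hy, rfl⟩, h6⟩ := hd.ge rfl
      refine ⟨y, h6, fun y' h7 => hi (hd.le ⟨⟨y', fun e => hab ?_, rfl⟩, h7⟩)⟩
      rw [← h7, e, spT_zero_left, one_smul]
    exfalso
    have h6 : Nat.card Ω = (2 * t) ^ 2 := by
      have := hf a
      omega
    have hder : ∀ d ∈ D, Der Ω d := fun d hd a e =>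
      ((Set.ncard_eq_zero (Set.toFinite _)).1
        (show {d | d ∈ D ∧ d • a = a}.ncard = 0 by have := hf a; omega)).le ⟨hd, e⟩
    obtain ⟨y, hy⟩ := exists_alt_eq_one hB hx
    have hy' : B y x = 1 := by
      rw [← hA.neg_eq, hy]
      exact neg_eq_of_add_eq_zero_right h11
    have y0 : y ≠ 0 := fun e => by simp [e] at hy
    have e1 : spT hA x 1 * spT hA y 1 * (spT hA x 1)⁻¹ = spT hA y 1 * spT hA x 1 * (spT hA y 1)⁻¹ := by
      rw [spT_conj, spT_conj]
      congr 1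
      change y + (1 * B y x) • x = x + (1 * B x y) • y
      rw [hy, hy', add_comm]
      simp
    have e2 : (spT hA x 1 * spT hA y 1) ^ 3 ^ 1 = 1 := by
      rw [inv_eq_of_mul_eq_one_right (hsq x), inv_eq_of_mul_eq_one_right (hsq y)] at e1
      calc (spT hA x 1 * spT hA y 1) ^ 3 ^ 1 = (spT hA x 1 * spT hA y 1 * spT hA x 1) *
            (spT hA y 1 * spT hA x 1 * spT hA y 1) := by
            simp only [pow_succ, pow_zero, mul_assoc, one_mul]
        _ = spT hA x 1 * (spT hA y 1 * (spT hA x 1 * spT hA x 1) * spT hA y 1) * spT hA x 1 := by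
            rw [← e1]; simp only [mul_assoc]
        _ = 1 := by rw [hsq, mul_one, hsq, mul_one, hsq]
    have : Fact (Nat.Prime 3) := ⟨Nat.prime_three⟩
    have e3 := fx_pos (Ω := Ω) e2 fun e => by
      rw [h6, ← hV, Module.natCard_eq_pow_finrank (K := F), Nat.card_eq_fintype_card, h2] at e
      have := Nat.prime_three.dvd_of_dvd_pow e
      omega
    have := count2 h hD (c := 1) (z := spT hA x 1) (S := {spT hA y 1}) (e := 1)
      (by rintro _ ⟨w, hw, rfl⟩; exact ⟨w, hw, (inv_eq_of_mul_eq_one_right (hsq w)).symm⟩) hder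
      (by rw [hDc, h6, one_mul]) ⟨x, hx, rfl⟩ (by rintro _ rfl; exact ⟨y, y0, rfl⟩)
      (fun e => by
        rw [inv_eq_of_mul_eq_one_right (hsq x)] at e
        rw [hi e, hA.self_eq_zero] at hy
        exact zero_ne_one hy) (by rintro _ rfl; exact e3)
    simp at this
  · have := Fintype.ofFinite Ω
    have := Fintype.ofFinite (SpB B)
    have e1 := Cnt.dbl fun (a : Ω) (d : SpB B) => d ∈ D ∧ d • a = a
    rw [Cnt.sum_ind D (fun d => {a : Ω | d ∈ D ∧ d • a = a}.ncard) (fx Ω (spT hA x 1))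
      (fun d hd => ?_) (fun d hd => by simp [hd]), hDc,
      Finset.sum_congr rfl fun a' _ => show _ = {d | d ∈ D ∧ d • a = a}.ncard by
        have := hf a; have := hf a'; omega,
      Finset.sum_const, Finset.card_univ, ← Nat.card_eq_fintype_card, smul_eq_mul] at e1
    · have e2 := hf a
      have e3 : 1 ≤ (2 * t) ^ 2 := by nlinarith
      zify [e3, (by omega : 1 ≤ Nat.card Ω)] at e1 e2 hge h4
      have := two (s := 2 * t) (by omega) (dvd_mul_right _ _) (Int.natCast_nonneg _)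
        (by linarith) e2 ((mul_comm _ _).trans e1)
      rw [this]
      ring
    · obtain ⟨y, hy, rfl⟩ := id hd
      obtain ⟨g, h5, h6⟩ := SpB_exists_apply_eq hB hA hx hy
      rw [← fx_conj (Ω := Ω) _ ⟨g, h5⟩, spT_conj, fx]
      simp only [hd, true_and, h6]
  · exfalso
    have := hf a
    have e1 : 3 * (Nat.card Ω - 1) ≤ c * (Nat.card Ω - 1) := Nat.mul_le_mul_right _ h5
    have e2 : (2 * t) ^ 2 = 4 * t ^ 2 := by ring
    have e3 : 4 * t ≤ t ^ 2 := by nlinarith
    omega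

end Sp2b

end Cfsg.Lib.CKS
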