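import Cfsg.Agent.CKS.Sp2a
import Cfsg.Agent.CKS.Sp2bX

/-!
# Doubly transitive actions of the symplectic group of the field with two elements
-/

set_option autoImplicit false

namespace Cfsg.Lib.CKS

open MulAction Cfsg.Lib.Class Subgroup Module

variable {F V : Type} [Field F] [Fintype F] [AddCommGroup V] [Module F V] [FiniteDimensional F V]
  {B : LinearMap.BilinForm F V} (hB : B.Nondegenerate) (hA : B.IsAlt)
  {Ω : Type*} [MulAction (SpB B) Ω] [Finite Ω]

include hB hA

theorem sp_two (h2 : Fintype.card F = 2) (h : Two (SpB B) Ω) {l : ℕ} (hl : finrank F V = 2 * l)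
    (h3 : 3 ≤ l) :
    Nat.card Ω = 2 ^ (l - 1) * (2 ^ l + 1) ∨ Nat.card Ω = 2 ^ (l - 1) * (2 ^ l - 1) :=
  Sp2b.main hB hA h2 h hl h3 (sp_two_one hB hA h2 h)

end Cfsg.Lib.CKS
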