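import Cfsg.Agent.CKS.HeisT

/-!
# The long root group and the Heisenberg radical in `²E₆(q)`
-/

set_option autoImplicit false
set_option quotPrecheck false
set_option linter.unusedSectionVars false

namespace Cfsg.Lib.CKS

open MulAction Cfsg.Lib.Chev Cfsg.Lie Cfsg.Lib.Class Subgroup

section tw
open Core HeisH
variable {F : Type} [Field F] [Fintype F] {q : ℕ}

local notation "Y6" => certE6.Y F rootE6

section E6
variable (f : F →+* F) (hf : ∀ t, f (f t) = t) (hF : Fintype.card F = q ^ 2) (hq : ∀ t, f t = t ^ q)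
local notation "K6" => (twE6 f hf).G1
include hF hq

theorem card_Zl_twE6 : Nat.card (Zl Y6 K6 (1 : Fin 6)) = q := by
  refine (lv_E6.card_Zl_tw certE6 (endE6 f hf) (subData_E6 hf) (by decide +kernel)).trans ?_
  simp only [hq]
  exact card_pow_eq_self hF

theorem card_Ql_twE6 : Nat.card (Ql Y6 K6 (1 : Fin 6)) = q ^ 21 := by
  have h := card_UJ (twE6 f hf) (certE6.faithful F rootE6) rfl (twE6_card_UL f hf hF hq)
    ((subE6 f).S.stable_compl (j := (1 : Fin 6)) (subE6_π f 1))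
  have e1 : rootE6.weyl.posRoots.card = 36 := card_posRoots_E6 (hasC_E6 rootE6)
  have e2 : rootE6.weyl.len (rootE6.weyl.w0 ({(1 : Fin 6)}ᶜ : Set (Fin 6))) = 15 :=
    (congrArg rootE6.weyl.len (WeylData.HasC.eq_w0 (l := 6) (hasC_E6 rootE6) (J := {1}ᶜ)
      (ω := [0, 2, 3, 4, 5, 0, 2, 3, 4, 0, 2, 3, 0, 2, 0]) (by decide)
      (by decide +kernel))).symm.trans
      (WeylData.HasC.len_wprod (l := 6) (hasC_E6 rootE6) (by decide +kernel))
  have h2 := two_le_of_card hF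
  rw [e1] at h
  refine Nat.eq_of_mul_eq_mul_right (pow_pos (show 0 < q by omega) 15) ?_
  refine ((congrArg (fun n => _ * q ^ (n / 1)) e2).symm.trans h).trans ?_
  rw [← pow_add]

theorem heis_twE6 : Heis (Ql Y6 K6 (1 : Fin 6)) (Zl Y6 K6 (1 : Fin 6)) (q ^ 10) := by
  obtain ⟨w, hw⟩ := exists_pow_ne_self hF one_lt_two
  rw [← hq] at hw
  have hc : ∀ s ∈ lvL rootE6 (1 : Fin 6) 1, (gE6.σ s = s ∧ gE6.ε s = 1) ∨
      ((∀ r ∈ [s, gE6.σ s], r ∈ lvL rootE6 (1 : Fin 6) 1) ∧ gE6.σ (gE6.σ s) = s ∧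
        gE6.ε (gE6.σ s) * gE6.ε s = 1 ∧
        [s, gE6.σ s].Pairwise fun r s => orthChk chevE6 r s = true) := by decide +kernel
  refine lv_E6.heis_tw certE6 (endE6 f hf) (subData_E6 hf) (by decide +kernel) (by decide +kernel)
    (fun s hs c h => ?_) ?_
  · rcases hc s hs with ⟨h1, h2⟩ | ⟨h1, h2, h3, h4⟩
    · exact good_one hs h1 h2 h
    · exact good_two hf hw h1 h2 h3 h4 h
  · exact (card_Ql_twE6 f hf hF hq).trans
      (Eq.trans (by ring) (congrArg _ (card_Zl_twE6 f hf hF hq).symm))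

end E6

end tw

end Cfsg.Lib.CKS
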