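import Cfsg.Agent.CKS.HeisA

/-!
# Commutators in the unipotent subgroup of `²E₆`
-/

set_option autoImplicit false
set_option quotPrecheck false

namespace Cfsg.Lib.CKS.T6X

open Cfsg.Lib.Chev Cfsg.Lie Subgroup Core
open scoped commutatorElement

section gen
variable {K G : Type*} [Field K] [Group G] {x : ℕ → K → G}

theorem comm_mem {H : Subgroup G} {a b : G} (ha : a ∈ H) (hb : b ∈ H) :
    a⁻¹ * (b * a * b⁻¹) ∈ ⁅H, H⁆ := by
  simpa [commutatorElement_def, mul_assoc] using commutator_mem_commutator (inv_mem ha) hb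

/-- The sum of the two roots is neither a root nor zero. -/
abbrev Cm (r s : ℕ) : Prop := r < chevE6.nroots ∧ s < chevE6.nroots ∧ s ≠ chevE6.neg r ∧
  chevE6.chainRoot r s 1 = none

theorem Cm_eq_1' : type_of% @Cm.eq_1 := @Cm.eq_1

theorem cm (h : StRel chevE6 x) {r s : ℕ} (hc : Cm r s) (t u : K) : Commute (x r t) (x s u) :=
  h.commute rootE6 hc.1 hc.2.1 hc.2.2.1 hc.2.2.2 t u

theorem cj0 (h : StRel chevE6 x) {r s : ℕ} (hc : Cm r s) (t u : K) :
    MulAut.conj (x r t) (x s u) = x s u := by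
  rw [MulAut.conj_apply, (cm h hc t u).eq, mul_inv_cancel_right]

theorem cj2 (a b c d : G) : a * b * (c * d) * (a * b)⁻¹ =
    MulAut.conj a (MulAut.conj b c) * MulAut.conj a (MulAut.conj b d) := by
  simp [mul_assoc]

theorem cA (h : StRel chevE6 x) (t : K) : (x 46 t)⁻¹ * (x 39 1 * x 46 t * (x 39 1)⁻¹) = x 47 t := by
  rw [← MulAut.conj_apply, h.conj_eq_mul rootE6 (k := 47) (m := -1) (by decide +kernel)]
  simp

theorem cB (h : StRel chevE6 x) (t v : K) : (x 56 t * x 36 v)⁻¹ *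
    (x 42 1 * x 37 1 * (x 56 t * x 36 v) * (x 42 1 * x 37 1)⁻¹) = x 57 t * x 38 (-v) := by
  rw [cj2, cj0 h (r := 37) (by decide +kernel),
    h.conj_eq_mul rootE6 (k := 57) (m := -1) (by decide +kernel),
    h.conj_eq_mul rootE6 (k := 38) (m := 1) (by decide +kernel), map_mul,
    cj0 h (by decide +kernel), cj0 h (by decide +kernel), mul_assoc, ← mul_assoc (x 57 _),
    (cm h (r := 57) (s := 36) (by decide +kernel) _ _).eq]
  simp [mul_assoc]

theorem cC (h : StRel chevE6 x) (t v : K) : (x 43 t * x 40 (-v))⁻¹ *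
    (x 42 1 * x 37 1 * (x 43 t * x 40 (-v)) * (x 42 1 * x 37 1)⁻¹) = x 44 (t + v) := by
  rw [cj2, h.conj_eq_mul rootE6 (k := 44) (m := -1) (by decide +kernel), map_mul,
    cj0 h (by decide +kernel), cj0 h (by decide +kernel), cj0 h (r := 37) (by decide +kernel),
    h.conj_eq_mul rootE6 (k := 44) (m := 1) (by decide +kernel), mul_assoc, ← mul_assoc (x 44 _),
    (cm h (r := 44) (s := 40) (by decide +kernel) _ _).eq, mul_assoc (x 40 _),
    h.add 44 (by decide +kernel)]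
  simp [mul_assoc]

theorem cD (h : StRel chevE6 x) (s v : K) : (x 42 s * x 37 v)⁻¹ *
    (x 39 1 * (x 42 s * x 37 v) * (x 39 1)⁻¹) * x 44 (s * v) = x 43 s * x 40 (-v) := by
  have e := h.conj_eq_mul rootE6 (r := 43) (s := 37) (k := 44) (m := -1) (by decide +kernel) s (-v)
  rw [MulAut.conj_apply, ← h.inv (r := 37) (by decide +kernel), inv_inv] at e
  rw [← MulAut.conj_apply, map_mul, h.conj_eq_mul rootE6 (k := 43) (m := -1) (by decide +kernel),
    h.conj_eq_mul rootE6 (k := 40) (m := 1) (by decide +kernel)]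
  simp only [Int.cast_neg, Int.cast_one, mul_one, neg_mul, one_mul, neg_neg] at e ⊢
  rw [show (x 42 s * x 37 v)⁻¹ * (x 42 s * x 43 s * (x 37 v * x 40 (-v))) =
    (x 37 v)⁻¹ * x 43 s * x 37 v * x 40 (-v) by group, e, mul_assoc, mul_assoc,
    (cm h (r := 40) (s := 44) (by decide +kernel) _ _).eq, ← mul_assoc (x 44 _),
    h.add 44 (by decide +kernel)]
  simp [h.zero (r := 44) (by decide +kernel)]

theorem span3 (h : StRel chevE6 x) {r s k : ℕ} (h1 : Cm r s) (h2 : Cm r k) (h3 : Cm s k) {g : G}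
    (hg : g ∈ spanX (xSub x) {i | i ∈ [r, s, k]}) : ∃ a b c, g = x r a * x s b * x k c := by
  let H : Subgroup G :=
    { carrier := {g | ∃ a b c, g = x r a * x s b * x k c}
      one_mem' := ⟨0, 0, 0, by rw [h.zero h1.1, h.zero h3.1, h.zero h3.2.1]; simp⟩
      mul_mem' := by
        rintro _ _ ⟨a, b, c, rfl⟩ ⟨a', b', c', rfl⟩
        refine ⟨a + a', b + b', c + c', ?_⟩
        rw [((cm h h2 _ _).mul_left (cm h h3 _ _)).symm.mul_mul_mul_comm,
          (cm h h1 _ _).symm.mul_mul_mul_comm, h.add _ h1.1, h.add _ h3.1, h.add _ h3.2.1]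
      inv_mem' := by
        rintro _ ⟨a, b, c, rfl⟩
        refine ⟨-a, -b, -c, ?_⟩
        rw [((cm h h2 _ _).mul_left (cm h h3 _ _)).eq, (cm h h1 _ _).eq, mul_inv_rev, mul_inv_rev,
          h.inv h1.1, h.inv h3.1, h.inv h3.2.1] }
  refine (spanX_le_iff (K := H)).2 (fun i hi => (closure_le _).2 ?_) hg
  rintro _ ⟨t, rfl⟩
  simp only [List.mem_cons, List.not_mem_nil, or_false, Set.mem_ofPred_eq] at hi
  rcases hi with rfl | rfl | rfl
  · exact ⟨t, 0, 0, by rw [h.zero h3.1, h.zero h3.2.1]; simp⟩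
  · exact ⟨0, t, 0, by rw [h.zero h1.1, h.zero h3.2.1]; simp⟩
  · exact ⟨0, 0, t, by rw [h.zero h1.1, h.zero h3.1]; simp⟩

theorem span_comm (h : StRel chevE6 x) {S T : Set ℕ} (hc : ∀ r ∈ S, ∀ s ∈ T, Cm r s) {a b : G}
    (ha : a ∈ spanX (xSub x) S) (hb : b ∈ spanX (xSub x) T) : a * b = b * a := by
  have : spanX (xSub x) T ≤ centralizer (spanX (xSub x) S) := by
    refine spanX_le_iff.2 fun s hs => (closure_le _).2 ?_
    rintro _ ⟨u, rfl⟩
    refine le_centralizer_iff.1 (spanX_le_iff.2 fun r hr => (closure_le _).2 ?_) (mem_zpowers _)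
    rintro _ ⟨t, rfl⟩ _ ⟨n, rfl⟩
    exact ((cm h (hc r hr s hs) t u).zpow_right n).symm
  exact this hb a ha

theorem exists_trace {f : K →+* K} (hf : ∀ t, f (f t) = t) {a : K} (ha : f a ≠ a) {c : K}
    (hc : f c = c) : ∃ t, t + f t = c := by
  have h5 : a - f a ≠ 0 := sub_ne_zero.2 ha.symm
  have h6 : f a - a ≠ 0 := sub_ne_zero.2 ha
  refine ⟨c * a / (a - f a), ?_⟩
  simp only [map_div₀, map_sub, map_mul, hf, hc]
  field_simp
  ring

end gen

section tw
variable {F : Type} [Field F] {f : F →+* F} {hf : ∀ t, f (f t) = t}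

local notation "Y6" => certE6.Y F rootE6
local notation "x" => xGL chevE6 F

theorem rel : StRel chevE6 x := (certE6.model F rootE6).toStRel

theorem sig {r s : ℕ} {e : ℤ} (h : r < chevE6.nroots ∧ gE6.σ r = s ∧ gE6.ε r = e) (t : F) :
    (twE6 f hf).σ (x r t) = x s (e * f t) := by
  rw [twE6, StEnd.twist_σ, (endE6 f hf).map_x r h.1, RootSubst.app_apply, ← h.2.1, ← h.2.2]
  exact congrArg (x · _) (gE6.sym_ρ rootE6 h.1)

theorem x_G0 {r : ℕ} (h : r < chevE6.nroots) (t : F) : x r t ∈ (Y6).G0 :=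
  (certE6.model F rootE6).x_mem_G0 h t

theorem one_F {r : ℕ} (h : r < chevE6.nroots ∧ gE6.σ r = r ∧ gE6.ε r = 1) {t : F} :
    x r t ∈ (twE6 f hf).F ↔ f t = t := by
  refine ⟨fun e => ?_, fun e => ⟨x_G0 h.1 t, by rw [sig h, e]; simp⟩⟩
  have := e.2
  rw [sig h] at this
  simpa using certE6.xGL_injective rootE6 h.1 this

/-- A pair of commuting roots interchanged by the graph symmetry. -/
abbrev Pr (r s : ℕ) (e : ℤ) : Prop := Cm r s ∧ (gE6.σ r = s ∧ gE6.ε r = e) ∧
  (gE6.σ s = r ∧ gE6.ε s = e) ∧ e * e = 1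

theorem Pr_eq_1' : type_of% @Pr.eq_1 := @Pr.eq_1

theorem sig2 {r s : ℕ} {e : ℤ} (h : Pr r s e) (a b : F) :
    (twE6 f hf).σ (x r a * x s b) = x r (e * f b) * x s (e * f a) := by
  rw [(twE6 f hf).map_mul _ (x_G0 h.1.1 _) _ (x_G0 h.1.2.1 _), sig ⟨h.1.1, h.2.1⟩,
    sig ⟨h.1.2.1, h.2.2.1⟩, (cm rel h.1 _ _).eq]

theorem two_F {r s : ℕ} {e : ℤ} (h : Pr r s e) (t : F) {v : F} (hv : v = e * f t) :
    x r t * x s v ∈ (twE6 f hf).F := by
  refine ⟨mul_mem (x_G0 h.1.1 _) (x_G0 h.1.2.1 _), ?_⟩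
  rw [sig2 h, hv, map_mul, map_intCast, hf, ← mul_assoc, ← Int.cast_mul, h.2.2.2, Int.cast_one,
    one_mul]

theorem fixB {g : GL chevE6.Idx F} (hg : g ∈ spanX (xSub x) {i | i ∈ [57, 38]})
    (hF : g ∈ (twE6 f hf).F) : ∃ a, g = x 57 a * x 38 (-f a) := by
  obtain ⟨a, b, c, rfl⟩ := span3 rel (r := 57) (s := 38) (k := 38) (by decide +kernel)
    (by decide +kernel) (by decide +kernel) (spanX_mono _ (by simp) hg)
  rw [mul_assoc, rel.add 38 (by decide +kernel)] at hF ⊢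
  have e := hF.2
  rw [sig2 (e := -1) (by decide +kernel)] at e
  have := (certE6.model F rootE6).posInj [(57, -f (b + c)), (38, -f a)] [(57, a), (38, b + c)] rfl
    (by simp) (fun p hp => (by decide +kernel : ∀ r ∈ [57, 38], chevE6.IsPosRoot r) _
      (List.mem_map_of_mem (f := Prod.fst) hp)) (by simpa using e)
  simp only [List.cons.injEq, Prod.mk.injEq, true_and, and_true] at this
  exact ⟨a, by rw [← this.2]⟩

theorem fixC {g : GL chevE6.Idx F} (hg : g ∈ spanX (xSub x) {i | i ∈ [43, 40, 44]})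
    (hF : g ∈ (twE6 f hf).F) : ∃ a c, f c = c ∧ g = x 43 a * x 40 (-f a) * x 44 c := by
  obtain ⟨a, b, c, rfl⟩ := span3 rel (by decide +kernel) (by decide +kernel) (by decide +kernel) hg
  have e := hF.2
  rw [(twE6 f hf).map_mul _ (mul_mem (x_G0 (by decide +kernel) _) (x_G0 (by decide +kernel) _)) _
    (x_G0 (by decide +kernel) _), sig2 (e := -1) (by decide +kernel),
    sig (s := 44) (e := 1) (by decide +kernel)] at e
  have := (certE6.model F rootE6).posInj [(43, -f b), (40, -f a), (44, f c)]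
    [(43, a), (40, b), (44, c)] rfl
    (by simp) (fun p hp => (by decide +kernel : ∀ r ∈ [43, 40, 44], chevE6.IsPosRoot r) _
      (List.mem_map_of_mem (f := Prod.fst) hp)) (by simpa [mul_assoc] using e)
  simp only [List.cons.injEq, Prod.mk.injEq, true_and, and_true] at this
  exact ⟨a, c, this.2.2, by rw [← this.2.1]⟩

theorem aF : x 42 1 * x 37 1 ∈ (twE6 f hf).F := two_F (e := 1) (by decide +kernel) 1 (by simp)

theorem bF (t : F) : x 43 t * x 40 (-f t) ∈ (twE6 f hf).F :=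
  two_F (e := -1) (by decide +kernel) t (by simp)

end tw

theorem exists_ne {F : Type} [Field F] [Fintype F] {q : ℕ} {f : F →+* F}
    (hF : Fintype.card F = q ^ 2) (hq : ∀ t, f t = t ^ q) : ∃ a, f a ≠ a := by
  simpa only [hq] using exists_pow_ne_self hF one_lt_two

end Cfsg.Lib.CKS.T6X
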