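import Cfsg.Agent.CKS.HeisU
import Cfsg.Agent.CKS.T6bX

/-!
# A subgroup of `²E₆` centralising a long root `SL₂`
-/

set_option autoImplicit false
set_option quotPrecheck false
set_option linter.unusedSectionVars false

namespace Cfsg.Lib.CKS

open MulAction Cfsg.Lib.Chev Cfsg.Lie Subgroup Core
open scoped commutatorElement

section tw
open T6X
variable {F : Type} [Field F] [Fintype F] {q : ℕ}

local notation "Y6" => certE6.Y F rootE6

variable (f : F →+* F) (hf : ∀ t, f (f t) = t) (hF : Fintype.card F = q ^ 2) (hq : ∀ t, f t = t ^ q)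
local notation "K6" => (twE6 f hf).G1
include hF hq

theorem mg_twE6 (p : ℕ) [Fact p.Prime] [CharP F p] :
    MG p (Zl Y6 K6 (1 : Fin 6)) (Zl Y6 K6 (1 : Fin 6) ⊔ Zm Y6 K6 (1 : Fin 6)) := by
  obtain ⟨a, ha⟩ := exists_ne hF hq
  have hY := certE6.faithful F rootE6
  obtain ⟨m, hm, hl⟩ := (twE6 f hf).exists_lifts hY
    (Cert.wact_mem_fix (subData_E6 hf) ([0, 1, 3, 2, 3, 1] : List (Fin 6)))
  obtain ⟨c, -, e'⟩ := (certE6.stRelN F rootE6).toStRelW.lifts_conj_x' rootE6 hl (r := 71)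
    (by decide +kernel)
  have e := fun u => (e' u).trans (congrArg (xGL chevE6 F · (c * u))
    ((rootE6.smul_eq_wact orbE6 ([0, 1, 3, 2, 3, 1] : List (Fin 6)) (by decide +kernel)).trans
      (by decide +kernel : _ = 44)))
  have hz : ∀ z ∈ cj (⟨m, hm⟩ : K6) (Zl Y6 K6 (1 : Fin 6)), ∃ t, z.1 = xGL chevE6 F 44 t := by
    rintro _ ⟨z, hz, rfl⟩
    obtain ⟨t, ht⟩ := (rel.mem_xSub_iff (r := 71) (by decide +kernel)).1
      ((HeisH.lv_E6.mem_Zl certE6).1 hz)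
    exact ⟨c * t, by rw [← e, ← ht]; rfl⟩
  have hU : spanX (xSub (xGL chevE6 F)) {i | i ∈ [37, 40, 42, 43, 44]} ≤ (Y6).U :=
    spanX_mono _ fun r hr => rootE6.weyl_pos.2
      ((by decide +kernel : ∀ r ∈ [37, 40, 42, 43, 44], chevE6.IsPosRoot r) r hr)
  have hx : ∀ r ∈ [37, 40, 42, 43, 44], ∀ t, xGL chevE6 F r t ∈
      spanX (xSub (xGL chevE6 F)) {i | i ∈ [37, 40, 42, 43, 44]} := fun r hr t =>
    mem_spanX (T := {i | i ∈ [37, 40, 42, 43, 44]}) _ hr (x_mem_xSub _ _ t)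
  refine ⟨XL F chevE6 K6 [37, 40, 42, 43, 44], ⟨m, hm⟩,
    ((certE6.isPGroup_U rootE6 p).to_le hU).comap_subtype, fun z h y hy => ?_, fun z h => ?_,
    fun y hy => ?_⟩
  · obtain ⟨t, ht⟩ := hz z h
    refine Subtype.ext (span_comm rel (S := {i | i ∈ [44]}) (T := {i | i ∈ [37, 40, 42, 43, 44]})
      (by decide +kernel : ∀ r ∈ [44], ∀ s ∈ [37, 40, 42, 43, 44], Cm r s) ?_ hy)
    rw [ht]
    exact mem_spanX (T := {i | i ∈ [44]}) _ (List.mem_singleton_self 44) (x_mem_xSub _ _ t)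
  · obtain ⟨t, ht⟩ := hz z h
    obtain ⟨s, rfl⟩ := exists_trace hf ha ((one_F (by decide +kernel)).1
      (ht ▸ (twE6 f hf).G1_le_F z.2))
    have h1 := mul_mem (hx 43 (by decide) s) (hx 40 (by decide) (-f s))
    have h2 := mul_mem (hx 42 (by decide) 1) (hx 37 (by decide) 1)
    have := comm_mem (H := XL F chevE6 K6 [37, 40, 42, 43, 44])
      (a := ⟨_, (twE6 f hf).U_inf_le_G1 hY ⟨hU h1, bF s⟩⟩)
      (b := ⟨_, (twE6 f hf).U_inf_le_G1 hY ⟨hU h2, aF⟩⟩) h1 h2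
    convert this using 1
    exact Subtype.ext (ht.trans (cC rel s (f s)).symm)
  · have k : ∀ r, r < chevE6.nroots → (2 ≤ rootE6.rc r (1 : Fin 6) ∨ 2 ≤ -rootE6.rc r (1 : Fin 6)) →
        ∀ s ∈ [37, 40, 42, 43, 44], Cm r s := by decide +kernel
    have : Zl Y6 K6 (1 : Fin 6) ⊔ Zm Y6 K6 (1 : Fin 6) ≤ centralizer {y} := by
      refine sup_le (fun s hs => mem_centralizer_singleton_iff.2 (Subtype.ext ?_))
        fun s hs => mem_centralizer_singleton_iff.2 (Subtype.ext ?_)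
      · exact span_comm rel (fun r hr => k r (rootE6.weyl_mem.1 hr.1) (.inl hr.2)) hs hy
      · exact span_comm rel (fun r hr => k r (rootE6.weyl_mem.1 hr.1) (.inr hr.2)) hs hy
    exact fun s hs => (mem_centralizer_singleton_iff.1 (this hs)).symm

end tw

end Cfsg.Lib.CKS
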