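import Cfsg.Agent.CKS.T6bX

/-!
# The rank two generation property for `²E₆`
-/

set_option autoImplicit false
set_option quotPrecheck false
set_option linter.unusedSectionVars false

namespace Cfsg.Lib.CKS

open MulAction Cfsg.Lib.Chev Cfsg.Lie Subgroup Core
open scoped commutatorElement

namespace T6X

variable {F : Type} [Field F] {f : F →+* F} {hf : ∀ t, f (f t) = t} {J : Set (Fin 6)}

local notation "Y6" => certE6.Y F rootE6
local notation "x" => xGL chevE6 F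
local notation "UU" => (Y6).UL J ⊓ (twE6 f hf).F

/-- The coordinates of a root. -/
noncomputable def rc6 (r : ℕ) (i : Fin 6) : ℤ := rootE6.rc r i

theorem rc6_eq_1' : type_of% @rc6.eq_1 := @rc6.eq_1

theorem xUL {l : List (Fin 6)} (hl : ∀ j ∈ l, j ∈ J) {r : ℕ}
    (hr : chevE6.IsPosRoot r ∧ ∀ i : Fin 6, i ∉ l → rc6 r i = 0) (t : F) :
    x r t ∈ (Y6).UL J :=
  mem_spanX (T := {r | rootE6.weyl.Pos r ∧ rootE6.weyl.InJ J r}) _ ⟨rootE6.weyl_pos.2 hr.1,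
    rootE6.weyl_mem.2 hr.1.1, fun i hi => hr.2 i fun h => hi (hl i h)⟩ (x_mem_xSub _ _ t)

theorem genA (hl : ∀ j ∈ [1, 3], j ∈ J) :
    spanX (xSub x) {i | i ∈ [47]} ⊓ (twE6 f hf).F ≤ ⁅UU, UU⁆ := by
  rintro g ⟨hg, hF⟩
  obtain ⟨t, rfl⟩ := (rel.mem_xSub_iff (r := 47) (by decide +kernel)).1
    (spanX_singleton (xSub x) 47 ▸ spanX_mono _ (by simp) hg)
  have ht := (one_F (by decide +kernel)).1 hF
  rw [← cA rel]
  exact comm_mem ⟨xUL hl (by decide +kernel) _, (one_F (by decide +kernel)).2 ht⟩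
    ⟨xUL hl (by decide +kernel) _, (one_F (by decide +kernel)).2 (map_one f)⟩

theorem genB (hl : ∀ j ∈ [0, 2, 4, 5], j ∈ J) :
    spanX (xSub x) {i | i ∈ [57, 38]} ⊓ (twE6 f hf).F ≤ ⁅UU, UU⁆ := by
  rintro g ⟨hg, hF⟩
  obtain ⟨t, rfl⟩ := fixB hg hF
  rw [← cB rel]
  exact comm_mem ⟨mul_mem (xUL hl (by decide +kernel) _) (xUL hl (by decide +kernel) _),
    two_F (e := 1) (by decide +kernel) t (by simp)⟩
    ⟨mul_mem (xUL hl (by decide +kernel) _) (xUL hl (by decide +kernel) _), aF⟩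

theorem genC (hl : ∀ j ∈ [2, 3, 4], j ∈ J) {a : F} (ha : f a ≠ a) :
    spanX (xSub x) {i | i ∈ [43, 40, 44]} ⊓ (twE6 f hf).F ≤ ⁅UU, UU⁆ := by
  rintro g ⟨hg, hF⟩
  obtain ⟨s, c, hc, rfl⟩ := fixC hg hF
  have key : ∀ c, f c = c → x 44 c ∈ ⁅UU, UU⁆ := fun c hc => by
    obtain ⟨t, rfl⟩ := exists_trace hf ha hc
    rw [← cC rel]
    exact comm_mem ⟨mul_mem (xUL hl (by decide +kernel) _) (xUL hl (by decide +kernel) _), bF t⟩
      ⟨mul_mem (xUL hl (by decide +kernel) _) (xUL hl (by decide +kernel) _), aF⟩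
  rw [← cD rel]
  exact mul_mem (mul_mem (comm_mem ⟨mul_mem (xUL hl (by decide +kernel) _)
    (xUL hl (by decide +kernel) _), two_F (e := 1) (by decide +kernel) s (by simp)⟩
    ⟨xUL hl (by decide +kernel) _, (one_F (by decide +kernel)).2 (map_one f)⟩)
    (key _ (by rw [map_mul, hf, mul_comm]))) (key c hc)

/-- The positive roots supported on two orbits, but not on one, are listed in `L`. -/
abbrev Ck (i i' : Fin 6) (l : List (Fin 6)) (L : List ℕ) : Prop :=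
  (∀ j ∈ l, j ∈ orbE6 i ∨ j ∈ orbE6 i') ∧ ∀ r, r < chevE6.nroots → chevE6.IsPosRoot r →
    (∀ j : Fin 6, j ∉ orbE6 i → j ∉ orbE6 i' → rc6 r j = 0) →
    (∀ k : Fin 6, ∃ j : Fin 6, j ∉ orbE6 k ∧ rc6 r j ≠ 0) → r ∈ L

theorem Ck_eq_1' : type_of% @Ck.eq_1 := @Ck.eq_1

set_option synthInstance.maxSize 2000 in
theorem ck : ∀ i i' : Fin 6, Ck i i' [] [] ∨ Ck i i' [1, 3] [47] ∨ Ck i i' [0, 2, 4, 5] [57, 38] ∨
    Ck i i' [2, 3, 4] [43, 40, 44] := by decide +kernel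

theorem Ck.use {i i' : Fin 6} {l : List (Fin 6)} {L : List ℕ} (h : Ck i i' l L)
    (k : ∀ J : Set (Fin 6), (∀ j ∈ l, j ∈ J) → spanX (xSub x) {i | i ∈ L} ⊓ (twE6 f hf).F ≤
      ⁅(Y6).UL J ⊓ (twE6 f hf).F, (Y6).UL J ⊓ (twE6 f hf).F⁆) :
    Gen2 (twE6 f hf) ((subE6 f).S.orb i ∪ (subE6 f).S.orb i') := by
  refine le_trans (inf_le_inf_right _ (spanX_mono _ ?_)) (k _ ?_)
  · rintro r ⟨h1, h2, h3⟩
    simp only [subE6_orb] at h2
    refine h.2 r (rootE6.weyl_mem.1 h1.1) (rootE6.weyl_pos.1 h1)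
      (fun j a b => h2.2 j fun e => e.elim a b) fun k => ?_
    by_contra hn
    refine h3 k ?_
    rw [subE6_orb]
    exact ⟨h1.1, fun j hj => by_contra fun e => hn ⟨j, hj, e⟩⟩
  · simp only [subE6_orb]
    exact h.1

end T6X

section tw
open T6X
variable {F : Type} [Field F] [Fintype F] {q : ℕ}
variable (f : F →+* F) (hf : ∀ t, f (f t) = t) (hF : Fintype.card F = q ^ 2) (hq : ∀ t, f t = t ^ q)
include hF hq

theorem gen2_twE6 (i i') : Gen2 (twE6 f hf) ((subE6 f).S.orb i ∪ (subE6 f).S.orb i') := by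
  obtain ⟨a, ha⟩ := exists_ne hF hq
  rcases ck i i' with h | h | h | h
  · exact h.use fun J _ => inf_le_left.trans (spanX_le_iff.2 fun r hr => by simp at hr)
  · exact h.use fun J hl => genA hl
  · exact h.use fun J hl => genB hl
  · exact h.use fun J hl => genC hl ha

end tw

end Cfsg.Lib.CKS
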