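import Cfsg.Agent.CKS.HeisT

/-!
# The long root group and the Heisenberg radical in `³D₄(q)`
-/

set_option autoImplicit false
set_option quotPrecheck false
set_option linter.unusedSectionVars false

namespace Cfsg.Lib.CKS

open MulAction Cfsg.Lib.Chev Cfsg.Lie Cfsg.Lib.Class Subgroup

theorem HeisH.lv_D4 : HeisH.LV rootD4 (1 : Fin 4) 23 := ⟨by decide +kernel, by decide +kernel⟩

section tw
open Core HeisH
variable {F : Type} [Field F] [Fintype F] {q : ℕ}

local notation "YD" => certD4.Y F rootD4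

section D4
variable (f : F →+* F) (hf : ∀ t, f (f (f t)) = t) (hF : Fintype.card F = q ^ 3)
  (hq : ∀ t, f t = t ^ q)
local notation "KD" => (twD4 f hf).G1
include hF hq

theorem card_Zl_twD4 : Nat.card (Zl YD KD (1 : Fin 4)) = q := by
  refine (lv_D4.card_Zl_tw certD4 (endD4 f hf) (subData_D4 hf) (by decide +kernel)).trans ?_
  simp only [hq]
  exact card_pow_eq_self hF

theorem card_Ql_twD4 : Nat.card (Ql YD KD (1 : Fin 4)) = q ^ 9 := by
  have h := card_UJ (twD4 f hf) (certD4.faithful F rootD4) rfl (twD4_card_UL f hf hF hq)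
    ((subD4 f).S.stable_compl (j := (1 : Fin 4)) (subD4_π f 1))
  have e1 : rootD4.weyl.posRoots.card = 12 := card_posRoots_D4 (hasC_D4 rootD4)
  have e2 : rootD4.weyl.len (rootD4.weyl.w0 ({(1 : Fin 4)}ᶜ : Set (Fin 4))) = 3 :=
    (congrArg rootD4.weyl.len (WeylData.HasC.eq_w0 (l := 4) (hasC_D4 rootD4) (J := {1}ᶜ)
      (ω := [0, 2, 3]) (by decide) (by decide +kernel))).symm.trans
      (WeylData.HasC.len_wprod (l := 4) (hasC_D4 rootD4) (by decide +kernel))
  have h2 := two_le_of_card hF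
  rw [e1] at h
  refine Nat.eq_of_mul_eq_mul_right (pow_pos (show 0 < q by omega) 3) ?_
  refine ((congrArg (fun n => _ * q ^ (n / 1)) e2).symm.trans h).trans ?_
  rw [← pow_add]

theorem heis_twD4 : Heis (Ql YD KD (1 : Fin 4)) (Zl YD KD (1 : Fin 4)) (q ^ 4) := by
  obtain ⟨w, hw⟩ := exists_pow_ne_self hF (by norm_num)
  rw [← hq] at hw
  have hc : ∀ s ∈ lvL rootD4 (1 : Fin 4) 1, (gD4a.σ s = s ∧ gD4a.ε s = 1) ∨
      ((∀ r ∈ [s, gD4a.σ s, gD4a.σ (gD4a.σ s)], r ∈ lvL rootD4 (1 : Fin 4) 1) ∧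
        gD4a.σ (gD4a.σ (gD4a.σ s)) = s ∧
        gD4a.ε (gD4a.σ (gD4a.σ s)) * gD4a.ε (gD4a.σ s) * gD4a.ε s = 1 ∧
        [s, gD4a.σ s, gD4a.σ (gD4a.σ s)].Pairwise fun r s => orthChk chevD4 r s = true) := by
    decide +kernel
  refine lv_D4.heis_tw certD4 (endD4 f hf) (subData_D4 hf) (by decide +kernel) (by decide +kernel)
    (fun s hs c h => ?_) ?_
  · rcases hc s hs with ⟨h1, h2⟩ | ⟨h1, h2, h3, h4⟩
    · exact good_one hs h1 h2 h
    · exact good_three hf hw h1 h2 h3 h4 h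
  · exact (card_Ql_twD4 f hf hF hq).trans
      (Eq.trans (by ring) (congrArg _ (card_Zl_twD4 f hf hF hq).symm))

end D4

end tw

end Cfsg.Lib.CKS
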