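import Cfsg.Agent.CKS.TDx

/-!
# The long root parabolic subgroup of ³D₄(q)
-/

set_option autoImplicit false
set_option quotPrecheck false
set_option linter.unusedSectionVars false

namespace Cfsg.Lib.CKS

open MulAction Cfsg.Lib.Chev Cfsg.Lie Cfsg.Lib.Class Subgroup

section tw
open Core HeisH IrrX TDH
variable {F : Type} [Field F] [Fintype F] {q : ℕ}

local notation "YD" => certD4.Y F rootD4

variable (f : F →+* F) (hf : ∀ t, f (f (f t)) = t) (hF : Fintype.card F = q ^ 3)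
  (hq : ∀ t, f t = t ^ q)
local notation "KD" => (twD4 f hf).G1

namespace TDH

theorem lv_D4 : LV rootD4 (1 : Fin 4) 23 := ⟨by decide +kernel, by decide +kernel⟩

theorem A_mem (t : F) : word (xGL chevD4 F) [(18, t), (13, f t), (12, f (f t))] ∈ (YD).U ∧
    word (xGL chevD4 F) [(18, t), (13, f t), (12, f (f t))] ∈ KD :=
  ⟨RGD.UL_le_U _ _ (((endD4 f hf).mem_UL_iff certD4 (clD4 f hf _) (i := (0 : Fin 4))).2
    ⟨_, ⟨t, rfl⟩, rfl⟩).1, (endD4 f hf).word_mem_G1 certD4 (clD4 f hf _) (i := (0 : Fin 4)) ⟨t, rfl⟩⟩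

theorem mem_Q {u : KD} (hu : (u : GL chevD4.Idx F) ∈ (YD).U) : u ∈ Ql YD KD (1 : Fin 4) ↔
    coef rootD4 (xGL chevD4 F) (0 : Fin 4) (u : GL chevD4.Idx F) = 0 := by
  have hy := certD4.model F rootD4
  refine ⟨fun h => hy.coef_of_mem_UJ (J := {(1 : Fin 4)}ᶜ) (by decide : ¬ (0 : Fin 4) = 1) h,
    fun h0 => (mem_Ql certD4).2 ?_⟩
  have hπ : ∀ i : Fin 4, coef rootD4 (xGL chevD4 F) (piD4 i) (u : GL chevD4.Idx F) =
      f (coef rootD4 (xGL chevD4 F) i (u : GL chevD4.Idx F)) := fun i => by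
    have := certD4.coef_π (endD4 f hf) (clD4 f hf _) rfl i hu
    rwa [subD4_π] at this
  have h2 := hπ 0
  have h3 := hπ 2
  rw [h0, map_zero] at h2
  rw [show (2 : Fin 4) = piD4 0 from rfl, h2, map_zero] at h3
  refine mem_of_coef hy hu fun r hr hn => ?_
  rcases (by decide +kernel : ∀ r, r < chevD4.nroots → chevD4.IsPosRoot r →
    1 ≤ rootD4.rc r (1 : Fin 4) ∨ r = chevD4.simple (0 : Fin 4) ∨ r = chevD4.simple (piD4 0) ∨
      r = chevD4.simple (piD4 (piD4 0))) r hr.1 hr with h | h | h | h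
  exacts [absurd ⟨rootD4.weyl_mem.2 hr.1, h⟩ hn, ⟨_, h, h0⟩, ⟨_, h, h2⟩, ⟨_, h, h3⟩]

theorem exists_sq {s : F} (hs : s ≠ 0) : ∃ h ∈ (YD).B, h ∈ KD ∧ ∀ u ∈ (YD).U,
    coef rootD4 (xGL chevD4 F) (0 : Fin 4) (h * u * h⁻¹) =
      s ^ 2 * coef rootD4 (xGL chevD4 F) (0 : Fin 4) u := by
  have hW := (certD4.stRelN F rootD4).toStRelW
  have hw : ∀ p ∈ [(18, s), (13, f s), (12, f (f s))], p.1 < chevD4.nroots ∧ p.2 ≠ 0 := by
    simp [hs, show chevD4.nroots = 24 by decide +kernel]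
  have h1 := hel_mem_twD4_three f hf s
  have h3 : ([(18, s), (13, f s), (12, f (f s))].map fun p =>
      hel chevD4 (xGL chevD4 F) p.1 p.2).prod ∈ hSub chevD4 (xGL chevD4 F) :=
    Subgroup.list_prod_mem _ (List.forall_mem_map.2 fun p hp => hel_mem_hSub _ (hw p hp).1 (hw p hp).2)
  have hlt := rootD4.simple_lt (0 : Fin 4) (0 : Fin 4).2
  have h4 := hW.prod_hel_conj rootD4 hw hlt 1
  generalize ([(18, s), (13, f s), (12, f (f s))].map fun p =>
    hel chevD4 (xGL chevD4 F) p.1 p.2).prod = g at h1 h3 h4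
  obtain ⟨c, hc⟩ := hW.exists_actsBy rootD4 h3
  have e : chevD4.pairing 18 (chevD4.simple (0 : Fin 4)) = 2 ∧
      chevD4.pairing 13 (chevD4.simple (0 : Fin 4)) = 0 ∧
      chevD4.pairing 12 (chevD4.simple (0 : Fin 4)) = 0 := by decide +kernel
  have h5 := certD4.xGL_injective rootD4 hlt ((hc _ hlt 1).symm.trans h4)
  have h6 : chr c (rootD4.rc (chevD4.simple (0 : Fin 4))) = c (0 : Fin 4) :=
    (congrArg (chr c) (rootD4.rc_simple (0 : Fin 4))).trans (chr_single c _)
  simp only [List.map_cons, List.map_nil, List.prod_cons, List.prod_nil, e.1, e.2.1, e.2.2,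
    zpow_ofNat, pow_zero, mul_one, h6] at h5
  exact ⟨g, (YD).H_le_B h3, h1, fun u hu => h5 ▸ (certD4.model F rootD4).coef_conj hc _ hu⟩

theorem min_abs {K : Type*} [Group K] {B U Q : Subgroup K} (c : K → F)
    (hm : ∀ a ∈ U, ∀ b ∈ U, c (a * b) = c a + c b) (hQ : ∀ u ∈ U, u ∈ Q ↔ c u = 0)
    (hs : ∀ t, ∃ u ∈ U, c u = t)
    (hB : ∀ s, s ≠ 0 → ∃ g ∈ B, ∀ u ∈ U, c (g * u * g⁻¹) = s ^ 2 * c u) :
    ⁅U, U⁆ ≤ Q ∧ Q.relIndex U = Fintype.card F ∧ Min B U Q := by
  let φ : U →* Multiplicative F := MonoidHom.mk' (fun u => .ofAdd (c u))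
    fun a b => congrArg Multiplicative.ofAdd (hm _ a.2 _ b.2)
  have hk : φ.ker = Q.subgroupOf U := Subgroup.ext fun u => (hQ _ u.2).symm
  have h0 : c 1 = 0 := (hQ 1 (one_mem _)).1 (one_mem _)
  have hi : ∀ a ∈ U, c a⁻¹ = -c a := fun a ha =>
    eq_neg_of_add_eq_zero_left (by rw [← hm _ (inv_mem ha) _ ha, inv_mul_cancel, h0])
  refine ⟨commutator_le.2 fun a ha b hb => ?_, ?_, fun M h1 h2 h3 => ?_⟩
  · exact hk.le (Abelianization.commutator_subset_ker φ
      (commutator_mem_commutator (mem_top ⟨a, ha⟩) (mem_top ⟨b, hb⟩)))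
  · rw [relIndex, ← hk, index_ker, MonoidHom.range_eq_top.2 fun t => ?_, card_top,
      ← Nat.card_eq_fintype_card]
    · rfl
    · obtain ⟨u, hu, e⟩ := hs t.toAdd
      exact ⟨⟨u, hu⟩, congrArg Multiplicative.ofAdd e⟩
  by_cases h : M ≤ Q
  · exact .inl (le_antisymm h h1)
  obtain ⟨m, hm', hn⟩ := SetLike.not_le_iff_exists.1 h
  refine .inr (le_antisymm h2 fun u hu => ?_)
  let A : AddSubgroup F :=
    { carrier := {t | ∃ m ∈ M, c m = t}
      add_mem' := by
        rintro _ _ ⟨a, ha, rfl⟩ ⟨b, hb, rfl⟩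
        exact ⟨a * b, mul_mem ha hb, hm _ (h2 ha) _ (h2 hb)⟩
      zero_mem' := ⟨1, one_mem _, h0⟩
      neg_mem' := by
        rintro _ ⟨a, ha, rfl⟩
        exact ⟨a⁻¹, inv_mem ha, hi _ (h2 ha)⟩ }
  obtain ⟨a, ha, e⟩ := sq_span (A := A) (fun s t ht => by
      by_cases hs : s = 0
      · rw [hs, zero_pow two_ne_zero, zero_mul]; exact zero_mem _
      obtain ⟨a, ha, rfl⟩ := ht
      obtain ⟨g, hg, e⟩ := hB s hs
      exact ⟨_, conj_mem_of_mem_normalizer (h3 hg) ha, e _ (h2 ha)⟩)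
    ⟨m, hm', rfl⟩ (mt (hQ _ (h2 hm')).2 hn) (c u)
  have h4 : a⁻¹ * u ∈ M := h1 ((hQ _ (mul_mem (inv_mem (h2 ha)) hu)).2
    (by rw [hm _ (inv_mem (h2 ha)) _ hu, hi _ (h2 ha), e, neg_add_cancel]))
  simpa using mul_mem ha h4

end TDH

include hF hq

theorem min_twD4 : ⁅(YD).U.subgroupOf KD, (YD).U.subgroupOf KD⁆ ≤ Ql YD KD (1 : Fin 4) ∧
    (Ql YD KD (1 : Fin 4)).relIndex ((YD).U.subgroupOf KD) = q ^ 3 ∧
    Min ((YD).B.subgroupOf KD) ((YD).U.subgroupOf KD) (Ql YD KD (1 : Fin 4)) := by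
  rw [← hF]
  refine min_abs (fun u : KD => coef rootD4 (xGL chevD4 F) (0 : Fin 4) (u : GL chevD4.Idx F))
    (fun a ha b hb => (certD4.model F rootD4).coef_mul _ ha hb) (fun u hu => mem_Q f hf hu)
    (fun t => ⟨⟨_, (A_mem f hf t).2⟩, (A_mem f hf t).1,
      certD4.coef_Ω (endD4 f hf) (clD4 f hf _) rfl (i := (0 : Fin 4)) ⟨_, rfl⟩ (.head _)⟩)
    fun s hs => ?_
  obtain ⟨g, hg, hK, e⟩ := exists_sq f hf hs
  exact ⟨⟨g, hK⟩, hg, fun u hu => e _ hu⟩

theorem irrD_twD4 (p : ℕ) [Fact p.Prime] [CharP F p] :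
    IrrD p (Pl YD KD (1 : Fin 4)) (Ql YD KD (1 : Fin 4)) (Zl YD KD (1 : Fin 4)) := by
  have hS := (certD4.stRelN F rootD4).toStRel
  obtain ⟨m, hm, hl⟩ := (twD4 f hf).exists_lifts_t (certD4.faithful F rootD4) (0 : Fin 4)
  have e0 := (subData_D4 hf).t_eq (0 : Fin 4)
  have e1 : (subD4 f).S.t (0 : Fin 4) • 22 = 14 :=
    e0 ▸ (rootD4.wprod_smul _ (by decide +kernel)).trans (by decide +kernel)
  have e2 : (subD4 f).S.t (0 : Fin 4) • 23 = 23 :=
    e0 ▸ (rootD4.wprod_smul _ (by decide +kernel)).trans (by decide +kernel)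
  refine irrD_of certD4 lv_D4 (by decide +kernel) p (β := 22) (by decide +kernel) hm hl
    (closure_mono (Set.image_mono fun i hi => ?_) ((subD4 f).S.t_mem_WJ _))
    (by rw [e1]; decide +kernel) e2
    (by rw [e1, show nb chevD4 22 14 = -1 by decide +kernel]; simp) fun t H => ?_
  · rw [subD4_orb] at hi
    exact (by decide : ∀ i ∈ orbD4 0, ¬ i = 1) i hi
  have key : ∀ (u : F) (r : ℕ) (v : List (ℕ × F)), r ∈ lvL rootD4 (1 : Fin 4) 1 →
      (∀ s ∈ v.map Prod.fst, s ∈ lvL rootD4 (1 : Fin 4) 1) →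
      MulAut.conj (xGL chevD4 F 18 u) (MulAut.conj (xGL chevD4 F 13 (f u))
        (MulAut.conj (xGL chevD4 F 12 (f (f u))) (xGL chevD4 F r 1))) =
        xGL chevD4 F r 1 * word (xGL chevD4 F) v → _ := fun u r v hr hv e =>
    H _ (A_mem f hf u).1 (A_mem f hf u).2 r hr 1 v (fun p hp => hv _ (List.mem_map_of_mem hp))
      (by rw [← e]; simp [mul_assoc])
  have b := fun {s β : ℕ} {n : ℤ} h => sum_nb (R := rootD4) (j := (1 : Fin 4)) (s := s) (β := β)
    (n := n) h t
  have b15 := b (s := 15) (β := 21) (n := 1) (by decide +kernel)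
  have b16 := b (s := 16) (β := 20) (n := 1) (by decide +kernel)
  have b17 := b (s := 17) (β := 19) (n := -1) (by decide +kernel)
  have b19 := b (s := 19) (β := 17) (n := 1) (by decide +kernel)
  have b20 := b (s := 20) (β := 16) (n := -1) (by decide +kernel)
  have b21 := b (s := 21) (β := 15) (n := -1) (by decide +kernel)
  have b22 := b (s := 22) (β := 14) (n := 1) (by decide +kernel)
  have hne := exists_ne (n := 1) hF hq
  have h14 : t 14 = 0 := by
    have := key 1 21 [(22, 1)] (by decide +kernel) (by decide +kernel : ∀ s ∈ [22], _) (by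
      rw [hS.conj_eq_mul rootD4 (k := 22) (m := -1) (by decide +kernel), map_mul,
        conj_fix hS rootD4 (by decide +kernel), conj_fix hS rootD4 (by decide +kernel), map_mul,
        conj_fix hS rootD4 (by decide +kernel), conj_fix hS rootD4 (by decide +kernel)]
      simp)
    simpa [b22] using this
  obtain ⟨-, h15, h16⟩ := indep hf hne (a := 0) (b := t 15) (c := t 16) fun u => by
    have := key u 19 [(21, f u), (20, f (f u)), (22, f (f u) * f u)] (by decide +kernel)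
      (by decide +kernel : ∀ s ∈ [21, 20, 22], _) (by
      rw [hS.conj_eq_mul rootD4 (k := 20) (m := -1) (by decide +kernel), map_mul,
        hS.conj_eq_mul rootD4 (k := 21) (m := -1) (by decide +kernel),
        hS.conj_eq_mul rootD4 (k := 22) (m := -1) (by decide +kernel), map_mul, map_mul, map_mul,
        conj_fix hS rootD4 (by decide +kernel), conj_fix hS rootD4 (by decide +kernel),
        conj_fix hS rootD4 (by decide +kernel), conj_fix hS rootD4 (by decide +kernel)]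
      simp [mul_assoc])
    simp only [List.map_cons, List.map_nil, List.sum_cons, List.sum_nil, b20, b21, b22, h14] at this
    push_cast at this
    linear_combination -this
  have h19 : t 19 = 0 := by
    have := key 1 16 [(21, -1), (17, 1), (22, -1)] (by decide +kernel)
      (by decide +kernel : ∀ s ∈ [21, 17, 22], _) (by
      rw [hS.conj_eq_mul rootD4 (k := 17) (m := -1) (by decide +kernel), map_mul,
        conj_fix hS rootD4 (by decide +kernel), conj_fix hS rootD4 (by decide +kernel), map_mul,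
        hS.conj_eq_mul rootD4 (k := 21) (m := 1) (by decide +kernel),
        hS.conj_eq_mul rootD4 (k := 22) (m := 1) (by decide +kernel)]
      simp [mul_assoc])
    simpa [b17, b21, b22, h14, h15] using this
  obtain ⟨h17, h20, h21⟩ := indep hf hne (a := -t 17) (b := t 20) (c := t 21) fun u => by
    have := key u 14 [(19, -u), (16, f u), (21, -(f u * u)), (15, f (f u)), (20, -(f (f u) * u)),
      (17, f (f u) * f u), (22, -(f (f u) * f u * u))] (by decide +kernel)
      (by decide +kernel : ∀ s ∈ [19, 16, 21, 15, 20, 17, 22], _) (by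
      rw [hS.conj_eq_mul rootD4 (k := 15) (m := -1) (by decide +kernel), map_mul,
        hS.conj_eq_mul rootD4 (k := 16) (m := -1) (by decide +kernel),
        hS.conj_eq_mul rootD4 (k := 17) (m := -1) (by decide +kernel), map_mul, map_mul, map_mul,
        hS.conj_eq_mul rootD4 (k := 19) (m := 1) (by decide +kernel),
        hS.conj_eq_mul rootD4 (k := 21) (m := 1) (by decide +kernel),
        hS.conj_eq_mul rootD4 (k := 20) (m := 1) (by decide +kernel),
        hS.conj_eq_mul rootD4 (k := 22) (m := 1) (by decide +kernel)]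
      simp [mul_assoc])
    simp only [List.map_cons, List.map_nil, List.sum_cons, List.sum_nil, b15, b16, b17, b19, b20, b21,
      b22, h14, h15, h16, h19] at this
    push_cast at this
    linear_combination this
  have hl : lvL rootD4 (1 : Fin 4) 1 = [14, 15, 16, 17, 19, 20, 21, 22, 23] := by decide +kernel
  simp [hl, h14, h15, h16, h19, h20, h21, neg_eq_zero.1 h17]

end tw

end Cfsg.Lib.CKS
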