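import Cfsg.Agent.CKS.TDb

/-!
# The derived group of the unipotent subgroup of ³D₄(q)
-/

set_option autoImplicit false
set_option quotPrecheck false
set_option linter.unusedSectionVars false

namespace Cfsg.Lib.CKS

open MulAction Cfsg.Lib.Chev Cfsg.Lie Cfsg.Lib.Class Subgroup

namespace TDH

open Core HeisH IrrX

section
variable {F G : Type*} [Field F] [Group G] {D : ChevalleyDatum} {y : ℕ → F → G} {R : RootData D}
  (hy : Model R y) {Φ : Subgroup G} {ν : ℕ} (hν : D.IsPosRoot ν)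
include hy hν

theorem exists_comm {k : ℤ} (hk : 0 < k) (hh : R.ht ν = k + 1) {v : List (ℕ × F)}
    (hv : ∀ r ∈ v.map Prod.fst, r < D.nroots ∧ k ≤ R.ht r) (hΦ : word y v ∈ Φ) {u : G}
    (hu : u ∈ (hy.toStRelW.rgd R).U) (hu' : u ∈ Φ) :
    ∃ a ∈ ⁅(hy.toStRelW.rgd R).U ⊓ Φ, (hy.toStRelW.rgd R).U ⊓ Φ⁆, a ∈ htLev R y (R.ht ν) ⊓ Φ ∧
      lc R y ν a = ∑ j, (v.map fun p => (cN D ν p.1 j : F) * p.2).sum * coef R y j u := by
  have hv' : ∀ p ∈ v, p.1 < D.nroots ∧ k ≤ R.ht p.1 := fun p hp => hv _ (List.mem_map_of_mem hp)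
  have h1 := word_mem_htLev (y := y) hv'
  have h2 := hy.comm_htLev one_pos hk ((RGD.U_eq_lev (Y := hy.toStRelW.rgd R)).le hu) h1
  rw [add_comm, ← hh] at h2
  have h3 : word y v ∈ (hy.toStRelW.rgd R).U :=
    (RGD.U_eq_lev (Y := hy.toStRelW.rgd R)).ge (lev_anti _ _ _ hk h1)
  refine ⟨_, ?_, mem_inf.2 ⟨h2, mul_mem (mul_mem (mul_mem (inv_mem hu') (inv_mem hΦ)) hu') hΦ⟩,
    hy.lc_comm hν hk hh hv' hu⟩
  simpa [commutatorElement_def] using commutator_mem_commutator
    (inv_mem (mem_inf.2 ⟨hu, hu'⟩)) (inv_mem (mem_inf.2 ⟨h3, hΦ⟩))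

theorem exists_addSub (N : Subgroup G) : ∃ A : AddSubgroup F, ∀ t, t ∈ A ↔
    ∃ a ∈ N, a ∈ htLev R y (R.ht ν) ⊓ Φ ∧ lc R y ν a = t := by
  have h0 : lc R y ν 1 = 0 := hy.lc_of_mem hν (one_mem _)
  refine ⟨{
    carrier := {t | ∃ a ∈ N, a ∈ htLev R y (R.ht ν) ⊓ Φ ∧ lc R y ν a = t}
    add_mem' := ?_, zero_mem' := ⟨1, one_mem _, one_mem _, h0⟩, neg_mem' := ?_ }, fun _ => Iff.rfl⟩
  · rintro _ _ ⟨a, ha, ha', rfl⟩ ⟨b, hb, hb', rfl⟩
    exact ⟨a * b, mul_mem ha hb, mul_mem ha' hb', hy.lc_mul hν ha'.1 hb'.1⟩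
  · rintro _ ⟨a, ha, ha', rfl⟩
    exact ⟨a⁻¹, inv_mem ha, inv_mem ha', eq_neg_of_add_eq_zero_left (by
      rw [← hy.lc_mul hν (inv_mem ha'.1) ha'.1, inv_mul_cancel, h0])⟩

end

theorem span_B {F : Type} [Field F] [Fintype F] {f : F →+* F} (hf : ∀ t, f (f (f t)) = t)
    (hne : ∃ t, f t ≠ t) {A : AddSubgroup F} (h : ∀ s t, f (f t) * f s + f t * f (f s) ∈ A) (t : F) :
    t ∈ A := by
  obtain ⟨a, ha⟩ : ∃ a, f a + f (f a) ≠ 0 := by
    by_contra hn
    push Not at hn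
    exact one_ne_zero (indep hf hne (a := 0) (b := 1) (c := 1) fun u => by simp [hn]).2.1
  let S : AddSubgroup F :=
    { carrier := {t | ∀ s, s ^ 2 * t ∈ A}
      add_mem' := fun ha hb s => mul_add (s ^ 2) _ _ ▸ add_mem (ha s) (hb s)
      zero_mem' := fun s => (mul_zero (s ^ 2)).symm ▸ zero_mem _
      neg_mem' := fun ha s => (mul_neg (s ^ 2) _).symm ▸ neg_mem (ha s) }
  have := sq_span (A := S) (fun s t ht r => by rw [← mul_assoc, ← mul_pow]; exact ht _)
    (a := f a + f (f a)) (fun c => ?_) ha t 1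
  · simpa using this
  by_cases hc : c = 0
  · simp [hc]
  have h1 : f c ≠ 0 := (map_ne_zero f).2 hc
  have h2 : f (f c) ≠ 0 := (map_ne_zero f).2 h1
  convert h (f c * f (f c) / c) (f c * f (f c) / c * a) using 1
  simp only [map_mul, map_div₀, hf]
  field_simp
  ring

end TDH

section tw
open Core HeisH IrrX TDH
variable {F : Type} [Field F] [Fintype F] {q : ℕ}

local notation "YD" => certD4.Y F rootD4

variable (f : F →+* F) (hf : ∀ t, f (f (f t)) = t) (hF : Fintype.card F = q ^ 3)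
  (hq : ∀ t, f t = t ^ q)
local notation "KD" => (twD4 f hf).G1
include hF hq

theorem gen_twD4 : Gen (twD4 f hf) := by
  have hy := certD4.model F rootD4
  have hS := subData_D4 hf
  have hne := exists_ne (n := 1) hF hq
  have hσ : ∀ s, s < chevD4.nroots → gD4a.σ s < chevD4.nroots ∧ rootD4.ht (gD4a.σ s) = rootD4.ht s ∧
      ∀ r, r < chevD4.nroots → gD4a.σ s = gD4a.σ r → s = r := by decide +kernel
  have st := fun {ν : ℕ} hν horb => step certD4 (endD4 f hf) hS hσ
    (N := ⁅(YD).U ⊓ (twD4 f hf).F, (YD).U ⊓ (twD4 f hf).F⁆) (ν := ν) hν horb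
  have hA := fun t => (twD4 f hf).G1_le_F (A_mem f hf t).2
  have cA : ∀ (t : F) (j : Fin 4), coef rootD4 (xGL chevD4 F) j
      (word (xGL chevD4 F) [(18, t), (13, f t), (12, f (f t))]) = ![t, 0, f t, f (f t)] j := by
    intro t j
    have h1 : ∀ r ∈ [18, 13, 12], chevD4.IsPosRoot r := by decide +kernel
    refine (hy.coef_word j (w := [(18, t), (13, f t), (12, f (f t))])
      fun p hp => h1 _ (List.mem_map_of_mem (f := Prod.fst) hp)).trans ?_
    have h2 : ∀ j : Fin 4, chevD4.simple j = ![18, 14, 13, 12] j := by decide +kernel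
    rw [h2 j]
    fin_cases j <;> simp
  have hx : ∀ {r : ℕ} {t : F}, r < chevD4.nroots ∧ gD4a.σ r = r ∧ gD4a.ε r = 1 → f t = t →
      word (xGL chevD4 F) [(r, t)] ∈ (twD4 f hf).F := fun h ht => by
    simpa using (twD4 f hf).G1_le_F (x_mem_twD4 f hf h ht)
  have fx : ∀ {r : ℕ}, chevD4.IsPosRoot r ∧ gD4a.σ r = r ∧ gD4a.ε r = 1 →
      ∀ b ∈ htLev rootD4 (xGL chevD4 F) (rootD4.ht r) ⊓ (twD4 f hf).F,
      f (lc rootD4 (xGL chevD4 F) r b) = lc rootD4 (xGL chevD4 F) r b := fun h b hb => by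
    have := lc_σ certD4 (endD4 f hf) hS hσ h.1 hb.1 hb.2
    rw [h.2.1, h.2.2, Int.cast_one, one_mul] at this
    exact this.symm
  have t23 : rootD4.ht 23 = 5 := by decide +kernel
  have t22 : rootD4.ht 22 = 4 := by decide +kernel
  have t17 : rootD4.ht 17 = 3 := by decide +kernel
  have t19 : rootD4.ht 19 = 2 := by decide +kernel
  have s5 := st (ν := 23) (by decide +kernel) (by decide +kernel)
    (inf_le_left.trans (spanX_le_iff.2 fun r hr => absurd (rootD4.stHt_empty_eq r ▸ hr.2)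
      ((by decide +kernel : ∀ r, r < chevD4.nroots → ¬ rootD4.ht 23 + 1 ≤ rootD4.ht r) r
        (rootD4.weyl_mem.1 hr.1)))) fun b hb => by
    have h1 := hx (r := 14) (by decide +kernel) (map_one f)
    obtain ⟨a, h2, h3, e⟩ := exists_comm hy (ν := 23) (by decide +kernel) (k := 4) (by decide) t23
      (v := [(22, lc rootD4 (xGL chevD4 F) 23 b)]) (by decide +kernel : ∀ r ∈ [22], _)
      (hx (by decide +kernel) (fx (by decide +kernel) b hb))
      (hy.word_mem_U (w := [(14, 1)]) (by simpa using by decide +kernel)) h1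
    refine ⟨a, h2, h3, e.trans ?_⟩
    have c1 : ∀ j : Fin 4, cN chevD4 23 22 j = (![0, 1, 0, 0] : Fin 4 → ℤ) j :=
      forall_fin4 (by decide +kernel) (by decide +kernel) (by decide +kernel) (by decide +kernel)
    have c2 : coef rootD4 (xGL chevD4 F) (1 : Fin 4) (word (xGL chevD4 F) [(14, 1)]) = 1 := by
      rw [word_cons, word_nil, mul_one]
      exact hy.coef_simple (1 : Fin 4) 1
    refine (Fin.sum_univ_four _).trans ?_
    simp [c1, -word_cons, c2]
  rw [t23] at s5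
  have s4 := st (ν := 22) (by decide +kernel) (by decide +kernel) (by rwa [t22]) fun b hb => by
    obtain ⟨s, hs⟩ : ∃ s, s + f s + f (f s) ≠ 0 := by
      by_contra hn
      push Not at hn
      exact one_ne_zero (indep hf hne (a := 1) (b := 1) (c := 1) fun u => by simp [hn]).1
    have h0 := fx (r := 22) (by decide +kernel) b hb
    generalize lc rootD4 (xGL chevD4 F) 22 b = c at h0 ⊢
    have h1 : gD4a.σ 17 = 20 ∧ gD4a.ε 17 = -1 ∧ gD4a.σ 20 = 21 ∧ gD4a.ε 20 = 1 ∧ gD4a.σ 21 = 17 ∧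
      gD4a.ε 21 = -1 := by decide +kernel
    obtain ⟨a, h2, h3, e⟩ := exists_comm hy (ν := 22) (by decide +kernel) (k := 3) (by decide) t22
      (v := [(17, -s), (20, f s), (21, f (f s))]) (by decide +kernel : ∀ r ∈ [17, 20, 21], _)
      (certD4.word_mem_F (endD4 f hf) hS (by decide +kernel : ∀ r ∈ [17, 20, 21], _)
        (by decide +kernel : [17, 20, 21].Pairwise fun r s => orthChk chevD4 r s = true) (by
          simpa [h1, hf] using List.perm_append_comm (l₁ := [(20, f s), (21, f (f s))])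
            (l₂ := [(17, -s)])))
      (A_mem f hf (c / (s + f s + f (f s)))).1 (hA _)
    refine ⟨a, h2, h3, e.trans ?_⟩
    have c1 : ∀ j : Fin 4, cN chevD4 22 17 j = (![-1, 0, 0, 0] : Fin 4 → ℤ) j ∧
      cN chevD4 22 20 j = (![0, 0, 1, 0] : Fin 4 → ℤ) j ∧
      cN chevD4 22 21 j = (![0, 0, 0, 1] : Fin 4 → ℤ) j :=
      forall_fin4 (by decide +kernel) (by decide +kernel) (by decide +kernel) (by decide +kernel)
    have c2 : f (c / (s + f s + f (f s))) = c / (s + f s + f (f s)) := by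
      rw [map_div₀, h0, map_add, map_add, hf]; ring
    refine (Fin.sum_univ_four _).trans ?_
    rw [cA, cA, cA, cA]
    simp [c1, c2]
    field_simp
  rw [t22] at s4
  have s3 := st (ν := 17) (by decide +kernel) (by decide +kernel) (by rwa [t17]) fun b _ => by
    obtain ⟨A, hA'⟩ := exists_addSub hy (Φ := (twD4 f hf).F) (ν := 17) (by decide +kernel)
      ⁅(YD).U ⊓ (twD4 f hf).F, (YD).U ⊓ (twD4 f hf).F⁆
    refine (hA' _).1 (span_B hf hne (fun s t => (hA' _).2 ?_) _)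
    have h1 : gD4a.σ 19 = 16 ∧ gD4a.ε 19 = -1 ∧ gD4a.σ 16 = 15 ∧ gD4a.ε 16 = 1 ∧ gD4a.σ 15 = 19 ∧
      gD4a.ε 15 = -1 := by decide +kernel
    obtain ⟨a, h2, h3, e⟩ := exists_comm hy (ν := 17) (by decide +kernel) (k := 2) (by decide) t17
      (v := [(19, -t), (16, f t), (15, f (f t))]) (by decide +kernel : ∀ r ∈ [19, 16, 15], _)
      (certD4.word_mem_F (endD4 f hf) hS (by decide +kernel : ∀ r ∈ [19, 16, 15], _)
        (by decide +kernel : [19, 16, 15].Pairwise fun r s => orthChk chevD4 r s = true) (by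
          simpa [h1, hf] using List.perm_append_comm (l₁ := [(16, f t), (15, f (f t))])
            (l₂ := [(19, -t)])))
      (A_mem f hf s).1 (hA _)
    refine ⟨a, h2, h3, e.trans ?_⟩
    have c1 : ∀ j : Fin 4, cN chevD4 17 19 j = 0 ∧
      cN chevD4 17 16 j = (![0, 0, 0, 1] : Fin 4 → ℤ) j ∧
      cN chevD4 17 15 j = (![0, 0, 1, 0] : Fin 4 → ℤ) j :=
      forall_fin4 (by decide +kernel) (by decide +kernel) (by decide +kernel) (by decide +kernel)
    refine (Fin.sum_univ_four _).trans ?_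
    rw [cA, cA, cA, cA]
    simp [c1]
  rw [t17] at s3
  have s2 := st (ν := 19) (by decide +kernel) (by decide +kernel) (by rwa [t19]) fun b _ => by
    obtain ⟨a, h2, h3, e⟩ := exists_comm hy (ν := 19) (by decide +kernel) (k := 1) (by decide) t19
      (v := [(14, 1)]) (by decide +kernel : ∀ r ∈ [14], _) (hx (by decide +kernel) (map_one f))
      (A_mem f hf (-lc rootD4 (xGL chevD4 F) 19 b)).1 (hA _)
    refine ⟨a, h2, h3, e.trans ?_⟩
    have c1 : ∀ j : Fin 4, cN chevD4 19 14 j = (![-1, 0, 0, 0] : Fin 4 → ℤ) j :=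
      forall_fin4 (by decide +kernel) (by decide +kernel) (by decide +kernel) (by decide +kernel)
    refine (Fin.sum_univ_four _).trans ?_
    rw [cA, cA, cA, cA]
    simp [c1]
  refine le_trans (inf_le_inf_right _ (spanX_mono _ fun r hr => ?_)) s2
  have h1 := rootD4.weyl_mem.1 hr.1.1
  refine ⟨hr.1.1, (rootD4.stHt_empty_eq r).symm ▸ ?_⟩
  refine ((by decide +kernel : ∀ r, r < chevD4.nroots → chevD4.IsPosRoot r →
    rootD4.ht 19 ≤ rootD4.ht r ∨ ∃ i : Fin 4, r ∈ listD4 i) r h1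
      (rootD4.weyl_pos.1 hr.1)).resolve_right fun ⟨i, hi⟩ => hr.2 i ?_
  exact (((clD4 f hf (GL chevD4.Idx F)).mem_L i r).1 hi).2

end tw

end Cfsg.Lib.CKS
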