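import Cfsg.Agent.CKS.G2f

/-!
# Field and height filtration lemmas for ³D₄
-/

set_option autoImplicit false
set_option linter.unusedSectionVars false

namespace Cfsg.Lib.CKS.TDH

open Cfsg.Lib.Chev Cfsg.Lie Subgroup HeisH IrrX G2H Core

section field
variable {F : Type} [Field F] [Fintype F] {q : ℕ} {f : F →+* F}

theorem exists_ne {n : ℕ} (hF : Fintype.card F = q ^ (n + 2)) (hq : ∀ t, f t = t ^ q) :
    ∃ t, f t ≠ t := by
  by_contra h
  push Not at h
  have h1 := card_pow_eq_self hF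
  have h2 := two_le_of_card hF
  rw [Nat.card_congr (Equiv.subtypeUnivEquiv fun t => (hq t).symm.trans (h t)),
    Nat.card_eq_fintype_card, hF] at h1
  have := Nat.pow_lt_pow_right h2 (show 1 < n + 2 by omega)
  rw [pow_one] at this
  omega

theorem indep (hf : ∀ t, f (f (f t)) = t) (h : ∃ t, f t ≠ t) {a b c : F}
    (H : ∀ u, a * u + b * f u + c * f (f u) = 0) : a = 0 ∧ b = 0 ∧ c = 0 := by
  obtain ⟨t, h1⟩ := h
  have h2 : f (f t) ≠ f t := fun e => h1 (f.injective e)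
  have h3 : t ≠ f (f t) := fun e => h2 (f.injective (by rw [hf, ← e]))
  have e0 := H 1
  have e1 := H t
  have e2 := H (t ^ 2)
  simp only [map_one, map_pow] at e0 e2
  refine ⟨mul_right_cancel₀ (mul_ne_zero (sub_ne_zero.2 h1) (sub_ne_zero.2 h3)) ?_,
    mul_right_cancel₀ (mul_ne_zero (sub_ne_zero.2 h1) (sub_ne_zero.2 h2)) ?_,
    mul_right_cancel₀ (mul_ne_zero (sub_ne_zero.2 h2) (sub_ne_zero.2 h3)) ?_⟩
  · linear_combination -e2 + (f t + f (f t)) * e1 - f t * f (f t) * e0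
  · linear_combination -e2 + (t + f (f t)) * e1 - t * f (f t) * e0
  · linear_combination -e2 + (t + f t) * e1 - t * f t * e0

theorem sq_span {A : AddSubgroup F} (h : ∀ s, ∀ t ∈ A, s ^ 2 * t ∈ A) {a : F} (ha : a ∈ A)
    (h0 : a ≠ 0) (t : F) : t ∈ A := by
  by_cases h2 : (2 : F) = 0
  · have : CharP F 2 := CharTwo.of_one_ne_zero_of_two_eq_zero one_ne_zero h2
    obtain ⟨s, hs⟩ := FiniteField.isSquare_of_char_two (ringChar.eq F 2) (t / a)
    have := h s a ha
    rwa [sq, ← hs, div_mul_cancel₀ _ h0] at this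
  · have := sub_mem (h ((t / a + 1) / 2) a ha) (h ((t / a - 1) / 2) a ha)
    convert this using 1
    field_simp
    ring

end field

section ht
variable {F G : Type*} [Field F] [Group G] {D : ChevalleyDatum} {y : ℕ → F → G} {R : RootData D}

theorem sum_ite {L : List ℕ} (hnd : L.Nodup) {r : ℕ} (hr : r ∈ L) (t : ℕ → F) :
    ((L.map fun s => (s, t s)).map fun p => if p.1 = r then p.2 else 0).sum = t r := by
  rw [List.map_map, ← List.sum_toFinset _ hnd, Finset.sum_eq_single r]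
  · simp
  · intro s _ h
    simp [h]
  · intro h
    exact absurd (List.mem_toFinset.2 hr) h

theorem exists_word_ht (h : StRelW D y) {c : ℤ} (hc : 0 < c) {g : G} (hg : g ∈ htLev R y c) :
    ∃ (L : List ℕ) (t : ℕ → F), L.Nodup ∧ (∀ r, r ∈ L ↔ r < D.nroots ∧ c ≤ R.ht r) ∧
      g = word y (L.map fun r => (r, t r)) := by
  obtain ⟨t, -, e⟩ := h.exists_word R (fun r hr => R.weyl_mem.1 hr.1) (R.weyl.stClosed_ge _ hc.le)
    (R.weyl.stHt ∅) (fun r hr => hc.trans_le hr.2)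
    (L := (List.range D.nroots).filter fun r => c ≤ R.ht r) (List.nodup_range.filter _)
    (fun r => by simp [R.weyl_mem, R.stHt_empty_eq]) hg
  exact ⟨_, t, List.nodup_range.filter _, fun r => by simp, e⟩

theorem mem_succ (hy : Model R y) {c : ℤ} (hc : 0 < c) {g : G} (hg : g ∈ htLev R y c)
    (h : ∀ r, r < D.nroots → R.ht r = c → lc R y r g = 0) : g ∈ htLev R y (c + 1) := by
  obtain ⟨L, t, hnd, hL, rfl⟩ := exists_word_ht hy.toStRelW hc hg
  refine word_mem_span hy.toStRel (fun r hr => ((hL r).1 hr).1) fun r hr hn => ?_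
  obtain ⟨h1, h2⟩ := (hL r).1 hr
  have h3 : R.ht r = c := by
    by_contra e
    exact hn ⟨R.weyl_mem.2 h1, (R.stHt_empty_eq r).symm ▸ (by omega : c + 1 ≤ R.ht r)⟩
  have := h r h1 h3
  rwa [hy.lc_word ((R.pos_iff_ht h1).2 (by omega)) (fun p hp => by
    obtain ⟨s, hs, rfl⟩ := List.mem_map.1 hp
    exact h3 ▸ (hL s).1 hs), sum_ite hnd hr] at this

theorem mem_of_coef (hy : Model R y) {g : G} (hg : g ∈ (hy.toStRelW.rgd R).U) {T : Set ℕ}
    (h : ∀ r, D.IsPosRoot r → r ∉ T → ∃ i : Fin D.rank, r = D.simple i ∧ coef R y i g = 0) :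
    g ∈ spanX (xSub y) T := by
  obtain ⟨L, t, hnd, hL, rfl⟩ := exists_word_ht hy.toStRelW one_pos 
    ((RGD.U_eq_lev (Y := hy.toStRelW.rgd R)).le hg)
  have hp : ∀ r ∈ L, D.IsPosRoot r := fun r hr =>
    (R.pos_iff_ht ((hL r).1 hr).1).2 ((hL r).1 hr).2
  refine word_mem_span hy.toStRel (fun r hr => ((hL r).1 hr).1) fun r hr hn => ?_
  obtain ⟨i, rfl, e⟩ := h r (hp r hr) hn
  rwa [hy.coef_word i (fun p hp' => by
    obtain ⟨s, hs, rfl⟩ := List.mem_map.1 hp'
    exact hp s hs), sum_ite hnd hr] at e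

theorem conj_fix (h : StRel D y) (R : RootData D) {r s : ℕ} (hc : s < D.nroots ∧ r < D.nroots ∧
    r ≠ D.neg s ∧ D.chainRoot s r 1 = none) (t u : F) : MulAut.conj (y s u) (y r t) = y r t := by
  rw [MulAut.conj_apply, (h.commute R hc.1 hc.2.1 hc.2.2.1 hc.2.2.2 _ _).eq, mul_inv_cancel_right]

end ht

section tw
variable {F : Type} [Field F] [Finite F] {D : ChevalleyDatum} {R : RootData D} (C : Cert D)
  {P : RootSubst R F} (E : StEnd (C.model F R) P) {L : Classes P (GL D.Idx F)} {f : F →+* F}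
  {σ : ℕ → ℕ} {ε : ℕ → ℤ} {O : Fin D.rank → List (Fin D.rank)} (hS : SubData L f σ ε O)
  (hσ : ∀ s, s < D.nroots → σ s < D.nroots ∧ R.ht (σ s) = R.ht s ∧
    ∀ r, r < D.nroots → σ s = σ r → s = r)
include hS hσ

theorem lc_σ {r : ℕ} (hr : D.IsPosRoot r) {a : GL D.Idx F} (ha : a ∈ htLev R (xGL D F) (R.ht r))
    (hF : a ∈ (E.twist C L).F) : lc R (xGL D F) (σ r) a = ε r * f (lc R (xGL D F) r a) := by
  have hy := C.model F R
  obtain ⟨h1, h2, -⟩ := hσ r hr.1
  have h0 := R.ht_pos hr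
  have hr' : D.IsPosRoot (σ r) := (R.pos_iff_ht h1).2 (by omega)
  obtain ⟨M, t, -, hM, e⟩ := exists_word_ht hy.toStRelW h0 ha
  have hv : ∀ p ∈ M.map fun r => (r, t r), p.1 < D.nroots ∧ R.ht r ≤ R.ht p.1 := fun p hp => by
    obtain ⟨s, hs, rfl⟩ := List.mem_map.1 hp
    exact (hM s).1 hs
  generalize (M.map fun r => (r, t r)) = v at e hv
  have e2 : E.σ a = word (xGL D F) (v.map fun p => (σ p.1, ε p.1 * f p.2)) := by
    rw [e, E.map_word fun p hp => (hv p hp).1, word, word, List.map_map]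
    exact congrArg _ (List.map_congr_left fun p hp => by
      rw [RootSubst.app_apply, hS.ρ_eq _ (hv p hp).1, hS.ε_eq, hS.g_eq]; rfl)
  have e3 : E.σ a = a := hF.2
  conv_lhs => rw [← e3, e2]
  rw [e, hy.lc_word hr hv, hy.lc_word hr' (List.forall_mem_map.2 fun p hp =>
    ⟨(hσ _ (hv p hp).1).1, by rw [h2, (hσ _ (hv p hp).1).2.1]; exact (hv p hp).2⟩),
    map_list_sum, ← List.sum_map_mul_left, List.map_map, List.map_map]
  refine congrArg _ (List.map_congr_left fun p hp => ?_)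
  by_cases h : p.1 = r
  · simp [h]
  · simp [h, mt ((hσ _ (hv p hp).1).2.2 r hr.1) h]

theorem step {N : Subgroup (GL D.Idx F)} {ν : ℕ} (hν : D.IsPosRoot ν)
    (horb : ∀ r, r < D.nroots → R.ht r = R.ht ν → r = ν ∨ r = σ ν ∨ r = σ (σ ν))
    (h1 : htLev R (xGL D F) (R.ht ν + 1) ⊓ (E.twist C L).F ≤ N)
    (h2 : ∀ b ∈ htLev R (xGL D F) (R.ht ν) ⊓ (E.twist C L).F, ∃ a ∈ N,
      a ∈ htLev R (xGL D F) (R.ht ν) ⊓ (E.twist C L).F ∧
        lc R (xGL D F) ν a = lc R (xGL D F) ν b) :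
    htLev R (xGL D F) (R.ht ν) ⊓ (E.twist C L).F ≤ N := by
  have hy := C.model F R
  intro b hb
  obtain ⟨a, haN, ha, e⟩ := h2 b hb
  have h3 := mul_mem (inv_mem ha) hb
  have h4 : lc R (xGL D F) ν (a⁻¹ * b) = 0 := by
    have := hy.lc_mul hν ha.1 h3.1
    rw [mul_inv_cancel_left, ← e] at this
    exact left_eq_add.1 this
  have h0 := R.ht_pos hν
  obtain ⟨s1, s2, -⟩ := hσ ν hν.1
  have h5 := lc_σ C E hS hσ hν h3.1 h3.2
  have h6 := lc_σ C E hS hσ ((R.pos_iff_ht s1).2 (by omega)) (s2 ▸ h3.1) h3.2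
  rw [h4, map_zero, mul_zero] at h5
  rw [h5, map_zero, mul_zero] at h6
  have h7 := h1 ⟨mem_succ hy h0 h3.1 fun r hr e => by
    rcases horb r hr e with rfl | rfl | rfl <;> assumption, h3.2⟩
  simpa using mul_mem haN h7

end tw

end Cfsg.Lib.CKS.TDH
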