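import Cfsg.Agent.CKS.Orb
import Cfsg.Agent.CKS.Cnt
import Cfsg.Agent.Oct.Cox

/-!
# The groups ²F₄(q): central involutions are not derangements
-/

set_option autoImplicit false
set_option linter.unusedSectionVars false
set_option maxRecDepth 100000

namespace Cfsg.Lib.CKS.TF

open Cfsg.Lib.Oct UU MulAction

variable {K : Type*} [Field K] [TwF K] [Finite K]

theorem card_Q : Nat.card (Q K) = Nat.card K ^ 10 := by
  have e : Q K ≃ K × K × K × K × K × K × K × K × K × K :=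
    ⟨fun u => (u.1.1, u.1.3, u.1.5, u.1.6, u.1.7, u.1.8, u.1.9, u.1.10, u.1.11, u.1.12),
      fun ⟨a, c, e, f, g, h, i, j, k, l⟩ => ⟨⟨a, 0, c, 0, e, f, g, h, i, j, k, l⟩, rfl, rfl⟩,
      fun u => Subtype.ext (by ext <;> simp [u.2.1, u.2.2]), fun _ => rfl⟩
  simp only [Nat.card_congr e, Nat.card_prod]
  ring

theorem card_U8 : Nat.card (U8 K) = Nat.card K ^ 2 := by
  have e : U8 K ≃ K × K :=
    ⟨fun u => (u.1.b8, u.1.a8), fun p => ⟨y8 p.1 * x8 p.2, by simp⟩,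
      fun u => Subtype.ext (eq_of_mem_U8 u.2).symm, fun _ => by simp⟩
  simp only [Nat.card_congr e, Nat.card_prod]
  ring

theorem card_Z : Nat.card (Z K) = Nat.card K :=
  Nat.card_congr ⟨fun u => u.1.a4, fun p => ⟨x4 p, by simp⟩, fun u => Subtype.ext (eq_of_mem_Z u.2).symm,
    fun _ => by simp⟩

theorem card_V : Nat.card (V K) = Nat.card K ^ 2 := by
  have e : V K ≃ K × K :=
    ⟨fun u => (u.1.a6, u.1.a4), fun p => ⟨x6 p.1 * x4 p.2, by simp⟩,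
      fun u => Subtype.ext (eq_of_mem_V u.2).symm, fun _ => by simp⟩
  simp only [Nat.card_congr e, Nat.card_prod]
  ring

theorem comm_QW {u w : UU K} (hu : u ∈ Q K) (hw : w ∈ W K) :
    w * u = u * w * x4 (u.a1 * w.a6 + u.b2 * w.a5 + u.b6 * w.a3 + u.a7 * w.a2) := by
  obtain ⟨h1, h2, h3, h4, h5, h6, h7⟩ := hw
  uu [h1, h2, h3, h4, h5, h6, h7, hu.1, hu.2]

theorem sq_C {u : UU K} (hu : u ∈ Q K) (h1 : u.a1 = 0) (h2 : u.b2 = 0) (h6 : u.b6 = 0) (h7 : u.a7 = 0) :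
    u * u = x4 (σ u.b4 * u.b4) := by
  uu [h1, h2, h6, h7, hu.1, hu.2]

theorem eq_W {u w : UU K} (hu : u ∈ W K) (hw : w ∈ W K) (h6 : u.a6 = w.a6) (h5 : u.a5 = w.a5)
    (h3 : u.a3 = w.a3) (h2 : u.a2 = w.a2) : u = w * x4 (u.a4 + w.a4) := by
  obtain ⟨a1, a2, a3, a4, a5, a6, a7⟩ := hw
  obtain ⟨b1, b2, b3, b4, b5, b6, b7⟩ := hu
  uu [a1, a2, a3, a4, a5, a6, a7, b1, b2, b3, b4, b5, b6, b7, h6, h5, h3, h2]

theorem card_le {P : Subgroup (UU K)} (hP : P ≤ Q K) (hZ : ∀ c, x4 c ∈ P → c = 0) :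
    Nat.card P ≤ Nat.card K ^ 4 := by
  classical
  let α : P →* Multiplicative (Fin 4 → K) := MonoidHom.mk'
    (fun u => Multiplicative.ofAdd ![u.1.a1, u.1.b2, u.1.b6, u.1.a7]) fun u v => by
      rw [← ofAdd_add]
      congr 1
      ext i
      fin_cases i <;> simp [(hP u.2).1, (hP u.2).2, (hP v.2).1]
  have hW : ∀ u ∈ α.ker, u.1 ∈ W K := fun u hu => by
    have h : ∀ i, ![u.1.a1, u.1.b2, u.1.b6, u.1.a7] i = 0 := congrFun (ofAdd_eq_one.1 hu)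
    have h4 := hZ _ (sq_C (hP u.2) (h 0) (h 1) (h 2) (h 3) ▸ mul_mem u.2 u.2)
    exact ⟨h 0, (hP u.2).1, h 1, (hP u.2).2, h 2,
      (mul_eq_zero.1 h4).elim (fun e => (map_eq_zero σ).1 e) id, h 3⟩
  let A : Submodule K (Fin 4 → K) := Submodule.span K (Set.range fun u => (α u).toAdd)
  let β : α.ker → A.dualAnnihilator := fun w =>
    ⟨dotProductEquiv K (Fin 4) ![w.1.1.a6, w.1.1.a5, w.1.1.a3, w.1.1.a2], by
      rw [Submodule.mem_dualAnnihilator]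
      intro x hx
      refine (Submodule.span_le (p := LinearMap.ker _)).2 ?_ hx
      rintro _ ⟨u, rfl⟩
      have h := hZ _ ((mul_mem_cancel_left (mul_mem u.2 w.1.2)).1
        (comm_QW (hP u.2) (hW _ w.2) ▸ mul_mem w.1.2 u.2))
      simp [α, dotProduct, Fin.sum_univ_four]
      linear_combination h⟩
  have hβ : Function.Injective β := fun u w e => by
    have h := congrFun ((dotProductEquiv K (Fin 4)).injective (congrArg Subtype.val e))
    have e1 := eq_W (hW _ u.2) (hW _ w.2) (h 0) (h 1) (h 2) (h 3)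
    have e2 := hZ _ ((mul_mem_cancel_left w.1.2).1 (e1 ▸ u.1.2))
    rw [e2, x4_zero, mul_one] at e1
    exact Subtype.ext (Subtype.ext e1)
  have h1 : Nat.card α.range ≤ Nat.card A := Nat.card_le_card_of_injective
    (fun x => ⟨x.1.toAdd, Submodule.subset_span (by obtain ⟨_, u, rfl⟩ := x; exact ⟨u, rfl⟩)⟩)
    fun x y e => Subtype.ext (congrArg (fun z : A => (z : Fin 4 → K)) e)
  have : Finite (Module.Dual K (Fin 4 → K)) := Module.finite_of_finite K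
  have h2 := Nat.card_le_card_of_injective β hβ
  have h3 := Subspace.finrank_add_finrank_dualAnnihilator_eq A
  rw [Module.finrank_fin_fun] at h3
  rw [Module.natCard_eq_pow_finrank (K := K) (V := A)] at h1
  rw [Module.natCard_eq_pow_finrank (K := K) (V := A.dualAnnihilator)] at h2
  have h4 := Nat.mul_le_mul h2 h1
  rwa [← pow_add, add_comm, h3, ← Subgroup.index_ker, α.ker.card_mul_index] at h4

variable {ρ : RK K} {G Ω : Type*} [Group G] [Finite G] [MulAction G Ω] [Finite Ω]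

theorem card_map (L : Lc ρ G) (A : Subgroup (UU K)) : Nat.card (A.map L.ι) = Nat.card A :=
  (Nat.card_congr (A.equivMapOfInjective _ L.inj).toEquiv).symm

theorem dvd_n (L : Lc ρ G) (h : ∀ c, c ≠ 0 → Der Ω (L.ι (x4 c))) : Nat.card K ^ 6 ∣ Nat.card Ω := by
  refine dvd_card_of_ol (E := L.Q) fun a => ?_
  have h1 := ol_eq L.Q a
  have h2 := card_le (P := Q K ⊓ (stabilizer G a).comap L.ι) inf_le_left
    fun c hc => by_contra fun h0 => h c h0 a hc.2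
  have h3 : (Q K ⊓ (stabilizer G a).comap L.ι).map L.ι = L.Q ⊓ stabilizer G a := by
    ext g
    exact ⟨fun ⟨u, hu, e⟩ => e ▸ ⟨⟨u, hu.1, rfl⟩, hu.2⟩, fun ⟨⟨u, hu, e⟩, h'⟩ => ⟨u, ⟨hu, show L.ι u ∈ stabilizer G a from e ▸ h'⟩, e⟩⟩
  rw [← card_map L, h3] at h2
  rw [card_map, card_Q] at h1
  obtain ⟨k, -, hk⟩ := exists_card K
  obtain ⟨i, hi⟩ := Orb.ol_pow (L.S_two.to_le (L.map_le_S (Q K))) a
  rw [hi, hk, ← pow_mul]
  refine Orb.pow_dvd_of_le (Nat.le_of_mul_le_mul_right ?_ (c := Nat.card K ^ 4) (pow_pos Nat.card_pos _))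
  rw [pow_mul, ← hk, ← pow_add, ← h1, hi]
  exact Nat.mul_le_mul_left _ h2

theorem card_C (L : Lc ρ G) :
    Nat.card L.C = Nat.card K ^ 12 * (Nat.card K - 1) * (Nat.card K ^ 2 + 1) := by
  let f : (UU K × Kˣ) ⊕ (UU K × Kˣ × U8 K) → L.C := Sum.elim
    (fun p => ⟨_, L.mem_C.2 (.inl ⟨p.1, p.2, rfl⟩)⟩) fun p => ⟨_, L.mem_C.2 (.inr ⟨p.1, p.2.1, p.2.2, p.2.2.2, rfl⟩)⟩
  have hf : Function.Bijective f := by
    refine ⟨?_, fun g => ?_⟩
    · rintro (p | p) (r | r) e <;> replace e := congrArg Subtype.val e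
      · exact congrArg _ (Prod.ext (L.small_inj e).1 (L.small_inj e).2)
      · exact absurd e (L.small_ne_big _ _ _ _ _)
      · exact absurd e.symm (L.small_ne_big _ _ _ _ _)
      · obtain ⟨h1, h2, h3⟩ := L.big_inj p.2.2.2 r.2.2.2 e
        exact congrArg _ (Prod.ext h1 (Prod.ext h2 (Subtype.ext h3)))
    · rcases L.mem_C.1 g.2 with ⟨u, β, e⟩ | ⟨u, β, v, hv, e⟩
      exacts [⟨.inl (u, β), Subtype.ext e.symm⟩, ⟨.inr (u, β, ⟨v, hv⟩), Subtype.ext e.symm⟩]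
  rw [← Nat.card_congr (.ofBijective f hf), Nat.card_sum, Nat.card_prod, Nat.card_prod, Nat.card_prod,
    card_eq, card_U8, Nat.card_units]
  ring

theorem arith {q n c : ℕ} (hq : 3 ≤ q) (hn : 1 < n) (h6 : q ^ 6 ∣ n)
    (h : c * (n - 1) = (q ^ 2 - 1) * (q ^ 3 + 1) * (q ^ 6 + 1)) : False := by
  obtain ⟨u, rfl⟩ := h6
  have hu : 1 ≤ u := Nat.pos_of_ne_zero (by rintro rfl; simp at hn)
  have h2 : 1 ≤ q ^ 2 := Nat.one_le_pow _ _ (by omega)
  zify [hn.le, h2] at h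
  obtain ⟨d, hd⟩ : ∃ d : ℤ, d = ((q : ℤ) ^ 2 - 1) * (q ^ 3 + 1) := ⟨_, rfl⟩
  obtain ⟨Q, hQ⟩ : ∃ Q : ℤ, Q = (q : ℤ) ^ 6 := ⟨_, rfl⟩
  rw [← hd, ← hQ] at h
  have q3 : (3 : ℤ) ≤ q := by exact_mod_cast hq
  have d0 : 0 < d := by rw [hd]; exact mul_pos (by nlinarith) (by positivity)
  have d1 : 3 * d ≤ Q - 3 := by
    have e1 : d + 1 ≤ (q : ℤ) ^ 5 := by
      have : (q : ℤ) ^ 2 ≤ q ^ 3 := pow_le_pow_right₀ (by omega) (by omega)
      rw [hd]; nlinarith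
    have e2 : 3 * (q : ℤ) ^ 5 ≤ Q := by
      rw [hQ, pow_succ' _ 5]; exact mul_le_mul_of_nonneg_right q3 (by positivity)
    omega
  have k : Q * (c * u - d) = c + d := by linear_combination h
  have c0 : (0 : ℤ) ≤ c := by positivity
  have u1 : (1 : ℤ) ≤ u := by exact_mod_cast hu
  have k1 : 1 ≤ c * u - d := by
    by_contra h0
    nlinarith
  have k2 : Q - d ≤ c := by nlinarith
  have k3 : c * (Q - 1) ≤ c * (Q * u - 1) := mul_le_mul_of_nonneg_left (by nlinarith) c0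
  nlinarith

theorem conj_Z (O : Lt ρ G) {c : K} (hc : c ≠ 0) :
    ∃ g : G, g * O.ι (x4 1) * g⁻¹ = O.ι (x4 c) := by
  obtain ⟨a, rfl⟩ := exists_N2 c
  have h : a ≠ 0 := by rintro rfl; simp at hc
  exact ⟨O.η (Units.mk0 a h, 1), by rw [O.ηι, tor_x4]; simp⟩

theorem not_der (O : Oc ρ G) (hG : O.GG = ⊤) (hq : 3 ≤ Nat.card K)
    (hc : Nat.card G = Nat.card K ^ 12 * (Nat.card K - 1) * (Nat.card K ^ 3 + 1) * (Nat.card K ^ 4 - 1) *
      (Nat.card K ^ 6 + 1)) (h : Two G Ω) : ¬ Der Ω (O.ι (x4 1)) := fun hz => by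
  have z1 : O.ι (x4 1) ≠ 1 := by simp [map_eq_one_iff _ O.inj]
  have zZ : O.ι (x4 1) ∈ O.Z := O.ι_mem_map.2 (by simp)
  obtain ⟨c, hc'⟩ := count1_der h (D := orbit (ConjAct G) (O.ι (x4 1)))
    (by rintro g _ ⟨k, rfl⟩; exact ⟨ConjAct.toConjAct g * k, by simp [ConjAct.smul_def, mul_assoc]⟩)
    (by rintro _ ⟨k, rfl⟩; exact hz.conj _)
  have h1 := Nat.card_congr (orbitProdStabilizerEquivGroup (ConjAct G) (O.ι (x4 1)))
  have h2 : Nat.card (stabilizer (ConjAct G) (O.ι (x4 1))) = Nat.card O.C :=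
    Nat.card_congr ⟨fun g => ⟨ConjAct.ofConjAct g.1, O.cent zZ z1 (hG ▸ trivial)
      (mul_inv_eq_iff_eq_mul.1 g.2)⟩, fun g => ⟨ConjAct.toConjAct g.1,
        mul_inv_eq_iff_eq_mul.2 (O.C_le_CZ g.2 _ zZ).symm⟩, fun _ => rfl, fun _ => rfl⟩
  rw [Nat.card_prod, h2, card_C, Nat.card_coe_set_eq, ← hc', show Nat.card (ConjAct G) = Nat.card G from rfl,
    hc] at h1
  have := h.nt
  refine arith (c := c) hq (Finite.one_lt_card (α := Ω)) (dvd_n O.toLc fun c h0 => ?_) ?_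
  · obtain ⟨g, e⟩ := conj_Z O.toLt h0
    exact e ▸ hz.conj g
  · have h0 : 0 < Nat.card K - 1 := by omega
    refine Nat.eq_of_mul_eq_mul_right (m := Nat.card K ^ 12 * (Nat.card K - 1) * (Nat.card K ^ 2 + 1))
      (by positivity) (h1.trans ?_)
    have : Nat.card K ^ 4 - 1 = (Nat.card K ^ 2 + 1) * (Nat.card K ^ 2 - 1) := by
      rw [← Nat.sq_sub_sq, ← pow_mul, one_pow]
    rw [this]
    ring

end Cfsg.Lib.CKS.TF
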