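import Cfsg.Agent.CKS.TFa
import Cfsg.Agent.CKS.Hei
import Cfsg.Agent.CKS.TriMain
import Cfsg.Agent.Oct.Model
import Cfsg.Agent.S1068
import Cfsg.Agent.S1072

/-!
# The groups ²F₄(q) have no doubly transitive action
-/

set_option autoImplicit false
set_option linter.unusedSectionVars false
set_option maxRecDepth 100000

namespace Cfsg.Lib.CKS

open MulAction Cfsg.Lib.Chev

theorem not_twoCoset_of_neg {ι A : Type} [Fintype ι] [DecidableEq ι] [DecidableEq A] {R : WeylData ι A}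
    {S : R.Sym} {i : ι} (hw : ∀ j, R.w0 Set.univ • R.simple j = R.neg (R.simple j)) {γ : A} (hγ : R.Pos γ)
    (h1 : ¬ R.InJ (S.orb i)ᶜ γ) (h2 : ¬ R.InJ (S.orb i) γ) : ¬ TwoCoset S i := fun h => by
  obtain ⟨v, hv, h3⟩ := h _ S.w0_univ_mem_fix
  have h4 := R.smul_mem v⁻¹ hγ.1
  have h5 := (R.stHt_pos_iff (S.orb i)ᶜ hγ.1).2 ⟨hγ, h1⟩
  rw [← R.stHt_smul_of_mem (inv_mem hv) hγ.1] at h5
  have h6 : R.rc (R.w0 Set.univ • v⁻¹ • γ) = -R.rc (v⁻¹ • γ) := by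
    rw [R.rc_smul _ h4, R.lin_apply]
    simp only [hw, R.rc_neg _ (R.simple_mem _), R.rc_simple, smul_neg, Finset.sum_neg_distrib]
    ext j
    simp [Pi.single_apply]
  exact h2 (by simpa using h3 _ h4 h5 (by rw [h6, map_neg]; omega))

namespace TF

open Cfsg.Lib.Oct UU Subgroup Cfsg.Lie Cfsg.Lib.Chev.Core Md
open scoped commutatorElement

variable {K : Type*} [Field K] [TwF K] [Finite K]

section abs
variable {ρ : RK K} {G Ω : Type*} [Group G] [Finite G] [MulAction G Ω] [Finite Ω]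

theorem line (O : Oa ρ G) : Line O.V O.Z := by
  have h1 : Nat.card O.Z = Nat.card K := by rw [card_map, card_Z]
  refine ⟨by rw [h1, card_map, card_V], ?_⟩
  have := Fintype.ofFinite K
  obtain ⟨e⟩ : Nonempty (Fin (Nat.card O.Z + 1) ≃ Option K) :=
    ⟨Fintype.equivOfCardEq (by rw [Fintype.card_fin, Fintype.card_option, h1, Nat.card_eq_fintype_card])⟩
  let g : Option K → G := fun o => o.elim 1 fun t => O.ι (x1 t) * O.m
  have k : ∀ t x, x ∈ cj (g (some t)) O.Z → ∃ s, x = O.ι (x6 s * x4 (s * t)) := by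
    rintro t _ ⟨z, hz, rfl⟩
    obtain ⟨s, rfl⟩ := O.mem_Z.1 hz
    refine ⟨s, ?_⟩
    have h := O.mx6 s
    change O.ι (x1 t) * O.m * _ * (O.ι (x1 t) * O.m)⁻¹ = _
    rw [← h, O.m_inv, mul_inv_rev, O.m_inv, show x6 s * x4 (s * t) = x1 t * x6 s * (x1 t)⁻¹ by uu, map_mul,
      map_mul, map_inv]
    simp only [mul_assoc, ← mul_assoc O.m O.m, O.mm, one_mul]
  have k0 : ∀ x, x ∈ cj (g none) O.Z → ∃ s, x = O.ι (x4 s) := fun x hx => by
    obtain ⟨s, e⟩ := O.mem_Z.1 (mem_cj.1 hx)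
    exact ⟨s, by simpa [g] using e.symm⟩
  have k1 : ∀ t, cj (g none) O.Z ⊓ cj (g (some t)) O.Z = ⊥ := fun t => eq_bot_iff.2 fun x hx => by
    obtain ⟨s, rfl⟩ := k0 x hx.1
    obtain ⟨s', e⟩ := k t _ hx.2
    have h6 : s' = 0 := by simpa using (congrArg a6 (O.inj e)).symm
    rw [e, h6]
    simp
  refine ⟨g ∘ e, fun i x hx => ?_, fun i j hij => ?_⟩
  · rw [Function.comp_apply] at hx
    rcases h : e i with _ | t <;> rw [h] at hx
    · obtain ⟨s, rfl⟩ := k0 x hx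
      simp
    · obtain ⟨s, rfl⟩ := k t x hx
      exact O.ι_mem_map.2 (by simp)
  · have hij' := e.injective.ne hij
    simp only [Function.comp_apply]
    rcases h : e i with _ | t <;> rcases h' : e j with _ | t' <;> rw [h, h'] at hij'
    · exact absurd rfl hij'
    · exact k1 _
    · rw [inf_comm]; exact k1 _
    refine eq_bot_iff.2 fun x hx => ?_
    obtain ⟨s, rfl⟩ := k t x hx.1
    obtain ⟨s', e⟩ := k t' _ hx.2
    have h6 : s = s' := by simpa using congrArg a6 (O.inj e)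
    have h4 : s * t = s' * t' := by simpa using congrArg a4 (O.inj e)
    rw [← h6, mul_eq_mul_left_iff, or_iff_right fun e => hij' (congrArg _ e)] at h4
    simp [h4]

theorem NS_le (L : Lc ρ G) : normalizer (L.S : Set G) ≤ normalizer (L.Z : Set G) := fun g hg =>
  Trans.mem_normalizer_of_cj_le (Trans.cj_le_iff.2 fun z hz => by
    obtain ⟨u, e⟩ := Trans.mem_normalizer_conj hg (L.map_le_S _ hz)
    refine ⟨u, mem_Z_of_comm fun v _ => L.inj ?_, e⟩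
    have := L.C_le_CZ (L.S_le (Trans.mem_normalizer_conj' hg ⟨v, rfl⟩)) z hz
    rw [map_mul, map_mul, e]
    calc _ = g * (z * (g⁻¹ * L.ι v * g)) * g⁻¹ := by group
      _ = _ := by rw [this]; group)

theorem not_tr [IsSimpleGroup G] (O : Oc ρ G) (hG : O.GG = ⊤) (hq : 3 ≤ Nat.card K)
    (hc : Nat.card G = Nat.card K ^ 12 * (Nat.card K - 1) * (Nat.card K ^ 3 + 1) * (Nat.card K ^ 4 - 1) *
      (Nat.card K ^ 6 + 1)) (h : Two G Ω) (U : Sylow 2 G) : ¬ Tr (normalizer (U : Set G)) Ω := fun ht => by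
  obtain ⟨g, -, hg⟩ := Trans.IsSylowIn.exists_cj_eq (hG ▸ O.syl) (Trans.isSylowIn_top U)
  have h1 : Tr (normalizer (O.Z : Set G)) Ω := (ht.conj g).mono (le_trans (fun x hx => by
    rw [← hg, ← Trans.cj_normalizer]; exact Trans.mem_cj.2 (mem_cj.1 hx)) (NS_le O.toLc))
  have z1 : O.ι (x4 1) ≠ 1 := by simp [map_eq_one_iff _ O.inj]
  have zZ : O.ι (x4 1) ∈ O.Z := O.ι_mem_map.2 (by simp)
  obtain ⟨a, -⟩ := h.nt
  have h2 := fun b => ol_const le_rfl h1 b a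
  exact not_der O hG hq hc h ((Line.der (line O.toOa) (O.S_two.to_le (O.map_le_S _))
    (ol_ne_one_of_normalClosure h ((IsSimpleGroup.eq_bot_or_eq_top_of_normal _ inferInstance).resolve_left
      fun e => z1 (mem_bot.1 (e ▸ subset_normalClosure zZ))) h2) h2).1 _ zZ z1)

end abs

theorem comm_mem (q : 3 ≤ Nat.card K) {w : UU K} (e1 : w.a1 = 0) (e2 : w.b8 = 0) (e3 : w.a8 = 0) :
    w ∈ commutator (UU K) := by
  have cm : ∀ u v : UU K, ⁅u, v⁆ ∈ commutator (UU K) := fun u v =>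
    commutator_mem_commutator (mem_top u) (mem_top v)
  generalize commutator (UU K) = Φ at cm
  have h4 : ∀ s, x4 s ∈ Φ := fun s => by rw [x4_eq]; exact cm _ _
  have h6 : ∀ s, x6 s ∈ Φ := fun s => by rw [show x6 s = ⁅x5 s, y8 1⁆ by uu]; exact cm _ _
  have h5 : ∀ s, x5 s ∈ Φ := fun s => by rw [show x5 s = ⁅y4 s, y6 1⁆ by uu]; exact cm _ _
  have h3 : ∀ s, x3 s ∈ Φ := fun s => by rw [show x3 s = ⁅y4 s, y2 1⁆ by uu]; exact cm _ _
  have h7 : ∀ s, x7 s ∈ Φ := fun s => by rw [show x7 s = ⁅y6 s, y8 1⁆ by uu]; exact cm _ _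
  have h2 : ∀ s, x2 s ∈ Φ := fun s => by rw [show x2 s = ⁅y4 s, x1 1⁆ by uu]; exact cm _ _
  have low : ∀ w : UU K, w.a1 = 0 → w.b8 = 0 → w.a8 = 0 → y2 w.b2 ∈ Φ → y6 w.b6 ∈ Φ → y4 w.b4 ∈ Φ → w ∈ Φ :=
    fun w e1 e2 e3 f2 f6 f4 => by
      rw [nf w, e1, e2, e3, x1_zero, y8_zero, x8_zero, one_mul, one_mul, mul_one]
      exact mul_mem (mul_mem (mul_mem (mul_mem (mul_mem (mul_mem (mul_mem (mul_mem f2 f6) f4) (h7 _)) (h2 _))
        (h3 _)) (h5 _)) (h6 _)) (h4 _)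
  have z0 : ∀ {l : K → UU K}, l 0 = 1 → ∀ {c}, c = 0 → l c ∈ Φ := fun h _ e => by rw [e, h]; exact one_mem _
  have k4 : ∀ s, y4 s ∈ Φ := fun s => by
    obtain ⟨a, a1⟩ := exists_unit_ne (K := K) q
    have h : a + σ (a : K) ≠ 0 := fun e => by
      have e1 : σ (a : K) = a := by grind
      have e2 := σσ (a : K)
      rw [e1, e1, sq, left_eq_mul₀ a.ne_zero] at e2
      exact a1 (Units.ext e2)
    obtain ⟨t, rfl⟩ : ∃ t, t * (a + σ (a : K)) = s := ⟨s / _, div_mul_cancel₀ s h⟩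
    refine (mul_mem_cancel_left (mul_mem (cm (x8 (t * a)) (x1 1)) (cm (x8 t) (x1 a)))).1
      (low _ ?_ ?_ ?_ (z0 y2_zero ?_) (z0 y6_zero ?_) (z0 y4_zero ?_)) <;>
      simp [commutatorElement_def] <;> grind
  have k6 : ∀ s, y6 s ∈ Φ := fun s => by
    refine (mul_mem_cancel_left (cm (x8 s) (x1 1))).1
      (low _ ?_ ?_ ?_ (z0 y2_zero ?_) (z0 y6_zero ?_) (k4 _)) <;> simp [commutatorElement_def] <;> grind
  have k2 : ∀ s, y2 s ∈ Φ := fun s => by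
    refine (mul_mem_cancel_left (cm (y8 s) (x1 1))).1 (low _ ?_ ?_ ?_ (z0 y2_zero ?_) (k6 _) (k4 _)) <;>
      simp [commutatorElement_def] <;> grind
  exact low w e1 e2 e3 (k2 _) (k6 _) (k4 _)

theorem lx_mem {S : Set ℕ} {k : ℕ} (h : ∀ c ∈ ld k, c.1 ∈ S) (t : K) :
    lx (XG K) k t ∈ spanX (certF4.Y K rootF4).X S :=
  word_mem _ (List.forall_mem_map.2 fun c hc => mem_spanX _ (h c hc) (subset_closure ⟨_, rfl⟩))

theorem ld_pos : ∀ k < 12, ∀ c ∈ ld k, chevF4.IsPosRoot c.1 := by decide +kernel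

theorem ld_out : ∀ i : Fin 4, ∀ k ∈ [2, 4, 5, 6, 7, 8, 9, 10, 11], ∀ c ∈ ld k,
    ∃ j : Fin 4, j ∉ orbF4 i ∧ Chev.certF4.rcN chevF4 c.1 j ≠ 0 := by decide +kernel

theorem ιG_U (u : UU K) : ιG K u ∈ (certF4.Y K rootF4).U := by
  have h : ∀ k < 12, ∀ t : K, lx (XG K) k t ∈ (certF4.Y K rootF4).U := fun k hk => lx_mem fun c hc =>
    rootF4.weyl_pos.2 (ld_pos k hk c hc)
  change op (lx (XG K)) u ∈ _
  unfold op
  refine mul_mem (mul_mem (mul_mem (mul_mem (mul_mem (mul_mem (mul_mem (mul_mem (mul_mem (mul_mem (mul_mem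
    ?_ ?_) ?_) ?_) ?_) ?_) ?_) ?_) ?_) ?_) ?_) ?_ <;> exact h _ (by decide) _

variable (θ : K →+* K) (hθ : ∀ t, θ (θ t) ^ 2 = t) (hσ : ∀ t, σ t = θ t ^ 2)

theorem ιG_N {u : UU K} (e1 : u.a1 = 0) (e2 : u.b8 = 0) (e3 : u.a8 = 0) :
    ιG K u ∈ spanX (certF4.Y K rootF4).X
      {r | rootF4.weyl.Pos r ∧ ∀ i, ¬ rootF4.weyl.InJ ((subF4 θ).S.orb i) r} := by
  have h : ∀ k ∈ [2, 4, 5, 6, 7, 8, 9, 10, 11], ∀ t : K, lx (XG K) k t ∈ spanX (certF4.Y K rootF4).X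
      {r | rootF4.weyl.Pos r ∧ ∀ i, ¬ rootF4.weyl.InJ ((subF4 θ).S.orb i) r} := fun k hk => lx_mem fun c hc => by
    refine ⟨rootF4.weyl_pos.2 (ld_pos k ((by decide : ∀ k ∈ [2, 4, 5, 6, 7, 8, 9, 10, 11], k < 12) k hk) c hc),
      fun i h3 => ?_⟩
    obtain ⟨j, h4, h5⟩ := ld_out i k hk c hc
    exact h5 (h3.2 j (by rwa [subF4_orb θ i]))
  have z := (rel_lx (sr K)).zero
  change op (lx (XG K)) u ∈ _
  rw [op, e1, e2, e3, z 0 (by decide), z 1 (by decide), z 3 (by decide), one_mul, one_mul, mul_one]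
  refine mul_mem (mul_mem (mul_mem (mul_mem (mul_mem (mul_mem (mul_mem (mul_mem
    ?_ ?_) ?_) ?_) ?_) ?_) ?_) ?_) ?_ <;> exact h _ (by decide) _

include hσ

theorem range_eq : (ιG K).range = (certF4.Y K rootF4).U ⊓ (twF4' θ hθ).F := by
  have hY := certF4.faithful K rootF4
  have h1 : (ιG K).range ≤ (certF4.Y K rootF4).U ⊓ (twF4' θ hθ).F := by
    rintro _ ⟨u, rfl⟩
    exact ⟨ιG_U u, (twF4' θ hθ).G1_le_F (ιG_mem θ hθ hσ u)⟩
  obtain ⟨ρ, O, e⟩ := exists_oc θ hθ hσ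
  refine eq_of_le_of_card_ge h1 (((e ▸ O.syl).card_le ((certF4.isPGroup_U rootF4 2).to_le inf_le_left)
    ((twF4' θ hθ).U_inf_le_G1 hY)).trans (le_of_eq ?_))
  rw [← Nat.card_congr (MonoidHom.ofInjective O.inj).toEquiv,
    Nat.card_congr (MonoidHom.ofInjective (f := ιG K) (lx_inj (sr K) (md K).posInj)).toEquiv]

theorem gen (q : 3 ≤ Nat.card K) : Gen (twF4' θ hθ) := fun g hg => by
  have hY := certF4.faithful K rootF4
  have hJ : ∀ (i : Fin 4) {x}, x ∈ spanX (certF4.Y K rootF4).X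
      {r | rootF4.weyl.Pos r ∧ ∀ i, ¬ rootF4.weyl.InJ ((subF4 θ).S.orb i) r} →
      x ∈ (certF4.Y K rootF4).UJ ((subF4 θ).S.orb i) := fun i _ h =>
    spanX_mono _ (fun _ h => And.intro h.1 (h.2 i)) h
  have k : ∀ (i : Fin 4) {u}, ιG K u ∈ (certF4.Y K rootF4).UJ ((subF4 θ).S.orb i) →
      ιG K u ∈ (certF4.Y K rootF4).UL ((subF4 θ).S.orb i) → u = 1 := fun i u h1 h2 =>
    (map_eq_one_iff _ (lx_inj (sr K) (md K).posInj)).1
      (mem_bot.1 (hY.UJ_inf_LJ _ ▸ ⟨h1, RGD.UL_le_LJ _ _ h2⟩))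
  obtain ⟨u, rfl⟩ := (range_eq θ hθ hσ).ge ⟨RGD.UJ_le_U _ _ (hJ 0 hg.1), hg.2⟩
  obtain ⟨a, ha, v, hv, rfl⟩ := exists_QU u
  have h1 := ιG_N θ (u := x1 a.a1 * a) (by simp [CharTwo.add_self_eq_zero]) (by simp [ha.1]) (by simp [ha.2])
  have h2 := ((mem_UL0 θ hθ hσ).2 ⟨a.a1, rfl⟩).1
  have h3 : ιG K v ∈ (certF4.Y K rootF4).UJ ((subF4 θ).S.orb (1 : Fin 4)) := by
    have := mul_mem (inv_mem (hJ 1 h1)) (mul_mem (RGD.UL_le_UJ (fun j h h' => by
      rw [subF4_orb] at h h'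
      exact (by decide : ∀ j : Fin 4, j ∈ orbF4 0 → j ∉ orbF4 1) j h h') h2) (hJ 1 hg.1))
    simpa [mul_assoc] using this
  obtain rfl := k 1 h3 ((mem_UL1 θ hθ hσ).2 ⟨v, hv, rfl⟩).1
  rw [mul_one] at hg ⊢
  have h4 : a.a1 = 0 := x1_eq_one.1 (k 0 (by simpa using hJ 0 (mul_mem h1 (inv_mem hg.1))) h2)
  rw [← range_eq θ hθ hσ, MonoidHom.range_eq_map, ← map_commutator]
  exact ⟨a, comm_mem q h4 ha.1 ha.2, rfl⟩

end TF

open Cfsg.Lib.Oct Cfsg.Lib.Chev.Core in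
/-- The groups ²F₄(q), `q ≥ 8`, have no doubly transitive action. -/
theorem tf4 {K : Type*} [Field K] [Fintype K] {m : ℕ} (hm : 1 ≤ m) (hK : Fintype.card K = 2 ^ (2 * m + 1))
    {Ω : Type*} [MulAction (Lie.twistedF4 K (2 ^ m)) Ω] [Finite Ω] (h : Two (Lie.twistedF4 K (2 ^ m)) Ω) :
    False := by
  have hK' : Nat.card K = 2 ^ (2 * m + 1) := Nat.card_eq_fintype_card.trans hK
  have q : 3 ≤ Nat.card K := by
    rw [hK']; exact le_trans (by norm_num) (Nat.pow_le_pow_right two_pos (by omega : 2 ≤ _))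
  obtain ⟨_, θ, hθ, -, e⟩ := exists_twF4 hK
  have hY := certF4.faithful K rootF4
  have hU := certF4.isPGroup_U (F := K) rootF4 2
  have hH : ∀ h ∈ (certF4.Y K rootF4).H, (∃ k, orderOf h = 2 ^ k) → h = 1 := fun _ hh =>
    Cert.eq_one_of_mem_range_torGL rootF4 2 (certF4.hSub_le_range rootF4 hh)
  rcases tri (twF4' θ hθ) hY e hU (fun x hx _ => hH x hx)
    (letI : TwF K := ⟨(frobenius K 2).comp θ, fun t => by
      simp only [RingHom.comp_apply, frobenius_def, map_pow, hθ]⟩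
    TF.gen θ hθ (fun _ => rfl) q) h with h1 | ⟨i, -, -, h1⟩
  · obtain ⟨P, hP⟩ := (twF4' θ hθ).exists_sylow hY e hU.comap_subtype fun x hx k hk =>
      hH x hx (exists_orderOf_eq_iff.2 ⟨k, hk⟩)
    obtain ⟨_, ρ, O, hO⟩ := exists_model hK
    have := (Agent.S1072.result hm hK).1
    refine TF.not_tr O hO q (by rw [hK']; exact Agent.S1068.result hK) h P (h1.mono fun g hg => ?_)
    rw [← Sylow.coe_coe, hP, Subgroup.mem_normalizer_iff]
    exact fun x => Subgroup.mem_normalizer_iff.1 (RGD.B_le_normalizer_U _ hg) x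
  · obtain ⟨h2, h3⟩ := (by decide +kernel : Lie.chevF4.IsPosRoot 47 ∧ ∀ j : Fin 4, Chev.certF4.rcN Lie.chevF4 47 j ≠ 0)
    obtain ⟨j, hj⟩ := (by decide : ∀ i : Fin 4, ∃ j : Fin 4, j ∉ orbF4 i) i
    exact not_twoCoset_of_neg w0_smul_F4 (rootF4.weyl_pos.2 h2)
      (fun h => h3 i (h.2 i fun h' => h' (WeylData.Sym.self_mem_orb _ i)))
      (fun h => h3 j (h.2 j (by rwa [subF4_orb θ i]))) h1

end Cfsg.Lib.CKS
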