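import Cfsg.Agent.CKS.OGen
import Cfsg.Agent.CKS.OLink
import Cfsg.Agent.CKS.AbB
import Cfsg.Agent.CKS.AbD
import Cfsg.Agent.CKS.Glue
import Cfsg.Agent.CKS.Long1
import Cfsg.Agent.CKS.NTC2
import Cfsg.Agent.CKS.O1
import Cfsg.Agent.CKS.O1b
import Cfsg.Agent.CKS.O2
import Cfsg.Agent.CKS.OB1
import Cfsg.Agent.CKS.OMin
import Cfsg.Agent.S2143
import Cfsg.Agent.S2144
import Cfsg.Agent.S2147

/-!
# The orthogonal groups have no doubly transitive action
-/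

set_option autoImplicit false
set_option quotPrecheck false

namespace Cfsg.Lib.CKS

open MulAction Cfsg.Lib.Chev Cfsg.Lib.Class Subgroup Module
open Orth QuadraticMap

namespace TopO

theorem geo {q : ℕ} (hq : 2 ≤ q) (k : ℕ) : ∃ s : ℕ, (s : ℤ) * (q ^ 2 - 1) = q ^ (2 * k + 2) - 1 ∧
    q ^ (2 * k) ≤ s ∧ 3 * s ≤ 4 * q ^ (2 * k) := by
  obtain ⟨s, hs⟩ := Nat.sub_one_dvd_pow_sub_one (q ^ 2) (k + 1)
  have h1 : 1 ≤ q ^ (2 * k) := Nat.one_le_pow _ _ (by omega)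
  have h2 : 4 ≤ q ^ 2 := by nlinarith
  rw [pow_succ, ← pow_mul] at hs
  have h3 : 1 ≤ q ^ (2 * k) * q ^ 2 := by nlinarith
  zify [h3, show 1 ≤ q ^ 2 by omega] at hs h1 h2 ⊢
  refine ⟨s, by rw [pow_add, hs, mul_comm], ?_, ?_⟩ <;> nlinarith

variable {F : Type} [Field F] [Fintype F] {I : Type} [Fintype I] [DecidableEq I]
  {Q : QuadraticForm F (I → F)} {m : ℕ} {P : OFrame m Q} {E : Euclid (Fin m) (Fin m)} (hE : P.Fits E)
  (hQ : (polarBilin Q).Nondegenerate) (h7 : 7 ≤ finrank F (I → F)) (p : ℕ) [Fact p.Prime] [CharP F p]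
  {Ω : Type*} [Finite Ω]

local notation "qq" => Fintype.card F
local notation "GG" => commutator (O Q)

instance finO : Finite (O Q) := Finite.of_injective _ oMat_injective

include hQ h7

theorem hC : GG = EG Q := commutator_eq_EG hQ (not_exc_of_finrank (by omega)) (by omega)

theorem hK : hE.gr.faithful.idTwist.G1 = GG :=
  hE.gr.faithful.idTwist_G1.trans (hE.spanX_eq.trans (hC hQ h7).symm)

theorem hH : ∀ h ∈ hE.gr.rgd.H, h ∈ hE.gr.faithful.idTwist.G1 → (∃ k, orderOf h = p ^ k) → h = 1 :=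
  fun g h1 h2 => eq_one_of_map (H := hE.gr.rgd.H ⊓ GG) (fun _ hg e => P.eq_one_of_pow hQ hg.1 e
    (dick_eq_one_of_mem_commutator hQ (not_exc_of_finrank (by omega)) hg.2)) (MonoidHom.id _) g
      ⟨g, ⟨h1, hK hE hQ h7 ▸ h2⟩, rfl⟩

theorem core [MulAction GG Ω] (h : Two GG Ω) (hk : CK GG Ω) (hG : Gen hE.gr.faithful.idTwist)
    (hn : ∀ i, ¬ TwoCoset E.weyl.idSym i) (hl : ∃ x y, x ≠ 0 ∧ Q x = 0 ∧ Q y = 0 ∧ polar Q x y = 0 ∧
      y ∉ spanL F [x] ∧ ∀ g ∈ hE.gr.rgd.B, ∀ c : F, ∃ d : F, g * eich Q x (c • y) * g⁻¹ = eich Q x (d • y))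
    {t c : ℕ} (h0 : 0 < t) (h1 : 0 < c) (h2 : c < qq ^ (finrank F (I → F) - 3))
    (h3 : t * c ≤ 2 * qq ^ (finrank F (I → F) - 3))
    (e : ((sing Q : ℤ) - 1) * (sing Q - (qq - 1) * qq ^ (finrank F (I → F) - 2) - qq) =
      (qq ^ (finrank F (I → F) - 3) * t - 1) * c * ((qq ^ 2 - 1) * qq)) :
    (∃ x y, Ln Q x y ∧ ∀ g ∈ Cl (oZ Q x y), Der Ω g) ∧ (Nat.card Ω = qq ^ (finrank F (I → F) - 3) * t ∨
      Nat.card Ω = qq ^ (finrank F (I → F) - 3)) := by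
  obtain ⟨p, _⟩ := CharP.exists F
  have := prime_of_charP F p
  obtain ⟨x, y, a1, a2, a3, a4, a5, a6⟩ := hl
  have hL : Ln Q x y := ⟨⟨hQ, h7, a1, a2⟩, a3, a4, a5⟩
  have ht : Tr (normalizer (oZ Q x y : Set GG)) Ω := ((tri _ hE.gr.faithful (hK hE hQ h7) (hE.gr.isPGroup_U p)
    (hH hE hQ h7 p) hG h).resolve_right fun ⟨i, _, _, hi⟩ => hn i hi).mono fun g hg =>
      mem_normalizer_fintype fun z hz => by
        obtain ⟨c, hc⟩ := (OX.mem_oZ hL).1 hz
        obtain ⟨d, hd⟩ := a6 g hg c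
        exact (OX.mem_oZ hL).2 ⟨d, by rw [← hd, ← hc]; rfl⟩
  obtain ⟨n, hR, hn⟩ := o_rt0 p hL
  obtain ⟨b1, b2⟩ := o_heis p hL
  have hq := Fintype.one_lt_card (α := F)
  have e1 : qq ^ (finrank F (I → F) - 4) * qq = qq ^ (finrank F (I → F) - 3) := by
    rw [← pow_succ]; congr 1; omega
  have e2 := MD.ncard_Cls_zero a1 a2
  have e3 : sing Q = _ := MD.cntQ_eq hQ a1 a2 0
  have e4 : 1 ≤ qq ^ (finrank F (I → F) - 3) * t := Nat.mul_pos (by positivity) h0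
  have e5 : qq ≤ qq ^ 2 := by nlinarith
  have := eo h hk ht ⟨hR, o_line hL⟩ b1 b2 h0 (c₀ := c) (by
    rw [e1]
    zify [e4, e5, hq.le, hq.le.trans e5, one_le_sing (Q := Q)] at hn e2 e3 hq ⊢
    refine mul_right_cancel₀ (b := ((qq : ℤ) ^ 2 - 1) * qq) (mul_pos (by nlinarith) (by omega)).ne' ?_
    rw [← e]
    linear_combination hn + ((sing Q : ℤ) - 1) * (e2 - e3)) h1 (e1 ▸ h2) (e1 ▸ h3)
  rw [e1] at this
  exact ⟨⟨x, y, hL, this.1⟩, this.2⟩

omit hQ h7 in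
theorem lift [MulAction (POmega F Q) Ω] [FaithfulSMul (POmega F Q) Ω] (h : Two (POmega F Q) Ω) :
    ∃ _ : MulAction GG Ω, Two GG Ω ∧ CK GG Ω :=
  ⟨_, h.comp ((pomegaEquiv Q).symm.toMonoidHom.comp (QuotientGroup.mk' _))
    ((pomegaEquiv Q).symm.surjective.comp (QuotientGroup.mk'_surjective _)),
    ck_comp _ fun _ hg => (QuotientGroup.eq_one_iff _).1 ((map_eq_one_iff _ (pomegaEquiv Q).symm.injective).1 hg)⟩

end TopO

open TopO

variable {F : Type} [Field F] [Fintype F] {Ω : Type*} [Finite Ω]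

theorem top_Oodd {m : ℕ} (hm : 3 ≤ m) (h2 : Odd (Fintype.card F))
    [MulAction (POmega F (quadFormOdd m F)) Ω] [FaithfulSMul (POmega F (quadFormOdd m F)) Ω]
    (h : Two (POmega F (quadFormOdd m F)) Ω) : False := by
  obtain ⟨k, rfl⟩ : ∃ k, m = k + 2 := ⟨m - 2, by omega⟩
  have hq := Fintype.one_lt_card (α := F)
  have hb : Fintype.card F ^ (2 * k + 2) < Nat.card Ω := by
    have h1 : 1 ≤ Fintype.card F ^ k := Nat.one_le_pow _ _ (by omega)
    by_cases h3 : Fintype.card F = 3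
    · refine lt_of_lt_of_le ?_ (h.le_card (Agent.S2144.result h3 _ hm).1)
      rw [h3] at h1 ⊢
      rw [Nat.lt_div_iff_mul_lt' (Dvd.dvd.mul_left (Nat.sub_one_dvd_pow_sub_one 3 _) _)]
      zify [Nat.one_le_pow (k + 2) 3 (by omega)] at h1 ⊢
      ring_nf
      rw [pow_mul]
      nlinarith
    · refine lt_of_lt_of_le ?_ (h.le_card (Agent.S2143.result rfl h2 (by
        rw [Nat.odd_iff] at h2; omega) _ hm).1)
      rw [Nat.lt_div_iff_mul_lt' (Nat.sub_one_dvd_pow_sub_one _ _), Nat.lt_sub_iff_add_lt,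
        show 2 * (k + 2) = 2 * k + 2 + 2 from rfl, pow_add _ (2 * k + 2) 2]
      have h4 : 1 ≤ Fintype.card F ^ (2 * k + 2) := Nat.one_le_pow _ _ (by omega)
      generalize Fintype.card F ^ (2 * k + 2) = Y at h4
      obtain ⟨r, hr⟩ : ∃ r, Fintype.card F = r + 2 := ⟨_, (Nat.sub_add_cancel hq).symm⟩
      rw [hr, show r + 2 - 1 = r + 1 from rfl]
      nlinarith [Nat.zero_le (Y * r), Nat.zero_le (Y * r ^ 2)]
  revert Ω
  rw [← coe_quadOdd]
  intro Ω _ _ _ h hb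
  obtain ⟨p, _⟩ := CharP.exists F
  have := prime_of_charP F p
  have h2' := Class.two_ne_zero_of_odd_card h2
  have hQ := quadOdd_nondegenerate h2' (k + 2)
  have hn : finrank F (Unit ⊕ (Fin (k + 2) ⊕ Fin (k + 2)) → F) = 2 * (k + 2) + 1 := by simp; omega
  obtain ⟨_, h1, hk⟩ := lift h
  obtain ⟨s, s1, s2, s3⟩ := geo hq k
  have h5 : 0 < Fintype.card F ^ (2 * k) := by positivity
  have e3 : finrank F (Unit ⊕ (Fin (k + 2) ⊕ Fin (k + 2)) → F) - 3 = 2 * k + 2 := by omega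
  have e2 : finrank F (Unit ⊕ (Fin (k + 2) ⊕ Fin (k + 2)) → F) - 2 = 2 * k + 3 := by omega
  obtain ⟨⟨x, y, hL, hd⟩, h3⟩ := core fits_odd hQ (by omega) h1 hk (o_gen_B _ (.inl h2')) (ntc_B (by omega))
    (o_link_B _ (by omega)) (t := Fintype.card F ^ 2) (c := s) (by positivity) (by omega)
    (by rw [e3, pow_add]; nlinarith [Nat.pow_le_pow_left hq 2]) (by rw [e3, pow_add]; nlinarith) (by
      rw [e3, e2, sing_odd hQ hn, Nat.card_eq_fintype_card]
      push_cast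
      linear_combination (-((Fintype.card F : ℤ) ^ (2 * k + 4) - 1) * Fintype.card F) * s1)
  rw [e3, ← pow_add] at h3
  replace h3 := h3.resolve_right hb.ne'
  obtain ⟨x', a1, a2, a3⟩ := o_blk fits_odd hm h2' p (hC hQ (by omega))
  obtain ⟨y', b1, b2, b3⟩ := MD.exists_sing_orth_notMem hQ [x'] [x'] (by simp; omega)
  have hL' : Ln _ x' y' := ⟨⟨hQ, by omega, a1, a2⟩, b1, b2 _ (by simp), b3⟩
  obtain ⟨j, -, hj⟩ := FiniteField.card F p
  have h4 : Nat.card Ω = p ^ (j * (2 * k + 2 + 2)) := by rw [h3, hj, pow_mul]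
  obtain ⟨c1, c2⟩ := o_A p hL'.toPt
  have c3 := ol_of_der (o_der hn hL' h3 (h1.tr_top.sylow le_top (by rwa [relIndex_top_right]) h4)
    (o_Cl hL hL' ▸ hd))
  have : Nonempty (Fin (k + 2)) := ⟨0⟩
  have c4 := a3.tr le_normalizer le_rfl (h1.tr_top.sylow le_top (by
    rw [relIndex_top_right]
    exact (bor _ fits_odd.gr.faithful (hK fits_odd hQ (by omega)) (fits_odd.gr.isPGroup_U p) (hH fits_odd hQ (by omega) p)).syl) h4)
    (fun a => (c3 a).ge) (by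
      rw [c1, e2, h3, show 2 * k + 2 + 2 = 2 * k + 3 + 1 from rfl, pow_succ _ (2 * k + 3)]
      exact Nat.mul_lt_mul_of_pos_left (by omega) (by positivity))
  obtain ⟨a, -⟩ := h.nt
  have := (c3 a).symm.trans (c4.ol_eq a)
  rw [c1, e2, h3] at this
  exact absurd (Nat.pow_right_injective hq this) (by omega)

theorem top_Oplus {m : ℕ} (hm : 4 ≤ m)
    [MulAction (POmega F (quadFormPlus m F)) Ω] [FaithfulSMul (POmega F (quadFormPlus m F)) Ω]
    (h : Two (POmega F (quadFormPlus m F)) Ω) : False := by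
  obtain ⟨k, rfl⟩ : ∃ k, m = k + 1 + 1 := ⟨m - 2, by omega⟩
  revert Ω
  rw [← coe_quadPlus]
  intro Ω _ _ _ h
  have hq := Fintype.one_lt_card (α := F)
  have hn : finrank F (Fin (k + 1 + 1) ⊕ Fin (k + 1 + 1) → F) = 2 * k + 4 := by simp; omega
  obtain ⟨_, h1, hk⟩ := lift h
  obtain ⟨s, s1, s2, s3⟩ := geo hq k
  have h4 : 2 ^ 2 ≤ Fintype.card F ^ k := (Nat.pow_le_pow_left hq 2).trans (Nat.pow_le_pow_right (by omega) (by omega))
  have h5 : 4 * Fintype.card F ^ k ≤ Fintype.card F ^ (2 * k) := by rw [two_mul, pow_add]; nlinarith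
  have e3 : finrank F (Fin (k + 1 + 1) ⊕ Fin (k + 1 + 1) → F) - 3 = 2 * k + 1 := by omega
  have e2 : finrank F (Fin (k + 1 + 1) ⊕ Fin (k + 1 + 1) → F) - 2 = 2 * k + 2 := by omega
  obtain ⟨-, h3⟩ := core (fits_plus (by omega)) (quadPlus_nondegenerate _) (by omega) h1 hk (o_gen_D _ _)
    (ntc_D _ hm) (o_link_D _ (by omega) _) (t := Fintype.card F) (c := s + Fintype.card F ^ k) (by omega)
    (by omega) (by rw [e3, pow_succ]; nlinarith) (by rw [e3, pow_succ]; nlinarith) (by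
      rw [e3, e2, sing_quadPlus, Nat.card_eq_fintype_card]
      push_cast
      linear_combination (-((Fintype.card F : ℤ) ^ (2 * k + 2) - 1) * Fintype.card F) * s1)
  have := h1.pre
  have := h1.nt
  have h6 := o_min_plus (F := F) (k := k + 1) (by omega) (Ω := Ω)
  rw [e3, ← pow_succ] at h3
  rcases h3 with h3 | h3 <;> rw [h3, Nat.pow_lt_pow_iff_right hq] at h6 <;> omega

theorem top_Ominus {m : ℕ} (hm : 3 ≤ m) {a b : F}
    (hab : ∀ z₁ z₂ : F, z₁ ^ 2 + a * z₁ * z₂ + b * z₂ ^ 2 = 0 → z₁ = 0 ∧ z₂ = 0)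
    [MulAction (POmega F (quadFormMinus m F a b)) Ω]
    [FaithfulSMul (POmega F (quadFormMinus m F a b)) Ω]
    (h : Two (POmega F (quadFormMinus m F a b)) Ω) : False := by
  obtain ⟨k, rfl⟩ : ∃ k, m = k + 1 := ⟨m - 1, by omega⟩
  have hq := Fintype.one_lt_card (α := F)
  have h4 : 2 ^ 2 ≤ Fintype.card F ^ k := (Nat.pow_le_pow_left hq 2).trans (Nat.pow_le_pow_right (by omega) (by omega))
  have hb : Fintype.card F ^ (2 * k + 2) < Nat.card Ω := by
    refine lt_of_lt_of_le ?_ (h.le_card (Agent.S2147.result rfl (k + 2) (by omega) a b hab).1)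
    rw [Nat.lt_div_iff_mul_lt' (Dvd.dvd.mul_left (Nat.sub_one_dvd_pow_sub_one _ _) _)]
    change _ < _ * (_ ^ (k + 1) - 1)
    zify [hq.le, Nat.one_le_pow (k + 1) (Fintype.card F) (by omega)] at hq h4 ⊢
    rw [pow_add, pow_add, pow_succ _ k, pow_mul']
    generalize (Fintype.card F : ℤ) ^ k = Y at h4
    generalize (Fintype.card F : ℤ) = q at hq
    have h5 : 0 < Y * q := by positivity
    have h6 : 0 ≤ Y * q ^ 2 * (Y - 1) := mul_nonneg (by positivity) (by omega)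
    nlinarith
  revert Ω
  rw [← coe_quadMinus]
  intro Ω _ _ _ h hb
  have hn : finrank F ((Fin (k + 1) ⊕ Fin (k + 1)) ⊕ Fin 2 → F) = 2 * k + 4 := by simp; omega
  obtain ⟨_, h1, hk⟩ := lift h
  obtain ⟨s, s1, s2, s3⟩ := geo hq k
  have h5 : 4 * Fintype.card F ^ k ≤ Fintype.card F ^ (2 * k) := by rw [two_mul, pow_add]; nlinarith
  have e3 : finrank F ((Fin (k + 1) ⊕ Fin (k + 1)) ⊕ Fin 2 → F) - 3 = 2 * k + 1 := by omega
  have e2 : finrank F ((Fin (k + 1) ⊕ Fin (k + 1)) ⊕ Fin 2 → F) - 2 = 2 * k + 2 := by omega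
  obtain ⟨c, rfl⟩ : ∃ c, s = c + Fintype.card F ^ k := ⟨s - Fintype.card F ^ k, by omega⟩
  obtain ⟨-, h3⟩ := core (fits_minus hab) (quadMinus_nondegenerate _ hab) (by omega) h1 hk
    (o_gen_B _ (.inr ⟨.inr 0, .inr 1, by simp, rfl, rfl⟩)) (ntc_B (by omega)) (o_link_B _ (by omega))
    (t := Fintype.card F) (c := c) (by omega) (by omega) (by rw [e3, pow_succ]; nlinarith)
    (by rw [e3, pow_succ]; nlinarith) (by
      rw [e3, e2, sing_quadMinus _ hab, Nat.card_eq_fintype_card]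
      push_cast at s1 ⊢
      linear_combination (-((Fintype.card F : ℤ) ^ (2 * k + 2) - 1) * Fintype.card F) * s1)
  rw [e3, ← pow_succ] at h3
  rcases h3 with h3 | h3 <;> rw [h3, Nat.pow_lt_pow_iff_right hq] at hb <;> omega

end Cfsg.Lib.CKS
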