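import Cfsg.Agent.CKS.SL1
import Cfsg.Agent.CKS.SL2
import Cfsg.Agent.CKS.AbB
import Cfsg.Agent.CKS.AbD
import Cfsg.Agent.CKS.Long1
import Cfsg.Agent.CKS.Glue
import Cfsg.Agent.CKS.R1e
import Cfsg.Agent.S2140

/-!
# Doubly transitive actions of the projective special linear groups
-/

set_option autoImplicit false

namespace Cfsg.Lib.CKS

open MulAction Cfsg.Lib.Chev Cfsg.Lib.Class Subgroup Matrix Orb

variable {F : Type} [Field F] [Fintype F] {Ω : Type*} [Finite Ω]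

theorem TopSL.main (k : ℕ) [MulAction (SpecialLinearGroup (Fin (k + 3)) F) Ω]
    (h : Two (SpecialLinearGroup (Fin (k + 3)) F) Ω) (hk : CK (SpecialLinearGroup (Fin (k + 3)) F) Ω) :
    Nat.card Ω * (Fintype.card F - 1) = Fintype.card F ^ (k + 3) - 1 ∨
      Nat.card Ω = Fintype.card F ^ (k + 2) ∨ k = 0 ∧ Nat.card Ω = Fintype.card F ^ 3 := by
  obtain ⟨p, _⟩ := CharP.exists F
  obtain ⟨n, hp, hn⟩ := FiniteField.card F p
  have := Fact.mk hp
  have := h.nt
  obtain ⟨m, hR, hm⟩ := sl_rt k F p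
  obtain ⟨a1, a2, a3, a4, a5⟩ := sl_A k F
  obtain ⟨b1, b2⟩ := sl_P k F
  by_cases ht : Tr (slP k F) Ω
  swap
  · exact .inl (by rw [card_eq_of_not_tr h b1 ht, b2])
  have hY := (slGr (k + 2) F).faithful
  have hU := (slGr (k + 2) F).isPGroup_U p
  have hH := (slGr (k + 2) F).eq_one_of_pow slGr_wt_injective p
  have hB := (bor hY.idTwist hY (hY.idTwist_G1.trans slGr_spanX) hU (hH_of_pow hH _)).of_top
  have hq := hR.one_lt
  have h1 : Tr (slGr (k + 2) F).rgd.B Ω := by_contra fun e => by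
    obtain ⟨a, ha⟩ := (fx_top hY slGr_spanX hU hH (sl_gen k F) h e).anti a3
    have h2 : slA k F = ⊥ := eq_bot_iff.2 fun g hg => hB.nc g (a3 hg) (hk g fun b =>
      ol_eq_one_iff.1 ((ol_const a5 ht b a).trans (ol_eq_one_iff.2 ha)) g hg)
    rw [h2, card_bot] at a1
    exact (Nat.one_lt_pow (by omega) hq).ne a1
  obtain ⟨hd, -, c, hc⟩ := hR.der h hk (h1.mono (sl_B_le k F))
  have h2 : ∀ a : Ω, ol (slA k F) a = Fintype.card F ^ (k + 2) := fun a =>
    (ol_of_der (fun x hx x1 => hd x (a2 x hx x1)) a).trans a1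
  obtain ⟨c₀, h0⟩ := Nat.sub_one_dvd_pow_sub_one (Fintype.card F) (k + 2)
  have h3 : 1 < Fintype.card F ^ (k + 2) := Nat.one_lt_pow (by omega) hq
  obtain ⟨s, hs⟩ := Nat.exists_eq_add_of_le' hq
  have h4 : Fintype.card F - 1 = s + 1 := by omega
  have h5 : m * (Fintype.card F - 1) = (Fintype.card F ^ (k + 2) * Fintype.card F - 1) * c₀ :=
    Nat.eq_of_mul_eq_mul_right (m := Fintype.card F - 1) (by omega) (by
      rw [hm, h0, ← pow_succ]; ring)
  rw [h4] at h0
  have h6 : Fintype.card F ^ (k + 2) = (s + 1) * c₀ + 1 := by omega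
  rcases pin (hc.trans h5) (dvd_card_of_ol fun a => (h2 a).symm.dvd) h.two_le (by omega)
    (Nat.pos_of_ne_zero (by rintro rfl; omega)) (by rw [h6]; nlinarith)
    (by rw [h6, hs]; nlinarith) with ⟨e, -⟩ | ⟨e, -⟩
  · rcases k with _ | k
    · exact .inr (.inr ⟨rfl, e⟩)
    · refine .inr (.inl ((ol_tr ((sl_blk _ F p (by omega)).tr a4 a5 (h.tr_top.sylow le_top
        (by simpa using hB.syl) (by rw [e, ← pow_succ, hn, ← pow_mul])) (fun a => (h2 a).ge) ?_)
        (Classical.arbitrary Ω)).symm.trans (h2 _)))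
      rw [e]
      gcongr
      omega
  · exact .inr (.inl e)

theorem top_SL {d : ℕ} (hd : 2 ≤ d) (h4 : d = 2 → 4 ≤ Fintype.card F)
    [MulAction (ProjectiveSpecialLinearGroup (Fin d) F) Ω]
    [FaithfulSMul (ProjectiveSpecialLinearGroup (Fin d) F) Ω]
    (h : Two (ProjectiveSpecialLinearGroup (Fin d) F) Ω) :
    Concl (ProjectiveSpecialLinearGroup (Fin d) F) (Nat.card Ω) := by
  rcases hd.eq_or_lt with rfl | hd
  · exact R1.psl2' (h4 rfl) h
  obtain ⟨k, rfl⟩ := Nat.exists_eq_add_of_le' hd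
  let := MulAction.compHom Ω (QuotientGroup.mk' (center (SpecialLinearGroup (Fin (k + 3)) F)))
  have h1 : Two (SpecialLinearGroup (Fin (k + 3)) F) Ω := h.comp _ (QuotientGroup.mk'_surjective _)
  rcases TopSL.main k h1 (ck_comp _ fun g hg => (QuotientGroup.eq_one_iff g).1 hg) with
    e | e | ⟨rfl, e⟩
  · exact .inl ⟨F, _, _, k + 3, by omega, ⟨.refl _⟩, e⟩
  · by_cases h2 : k + 3 = 4 ∧ Fintype.card F = 2
    · obtain rfl : k = 1 := by omega
      exact .inr (.inr (.inr (.inr (.inr (.inr (.inr (.inl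
        ⟨F, _, _, h2.2, ⟨.refl _⟩, by rw [e, h2.2]; rfl⟩)))))))
    · have h3 := h.le_card (Cfsg.Agent.S2140.result rfl (k + 3) (by omega) h2).1
      obtain ⟨s, hs⟩ := Nat.exists_eq_add_of_le' (Fintype.one_lt_card (α := F))
      rw [e, hs, Nat.div_le_iff_le_mul_add_pred (by omega), pow_succ _ (k + 2)] at h3
      have h5 : s + 2 < (s + 2) ^ (k + 2) := lt_self_pow₀ (by omega) (by omega)
      simp only [Nat.succ_eq_add_one, Nat.reduceAdd, Nat.reduceSubDiff, mul_add, add_mul,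
        mul_comm _ s] at h3
      omega
  · exact l3 h1 e

end Cfsg.Lib.CKS
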