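import Cfsg.Agent.CKS.SU1
import Cfsg.Agent.CKS.SU2
import Cfsg.Agent.CKS.SU3
import Cfsg.Agent.CKS.AbD
import Cfsg.Agent.CKS.NTC2
import Cfsg.Agent.CKS.Glue
import Cfsg.Agent.S2150

/-!
# The unitary groups of dimension at least four have no doubly transitive actions
-/

set_option autoImplicit false

namespace Cfsg.Lib.CKS

open MulAction Cfsg.Lib.Chev Cfsg.Lib.Class Subgroup Matrix

variable {F : Type} [Field F] [Fintype F] {Ω : Type*} [Finite Ω]

theorem TopSU.main {k q : ℕ} (hF : Fintype.card F = q ^ 2) (hk : 1 ≤ k)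
    [MulAction (PSU (k + 3) F q) Ω] [FaithfulSMul (PSU (k + 3) F q) Ω]
    (h : Two (PSU (k + 3) F q) Ω) : (Nat.card Ω - 1) * (q ^ 3 + 1) < Form.normCount (k + 3) F q 0 := by
  obtain ⟨p, _⟩ := CharP.exists F
  have := Fact.mk (CharP.char_is_prime F p)
  obtain ⟨e⟩ := nonempty_psu_equiv hF (n := k + 2) (by omega)
  let T := suTw (k + 2) (frobq_ne_id hF) (frobq_frobq hF)
  let f : T.G1 →* PSU (k + 3) F q := e.symm.toMonoidHom.comp ((QuotientGroup.mk' _).subgroupMap _)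
  let := MulAction.compHom Ω f
  have h1 : Two T.G1 Ω := h.comp _ (e.symm.surjective.comp (MonoidHom.subgroupMap_surjective _ _))
  have h2 : CK T.G1 Ω := ck_comp f fun g hg => mem_center_iff.2 fun a => Subtype.ext
    (mem_center_iff.1 ((QuotientGroup.eq_one_iff g.1).1 (congrArg Subtype.val
      ((map_eq_one_iff _ e.symm.injective).1 hg))) a.1)
  have hU := (slGr (k + 2) F).isPGroup_U p
  have h3 := (tri T (slGr (k + 2) F).faithful rfl hU (hH_of_pow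
    ((slGr (k + 2) F).eq_one_of_pow slGr_wt_injective p) _) (su_gen k hF hk) h1).resolve_right
    fun ⟨i, _, _, e⟩ => ntc_symA (by omega) i e
  obtain ⟨m, hR, hm⟩ := su_rt0 k hF p hk
  obtain ⟨s, hs⟩ := Nat.exists_eq_add_of_le' hR.one_lt
  have h4 : q ^ 2 ∣ Form.normCount (k + 3) F q 0 := by
    have h5 := (Form.normCount_int hF (k + 3)).1
    rw [← Int.natCast_dvd_natCast]
    refine ⟨q ^ (2 * k + 3) + (-1) ^ (k + 3) * (q ^ (k + 1) - q ^ k), mul_left_cancel₀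
      (a := (q : ℤ)) (by omega) ?_⟩
    rw [h5]
    push_cast
    ring
  have h5 : q ^ 2 - 1 = (q - 1) * (q + 1) := by rw [mul_comm, ← Nat.sq_sub_sq, one_pow]
  have h6 := eu h1 h2 (h3.mono (comap_mono (RGD.B_le_P _ _))) hR (su_heis k hF hk)
    ((hU.to_le (RGD.UJ_le_U _ _)).comap_subtype) (dvd_pow_self _ (by omega)) (by
      obtain ⟨t, ht⟩ : ∃ t, q ^ 2 = t + 1 := ⟨q ^ 2 - 1, by rw [hs]; ring_nf; omega⟩
      rw [← hm, ht, Nat.add_sub_cancel] at h4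
      rw [ht, Nat.modEq_iff_dvd]
      obtain ⟨c, hc⟩ := h4
      exact ⟨c - m, by zify at hc ⊢; linear_combination hc⟩)
  have h7 : q ^ 3 + 1 = (q ^ 2 - q + 1) * (q + 1) := by
    have : q ^ 2 - q + 1 = s ^ 2 + 3 * s + 3 := by rw [hs]; ring_nf; omega
    rw [this, hs]; ring
  rw [← hm, h5, h7, ← mul_assoc, ← mul_assoc]
  exact Nat.lt_succ_of_le (Nat.mul_le_mul_right _ h6)

theorem TopSU.ar (s x : ℕ) {e : ℤ} (he : e = 1 ∨ e = -1) :
    ((s : ℤ) ^ 2 + 4 * s + 3) * ((x + 4) ^ 2 * (s + 2) ^ 3) <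
      (x + 4) ^ 2 * (s + 2) ^ 5 + e * ((x + 4) * (s + 2) ^ 3 - (x + 4) * (s + 2) ^ 2) ∧
    ((x : ℤ) + 4) ^ 2 * (s + 2) ^ 5 + e * ((x + 4) * (s + 2) ^ 3 - (x + 4) * (s + 2) ^ 2) ≤
      ((x + 4) ^ 2 * (s + 2) ^ 3 - 1) * ((s + 2) ^ 3 + 1) := by
  rw [← sub_pos, ← sub_nonneg]
  rcases he with rfl | rfl <;> constructor <;> ring_nf <;> positivity

theorem top_SU {d q : ℕ} (hF : Fintype.card F = q ^ 2) (hd : 4 ≤ d) [MulAction (PSU d F q) Ω]
    [FaithfulSMul (PSU d F q) Ω] (h : Two (PSU d F q) Ω) : False := by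
  obtain ⟨k, rfl⟩ := Nat.exists_eq_add_of_le' hd
  have h1 := TopSU.main (k := k + 1) hF (by omega) h
  have hq : 2 ≤ q := by
    have := Fintype.one_lt_card (α := F)
    by_contra! h
    interval_cases q <;> omega
  have h2 := (Form.normCount_int hF (k + 4)).1
  have h0 := h.two_le
  obtain ⟨s, rfl⟩ := Nat.exists_eq_add_of_le' hq
  rcases k with _ | k
  · have h3 := h.le_card (Cfsg.Agent.S2150.result _ hF hq).1
    rw [Form.normCount_zero hF, if_pos (by decide)] at h1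
    have h4 := (Nat.mul_le_mul_right _ (Nat.sub_le_sub_right h3 1)).trans (Nat.le_of_lt_succ h1)
    have h5 : (s + 2 + 1) * ((s + 2) ^ 3 + 1) - 1 = (s + 2) ^ 4 + (s + 2) ^ 3 + (s + 2) := by
      ring_nf; omega
    rw [h5, mul_comm, mul_comm _ (_ + 1)] at h4
    have : (s + 2) ^ 4 + (s + 2) ^ 3 + (s + 2) ≤ (s + 2) ^ 4 - 1 :=
      Nat.le_of_mul_le_mul_left h4 (by omega)
    omega
  · have h4 : Form.normCount (k + 1 + 4) F (s + 2) 0 =
        ((s + 2) ^ (2 * k + 9) + (-1) ^ (k + 5) * ((s + 2) ^ (k + 5) - (s + 2) ^ (k + 4)) : ℤ) :=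
      mul_left_cancel₀ (a := ((s + 2 : ℕ) : ℤ)) (by omega) (by rw [h2]; push_cast; ring)
    obtain ⟨x, hx⟩ : ∃ x : ℕ, (s + 2) ^ (k + 2) = x + 4 := Nat.exists_eq_add_of_le'
      ((Nat.pow_le_pow_left hq 2).trans (Nat.pow_le_pow_right (by omega) (by omega)))
    have hx' : ((s : ℤ) + 2) ^ (k + 2) = x + 4 := by exact_mod_cast hx
    have e1 : ((s : ℤ) + 2) ^ (2 * k + 9) = (x + 4) ^ 2 * (s + 2) ^ 5 := by rw [← hx']; ring
    have e2 : ((s : ℤ) + 2) ^ (k + 5) = (x + 4) * (s + 2) ^ 3 := by rw [← hx']; ring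
    have e3 : ((s : ℤ) + 2) ^ (k + 4) = (x + 4) * (s + 2) ^ 2 := by rw [← hx']; ring
    have e4 : (s + 2) * (s + 2) ^ (2 * (k + 3)) = (x + 4) ^ 2 * (s + 2) ^ 3 := by rw [← hx]; ring
    rw [e1, e2, e3] at h4
    have h5 := h.le_card (MD.psu_le_of_five (k := k + 3) (b := (s + 2) * (s + 2) ^ (2 * (k + 3))) hF
      (by omega) (by
        have e5 : (s + 2) ^ 2 - 1 = s ^ 2 + 4 * s + 3 := by ring_nf; omega
        rw [e4, e5]
        refine Nat.le_sub_one_of_lt ?_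
        zify
        rw [h4]
        exact (TopSU.ar s x (neg_one_pow_eq_or ℤ _)).1)
      (Nat.le_add_right _ _))
    have h6 := (Nat.mul_le_mul_right _ (Nat.sub_le_sub_right h5 1)).trans_lt h1
    have h7 : 1 ≤ (x + 4) ^ 2 * (s + 2) ^ 3 := Nat.succ_le_of_lt (by positivity)
    rw [e4] at h6
    zify [h7] at h6
    rw [h4] at h6
    exact h6.not_ge (TopSU.ar s x (neg_one_pow_eq_or ℤ _)).2

end Cfsg.Lib.CKS
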