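import Cfsg.Agent.CKS.Sp1
import Cfsg.Agent.CKS.Sp2b
import Cfsg.Agent.CKS.AbD
import Cfsg.Agent.CKS.TopSU
import Cfsg.Agent.S0822

/-!
# Doubly transitive actions of the projective symplectic groups
-/

set_option autoImplicit false

namespace Cfsg.Lib.CKS

open MulAction Cfsg.Lib.Chev Cfsg.Lib.Class Subgroup Matrix

variable {F : Type} [Field F] [Fintype F] {Ω : Type*} [Finite Ω]

theorem top_Sp {m : ℕ} (hm : 2 ≤ m) (h3 : m = 2 → 3 ≤ Fintype.card F) [MulAction (PSp m F) Ω]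
    [FaithfulSMul (PSp m F) Ω] (h : Two (PSp m F) Ω) : Concl (PSp m F) (Nat.card Ω) := by
  by_cases h4 : m = 2 ∧ Fintype.card F = 3
  · obtain ⟨rfl, h4⟩ := h4
    have := Fintype.ofFinite (GaloisField 2 2)
    have hK : Fintype.card (GaloisField 2 2) = 2 ^ 2 := by
      rw [← Nat.card_eq_fintype_card, GaloisField.card 2 2 two_ne_zero]
    obtain ⟨e⟩ := Cfsg.Agent.S0822.result hK h4
    let := MulAction.compHom Ω e.toMonoidHom
    have := faithful_comp (Ω := Ω) e.toMonoidHom e.injective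
    exact (top_SU hK le_rfl (h.comp e.toMonoidHom e.surjective)).elim
  obtain ⟨p, _⟩ := CharP.exists F
  obtain ⟨n, hp, hn⟩ := FiniteField.card F p
  have := Fact.mk hp
  let f : SpB (sympBilin m F) →* Cfsg.PSp m F :=
    (QuotientGroup.mk' _).comp (spEquivSpB m F).symm.toMonoidHom
  let := MulAction.compHom Ω f
  have h1 : Two (SpB (sympBilin m F)) Ω :=
    h.comp f ((QuotientGroup.mk'_surjective _).comp (spEquivSpB m F).symm.surjective)
  have h2 : CK (SpB (sympBilin m F)) Ω := ck_comp f fun g hg => mem_center_iff.2 fun a =>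
    (spEquivSpB m F).symm.injective (by
      rw [map_mul, map_mul]; exact mem_center_iff.1 ((QuotientGroup.eq_one_iff _).1 hg) _)
  have hB := sympBilin_nondegenerate (F := F) m
  have hA := sympBilin_isAlt (F := F) m
  have hd := finrank_symp_space (F := F) m
  rcases (show 2 ≤ Fintype.card F from Fintype.one_lt_card).eq_or_lt with hq | hq
  · exact .inr (.inr (.inr (.inr (.inr (.inr (.inr (.inr ⟨F, _, _, m, by omega, hq.symm, ⟨.refl _⟩,
      sp_two hB hA hq.symm h1 hd (by omega)⟩)))))))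
  have : Finite (SpB (sympBilin m F)) := Finite.of_equiv _ (spEquivSpB m F).toEquiv
  have := h1.nt
  have := h1.pre
  have hx : (Pi.single (Sum.inl ⟨0, by omega⟩) 1 : Fin m ⊕ Fin m → F) ≠ 0 := by simp
  obtain ⟨k, hR, hk⟩ := sp_rt0 hB hA p hx
  obtain ⟨Y, a1, a2, a3⟩ := sp_Y hB hA p hx (by omega) hq
  obtain ⟨l, hl, b1, z₁, b2, z₂, b3, b4, b5⟩ := sp_ord hB hA p hx
  have := Fact.mk hl
  have h5 := MD.Sp_card_ge (Ω := Ω) hB hA (by omega) hq (by omega)
  obtain ⟨s, hs⟩ : ∃ s, Fintype.card F = s + 1 := ⟨Fintype.card F - 1, by omega⟩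
  have h6 : k ≤ Nat.card Ω := Nat.le_of_mul_le_mul_left (c := Fintype.card F - 1)
    (by rw [mul_comm]; exact Nat.le_of_succ_le_succ (hk.le.trans h5)) (by omega)
  have h7 : Fintype.card F ^ 2 ∣ k * (Fintype.card F - 1) + 1 := hk ▸ pow_dvd_pow _ (by omega)
  refine (es h1 h2 (tr_of_le h1 (hR.idx ▸ h6) (sp_not_two hB hA hx (by omega))) hR hn ?_ ?_ h6 a1 a2
    a3 (by rw [hk, hn, ← pow_mul]) b2 b3 b4 b5 b1).elim
  · obtain ⟨c, hc⟩ := (dvd_pow_self _ two_ne_zero).trans h7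
    rw [hs, Nat.add_sub_cancel] at hc
    rw [hs, Nat.modEq_iff_dvd]
    exact ⟨c - k, by zify at hc ⊢; linear_combination hc⟩
  · have := Nat.le_of_dvd (by omega) h7
    rw [hs, Nat.add_sub_cancel] at this
    rw [hs]
    nlinarith

end Cfsg.Lib.CKS
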